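import Cfsg.Agent.M2L.Defs

set_option autoImplicit false

namespace Cfsg.Agent.M2L

universe u

open Subgroup H15 H97 H38.MT

variable {G : Type u} [Group G] {z : G} {Q : Subgroup G}
  {π : centralizer ({z} : Set G) →* Spor.Co1} {R : G → leechLattice → Prop} {g : G} [Finite G]

theorem cjs_EE (C : Cx z Q π R g) {e e' : Finset GolayPt} {he : IsCw e} {hc : e.card = 8}
    {he' : IsCw e'} {hc' : e'.card = 8} {h : G} {k : Co0} (hh : Ov π h k)
    (hk : k * signC e he * k⁻¹ = signC e' he') :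
    cjs h (EE C.M C.h8 he hc) = EE C.M C.h8 he' hc' := by
  ext a
  rw [mem_cjs]
  refine ⟨fun h1 => ?_, fun h1 => ?_⟩
  · simpa [mul_assoc] using conj_mem_EE C.M C.h8 (hc' := hc') hh hk h1
  · simpa using conj_mem_EE C.M C.h8 (hc' := hc) hh.inv (by rw [← hk]; group) h1

theorem Ark.el {C : Cx z Q π R g} {A : Subgroup G} (hA : Ark C A) : El A := by
  obtain ⟨c, rfl⟩ := hA
  exact El.cj (fun a ha => EE_sq C.M C.h8 ha) c

theorem Ark.card {C : Cx z Q π R g} {A : Subgroup G} (hA : Ark C A) : Nat.card A = 2 ^ 10 := by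
  obtain ⟨c, rfl⟩ := hA
  obtain ⟨s1, n, Φ, T⟩ := exists_TS C.M C.h8 C.hg
  rw [card_cjs, T.card_E]

theorem ark_EE (C : Cx z Q π R g) {e : Finset GolayPt} (he : IsCw e) (hc : e.card = 8) :
    Ark C (EE C.M C.h8 he hc) := by
  obtain ⟨σ, hσ, h⟩ := H14.m24_octad_transitive (mem_octads OO_cw OO_card) (mem_octads he hc)
  obtain ⟨c, hc'⟩ := ov_lift C.M (permC ⟨σ, hσ⟩)
  exact ⟨c, (cjs_EE C hc' (by rw [permC_conj_signC]; congr 1)).symm⟩

theorem ark_E10 (C : Cx z Q π R g) : Ark C (E10 C.M C.h8) := ⟨1, (cjs_one _).symm⟩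

theorem Ark.nf {C : Cx z Q π R g} {A : Subgroup G} (hA : Ark C A) {x : G} (hx : IsConj z x)
    (hxA : x ∈ A) : ∃ c, c * x * c⁻¹ = z ∧ cjs c A = E10 C.M C.h8 := by
  obtain ⟨c, rfl⟩ := hA
  obtain ⟨s1, n, Φ, T⟩ := exists_TS C.M C.h8 C.hg
  have h1 : IsConj z (c⁻¹ * x * c) := by simpa using (isConj_cj c⁻¹).2 hx
  have : c⁻¹ * x * c ∈ {a | ∃ m ∈ N10 C.M C.h8, m * z * m⁻¹ = a} := by
    rw [T.orbit_z.1]
    exact ⟨⟨mem_cjs.1 hxA, Or.inr h1⟩, (lx_Qx C h1).ne⟩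
  obtain ⟨m, hm, e⟩ := this
  refine ⟨m⁻¹ * c⁻¹, ?_, ?_⟩
  · calc m⁻¹ * c⁻¹ * x * (m⁻¹ * c⁻¹)⁻¹ = m⁻¹ * (c⁻¹ * x * c) * m := by group
      _ = z := by rw [← e]; group
  · rw [← cjs_cjs, cjs_inv_cjs]
    exact mem_norm_iff.1 (inv_mem hm)

theorem OctA.ov {C : Cx z Q π R g} {e : Finset GolayPt} {he : IsCw e} {hc : e.card = 8} {w : G}
    (h : OctA C z w (EE C.M C.h8 he hc)) : Ov π w (signC e he) := by
  obtain ⟨a, h1, h2, h3⟩ := h.ex
  rw [Qx_z C] at h2 h3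
  have := (ov_one C.M h3).mul (h1.resolve_left fun h' => h2 (Z0_le C.M h')).1
  simpa using this

theorem OctA.nf {C : Cx z Q π R g} {x w : G} {A : Subgroup G} (h : OctA C x w A) :
    ∃ c, c * x * c⁻¹ = z ∧ cjs c A = E10 C.M C.h8 ∧ Ov π (c * w * c⁻¹) (signC OO OO_cw) := by
  obtain ⟨c, h1, h2⟩ := h.ark.nf h.sx h.mem
  have := h.cj c
  rw [h1, h2] at this
  exact ⟨c, h1, h2, this.ov⟩

theorem z_mem_EE (C : Cx z Q π R g) {e : Finset GolayPt} (he : IsCw e) (hc : e.card = 8) :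
    z ∈ EE C.M C.h8 he hc := Z0_le_EE C.M C.h8 (z_mem_Z0 C.M)

theorem octA_of_ov (C : Cx z Q π R g) {e : Finset GolayPt} (he : IsCw e) (hc : e.card = 8) {w : G}
    (h : Ov π w (signC e he)) : OctA C z w (EE C.M C.h8 he hc) := by
  obtain ⟨r, -, h1, h2⟩ := exists_nz_mem C.M C.h8 he hc
  refine ⟨ark_EE C he hc, IsConj.refl _, z_mem_EE C he hc, r, Or.inr ⟨h1, h2⟩, ?_, ?_⟩ <;>
    rw [Qx_z C]
  · exact not_mem_of_sign C.M (by omega) (by omega) h1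
  · exact h.quot C.M h1

theorem OctA.comm {C : Cx z Q π R g} {x w : G} {A : Subgroup G} (h : OctA C x w A) :
    w * x = x * w := by
  obtain ⟨a, h1, -, h3⟩ := h.ex
  have e1 := (lx_Qx C h.sx).cen _ h3
  have e2 := h.ark.el.comm h1 h.mem
  calc w * x = w * a⁻¹ * (a * x) := by group
    _ = w * a⁻¹ * x * a := by rw [e2]; group
    _ = x * w := by rw [e1]; group

theorem OctA.sign {C : Cx z Q π R g} {w : G} {A : Subgroup G} (h : OctA C z w A)
    {d : Finset GolayPt} {hd : IsCw d} (ho : Ov π w (signC d hd)) :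
    ∃ (e : Finset GolayPt) (he : IsCw e) (hc : e.card = 8), (e = d ∨ e = dᶜ) ∧
      A = EE C.M C.h8 he hc := by
  obtain ⟨c, h1, h2, h3⟩ := h.nf
  obtain ⟨k, hk⟩ := ov_ex π (u := c) (mem_centralizer_singleton_iff.2 (by
    rw [← mul_inv_eq_iff_eq_mul, h1]))
  have key : ∀ (e : Finset GolayPt) (he : IsCw e), k * signC e he * k⁻¹ = signC OO OO_cw →
      ∃ hc : e.card = 8, A = EE C.M C.h8 he hc := fun e he hk' => by
    have hc : e.card = 8 := (H26.CoInv.card_eq_of_isConj he OO_cw (isConj_iff.2 ⟨k, hk'⟩)).trans OO_card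
    refine ⟨hc, ?_⟩
    rw [← cjs_inv_cjs c A, h2, E10, ← cjs_EE C (hc := hc) hk hk', cjs_inv_cjs]
  rcases h3.eq (hk.conj ho) with e | e
  · obtain ⟨hc, hA⟩ := key d hd e
    exact ⟨d, hd, hc, Or.inl rfl, hA⟩
  · obtain ⟨hc, hA⟩ := key dᶜ hd.compl (by
      rw [H26.CoInv.signC_compl hd, ← mul_assoc, mul_assoc _ negC, ← negC_comm, ← mul_assoc, e,
        negC_comm, ← mul_assoc, negC_sq, one_mul])
    exact ⟨dᶜ, hd.compl, hc, Or.inr rfl, hA⟩

theorem OctA.uniq {C : Cx z Q π R g} {x w : G} {A A' : Subgroup G} (h : OctA C x w A)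
    (h' : OctA C x w A') : A = A' := by
  obtain ⟨c, h1, h2, h3⟩ := h.nf
  have := h'.cj c
  rw [h1] at this
  obtain ⟨e, he, hc, h4 | h4, h5⟩ := this.sign h3
  · subst h4
    rw [← cjs_inv_cjs c A, h2, ← cjs_inv_cjs c A', h5]
  · rw [h4, card_compl', OO_card] at hc
    omega

theorem ark_uniq {C : Cx z Q π R g} {A A' : Subgroup G} (hA : Ark C A) (hA' : Ark C A') {a b : G}
    (ha : IsConj z a) (h1 : a ∈ A) (h2 : b ∈ A) (h3 : a ∈ A') (h4 : b ∈ A')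
    (h : b ∉ Qx z Q a) : A = A' :=
  (octA_self hA ha h1 h2 h).uniq (octA_self hA' ha h3 h4 h)

theorem bb {C : Cx z Q π R g} {A A' : Subgroup G} (hA : Ark C A) (hA' : Ark C A') (hne : A ≠ A')
    {u : G} (hu : IsConj z u) (h1 : u ∈ A) (h2 : u ∈ A') : A ⊓ A' ≤ Qx z Q u := fun _ hb =>
  by_contra fun h => hne (ark_uniq hA hA' hu h1 hb.1 h2 hb.2 h)

theorem Ark.Qx_le {C : Cx z Q π R g} {A : Subgroup G} (hA : Ark C A) {x : G} (hx : IsConj z x)
    (hxA : x ∈ A) : Qx z Q x ≤ normalizer (A : Set G) := by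
  obtain ⟨c, h1, h2⟩ := hA.nf hx hxA
  rw [← cjs_le_iff c, ← normalizer_cjs, h2, ← Qx_cj, h1, Qx_z C]
  exact Q_le_N10 C.M C.h8

theorem OctA.norm {C : Cx z Q π R g} {x w : G} {A : Subgroup G} (h : OctA C x w A) {y : G}
    (h1 : y * x = x * y) (h2 : y * w = w * y) : y ∈ normalizer (A : Set G) := by
  have := h.cj y
  rw [h1, h2, mul_inv_cancel_right, mul_inv_cancel_right] at this
  exact mem_norm_iff.2 (this.uniq h)

end Cfsg.Agent.M2L
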