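import Cfsg.Agent.M2L.ArkA

set_option autoImplicit false

namespace Cfsg.Agent.M2L

universe u

open Subgroup H15 H97 H38.MT

theorem cj_comm {G : Type u} [Group G] (c : G) {p a : G} :
    c * p * c⁻¹ * (c * a * c⁻¹) = c * a * c⁻¹ * (c * p * c⁻¹) ↔ p * a = a * p := by
  rw [conj_mul, conj_mul, mul_left_inj, mul_right_inj]

theorem cj_inj {G : Type u} [Group G] (c : G) {p a : G} : c * p * c⁻¹ = c * a * c⁻¹ ↔ p = a := by
  rw [mul_left_inj, mul_right_inj]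

variable {G : Type u} [Group G] {z : G} {Q : Subgroup G}
  {π : centralizer ({z} : Set G) →* Spor.Co1} {R : G → leechLattice → Prop} {g : G} [Finite G]

omit [Finite G] in
theorem mem_Q_of_nf (C : Cx z Q π R g) {c x p : G} (h : c * x * c⁻¹ = z) :
    c * p * c⁻¹ ∈ Q ↔ p ∈ Qx z Q x := by
  rw [← mem_Qx_cj (z := z) (Q := Q) c (x := x), h, Qx_z C]

theorem OctA.cent {C : Cx z Q π R g} {x w : G} {A : Subgroup G} (h : OctA C x w A) {p : G}
    (hp : p ∈ Qx z Q x) (h2 : p * w * p⁻¹ = w ∨ p * w * p⁻¹ = x * w) :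
    ∀ a ∈ A, p * a = a * p := by
  obtain ⟨c, h1, h3, h4⟩ := h.nf
  obtain ⟨u, hu⟩ := C.M.ex _ ((mem_Q_of_nf C h1).2 hp)
  have L := lx_Qx C h.sx
  have h5 : w * p * w⁻¹ = p ∨ w * p * w⁻¹ = x * p := by
    refine h2.imp (fun e => ?_) fun e => ?_
    · calc w * p * w⁻¹ = p * (p⁻¹ * w * p) * w⁻¹ := by group
        _ = p := by
          rw [show p⁻¹ * w * p = w by
            calc p⁻¹ * w * p = p⁻¹ * (p * w * p⁻¹) * p := by rw [e]
              _ = w := by group]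
          group
    · have e2 : w * p = x * (p * w) := by
        calc w * p = x * (x * w) * p := by rw [← mul_assoc, L.sq, one_mul]
          _ = x * (p * w) := by rw [← e]; group
      rw [e2]; group
  have e0 : c * w * c⁻¹ * (c * p * c⁻¹) * (c * w * c⁻¹)⁻¹ = c * (w * p * w⁻¹) * c⁻¹ := by group
  have h6 := mem_O_of_spl C.M C.h8 hu (spl_of_conj C.M h4 hu (h5.imp (fun e => by
    rw [e0, e]) fun e => by rw [e0, e, ← h1, conj_mul]))
  intro a ha
  rw [← cj_comm c]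
  exact (h6 _ (by rw [← h3]; exact conj_mem_cjs.2 ha)).symm

theorem Ark.cent_of_cent {C : Cx z Q π R g} {A : Subgroup G} (hA : Ark C A) {x : G}
    (hx : IsConj z x) (hxA : x ∈ A) {p : G} (hp : p ∈ Qx z Q x)
    (h : ∀ b ∈ A, b ∈ Qx z Q x → p * b = b * p) : ∀ a ∈ A, p * a = a * p := by
  obtain ⟨c, h1, h3⟩ := hA.nf hx hxA
  have h6 : c * p * c⁻¹ ∈ Q ⊓ centralizer (Z0 C.M OO : Set G) := ⟨(mem_Q_of_nf C h1).2 hp,
    fun b hb => by
      have e : b = c * (c⁻¹ * b * c) * c⁻¹ := by group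
      rw [e, cj_comm]
      refine (h _ ?_ ?_).symm
      · rw [← mem_cjs, h3]; exact Z0_le_EE C.M C.h8 hb
      · rw [← mem_Q_of_nf C h1, ← e]; exact Z0_le C.M hb⟩
  rw [W_eq C.M C.h8] at h6
  intro a ha
  rw [← cj_comm c]
  exact (h6.2 _ (by rw [← h3]; exact conj_mem_cjs.2 ha)).symm

theorem OctA.conj_of_cent {C : Cx z Q π R g} {x w : G} {A : Subgroup G} (h : OctA C x w A) {p : G}
    (hp : p ∈ Qx z Q x) (h2 : ∀ a ∈ A, p * a = a * p) :
    p * w * p⁻¹ = w ∨ p * w * p⁻¹ = x * w := by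
  obtain ⟨a, h1, -, h3⟩ := h.ex
  have e : p * w * p⁻¹ = p * (w * a⁻¹) * p⁻¹ * a := by
    calc p * w * p⁻¹ = p * (w * a⁻¹) * p⁻¹ * (p * a) * p⁻¹ := by group
      _ = _ := by rw [h2 a h1]; group
  rcases (lx_Qx C h.sx).comm p hp _ h3 with e' | e' <;> rw [e, e']
  · left; group
  · right; group

theorem Ark.mem_of_cent {C : Cx z Q π R g} {A : Subgroup G} (hA : Ark C A) {x : G}
    (hx : IsConj z x) (hxA : x ∈ A) {b : G} (hb : b ∈ Qx z Q x)
    (h : ∀ p ∈ Qx z Q x, (∀ a ∈ A, p * a = a * p) → p * b = b * p) : b ∈ A := by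
  obtain ⟨c, h1, h3⟩ := hA.nf hx hxA
  rw [← conj_mem_cjs (g := c), h3]
  refine Z0_le_EE C.M C.h8 (mem_Z0_of_comm C.M C.h8 ((mem_Q_of_nf C h1).2 hb) fun y hy => ?_)
  have e : y = c * (c⁻¹ * y * c) * c⁻¹ := by group
  rw [e, cj_comm]
  refine h _ (by rw [← mem_Q_of_nf C h1, ← e]; exact hy.1) fun a ha => ?_
  rw [← cj_comm c, ← e]
  exact (hy.2 _ (by rw [← h3]; exact conj_mem_cjs.2 ha)).symm

theorem OctA.comm_mem {C : Cx z Q π R g} {x w : G} {A : Subgroup G} (h : OctA C x w A) {q : G}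
    (hq : q ∈ Qx z Q x) : q * w * q⁻¹ * w⁻¹ ∈ A := by
  obtain ⟨c, h1, h3, h4⟩ := h.nf
  obtain ⟨u, hu⟩ := C.M.ex _ ((mem_Q_of_nf C h1).2 hq)
  rw [← conj_mem_cjs (g := c), h3]
  refine Z0_le_EE C.M C.h8 ⟨_, fx_sub OO_cw u, ?_⟩
  have := C.M.mul hu (h4.lab C.M (C.M.neg (C.M.inv hu)))
  convert this using 1
  group

theorem Ark.mul_mem_Qx {C : Cx z Q π R g} {A : Subgroup G} (hA : Ark C A) {x : G}
    (hx : IsConj z x) (hxA : x ∈ A) {a b : G} (ha : a ∈ A) (hb : b ∈ A) (ha' : a ∉ Qx z Q x)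
    (hb' : b ∉ Qx z Q x) : a * b ∈ Qx z Q x := by
  obtain ⟨c, h1, h3⟩ := hA.nf hx hxA
  rw [← mem_Q_of_nf C h1] at ha' hb' ⊢
  rw [← conj_mem_cjs (g := c), h3] at ha hb
  have h4 := ha.resolve_left fun h => ha' (Z0_le C.M h)
  have h5 := hb.resolve_left fun h => hb' (Z0_le C.M h)
  have := h4.1.mul h5.1
  rw [signC_sq, conj_mul] at this
  exact this.one C.M

theorem OctA.dec {C : Cx z Q π R g} {x w : G} {A : Subgroup G} (h : OctA C x w A)
    (hw : w * w = 1) {r : G} (hr : r ∈ A) (hr' : r ∉ Qx z Q x) :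
    w * r ∈ Qx z Q x ∧ w * r * (w * r) = 1 ∧ ∀ a ∈ A, w * r * a = a * (w * r) := by
  obtain ⟨a, h1, h2, h3⟩ := h.ex
  have L := lx_Qx C h.sx
  have m : w * r ∈ Qx z Q x := by
    have := mul_mem h3 (h.ark.mul_mem_Qx h.sx h.mem h1 hr h2 hr')
    simpa [mul_assoc] using this
  have r2 := h.ark.el r hr
  have wi : w⁻¹ = w := inv_eq_of_mul_eq_one_right hw
  have ri : r⁻¹ = r := inv_eq_of_mul_eq_one_right r2
  have hc : ∀ a ∈ A, w * r * a = a * (w * r) := by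
    refine (octA_self h.ark h.sx h.mem hr hr').cent m ?_
    have e : w * r * r * (w * r)⁻¹ = w * r * (w * r) * r := by
      rw [mul_inv_rev, wi, ri, mul_assoc w r r, r2, mul_assoc (w * r) (w * r) r,
        mul_assoc w r r, r2]
      group
    rcases L.sqr _ m with e' | e' <;> rw [e, e']
    · left; group
    · right; group
  refine ⟨m, ?_, hc⟩
  calc w * r * (w * r) = w * (r * (w * r)) := by group
    _ = w * (w * r * r) := by rw [hc r hr]
    _ = 1 := by rw [mul_assoc w r r, r2, mul_one, hw]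

theorem OctA.cent_B {C : Cx z Q π R g} {x w : G} {A : Subgroup G} (h : OctA C x w A)
    (hw : w * w = 1) : ∀ a ∈ A, w * a = a * w := by
  obtain ⟨r, h1, h2, -⟩ := h.ex
  intro a ha
  have e := (h.dec hw h1 h2).2.2 a ha
  have e2 := h.ark.el.comm h1 ha
  calc w * a = w * (a * r) * r⁻¹ := by group
    _ = w * r * a * r⁻¹ := by rw [← e2]; group
    _ = a * w := by rw [e]; group

theorem Ark.card_B {C : Cx z Q π R g} {A : Subgroup G} (hA : Ark C A) {x : G} (hx : IsConj z x)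
    (hxA : x ∈ A) : Nat.card (A ⊓ Qx z Q x : Subgroup G) = 2 ^ 9 := by
  obtain ⟨c, h1, h3⟩ := hA.nf hx hxA
  obtain ⟨s1, n, Φ, T⟩ := exists_TS C.M C.h8 C.hg
  rw [← card_cjs c, cjs_inf, h3, ← Qx_cj, h1, Qx_z C, ← T.card_Z0]
  congr 2
  exact le_antisymm (fun a ha => EE_inf C.M C.h8 ha.1 ha.2)
    (le_inf (Z0_le_EE C.M C.h8) (Z0_le C.M))

theorem Ark.inf_le {C : Cx z Q π R g} {A : Subgroup G} (hA : Ark C A) {a b : G} (ha : IsConj z a)
    (hb : IsConj z b) (h1 : a ∈ A) (h2 : b ∈ A) (h : b ∉ Qx z Q a) :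
    Qx z Q a ⊓ Qx z Q b ≤ A := fun y hy => by
  refine hA.mem_of_cent ha h1 hy.1 fun p hp hc => ?_
  rcases (lx_Qx C ha).comm p hp y hy.1 with e | e
  · exact mul_inv_eq_iff_eq_mul.1 e
  · have := (lx_Qx C hb).norm p (hc b h2) y hy.2
    rw [e] at this
    exact absurd (perp_symm C hb ha ((Subgroup.mul_mem_cancel_right _ hy.2).1 this)) h

end Cfsg.Agent.M2L
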