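import Cfsg.Agent.M2L.XI
import Cfsg.Agent.M2L.ArkA

set_option autoImplicit false

namespace Cfsg.Agent.M2L

universe u

open Subgroup H15 H97 H38.MT

namespace B0

/-- a codeword inside the first three tetrads contains or misses the tetrad `1` -/
theorem cw_trace {c : Finset GolayPt} (hc : IsCw c) (h : ∀ i, 3 ≤ tet i → i ∉ c) :
    (∀ i, tet i = 1 → i ∉ c) ∨ ∀ i, tet i = 1 → i ∈ c := by
  obtain ⟨x, hx, rfl⟩ := H14.mem_cSets_iff.1 hc
  have key : H14.all2 64 64 (fun x => H14.force (H14.enc x) fun e =>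
      [6, 7, 19, 21, 9, 10, 15, 20, 8, 11, 12, 18].any (fun j => e.testBit j) ||
        ([4, 13, 16, 22].all (fun j => !e.testBit j) ||
          [4, 13, 16, 22].all (fun j => e.testBit j))) = true := by decide +kernel
  have h1 : ∀ j ∈ [6, 7, 19, 21, 9, 10, 15, 20, 8, 11, 12, 18],
      ∃ i, 3 ≤ tet i ∧ H14.idx i = j := by decide +kernel
  have h2 : ∀ i, tet i = 1 → H14.idx i ∈ [4, 13, 16, 22] := by decide +kernel
  have k := H14.all2_iff.1 key x hx
  rw [H14.force_eq, Bool.or_eq_true, Bool.or_eq_true, List.any_eq_true, List.all_eq_true,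
    List.all_eq_true] at k
  rcases k with ⟨j, hj, k⟩ | k | k
  · obtain ⟨i, hi, rfl⟩ := h1 j hj
    exact absurd (H14.mem_bits.2 k) (h i hi)
  · refine Or.inl fun i hi h' => ?_
    have := k _ (h2 i hi)
    rw [H14.mem_bits.1 h'] at this
    exact Bool.false_ne_true this
  · exact Or.inr fun i hi => H14.mem_bits.2 (k _ (h2 i hi))

theorem eight {u : leechLattice} (h : ∀ i, (u : Vec) i % 8 = 0) :
    (∃ w, u = w + w) ∨ ∃ w, u = e8 none + (w + w) := by
  by_cases hs : (∑ i, (u : Vec) i / 2) % 8 = 0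
  · refine Or.inl ⟨⟨fun i => (u : Vec) i / 2,
      mem_leech_of_four_dvd (fun i => by have := h i; omega) hs⟩, Subtype.ext (funext fun i => ?_)⟩
    have := h i
    simp only [AddSubgroup.coe_add, Pi.add_apply]
    omega
  · have h4 : (4 : ℤ) ∣ ∑ i, (u : Vec) i / 2 := Finset.dvd_sum fun i _ => by have := h i; omega
    refine Or.inr ⟨⟨fun i => (u : Vec) i / 2 - if i = none then 4 else 0,
      mem_leech_of_four_dvd (fun i => ?_) ?_⟩, Subtype.ext (funext fun i => ?_)⟩
    · have := h i
      split_ifs <;> omega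
    · rw [Finset.sum_sub_distrib, Finset.sum_ite_eq', if_pos (Finset.mem_univ _)]
      omega
    · have := h i
      simp only [AddSubgroup.coe_add, Pi.add_apply, e8_val, Pi.single_apply]
      split_ifs <;> omega

theorem tS_zero (F : Vec) : tS F 0 = F none + F (some 0) + F (some 1) + F (some 2) := by
  rw [tS, ← Finset.sum_filter, show Finset.univ.filter (fun j => tet j = 0) =
    {none, some 0, some 1, some 2} by decide +kernel, Finset.sum_insert (by decide),
    Finset.sum_insert (by decide), Finset.sum_pair (by decide)]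
  ring

theorem sq64 {x : ℤ} (h : x % 4 = 0) :
    (x % 8 = 0 ∧ x ^ 2 % 64 = 0) ∨ (x % 8 = 4 ∧ x ^ 2 % 64 = 16) := by
  by_cases h8 : x % 8 = 0
  · obtain ⟨m, rfl⟩ : ∃ m, x = 8 * m := ⟨x / 8, by omega⟩
    refine Or.inl ⟨h8, ?_⟩
    rw [show (8 * m) ^ 2 = 64 * m ^ 2 by ring]
    omega
  · obtain ⟨m, rfl⟩ : ∃ m, x = 8 * m + 4 := ⟨x / 8, by omega⟩
    refine Or.inr ⟨by omega, ?_⟩
    rw [show (8 * m + 4) ^ 2 = 64 * (m ^ 2 + m) + 16 by ring]
    omega

theorem norm_cases {v : Vec} (h4 : ∀ i, v i % 4 = 0) (h8 : ∀ i, tet i ≠ 0 → v i % 8 = 0)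
    (hn : (64 : ℤ) ∣ sqNorm v) : (∀ i, v i % 8 = 0) ∨ ∀ i, tet i = 0 → v i % 8 = 4 := by
  have h1 : (64 : ℤ) ∣ sqNorm v - tS (fun i => v i ^ 2) 0 := by
    rw [sqNorm, tS, ← Finset.sum_sub_distrib]
    refine Finset.dvd_sum fun i _ => ?_
    split_ifs with hi
    · simp
    · have := h8 i hi
      rcases sq64 (h4 i) with h | h <;> omega
  rw [tS_zero] at h1
  have h2 : ∀ i, tet i = 0 → i = none ∨ i = some 0 ∨ i = some 1 ∨ i = some 2 := by decide +kernel
  have a := sq64 (h4 none)
  have b := sq64 (h4 (some 0))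
  have c := sq64 (h4 (some 1))
  have d := sq64 (h4 (some 2))
  by_cases h0 : v none % 8 = 0
  · refine Or.inl fun i => ?_
    by_cases hi : tet i = 0
    · rcases h2 i hi with rfl | rfl | rfl | rfl <;> omega
    · exact h8 i hi
  · refine Or.inr fun i hi => ?_
    rcases h2 i hi with rfl | rfl | rfl | rfl <;> omega

/-- four on the tetrad `0` -/
def vT : leechLattice := ⟨fun i => if tet i = 0 then 4 else 0,
  mem_leech_of_four_dvd (by decide +kernel) (by decide +kernel)⟩

theorem vT_apply (i : GolayPt) : (vT : Vec) i = if tet i = 0 then 4 else 0 := rfl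

theorem xi_eight {u : leechLattice} {F : Vec} (e : (u : Vec) = F)
    (h : ∀ i, ((if tet i = 1 then -1 else 1) * (2 * F i - tS F (tet i))) % 16 = 0) (i : GolayPt) :
    ((xi • u : leechLattice) : Vec) i % 8 = 0 := by
  have h1 := xi_tS u i
  have h2 := h i
  rw [e] at h1
  omega

theorem xi_vT (i : GolayPt) : (((xi * signC _ cw_c) • vT : leechLattice) : Vec) i % 8 = 0 := by
  rw [mul_smul]
  exact xi_eight (F := fun i => if i ∈ H14.bits 4845570 then -(if tet i = 0 then 4 else 0) else
    if tet i = 0 then 4 else 0) rfl (by decide +kernel) i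

theorem xi_vT' (i : GolayPt) : ((xi • (vT + e8 none) : leechLattice) : Vec) i % 8 = 0 := by
  refine xi_eight (F := fun i => (if tet i = 0 then 4 else 0) + if i = none then 8 else 0)
    (funext fun j => ?_) (by decide +kernel) i
  simp only [AddSubgroup.coe_add, Pi.add_apply, e8_val, Pi.single_apply, vT_apply]

variable {G : Type u} [Group G] {z : G} {Q : Subgroup G}
  {π : centralizer ({z} : Set G) →* Spor.Co1} {R : G → leechLattice → Prop} {g : G} [Finite G]

theorem fin (C : Cx z Q π R g) {y f : G} {v w : leechLattice} (hy : R y v) (hf : IsConj z f)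
    (hw : R f w) (k : Co0) (h8 : ∀ i, ((k • w : leechLattice) : Vec) i % 8 = 0) {b : ℤ}
    (h4 : ∀ i, (((k • v : leechLattice) : Vec) i - 2 * b) % 4 = 0) : y ∈ Qx z Q f := by
  obtain ⟨h, hh⟩ := ov_lift C.M k
  rw [← mem_Qx_cj h]
  have ry := hh.lab C.M hy
  have rf := hh.lab C.M hw
  have y1 : h * y * h⁻¹ ∈ Qx z Q z := by rw [Qx_z C]; exact C.M.mem ry
  have y2 : h * y * h⁻¹ ∈ Qx z Q (g * z * g⁻¹) := by
    rw [Qx_eq C]; exact mem_of_const C.M C.h8 ry h4
  have hf' : h * f * h⁻¹ ≠ 1 := fun e => by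
    have := (isConj_cj h).2 hf
    rw [e, isConj_one_left] at this
    exact C.M.lx.ne this
  rcases eight h8 with ⟨u, hu⟩ | ⟨u, hu⟩
  · rcases (C.M.one_iff rf).2 ⟨u, hu⟩ with e | e
    · exact absurd e hf'
    · rw [e]; exact y1
  · rw [hu] at rf
    rcases C.M.uniq (C.M.add_two C.h8 u) rf with e | e
    · rw [e]; exact y2
    · rw [e] at hf' ⊢
      exact third C (IsConj.refl z) s_conj (by rw [Qx_z C]; exact s_mem C) hf' y1 y2

theorem mem_Q (C : Cx z Q π R g) {f : G} (h1 : f ∈ AA C) (h2 : f ∈ AB C) : f ∈ Q := by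
  rcases h1 with h1 | ⟨h1, -⟩
  · exact Z0_le C.M h1
  rcases h2 with h2 | ⟨h2, -⟩
  · exact Z0_le C.M h2
  exfalso
  rcases h1.eq h2 with h | h
  · have := congrArg (fun k : Co0 => ((k • e8 (some 4) : leechLattice) : Vec) (some 4)) h
    simp only [signC_apply, e8_val, Pi.single_eq_same] at this
    rw [if_neg (by decide +kernel), if_pos (by decide +kernel)] at this
    omega
  · have := congrArg (fun k : Co0 => ((k • e8 none : leechLattice) : Vec) none) h
    simp only [mul_smul, negC_smul, AddSubgroup.coe_neg, Pi.neg_apply, signC_apply, e8_val,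
      Pi.single_eq_same] at this
    rw [if_pos (by decide +kernel), if_pos (by decide +kernel)] at this
    omega

/-- the normal form of the label of an element of both arks -/
theorem label (C : Cx z Q π R g) {f : G} (h1 : f ∈ AA C) (h2 : f ∈ AB C) :
    ∃ v : leechLattice, R f v ∧ Fx (tb {0, 1}) v ∧ (∀ i, (v : Vec) i % 4 = 0) ∧
      ∀ i, tet i ≠ 0 → (v : Vec) i % 8 = 0 := by
  have hQ := mem_Q C h1 h2
  obtain ⟨v1, f1, r1⟩ := EE_inf C.M C.h8 h1 hQ
  obtain ⟨v2, f2, r2⟩ := EE_inf C.M C.h8 h2 hQ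
  obtain ⟨w, hw⟩ := C.M.congr r1 r2
  have e : ∀ i, (v2 : Vec) i = (v1 : Vec) i + ((w : Vec) i + (w : Vec) i) := fun i => by
    rw [hw]; rfl
  have g1 : ∀ i, tet i ≠ 0 → tet i ≠ 1 → (v1 : Vec) i = 0 := fun i a b =>
    f1 i (by rw [mem_tb]; simp [a, b])
  have g2 : ∀ i, tet i ≠ 0 → tet i ≠ 2 → (v2 : Vec) i = 0 := fun i a b =>
    f2 i (by rw [mem_tb]; simp [a, b])
  have w0 : ∀ i, 3 ≤ tet i → (w : Vec) i = 0 := fun i hi => by
    have := e i
    rw [g1 i (by omega) (by omega), g2 i (by omega) (by omega)] at this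
    omega
  have we := (even_of (v := w) (i := some 6) (by rw [w0 _ (by decide +kernel)]; rfl)).1
  have h4 : ∀ i, (v1 : Vec) i % 4 = 0 := by
    refine (f1.cases oA_cw oA_card).resolve_right fun h => ?_
    have a := h (some 4) (by decide +kernel)
    have b := e (some 4)
    have c := we (some 4)
    rw [g2 _ (by decide +kernel) (by decide +kernel)] at b
    omega
  rcases cw_trace (tw_cw w) (fun i hi => by rw [mem_tw, w0 i hi]; omega) with h | h
  · refine ⟨v1, r1, f1, h4, fun i hi => ?_⟩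
    by_cases h' : tet i = 1
    · have a := h i h'
      have b := e i
      have c := we i
      rw [mem_tw] at a
      rw [g2 i hi (by omega)] at b
      omega
    · rw [g1 i hi h']; rfl
  · have key : ∀ i, ((v1 + (lTwo oA_cw + lTwo oA_cw) : leechLattice) : Vec) i =
        (v1 : Vec) i + if i ∈ tb {0, 1} then 4 else 0 := fun i => by
      simp only [AddSubgroup.coe_add, Pi.add_apply, lTwo_apply]
      split_ifs <;> rfl
    refine ⟨_, C.M.add_two r1 (lTwo oA_cw), f1.add ((fx_vTwo _).add (fx_vTwo _)), fun i => ?_,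
      fun i hi => ?_⟩
    · have := h4 i
      rw [key]
      split_ifs <;> omega
    · rw [key]
      by_cases h' : tet i = 1
      · have a := h i h'
        have b := e i
        rw [mem_tw] at a
        rw [g2 i hi (by omega)] at b
        rw [if_pos (by rw [mem_tb]; simp [h'])]
        omega
      · rw [g1 i hi h', if_neg (by rw [mem_tb]; simp [hi, h'])]; rfl

end B0

variable {G : Type u} [Group G] {z : G} {Q : Subgroup G}
  {π : centralizer ({z} : Set G) →* Spor.Co1} {R : G → leechLattice → Prop} {g : G} [Finite G]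

theorem mem_Qf (C : Cx z Q π R g) {y f : G} {v : leechLattice} (hy : R y v)
    (h4 : ∀ i, (v : Vec) i % 4 = 0) (hp : Par v) (hf : IsConj z f) (h1 : f ∈ AA C)
    (h2 : f ∈ AB C) : y ∈ Qx z Q f := by
  obtain ⟨u, ru, fu, u4, u8⟩ := B0.label C h1 h2
  have hn := (sing_iff C.M C.h8 oA_cw oA_card ru fu).1 (Or.inr hf)
  rcases B0.norm_cases u4 u8 hn with h | h
  · refine B0.fin C hy hf ru 1 (by simpa only [one_smul] using h) (b := 0) fun i => ?_
    have := h4 i
    rw [one_smul]
    omega
  · obtain ⟨p1, -, -, p4, p5, -⟩ := xi_pat (v := v) (τ := fun _ => 0) fun i => by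
      have := h4 i
      omega
    have h8 : ∀ i, ((u - B0.vT : leechLattice) : Vec) i % 8 = 0 := fun i => by
      rw [AddSubgroup.coe_sub, Pi.sub_apply, B0.vT_apply]
      split_ifs with hi
      · have := h i hi
        omega
      · have := u8 i hi
        omega
    rcases B0.eight h8 with ⟨w, hw⟩ | ⟨w, hw⟩
    · have r : R f B0.vT := by
        have := C.M.add_two ru (-w)
        rwa [sub_eq_iff_eq_add.1 hw, show w + w + B0.vT + (-w + -w) = B0.vT by abel] at this
      refine B0.fin C hy hf r _ B0.xi_vT (b := tS v 0 / 4) fun i => ?_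
      have a := p5 i
      have b := hp _ (tet_lt i) 0 (by omega)
      have c := p1 _ (tet_lt i)
      have d := p1 0 (by omega)
      omega
    · have r : R f (B0.vT + e8 none) := by
        have := C.M.add_two ru (-w)
        rwa [sub_eq_iff_eq_add.1 hw,
          show e8 none + (w + w) + B0.vT + (-w + -w) = B0.vT + e8 none by abel] at this
      refine B0.fin C hy hf r _ B0.xi_vT' (b := tS v 0 / 4) fun i => ?_
      have a := p4 i
      have b := hp _ (tet_lt i) 0 (by omega)
      have c := p1 _ (tet_lt i)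
      have d := p1 0 (by omega)
      omega

end Cfsg.Agent.M2L
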