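import Cfsg.Agent.M2L.Rel
import Cfsg.Agent.M2L.ArkB

set_option autoImplicit false
set_option linter.unusedSectionVars false

namespace Cfsg.Agent.M2L

universe u

open Subgroup H15 H97 H38.MT

namespace B1

/-- equal up to complement -/
def UC (a b : Finset GolayPt) : Prop := a = b ∨ a = bᶜ

theorem symm_compl (a b : Finset GolayPt) : symmDiff aᶜ b = (symmDiff a b)ᶜ := by
  ext i; simp only [Finset.mem_symmDiff, Finset.mem_compl]; tauto

theorem UC.symm2 {a b a' b' : Finset GolayPt} (h : UC a b) (h' : UC a' b') :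
    UC (symmDiff a a') (symmDiff b b') := by
  rcases h with rfl | rfl <;> rcases h' with rfl | rfl
  · exact .inl rfl
  · exact .inr (by rw [symmDiff_comm, symm_compl, symmDiff_comm])
  · exact .inr (symm_compl _ _)
  · exact .inl (by rw [symm_compl, symmDiff_comm, symm_compl, compl_compl, symmDiff_comm])

theorem tb_symm (S S' : Finset ℕ) : symmDiff (tb S) (tb S') = tb (symmDiff S S') := by
  ext i; simp only [Finset.mem_symmDiff, mem_tb]

theorem UC.triv {a : Finset GolayPt} (h : UC a (tb ∅)) : a = ∅ ∨ a = Finset.univ := by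
  have : tb ∅ = ∅ := by ext i; simp [mem_tb]
  rw [this] at h
  exact h.imp id fun e => by rw [e, Finset.compl_empty]

theorem jp_symm {t t' : Finset GolayPt} (h : JP t) (h' : JP t') : JP (symmDiff t t') := by
  obtain ⟨S, hS, e⟩ := h
  obtain ⟨S', hS', e'⟩ := h'
  refine ⟨symmDiff S S', ?_, tb_symm S S' ▸ UC.symm2 e e'⟩
  rcases hS with rfl | rfl | rfl | rfl <;> rcases hS' with rfl | rfl | rfl | rfl <;> decide

/-- the coordinate sum over `T` -/
def sm (v : Vec) (T : Finset GolayPt) : ℤ := ∑ i, if i ∈ T then v i else 0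

theorem sm_card {v : Vec} (h4 : ∀ i, v i % 4 = 0) {T : Finset GolayPt}
    (h : Even ((Finset.univ.filter fun i => v i % 8 = 4) ∩ T).card) : sm v T % 8 = 0 := by
  have e : (((Finset.univ.filter fun i => v i % 8 = 4) ∩ T).card : ℤ) =
      ∑ i, if v i % 8 = 4 ∧ i ∈ T then 1 else 0 := by
    rw [Finset.sum_boole]
    congr 2
    ext i; simp
  have : (8 : ℤ) ∣ sm v T - 4 * ∑ i, if v i % 8 = 4 ∧ i ∈ T then 1 else 0 := by
    rw [sm, Finset.mul_sum, ← Finset.sum_sub_distrib]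
    refine Finset.dvd_sum fun i _ => ?_
    have := h4 i
    by_cases hi : i ∈ T <;> by_cases h8 : v i % 8 = 4 <;> simp only [hi, h8, and_true, and_false, if_true,
      if_false] <;> omega
  obtain ⟨m, hm⟩ := h
  rw [← e, hm] at this
  push_cast at this
  omega

theorem sm_symm {v : Vec} (h4 : ∀ i, v i % 4 = 0) {T T' : Finset GolayPt} (h : sm v T % 8 = 0)
    (h' : sm v T' % 8 = 0) : sm v (symmDiff T T') % 8 = 0 := by
  have : (8 : ℤ) ∣ sm v (symmDiff T T') - sm v T - sm v T' := by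
    rw [sm, sm, sm, ← Finset.sum_sub_distrib, ← Finset.sum_sub_distrib]
    refine Finset.dvd_sum fun i _ => ?_
    have := h4 i
    by_cases hi : i ∈ T <;> by_cases hi' : i ∈ T' <;> simp [Finset.mem_symmDiff, hi, hi'] <;> omega
  omega

theorem sm_compl (v : Vec) (T : Finset GolayPt) : sm v Tᶜ = ∑ i, v i - sm v T := by
  rw [sm, sm, ← Finset.sum_sub_distrib]
  refine Finset.sum_congr rfl fun i _ => ?_
  by_cases hi : i ∈ T <;> simp [hi]

theorem sm_tb (v : Vec) {a b : ℕ} (h : a ≠ b) : sm v (tb {a, b}) = tS v a + tS v b := by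
  rw [sm, tS, tS, ← Finset.sum_add_distrib]
  refine Finset.sum_congr rfl fun i _ => ?_
  simp only [mem_tb, Finset.mem_insert, Finset.mem_singleton]
  by_cases ha : tet i = a
  · simp [ha, h]
  · simp [ha]

theorem arith (a : ℕ → ℤ) (m : ∀ i < 6, a i % 4 = 0) (tot : (a 0 + a 1 + a 2 + a 3 + a 4 + a 5) % 8 = 0)
    (h1 : (a 0 + a 1) % 8 = 0) (h2 : (a 0 + a 2) % 8 = 0) (h3 : (a 3 - a 4) % 8 = 0) (h4 : (a 3 - a 5) % 8 = 0) :
    ∀ i < 6, ∀ j < 6, (a i - a j) % 8 = 0 := fun i hi j hj => by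
  have m0 := m 0 (by norm_num)
  have m1 := m 1 (by norm_num)
  have m2 := m 2 (by norm_num)
  have m3 := m 3 (by norm_num)
  have m4 := m 4 (by norm_num)
  have m5 := m 5 (by norm_num)
  have k : ∀ i < 6, (a i - a 3) % 8 = 0 := fun i hi => by interval_cases i <;> omega
  have := k i hi
  have := k j hj
  omega

theorem key {v : leechLattice} (h4 : ∀ i, (v : Vec) i % 4 = 0) (hp : ¬ Par v)
    (h1 : sm v (tb {0, 1}) % 8 = 0) (h2 : sm v (tb {0, 2}) % 8 = 0) {t t' : Finset GolayPt} (j : JP t)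
    (j' : JP t') (e : sm v t % 8 = 0) (e' : sm v t' % 8 = 0) :
    UC t (tb ∅) ∨ UC t' (tb ∅) ∨ UC (symmDiff t t') (tb ∅) := by
  have tot := (even_of (v := v) (i := none) (by have := h4 none; omega)).2
  have uc : ∀ {a b : Finset GolayPt}, UC a b → sm v a % 8 = 0 → sm v b % 8 = 0 := fun {a b} h e => by
    rcases h with rfl | rfl
    · exact e
    · rw [sm_compl] at e; omega
  obtain ⟨S, hS, u⟩ := j
  obtain ⟨S', hS', u'⟩ := j'
  have same : S = S' → UC (symmDiff t t') (tb ∅) := by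
    rintro rfl
    have := UC.symm2 u u'
    rwa [tb_symm, symmDiff_self] at this
  have f := uc u e
  have f' := uc u' e'
  have m : ∀ a < 6, tS v a % 4 = 0 := fun a ha => tS_mod (m := 0) ha fun j _ => by simpa using h4 j
  rw [sum_tS] at tot
  rw [sm_tb _ (by norm_num)] at h1 h2
  have np := fun h3 h4 => hp (arith (tS v) m tot h1 h2 h3 h4)
  have m3 := m 3 (by norm_num)
  have m4 := m 4 (by norm_num)
  have m5 := m 5 (by norm_num)
  have s34 := sm_tb v (show 3 ≠ 4 by norm_num)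
  have s35 := sm_tb v (show 3 ≠ 5 by norm_num)
  have s45 := sm_tb v (show 4 ≠ 5 by norm_num)
  clear uc tot m h1 h2 e e' hp h4
  generalize tS v 3 = a3, tS v 4 = a4, tS v 5 = a5 at *
  rcases hS with rfl | rfl | rfl | rfl
  · exact .inl u
  · rcases hS' with rfl | rfl | rfl | rfl
    exacts [.inr (.inl u'), .inr (.inr (same rfl)), (np (by omega) (by omega)).elim,
      (np (by omega) (by omega)).elim]
  · rcases hS' with rfl | rfl | rfl | rfl
    exacts [.inr (.inl u'), (np (by omega) (by omega)).elim, .inr (.inr (same rfl)),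
      (np (by omega) (by omega)).elim]
  · rcases hS' with rfl | rfl | rfl | rfl
    exacts [.inr (.inl u'), (np (by omega) (by omega)).elim, (np (by omega) (by omega)).elim,
      .inr (.inr (same rfl))]

variable {G : Type u} [Group G] {z : G} {Q : Subgroup G}
  {π : centralizer ({z} : Set G) →* Spor.Co1} {R : G → leechLattice → Prop} {g : G} [Finite G]

/-- `w = y r` with `r ∈ Q_s` over the sign change `O` and `y ∈ Q` of pattern `t` -/
def D (_ : Cx z Q π R g) (w : G) (O t : Finset GolayPt) : Prop :=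
  ∃ (hO : IsCw O) (y r : G) (v : leechLattice), r ∈ cjs g Q ∧ Ov π r (signC O hO) ∧ R y v ∧
    (∀ i, (v : Vec) i % 2 = 0) ∧ w = y * r ∧ tw v = t

variable {C : Cx z Q π R g} {w w' : G} {O O' t t' : Finset GolayPt}

theorem D.mul (h : D C w O t) (h' : D C w' O' t') : D C (w * w') (symmDiff O O') (symmDiff t t') := by
  obtain ⟨hO, y, r, v, hr, ho, hy, hv, rfl, rfl⟩ := h
  obtain ⟨hO', y', r', v', hr', ho', hy', hv', rfl, rfl⟩ := h'
  have hs : ∀ i, ((signC O hO • v' : leechLattice) : Vec) i % 2 = 0 := fun i => by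
    have := hv' i
    rw [signC_apply]
    split_ifs <;> omega
  refine ⟨hO.symmDiff hO', y * (r * y' * r⁻¹), r * r', v + signC O hO • v', mul_mem hr hr',
    signC_mul _ _ hO hO' ▸ ho.mul ho', C.M.mul hy (ho.lab C.M hy'), fun i => ?_, by group,
    by rw [tw_add hv hs, tw_sign hO v' hv']⟩
  have := hv i
  have := hs i
  rw [AddSubgroup.coe_add, Pi.add_apply]
  omega

theorem D.cw (h : D C w O t) : IsCw t := by
  obtain ⟨hO, y, r, v, hr, ho, hy, hv, rfl, rfl⟩ := h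
  exact tw_cw v

theorem D.sq (h : D C w O t) (h2 : w * w = 1) : IsCw (t ∩ O) := by
  obtain ⟨hO, y, r, v, hr, ho, hy, hv, rfl, rfl⟩ := h
  exact sq_rel C hr ho hy hv h2

theorem D.mem (h : D C w O t) : (t = ∅ ∨ t = Finset.univ → w ∈ Qx z Q (g * z * g⁻¹)) ∧
    (t = O ∨ t = Oᶜ → w ∈ Qx z Q (z * (g * z * g⁻¹))) := by
  obtain ⟨hO, y, r, v, hr, ho, hy, hv, rfl, rfl⟩ := h
  exact mem_frame C hr ho hy hv

theorem D.ev (h : D C w O t) {a : G} {x : leechLattice} (ha : R a x) (h4 : ∀ i, (x : Vec) i % 4 = 0)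
    (c : a * w = w * a) : sm x t % 8 = 0 ∧ sm x O % 8 = 0 := by
  obtain ⟨hO, y, r, v, hr, ho, hy, hv, rfl, rfl⟩ := h
  refine (comm_rel C (X := Finset.univ.filter fun i => (x : Vec) i % 8 = 4) hr ho hy hv ha (fun i => ?_) c).imp
    (sm_card h4) (sm_card h4)
  have := h4 i
  simp only [Finset.mem_filter, Finset.mem_univ, true_and]
  split_ifs <;> omega

theorem D.ex (C : Cx z Q π R g) {hO : IsCw O} (ho : Ov π w (signC O hO))
    (c : w * (g * z * g⁻¹) = g * z * g⁻¹ * w) : ∃ t, D C w O t := by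
  obtain ⟨r, hr, hr'⟩ := exists_r C.M C.h8 O hO
  obtain ⟨v, hv⟩ := C.M.ex _ (ho.quot C.M hr')
  refine ⟨_, hO, w * r⁻¹, r, v, hr, hr', hv, (even_of ((comm_s C.M C.h8 hv).1 ?_)).1, by group, rfl⟩
  rw [mul_assoc, (lx_cjs C.M.lx g).cen _ (inv_mem hr), ← mul_assoc, c, mul_assoc _ w]

theorem s_mem_EE (C : Cx z Q π R g) {e : Finset GolayPt} (he : IsCw e) (hc : e.card = 8) (h : none ∈ e) :
    g * z * g⁻¹ ∈ EE C.M C.h8 he hc :=
  Z0_le_EE C.M C.h8 ⟨_, fun i hi => by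
    rw [e8_val, Pi.single_eq_of_ne (by rintro rfl; exact hi h)], C.h8⟩

theorem core {W Γ : Subgroup G} (hW : El W) {w1 w2 : G} (m1 : w1 ∈ W) (m2 : w2 ∈ W) (n1 : w1 ∉ Q) (n2 : w2 ∉ Q)
    (n3 : w1 * w2 ∉ Q) (E : G → Finset GolayPt → Prop)
    (mul : ∀ w w' t t', E w t → E w' t' → E (w * w') (symmDiff t t'))
    (mem : ∀ w t, E w t → UC t (tb ∅) → w ∈ Γ)
    (ky : ∀ w ∈ W, ∀ w' ∈ W, ∀ t t', E w t → E w' t' → JP t → JP t' →
      UC t (tb ∅) ∨ UC t' (tb ∅) ∨ UC (symmDiff t t') (tb ∅))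
    (hQ : ∀ d ∈ W, d ∈ Q → ∃ t, E d t ∧ JP t) (e1 : ∃ t, E w1 t ∧ JP t) (e2 : ∃ t, E w2 t ∧ JP t) :
    Nat.card (W ⊓ Q : Subgroup G) < Nat.card (W ⊓ Γ : Subgroup G) := by
  let X : Subgroup G :=
    { carrier := {w | w ∈ W ∧ ∃ t, E w t ∧ JP t}
      one_mem' := ⟨one_mem _, hQ 1 (one_mem _) (one_mem _)⟩
      mul_mem' := by
        rintro a b ⟨ha, t, h1, h2⟩ ⟨hb, t', h3, h4⟩
        exact ⟨mul_mem ha hb, _, mul _ _ _ _ h1 h3, jp_symm h2 h4⟩
      inv_mem' := fun {a} ha => by rwa [hW.inv ha.1] }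
  refine gain (X := X) (fun _ h => h.1) (fun d h => ⟨h.1, hQ d h.1 h.2⟩) ⟨m1, e1⟩ ⟨m2, e2⟩ n1 n2 n3 ?_
  rintro a ⟨ha, t, h1, h2⟩ b ⟨hb, t', h3, h4⟩
  exact (ky a ha b hb t t' h1 h3 h2 h4).imp (mem _ _ h1) (Or.imp (mem _ _ h3) (mem _ _ (mul _ _ _ _ h1 h3)))

theorem inter_cancel (t t' O : Finset GolayPt) : symmDiff (symmDiff t t' ∩ O) (t' ∩ O) = t ∩ O := by
  ext i; simp only [Finset.mem_symmDiff, Finset.mem_inter]; tauto

end B1

open B1

variable {G : Type u} [Group G] {z : G} {Q : Subgroup G}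
  {π : centralizer ({z} : Set G) →* Spor.Co1} {R : G → leechLattice → Prop} {g : G} [Finite G]

theorem caseB1 (C : Cx z Q π R g) {W : Subgroup G} (hW : El W) {w1 w2 y : G} (m1 : w1 ∈ W)
    (m2 : w2 ∈ W) (h1 : OctA C z w1 (AA C)) (h2 : OctA C z w2 (AB C)) (my : y ∈ W)
    {v : leechLattice} (hy : R y v) (h4 : ∀ i, (v : Vec) i % 4 = 0) (hp : ¬ Par v) :
    ∃ u, (u = g * z * g⁻¹ ∨ u = z * (g * z * g⁻¹)) ∧
      Nat.card (W ⊓ Q : Subgroup G) < Nat.card (W ⊓ Qx z Q u : Subgroup G) := by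
  have sA : g * z * g⁻¹ ∈ AA C := s_mem_EE C _ _ (by decide +kernel)
  have sB : g * z * g⁻¹ ∈ AB C := s_mem_EE C _ _ (by decide +kernel)
  have o1 : Ov π w1 (signC _ oA_cw) := OctA.ov (hc := oA_card) h1
  have o2 : Ov π w2 (signC _ oB_cw) := OctA.ov (hc := oB_card) h2
  have e12 : symmDiff (tb {0, 1}) (tb {0, 2}) = tb {1, 2} := by rw [tb_symm]; congr 1
  obtain ⟨t1, d1⟩ := D.ex C o1 (h1.cent_B (hW _ m1) _ sA)
  obtain ⟨t2, d2⟩ := D.ex C o2 (h2.cent_B (hW _ m2) _ sB)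
  have n1 : w1 ∉ Q := Qx_z C ▸ h1.not_mem
  have n2 : w2 ∉ Q := Qx_z C ▸ h2.not_mem
  have n3 : w1 * w2 ∉ Q := by
    have c := tb_card 1 (by norm_num) 2 (by norm_num) (by norm_num)
    have o3 := o1.mul o2
    rw [signC_mul] at o3
    exact not_mem_of_sign C.M (by rw [e12, c]; norm_num) (by rw [e12, c]; norm_num) o3
  have hQ : ∀ d ∈ W, d ∈ Q → ∃ t, D C d ∅ t ∧ JP t := fun d hd hq => by
    obtain ⟨t, dd⟩ := D.ex C (hO := isCw_empty) (signC_empty ▸ ov_one C.M hq)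
      (h1.cent ((Qx_z C).symm ▸ hq) (.inl (by rw [hW.comm hd m1, mul_inv_cancel_right])) _ sA)
    have k : ∀ {w O t'}, w ∈ W → D C w O t' → IsCw (t ∩ O) := fun {w O t'} mw dw => by
      have := (dd.mul dw).sq (hW _ (mul_mem hd mw))
      rw [show symmDiff ∅ O = O from bot_symmDiff O] at this
      exact inter_cancel t t' O ▸ this.symmDiff (dw.sq (hW _ mw))
    exact ⟨t, dd, jp_one dd.cw (k m1 d1) (k m2 d2)⟩
  have ev : ∀ {w O t}, w ∈ W → D C w O t → sm v t % 8 = 0 ∧ sm v O % 8 = 0 := fun mw dw =>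
    dw.ev hy h4 (hW.comm my mw)
  have ky := fun t t' => key (t := t) (t' := t') h4 hp (ev m1 d1).2 (ev m2 d2).2
  rcases jp_two d1.cw d2.cw (d1.sq (hW _ m1)) (d2.sq (hW _ m2))
    (e12 ▸ (d1.mul d2).sq (hW _ (mul_mem m1 m2))) with ⟨j1, j2⟩ | ⟨j1, j2⟩
  · refine ⟨_, .inl rfl, core hW m1 m2 n1 n2 n3 (fun w t => ∃ O, D C w O t) ?_ ?_ ?_ ?_
      ⟨_, ⟨_, d1⟩, j1⟩ ⟨_, ⟨_, d2⟩, j2⟩⟩
    · rintro w w' t t' ⟨O, h⟩ ⟨O', h'⟩
      exact ⟨_, h.mul h'⟩
    · rintro w t ⟨O, h⟩ u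
      exact h.mem.1 u.triv
    · rintro w mw w' mw' t t' ⟨O, h⟩ ⟨O', h'⟩ j j'
      exact ky _ _ j j' (ev mw h).1 (ev mw' h').1
    · intro d hd hq
      obtain ⟨t, dd, j⟩ := hQ d hd hq
      exact ⟨t, ⟨_, dd⟩, j⟩
  · refine ⟨_, .inr rfl, core hW m1 m2 n1 n2 n3 (fun w τ => ∃ O t, D C w O t ∧ τ = symmDiff t O) ?_ ?_ ?_ ?_
      ⟨_, ⟨_, _, d1, rfl⟩, j1⟩ ⟨_, ⟨_, _, d2, rfl⟩, j2⟩⟩
    · rintro w w' _ _ ⟨O, t, h, rfl⟩ ⟨O', t', h', rfl⟩
      exact ⟨_, _, h.mul h', symmDiff_symmDiff_symmDiff_comm _ _ _ _⟩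
    · rintro w _ ⟨O, t, h, rfl⟩ u
      refine h.mem.2 (u.triv.imp (fun e => symmDiff_eq_bot.1 e) fun e => ?_)
      rw [← symmDiff_symmDiff_cancel_right O t, e]
      exact top_symmDiff O
    · rintro w mw w' mw' _ _ ⟨O, t, h, rfl⟩ ⟨O', t', h', rfl⟩ j j'
      exact ky _ _ j j' (sm_symm h4 (ev mw h).1 (ev mw h).2) (sm_symm h4 (ev mw' h').1 (ev mw' h').2)
    · intro d hd hq
      obtain ⟨t, dd, j⟩ := hQ d hd hq
      exact ⟨t, ⟨_, _, dd, (symmDiff_bot t).symm⟩, j⟩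

end Cfsg.Agent.M2L
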