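import Cfsg.Agent.M2L.ArkA

/-! Project M2L: the quadratic form on an ark. -/

set_option autoImplicit false

namespace Cfsg.Agent.M2L

universe u

open Subgroup H15 H97 H38.MT

variable {G : Type u} [Group G] {z : G} {Q : Subgroup G}
  {π : centralizer ({z} : Set G) →* Spor.Co1} {R : G → leechLattice → Prop} {g : G} [Finite G]

theorem Ark.coord {C : Cx z Q π R g} {A : Subgroup G} (hA : Ark C A) : ∃ Φ : V10 → G,
    Function.Injective Φ ∧ (∀ x y, Φ (x + y) = Φ x * Φ y) ∧ (∀ a, a ∈ A ↔ ∃ x, Φ x = a) ∧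
      ∀ x, Sing z (Φ x) ↔ quadFormPlus 5 (ZMod 2) x = 0 := by
  obtain ⟨c, rfl⟩ := hA
  obtain ⟨s1, n, Φ, T⟩ := exists_TS C.M C.h8 C.hg
  refine ⟨fun x => c * Φ x * c⁻¹, fun x y e => T.inj (by simpa using e), fun x y => by simp only [T.add, conj_mul],
    fun a => ?_, fun x => (sing_conj c).trans (T.sing x)⟩
  rw [mem_cjs, T.mem]
  exact exists_congr fun x => ⟨fun e => by simp only [e]; group, fun e => by rw [← e]; group⟩

theorem Ark.mem_Qx_iff {C : Cx z Q π R g} {A : Subgroup G} (hA : Ark C A) {u a : G}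
    (hu : IsConj z u) (huA : u ∈ A) (ha : a ∈ A) :
    a ∈ Qx z Q u ↔ (Sing z (a * u) ↔ Sing z a) := by
  obtain ⟨c, e1, e2⟩ := hA.nf hu huA
  obtain ⟨s1, n, Φ, T⟩ := exists_TS C.M C.h8 C.hg
  have ha' := e2 ▸ (conj_mem_cjs (g := c)).2 ha
  rw [← mem_Qx_cj c, ← sing_conj (y := a * u) c, ← sing_conj (y := a) c, ← conj_mul, e1, Qx_z C,
    EE_comm C.M C.h8 ha' (z_mem_E C.M C.h8)]
  rcases T.cases ha' with h | ⟨b, hb, h⟩
  · exact iff_of_true (Z0_le C.M h) (sing_z C.M C.h8 OO_cw OO_card h)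
  · rw [h, ← mul_assoc, T.S.flip C.M OO_card hb]
    exact iff_of_false (fun k => T.s_not_mem ((mul_mem_cancel_left (Z0_le C.M hb)).1 k)) not_iff_self

namespace Form

/-- the form -/
abbrev qq (x : V10) : ZMod 2 := quadFormPlus 5 (ZMod 2) x

/-- its polarisation -/
def pol (x y : V10) : ZMod 2 := ∑ i : Fin 5, (x (.inl i) * y (.inr i) + y (.inl i) * x (.inr i))

theorem qq_add (x y : V10) : qq (x + y) = qq x + qq y + pol x y := by
  simp only [qq, quadFormPlus, pol, ← Finset.sum_add_distrib, Pi.add_apply]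
  exact Finset.sum_congr rfl fun i _ => by ring

theorem bb_comm (x y : V10) : pol x y = pol y x := Finset.sum_congr rfl fun _ _ => add_comm _ _

theorem bb_add (x y w : V10) : pol (x + y) w = pol x w + pol y w := by
  simp only [pol, ← Finset.sum_add_distrib, Pi.add_apply]
  exact Finset.sum_congr rfl fun i _ => by ring

theorem bb_add' (x y w : V10) : pol w (x + y) = pol w x + pol w y := by
  rw [bb_comm, bb_add, bb_comm x, bb_comm y]

/-- the dual basis -/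
def ek (k : I10) : V10 := Pi.single k.swap 1

theorem bb_ek (k : I10) (y : V10) : pol (ek k) y = y k := by
  rcases k with k | k <;> simp [pol, ek, Pi.single_apply]

theorem qq_ek (k : I10) : qq (ek k) = 0 := by
  rcases k with k | k <;> simp [quadFormPlus, ek, Pi.single_apply]

theorem ek_ne (k : I10) : ek k ≠ 0 := fun e => by simpa [ek] using congrFun e k.swap

theorem t3 : ∀ a b : ZMod 2, a = 0 ∨ b = 0 ∨ a + b = 0 := by decide

/-- coordinates -/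
structure Co (z : G) (A : Subgroup G) (Φ : V10 → G) : Prop where
  inj : Function.Injective Φ
  add : ∀ x y, Φ (x + y) = Φ x * Φ y
  mem : ∀ a, a ∈ A ↔ ∃ x, Φ x = a
  sing : ∀ x, Sing z (Φ x) ↔ qq x = 0

variable {C : Cx z Q π R g} {A : Subgroup G} {Φ : V10 → G}

theorem co (hA : Ark C A) : ∃ Φ, Co z A Φ := let ⟨Φ, a, b, c, d⟩ := hA.coord; ⟨Φ, a, b, c, d⟩

omit [Finite G] in
theorem Co.zero (k : Co z A Φ) : Φ 0 = 1 := by simpa using (k.add 0 0).symm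

omit [Finite G] in
theorem Co.m (k : Co z A Φ) (x : V10) : Φ x ∈ A := (k.mem _).2 ⟨x, rfl⟩

omit [Finite G] in
theorem Co.conj (k : Co z A Φ) {x : V10} (h0 : x ≠ 0) (h : qq x = 0) : IsConj z (Φ x) :=
  ((k.sing x).2 h).resolve_left fun e => h0 (k.inj (e.trans k.zero.symm))

omit [Finite G] in
theorem Co.ne (k : Co z A Φ) (C : Cx z Q π R g) {x : V10} (h : IsConj z (Φ x)) : x ≠ 0 := fun e =>
  (lx_Qx C h).ne (e ▸ k.zero)

theorem Co.perp (k : Co z A Φ) (hA : Ark C A) {x y : V10} (h : IsConj z (Φ y)) :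
    Φ x ∈ Qx z Q (Φ y) ↔ pol x y = 0 := by
  rw [hA.mem_Qx_iff h (k.m y) (k.m x), ← k.add, k.sing, k.sing, qq_add, (k.sing y).1 (.inr h), add_zero]
  exact (by decide : ∀ a b : ZMod 2, (a + b = 0 ↔ a = 0) ↔ b = 0) _ _

theorem Co.sub (k : Co z A Φ) (hA : Ark C A) (s : Finset V10) :
    ∃ Y ≤ A, 2 ^ 10 ≤ 2 ^ s.card * Nat.card Y ∧ ∀ y, Φ y ∈ Y → ∀ x ∈ s, pol x y = 0 := by
  classical
  induction s using Finset.induction_on with
  | empty => exact ⟨A, le_rfl, by simp [hA.card], by simp⟩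
  | insert a s ha ih =>
    obtain ⟨Y, h1, h2, h3⟩ := ih
    let P : Subgroup G :=
      { carrier := {u | ∃ y, Φ y = u ∧ pol a y = 0}
        one_mem' := ⟨0, k.zero, by simp [pol]⟩
        mul_mem' := by
          rintro _ _ ⟨x, rfl, hx⟩ ⟨y, rfl, hy⟩
          exact ⟨x + y, k.add x y, by rw [bb_add', hx, hy, add_zero]⟩
        inv_mem' := by
          rintro _ ⟨x, rfl, hx⟩
          exact ⟨x, (hA.el.inv (k.m x)).symm, hx⟩ }
    have h4 : H2 Y P := fun u hu v hv => by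
      obtain ⟨x, rfl⟩ := (k.mem u).1 (h1 hu)
      obtain ⟨y, rfl⟩ := (k.mem v).1 (h1 hv)
      exact (t3 (pol a x) (pol a y)).imp (fun e => ⟨x, rfl, e⟩) (Or.imp (fun e => ⟨y, rfl, e⟩)
        fun e => ⟨x + y, k.add x y, by rwa [bb_add']⟩)
    refine ⟨Y ⊓ P, inf_le_left.trans h1, ?_, fun y ⟨hy, y', e, hy'⟩ x hx => ?_⟩
    · rw [Finset.card_insert_of_notMem ha, pow_succ _ s.card, mul_assoc]
      exact h2.trans (Nat.mul_le_mul_left _ h4.card)
    · rcases Finset.mem_insert.1 hx with rfl | hx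
      · exact k.inj e ▸ hy'
      · exact h3 y hy x hx

end Form

open Form

theorem Ark.h2 {C : Cx z Q π R g} {A : Subgroup G} (hA : Ark C A) {u : G} (hu : IsConj z u)
    (huA : u ∈ A) : H2 A (Qx z Q u) := fun a ha b hb => by
  obtain ⟨Φ, k⟩ := co hA
  obtain ⟨x, rfl⟩ := (k.mem a).1 ha
  obtain ⟨y, rfl⟩ := (k.mem b).1 hb
  obtain ⟨w, rfl⟩ := (k.mem u).1 huA
  rw [← k.add, k.perp hA hu, k.perp hA hu, k.perp hA hu, bb_add]
  exact t3 _ _

theorem OctA.mul_mem {C : Cx z Q π R g} {x w w' : G} {A : Subgroup G} (h : OctA C x w A)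
    (h' : OctA C x w' A) : w * w' ∈ Qx z Q x := by
  obtain ⟨a, h1, h2, h3⟩ := h.ex
  obtain ⟨a', h1', h2', h3'⟩ := h'.ex
  rw [show w * w' = w * a⁻¹ * (a * (w' * a'⁻¹) * a⁻¹) * (a * a') by group]
  exact Subgroup.mul_mem _ (Subgroup.mul_mem _ h3 ((lx_Qx C h.sx).norm a (h.ark.el.comm h1 h.mem) _ h3'))
    (((h.ark.h2 h.sx h.mem a h1 a' h1').resolve_left h2).resolve_left h2')

theorem Ark.lin {C : Cx z Q π R g} {A : Subgroup G} (hA : Ark C A) {u u' a : G} (hu : IsConj z u)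
    (hu' : IsConj z u') (huu : IsConj z (u * u')) (h1 : u ∈ A) (h2 : u' ∈ A) (ha : a ∈ A)
    (h3 : a ∉ Qx z Q u) (h4 : a ∉ Qx z Q u') : a ∈ Qx z Q (u * u') := by
  obtain ⟨Φ, k⟩ := co hA
  obtain ⟨x, rfl⟩ := (k.mem a).1 ha
  obtain ⟨y, rfl⟩ := (k.mem u).1 h1
  obtain ⟨w, rfl⟩ := (k.mem u').1 h2
  rw [← k.add] at huu ⊢
  rw [k.perp hA hu] at h3
  rw [k.perp hA hu'] at h4
  rw [k.perp hA huu, bb_add']
  exact ((t3 _ _).resolve_left h3).resolve_left h4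

theorem Ark.exists_not_perp {C : Cx z Q π R g} {A : Subgroup G} (hA : Ark C A) {u : G}
    (hu : IsConj z u) (huA : u ∈ A) : ∃ a ∈ A, IsConj z a ∧ a ∉ Qx z Q u := by
  obtain ⟨Φ, k⟩ := co hA
  obtain ⟨y, rfl⟩ := (k.mem u).1 huA
  obtain ⟨i, hi⟩ := Function.ne_iff.1 (k.ne C hu)
  exact ⟨_, k.m (ek i), k.conj (ek_ne i) (qq_ek i), by rwa [k.perp hA hu, bb_ek]⟩

theorem Ark.exists_r {C : Cx z Q π R g} {A : Subgroup G} (hA : Ark C A) {x f : G}
    (hx : IsConj z x) (hxA : x ∈ A) (hf : IsConj z f) (hfA : f ∈ A) (hne : f ≠ x) :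
    ∃ r ∈ A, r ∉ Qx z Q x ∧ r ∈ Qx z Q f := by
  obtain ⟨Φ, k⟩ := co hA
  obtain ⟨x, rfl⟩ := (k.mem x).1 hxA
  obtain ⟨f, rfl⟩ := (k.mem f).1 hfA
  obtain ⟨i, hi⟩ := Function.ne_iff.1 (k.ne C hx)
  obtain ⟨j, hj⟩ := Function.ne_iff.1 (fun e => hne (congrArg Φ e) : f ≠ x)
  obtain ⟨r, h1, h2⟩ : ∃ r, pol r x ≠ 0 ∧ pol r f = 0 := by
    rcases (by decide : ∀ a b c d : ZMod 2, a ≠ 0 → d ≠ c → a ≠ 0 ∧ b = 0 ∨ c ≠ 0 ∧ d = 0 ∨ a + c ≠ 0 ∧ b + d = 0)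
      (x i) (f i) (x j) (f j) hi hj with h | h | h
    · exact ⟨ek i, by rwa [bb_ek, bb_ek]⟩
    · exact ⟨ek j, by rwa [bb_ek, bb_ek]⟩
    · exact ⟨ek i + ek j, by rwa [bb_add, bb_add, bb_ek, bb_ek, bb_ek, bb_ek]⟩
  exact ⟨_, k.m r, by rwa [k.perp hA hx], (k.perp hA hf).2 h2⟩

theorem Ark.cw3 {C : Cx z Q π R g} {A X : Subgroup G} (hA : Ark C A) (hX : X ≤ A)
    (h : 8 ≤ Nat.card X) : ∃ y ∈ X, IsConj z y := by
  classical
  obtain ⟨Φ, k⟩ := co hA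
  have h4 : ∀ s : Finset V10, s.card ≤ 4 → ∃ a, Φ a ∈ X ∧ a ∉ s := fun s hs => by
    by_contra! c
    have := (Set.ncard_le_ncard (s := (X : Set G)) (t := (s.image Φ : Set G)) fun a ha => by
      obtain ⟨x, rfl⟩ := (k.mem a).1 (hX ha)
      exact Finset.mem_image_of_mem Φ (c x ha)).trans
      ((Set.ncard_coe_finset _).le.trans (Finset.card_image_le.trans hs))
    exact absurd (h.trans this) (by norm_num)
  obtain ⟨a, ha, a1⟩ := h4 {0} (by simp)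
  obtain ⟨b, hb, b1⟩ := h4 {0, -a} (Finset.card_le_two.trans (by norm_num))
  obtain ⟨c, hc, c1⟩ := h4 {0, -a, -b, -(a + b)} Finset.card_le_four
  simp only [Finset.mem_insert, Finset.mem_singleton, not_or, eq_neg_iff_add_eq_zero] at a1 b1 c1
  by_contra! n
  have o : ∀ x, Φ x ∈ X → x ≠ 0 → qq x ≠ 0 := fun x hx x0 e => n _ hx (k.conj x0 e)
  have m : ∀ {x y}, Φ x ∈ X → Φ y ∈ X → Φ (x + y) ∈ X := fun hx hy => k.add _ _ ▸ X.mul_mem hx hy
  have e1 := o _ (m hb ha) b1.2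
  have e2 := o _ (m hc ha) c1.2.1
  have e3 := o _ (m hc hb) c1.2.2.1
  have e4 := o _ (m hc (m ha hb)) c1.2.2.2
  simp only [qq_add, bb_add', bb_comm a b] at e1 e2 e3 e4
  exact (by decide : ∀ a b c x y w : ZMod 2, a ≠ 0 → b ≠ 0 → c ≠ 0 → b + a + x ≠ 0 → c + a + y ≠ 0 →
    c + b + w ≠ 0 → c + (a + b + x) + (y + w) ≠ 0 → False) _ _ _ _ _ _ (o a ha a1) (o b hb b1.1) (o c hc c1.1)
    e1 e2 e3 e4

theorem Ark.cw4 {C : Cx z Q π R g} {A X : Subgroup G} (hA : Ark C A) (hX : X ≤ A)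
    (h : 16 ≤ Nat.card X) {x : G} (hx : IsConj z x) (hxA : x ∈ A) :
    ∃ y ∈ X, IsConj z y ∧ y ≠ x := by
  obtain ⟨a, ha, h1, h2⟩ := hA.exists_not_perp hx hxA
  have := H2.card (X := X) fun u hu v hv => hA.h2 h1 ha u (hX hu) v (hX hv)
  obtain ⟨y, hy, h3⟩ := hA.cw3 (X := X ⊓ Qx z Q a) (inf_le_left.trans hX) (by omega)
  exact ⟨y, hy.1, h3, fun e => h2 (perp_symm C h1 hx (e ▸ hy.2))⟩

theorem Ark.perp_small {C : Cx z Q π R g} {A X : Subgroup G} (hA : Ark C A) (hX : X ≤ A)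
    (h : Nat.card X ≤ 4) : ∃ u ∈ A, IsConj z u ∧ X ≤ Qx z Q u := by
  classical
  obtain ⟨Φ, k⟩ := co hA
  obtain ⟨Y, h1, h2, h3⟩ := k.sub hA (Finset.univ.filter fun x => Φ x ∈ X)
  have c : (Finset.univ.filter fun x => Φ x ∈ X).card ≤ 4 := by
    rw [← Set.ncard_coe_finset]
    exact (Set.ncard_le_ncard_of_injOn Φ (fun x hx => by simpa using hx) k.inj.injOn).trans h
  have := Nat.mul_le_mul_right (Nat.card Y) (Nat.pow_le_pow_right two_pos c)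
  obtain ⟨u, hu, h4⟩ := hA.cw3 h1 (by omega)
  obtain ⟨y, rfl⟩ := (k.mem u).1 (h1 hu)
  refine ⟨_, k.m y, h4, fun a ha => ?_⟩
  obtain ⟨x, rfl⟩ := (k.mem a).1 (hX ha)
  exact (k.perp hA h4).2 (h3 y hu x (by simpa using ha))

theorem Ark.comm_sing {C : Cx z Q π R g} {A : Subgroup G} (hA : Ark C A) {n a b : G}
    (hn : n ∈ normalizer (A : Set G)) (hn2 : n * n = 1) (ha : a ∈ A) (hb : b ∈ A) :
    Sing z (n * a * n⁻¹ * a) ∨ Sing z (n * b * n⁻¹ * b) ∨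
      Sing z (n * (a * b) * n⁻¹ * (a * b)) := by
  obtain ⟨Φ, k⟩ := co hA
  obtain ⟨x, rfl⟩ := (k.mem a).1 ha
  obtain ⟨y, rfl⟩ := (k.mem b).1 hb
  choose ν hν using fun x => (k.mem _).1 (conj_mem_of_norm hn (k.m x))
  have e1 : ∀ x y, ν (x + y) = ν x + ν y := fun x y => k.inj (by rw [hν, k.add, k.add, hν, hν, conj_mul])
  have e2 : ∀ x, ν (ν x) = x := fun x => k.inj (by
    rw [hν, hν, show n * (n * Φ x * n⁻¹) * n⁻¹ = n * n * Φ x * (n * n)⁻¹ by group, hn2, one_mul, inv_one, mul_one])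
  have e3 : ∀ x, qq (ν x) = qq x := fun x => (by decide : ∀ a b : ZMod 2, (a = 0 ↔ b = 0) → a = b) _ _ (by
    rw [← k.sing, ← k.sing, hν, sing_conj])
  have e4 : pol (ν x) y = pol (ν y) x := by
    have := e3 (ν x + y)
    rw [e1, e2, qq_add, qq_add, e3, e3, add_right_inj] at this
    rw [← this, bb_comm]
  have e5 : ∀ x, qq (ν x + x) = pol (ν x) x := fun x => by rw [qq_add, e3, CharTwo.add_self_eq_zero, zero_add]
  rw [← k.add, ← hν, ← hν, ← hν, ← k.add, ← k.add, ← k.add, k.sing, k.sing, k.sing, e5, e5, e5, e1, bb_add, bb_add',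
    bb_add', e4, add_assoc, ← add_assoc (pol (ν y) x), CharTwo.add_self_eq_zero, zero_add]
  exact t3 _ _

end Cfsg.Agent.M2L
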