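import Cfsg.Agent.M2L.Defs

set_option autoImplicit false

namespace Cfsg.Agent.M2L

universe u

open Subgroup H15 H97 H38.MT

variable {G : Type u} [Group G] {z : G} {Q : Subgroup G}
  {π : centralizer ({z} : Set G) →* Spor.Co1} {R : G → leechLattice → Prop} {g : G} [Finite G]

namespace Gen

theorem inf_cent {V Y : Subgroup G} (hV : IsPGroup 2 V) (hR : IsPGroup 2 Y)
    (hn : Y ≤ normalizer (V : Set G)) (hne : V ≠ ⊥) :
    ∃ b ∈ V, b ≠ 1 ∧ ∀ y ∈ Y, y * b = b * y := by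
  haveI : Fact (Nat.Prime 2) := ⟨Nat.prime_two⟩
  let _ : MulAction Y V := MulAction.compHom V (inclusion hn)
  have hcard : 2 ∣ Nat.card V := by
    rcases hV.card_eq_or_dvd with h | h
    · exact absurd (card_eq_one.1 h) hne
    · exact h
  have h1 : (1 : V) ∈ MulAction.fixedPoints Y V := fun r => smul_one (inclusion hn r)
  obtain ⟨b, hb, hb1⟩ := hR.exists_fixed_point_of_prime_dvd_card_of_fixed_point V hcard h1
  refine ⟨b, b.2, fun e => hb1 (Subtype.ext e).symm, fun r hr => ?_⟩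
  have := congrArg Subtype.val (hb ⟨r, hr⟩)
  change r * b * r⁻¹ = b at this
  rw [← mul_inv_eq_iff_eq_mul, this]

theorem aux (C : Cx z Q π R g) {Ω : Set G} (h1 : ∀ a ∈ Ω, IsConj z a)
    (h2 : ∀ a ∈ Ω, ∀ b ∈ Ω, b ∈ Qx z Q a) : ∀ u ∈ closure Ω, u = 1 ∨
      (IsConj z u ∧ ∀ y, (∀ a ∈ Ω, y ∈ Qx z Q a) → y ∈ Qx z Q u) := by
  have h3 : ∀ a ∈ Ω, closure Ω ≤ Qx z Q a := fun a ha => (closure_le _).2 (h2 a ha)
  intro u hu
  induction hu using closure_induction with
  | mem x hx => exact Or.inr ⟨h1 x hx, fun y hy => hy x hx⟩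
  | one => exact Or.inl rfl
  | mul x y hx hy ihx ihy =>
    rcases ihx with rfl | ⟨a1, a2⟩
    · rw [one_mul]; exact ihy
    rcases ihy with rfl | ⟨b1, b2⟩
    · rw [mul_one]; exact Or.inr ⟨a1, a2⟩
    by_cases e : x * y = 1
    · exact Or.inl e
    have hyx : y ∈ Qx z Q x := a2 y fun a ha => h3 a ha hy
    exact Or.inr ⟨mul_sing C a1 b1 hyx e, fun w hw => third C a1 b1 hyx e (a2 w hw) (b2 w hw)⟩
  | inv x hx ih =>
    rcases ih with rfl | ⟨a1, a2⟩
    · exact Or.inl inv_one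
    · rw [inv_eq_of_mul_eq_one_right (lx_Qx C a1).sq]; exact Or.inr ⟨a1, a2⟩

omit [Finite G] in
theorem card_cent (C : Cx z Q π R g) :
    Nat.card (centralizer ({z} : Set G)) = 2 ^ 25 * 4157776806543360000 := by
  have hk : π.ker = Q.subgroupOf _ := by
    ext h; rw [MonoidHom.mem_ker, C.M.ker, mem_subgroupOf]
  have hQ : Q ≤ centralizer ({z} : Set G) := fun q hq =>
    mem_centralizer_singleton_iff.2 (C.M.lx.cen q hq)
  have h1 := π.ker.card_mul_index
  rw [index_ker, MonoidHom.range_eq_top.2 C.M.surj, card_top, hk,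
    Nat.card_congr (subgroupOfEquivOfLe hQ).toEquiv, C.M.card,
    show Nat.card Spor.Co1 = 4157776806543360000 from card_Co1] at h1
  exact h1.symm

theorem no64 (C : Cx z Q π R g) {V : Subgroup G} (h : SingU z Q V) (hc : Nat.card V = 64)
    (hz : z ∈ V) : False := by
  have hE := h.el C
  have hz1 : z ≠ 1 := C.M.lx.ne
  have hn : ((V : Set G) \ {1, z}).ncard = 62 := by
    rw [Set.ncard_diff (by rintro _ (rfl | rfl); exacts [one_mem V, hz]), Set.ncard_pair hz1.symm,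
      ← Nat.card_coe_set_eq]
    exact congrArg (· - 2) hc
  obtain ⟨b, hbV, hb⟩ : ((V : Set G) \ {1, z}).Nonempty := Set.nonempty_of_ncard_ne_zero (by omega)
  have hb1 : b ≠ 1 := fun e => hb (Or.inl e)
  have hbz : b ≠ z := fun e => hb (Or.inr e)
  have hbV : b ∈ V := hbV
  set K : Subgroup G := normalizer (V : Set G) ⊓ centralizer ({z} : Set G) with hK
  have ho : {a | ∃ k ∈ K, k * b * k⁻¹ = a} = (V : Set G) \ {1, z} := by
    ext a
    constructor
    · rintro ⟨k, ⟨k1, k2⟩, rfl⟩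
      refine ⟨conj_mem_of_norm k1 hbV, ?_⟩
      rintro (e | e)
      · exact hb1 (by simpa using e)
      · refine hbz ?_
        have k3 := mem_centralizer_singleton_iff.1 k2
        have e : k * b * k⁻¹ = z := e
        calc b = k⁻¹ * (k * b * k⁻¹) * k := by group
          _ = z := by rw [e, mul_assoc, ← k3]; group
    · rintro ⟨haV, ha⟩
      have ha1 : a ≠ 1 := fun e => ha (Or.inl e)
      have haz : a ≠ z := fun e => ha (Or.inr e)
      have haV : a ∈ V := haV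
      by_cases e : a = b
      · exact ⟨1, one_mem _, by simp [e]⟩
      have huV : a * b ∈ V := mul_mem haV hbV
      have hu1 : a * b ≠ 1 := fun e' => e (by
        rw [← hE.inv hbV]; exact eq_inv_of_mul_eq_one_left e')
      obtain ⟨hu, hV⟩ := h _ huV hu1
      have L := lx_Qx C hu
      have hN : ∀ q ∈ Qx z Q (a * b), q ∈ normalizer (V : Set G) := fun q hq =>
        mem_norm_of fun v hv => by
          rcases L.comm q hq v (hV hv) with e' | e'
          · rw [e']; exact hv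
          · rw [e']; exact mul_mem huV hv
      have hab : a * b * b = a := by rw [mul_assoc, hE b hbV, mul_one]
      have hbu : b ≠ a * b := fun e' => ha1 (by simpa using e'.symm)
      by_cases e2 : a * b = z
      · obtain ⟨q, hq, hq'⟩ := L.exists_conj (hV hbV) hb1 hbu
        refine ⟨q, ⟨hN q hq, mem_centralizer_singleton_iff.2 ?_⟩, hq'.trans hab⟩
        rw [← e2]; exact L.cen q hq
      · obtain ⟨q, hq, hq1, hq'⟩ := lx_sep L (hV hz) (hV hbV) hb1 hbu hbz fun e' => haz (by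
          rw [mul_assoc, hE.comm hbV hz, ← mul_assoc] at e'
          have : a * z = 1 := by simpa using e'.symm
          rw [← hE.inv hz]; exact eq_inv_of_mul_eq_one_left this)
        exact ⟨q, ⟨hN q hq, mem_centralizer_singleton_iff.2 hq1⟩, hq'.trans hab⟩
  have h1 := H38.MT.card_conj K b
  rw [ho, hn] at h1
  have h2 : Nat.card K ∣ Nat.card (centralizer ({z} : Set G)) := card_dvd_of_le inf_le_right
  rw [card_cent C, h1] at h2
  exact absurd ((Dvd.intro _ rfl : 62 ∣ 62 * _).trans h2) (by norm_num)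

end Gen

theorem gen_sing (C : Cx z Q π R g) {Ω : Set G} (h1 : ∀ a ∈ Ω, IsConj z a)
    (h2 : ∀ a ∈ Ω, ∀ b ∈ Ω, b ∈ Qx z Q a) : SingU z Q (closure Ω) ∧
      ∀ u ∈ closure Ω, u ≠ 1 → ∀ y, (∀ a ∈ Ω, y ∈ Qx z Q a) → y ∈ Qx z Q u := by
  have h3 : ∀ a ∈ Ω, closure Ω ≤ Qx z Q a := fun a ha => (closure_le _).2 (h2 a ha)
  refine ⟨fun u hu hu1 => ?_, fun u hu hu1 => ((Gen.aux C h1 h2 u hu).resolve_left hu1).2⟩
  obtain ⟨a1, a2⟩ := (Gen.aux C h1 h2 u hu).resolve_left hu1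
  exact ⟨a1, fun y hy => a2 y fun a ha => h3 a ha hy⟩

theorem t5 (C : Cx z Q π R g) {Y : Subgroup G} (hY : IsPGroup 2 Y) {u : G} (hu : IsConj z u)
    (h : ∀ y ∈ Y, y * u * y⁻¹ ∈ Qx z Q u) : ∃ u', IsConj z u' ∧ (∀ y ∈ Y, y * u' = u' * y) ∧
      ∀ a, (∀ y ∈ Y, y * a = a * y) → a ∈ Qx z Q u → a ∈ Qx z Q u' := by
  obtain ⟨hS, hA⟩ := gen_sing C (Ω := {a | ∃ y ∈ Y, y * u * y⁻¹ = a})
    (by rintro _ ⟨y, -, rfl⟩; exact (isConj_cj y).2 hu) (by
      rintro _ ⟨y, hy, rfl⟩ _ ⟨y', hy', rfl⟩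
      have := (mem_Qx_cj y).2 (h _ (mul_mem (inv_mem hy) hy'))
      rwa [show y * (y⁻¹ * y' * u * (y⁻¹ * y')⁻¹) * y⁻¹ = y' * u * y'⁻¹ by group] at this)
  have hn : Y ≤ normalizer ((closure {a | ∃ y ∈ Y, y * u * y⁻¹ = a} : Subgroup G) : Set G) := by
    intro y hy
    refine mem_norm_of fun a ha => ?_
    induction ha using closure_induction with
    | mem x hx =>
      obtain ⟨y', hy', rfl⟩ := hx
      exact subset_closure ⟨y * y', mul_mem hy hy', by group⟩
    | one => simp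
    | mul a b _ _ iha ihb =>
      rw [show y * (a * b) * y⁻¹ = y * a * y⁻¹ * (y * b * y⁻¹) by group]; exact mul_mem iha ihb
    | inv a _ iha =>
      rw [show y * a⁻¹ * y⁻¹ = (y * a * y⁻¹)⁻¹ by group]; exact inv_mem iha
  have hne : (closure {a | ∃ y ∈ Y, y * u * y⁻¹ = a} : Subgroup G) ≠ ⊥ := fun e => by
    have : u ∈ (closure {a | ∃ y ∈ Y, y * u * y⁻¹ = a} : Subgroup G) :=
      subset_closure ⟨1, one_mem _, by simp⟩
    rw [e] at this
    exact (lx_Qx C hu).ne (mem_bot.1 this)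
  obtain ⟨b, hb, hb1, hb2⟩ := Gen.inf_cent (hS.el C).isPGroup hY hn hne
  refine ⟨b, (hS b hb hb1).1, hb2, fun a ha ha' => hA b hb hb1 a ?_⟩
  rintro _ ⟨y, hy, rfl⟩
  have := (mem_Qx_cj y).2 ha'
  rwa [ha y hy, mul_inv_cancel_right] at this

theorem SingU.card_le (C : Cx z Q π R g) {U : Subgroup G} (h : SingU z Q U) :
    Nat.card U ≤ 32 := by
  haveI : Fact (Nat.Prime 2) := ⟨Nat.prime_two⟩
  by_contra hlt
  obtain ⟨n, hn⟩ := (h.el C).isPGroup.exists_card_eq
  have h6 : 6 ≤ n := by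
    by_contra h6
    have : 2 ^ n ≤ 2 ^ 5 := Nat.pow_le_pow_right (by norm_num) (by omega)
    omega
  obtain ⟨K, hK⟩ := Sylow.exists_subgroup_card_pow_prime (G := U) 2 (n := 6)
    (hn ▸ pow_dvd_pow 2 h6)
  have hV : SingU z Q (K.map U.subtype) := h.mono (map_subtype_le _)
  have hc : Nat.card (K.map U.subtype) = 64 := by
    rw [card_map_of_injective U.subtype_injective, hK]; norm_num
  have hne : K.map U.subtype ≠ ⊥ := fun e => by rw [e, card_bot] at hc; omega
  obtain ⟨⟨x, hx⟩, hx1⟩ := ne_bot_iff_exists_ne_one.1 hne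
  have hx1 : x ≠ 1 := fun e => hx1 (Subtype.ext e)
  obtain ⟨c, hc'⟩ := isConj_iff.1 (hV x hx hx1).1.symm
  exact Gen.no64 C (hV.cj c) (by rw [card_cjs, hc]) (hc' ▸ conj_mem_cjs.2 hx)

theorem SingU.sup (C : Cx z Q π R g) {U : Subgroup G} (h : SingU z Q U) {c : G} (hc : IsConj z c)
    (h2 : ∀ u ∈ U, u ≠ 1 → c ∈ Qx z Q u) (h3 : c ∉ U) : ∃ V : Subgroup G, SingU z Q V ∧
      Nat.card V = 2 * Nat.card U ∧ ∀ a, a ∈ V ↔ a ∈ U ∨ a * c ∈ U := by
  have L := lx_Qx C hc
  have hU : U ≤ Qx z Q c := fun u hu => by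
    by_cases e : u = 1
    · rw [e]; exact one_mem _
    · exact perp_symm C (h u hu e).1 hc (h2 u hu e)
  have hcc : ∀ a : G, a * c * c = a := fun a => by rw [mul_assoc, L.sq, mul_one]
  have hcm : ∀ a, a * c ∈ U → a * c = c * a := fun a ha => by
    have := L.cen _ (hU ha)
    rw [hcc] at this
    calc a * c = c * (a * c) * c := by rw [← this]
      _ = c * a := by rw [mul_assoc, hcc]
  let V : Subgroup G :=
    { carrier := {a | a ∈ U ∨ a * c ∈ U}
      one_mem' := Or.inl (one_mem U)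
      mul_mem' := by
        rintro a b (ha | ha) (hb | hb)
        · exact Or.inl (mul_mem ha hb)
        · exact Or.inr (by rw [mul_assoc]; exact mul_mem ha hb)
        · refine Or.inr ?_
          rw [mul_assoc, L.cen b (hU hb), ← mul_assoc]; exact mul_mem ha hb
        · refine Or.inl ?_
          have := mul_mem ha hb
          rwa [hcm b hb, ← mul_assoc, hcc] at this
      inv_mem' := by
        rintro a (ha | ha)
        · exact Or.inl (inv_mem ha)
        · refine Or.inr ?_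
          have := inv_mem ha
          rwa [hcm a ha, mul_inv_rev, inv_eq_of_mul_eq_one_right L.sq] at this }
  have hV : ∀ a, a ∈ V ↔ a ∈ U ∨ a * c ∈ U := fun a => Iff.rfl
  have hcV : c ∈ V := Or.inr (by rw [L.sq]; exact one_mem U)
  have hUV : U ≤ V := fun a ha => Or.inl ha
  have key : ∀ X : Subgroup G, U ≤ X → c ∈ X → V ≤ X := fun X a1 a2 a ha => by
    rcases ha with ha | ha
    · exact a1 ha
    · exact (X.mul_mem_cancel_right a2).1 (a1 ha)
  refine ⟨V, fun v hv hv1 => ?_, ?_, hV⟩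
  · rcases hv with hv | hv
    · exact ⟨(h v hv hv1).1, key _ (h v hv hv1).2 (h2 v hv hv1)⟩
    · by_cases e : v * c = 1
      · have : v = c := by rw [← hcc v, e, one_mul]
        rw [this]; exact ⟨hc, key _ hU L.mem⟩
      · obtain ⟨a1, a2⟩ := h _ hv e
        have a3 := h2 _ hv e
        have a4 : v * c * c ≠ 1 := by rwa [hcc]
        have b1 := mul_sing C a1 hc a3 a4
        have b2 : V ≤ Qx z Q (v * c * c) := fun a ha =>
          third C a1 hc a3 a4 (key _ a2 a3 ha) (key _ hU L.mem ha)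
        rw [hcc] at b1 b2
        exact ⟨b1, b2⟩
  · have : (U.subgroupOf V).index = 2 := index_eq_two_iff.2 ⟨⟨c, hcV⟩, fun b => by
      simp only [mem_subgroupOf, coe_mul]
      by_cases hb : (b : G) ∈ U
      · exact Or.inr ⟨hb, fun h' => h3 ((U.mul_mem_cancel_left hb).1 h')⟩
      · exact Or.inl ⟨((hV _).1 b.2).resolve_left hb, hb⟩⟩
    have h4 := (U.subgroupOf V).card_mul_index
    rw [this, Nat.card_congr (subgroupOfEquivOfLe hUV).toEquiv] at h4
    omega

theorem exists_cent (C : Cx z Q π R g) {P : Subgroup G} (hP : IsPGroup 2 P) :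
    ∃ x, IsConj z x ∧ ∀ a ∈ P, a * x = x * a := by
  haveI : Fact (Nat.Prime 2) := ⟨Nat.prime_two⟩
  have p1 : IsPGroup 2 Q := IsPGroup.of_card (n := 25) C.M.card
  obtain ⟨S, hS⟩ := p1.exists_le_sylow
  obtain ⟨S', hS'⟩ := hP.exists_le_sylow
  obtain ⟨c, rfl⟩ := MulAction.exists_smul_eq G S' S
  have hz : z ∈ ((c • S' : Sylow 2 G) : Subgroup G) := hS C.M.lx.mem
  haveI : Nontrivial ((c • S' : Sylow 2 G) : Subgroup G) :=
    ⟨⟨_, hz⟩, 1, fun h => C.M.lx.ne (congrArg Subtype.val h)⟩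
  haveI := (c • S' : Sylow 2 G).2.center_nontrivial
  obtain ⟨y, hy⟩ := exists_ne (1 : center ((c • S' : Sylow 2 G) : Subgroup G))
  have hc : ∀ a : ((c • S' : Sylow 2 G) : Subgroup G), (a : G) * (y.1 : G) = y.1 * a :=
    fun a => congrArg Subtype.val (mem_center_iff.1 y.2 a)
  have hyz : (y.1 : G) = z := (C.M.lx.large _ fun a ha => (hc ⟨a, hS ha⟩).symm).resolve_left
    fun h => hy (Subtype.ext (Subtype.ext h))
  refine ⟨c⁻¹ * z * c⁻¹⁻¹, (isConj_cj _).2 (IsConj.refl z), fun a ha => ?_⟩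
  have := hc ⟨c * a * c⁻¹, smul_mem_pointwise_smul _ (MulAut.conj c) _ (hS' ha)⟩
  rw [hyz] at this
  calc a * (c⁻¹ * z * c⁻¹⁻¹) = c⁻¹ * (c * a * c⁻¹ * z) * c := by group
    _ = c⁻¹ * (z * (c * a * c⁻¹)) * c := by rw [this]
    _ = _ := by group

end Cfsg.Agent.M2L
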