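import Cfsg.Agent.M2L.ArkB
import Cfsg.Agent.M2L.Form
import Cfsg.Agent.M2L.Gen

set_option autoImplicit false

namespace Cfsg.Agent.M2L

universe u

open Subgroup H15 H97 H38.MT

variable {G : Type u} [Group G] {z : G} {Q : Subgroup G}
  {π : centralizer ({z} : Set G) →* Spor.Co1} {R : G → leechLattice → Prop} {g : G} [Finite G]

namespace OctC

theorem s_mem_EE (C : Cx z Q π R g) {e : Finset GolayPt} (he : IsCw e) (hc : e.card = 8) :
    g * z * g⁻¹ ∈ EE C.M C.h8 he hc := by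
  obtain ⟨i, hi⟩ : e.Nonempty := Finset.card_pos.1 (by omega)
  refine Z0_le_EE C.M C.h8 ⟨e8 i, fun j hj => ?_, ?_⟩
  · rw [e8_val, Pi.single_eq_of_ne (fun k : j = i => hj (k ▸ hi))]
  · rw [e8_congr none i]
    exact C.M.add_two C.h8 _

theorem norm16 {v u : leechLattice} {d : Finset GolayPt} (hc : d.card = 12)
    (hu : ∀ i, (u : Vec) i = if i ∈ d then 0 else (v : Vec) i) (h2 : ∀ i ∈ d, (v : Vec) i % 4 = 2)
    (h0 : ∀ i ∉ d, (v : Vec) i % 4 = 0) : ¬ (32 : ℤ) ∣ sqNorm (v : Vec) := by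
  have e := (even_of (v := u) (i := none) (by
    rw [hu]
    split_ifs with h
    · rfl
    · have := h0 _ h; omega)).2
  have k := dvd_norm_sub v (fun i => (if i ∈ d then 4 else 0) + 4 * (u : Vec) i) fun i => by
    rw [hu]
    split_ifs with h
    · simpa using sq_two (h2 i h)
    · simpa using sq_four (h0 i h)
  rw [Finset.sum_add_distrib, ← Finset.mul_sum, Finset.sum_ite_mem, Finset.univ_inter, Finset.sum_const,
    hc] at k
  simp only [nsmul_eq_mul, Nat.cast_ofNat] at k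
  omega

theorem la0 (C : Cx z Q π R g) {w y : G} (hw : w * z = z * w) (hq : w ∉ Q) (hno : ¬ ∃ A, OctA C z w A)
    (h3 : w ∈ cjs g Q) (hy : y ∈ Q) (hy2 : y * y = 1) (h : y * w * y⁻¹ = w ∨ y * w * y⁻¹ = z * w) :
    y ∈ cjs g Q := by
  obtain ⟨d, hd, ho⟩ := exists_sign C.M C.h8 h3 hw
  have k0 : ∀ (d : Finset GolayPt) (hd : IsCw d), Ov π w (signC d hd) → d.card ≠ 0 := fun d hd ho e => by
    have := ho.congr (Finset.card_eq_zero.1 e) isCw_empty
    rw [signC_empty] at this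
    exact hq (this.one C.M)
  have cc := card_compl' d
  rcases hd.card_cases with e | e | e | e | e
  · exact (k0 d hd ho e).elim
  · exact (hno ⟨_, octA_of_ov C hd e ho⟩).elim
  · obtain ⟨v, hv⟩ := C.M.ex y hy
    obtain ⟨u, hu⟩ := spl_of_conj C.M ho hv (h.imp (fun k => by
        calc w * y * w⁻¹ = y * w * y⁻¹ * y * w⁻¹ := by rw [k]
          _ = y := by group) fun k => by
        calc w * y * w⁻¹ = z * (z * w) * y * w⁻¹ := by rw [C.M.zz]
          _ = z * y := by rw [← k]; group)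
    have hu' : ∀ i, ((v - u : leechLattice) : Vec) i = if i ∈ d then 0 else (v : Vec) i := fun i => by
      rw [AddSubgroup.coe_sub, Pi.sub_apply, hu]
      split_ifs <;> simp
    obtain ⟨a, b, hab⟩ := cst_dodecad hd e (w := v - u) (v := v) fun i => by rw [hu', sub_self]; rfl
    have hn := (C.M.sq_iff hv).1 hy2
    by_cases p : (a - b) % 2 = 0
    · refine mem_of_const C.M C.h8 hv (b := a) fun i => ?_
      have := hab i
      split_ifs at this <;> omega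
    exfalso
    by_cases pa : a % 2 = 0
    · refine norm16 (u := u) (d := dᶜ) (by omega) (fun i => ?_) (fun i hi => ?_) (fun i hi => ?_) hn
      · rw [hu]; simp
      · have := hab i
        rw [if_neg (Finset.mem_compl.1 hi)] at this
        omega
      · have := hab i
        rw [if_pos (by simpa using hi)] at this
        omega
    · refine norm16 e hu' (fun i hi => ?_) (fun i hi => ?_) hn
      · have := hab i
        rw [if_pos hi] at this
        omega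
      · have := hab i
        rw [if_neg hi] at this
        omega
  · exact (hno ⟨_, octA_of_ov C hd.compl (by omega) ho.compl⟩).elim
  · exact (k0 _ _ ho.compl (by omega)).elim

end OctC

theorem OctA.mem_ark {C : Cx z Q π R g} {x w : G} {A : Subgroup G} (h : OctA C x w A) {f : G}
    (hf : IsConj z f) (h1 : f ∈ Qx z Q x) (h2 : f ≠ x) (h3 : w ∈ Qx z Q f) : f ∈ A := by
  obtain ⟨c, e1, e2⟩ := pair_nf C h.sx hf h1 h2
  have h' := h.cj c
  have h4 := (mem_Qx_cj c).2 h3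
  rw [e1] at h'
  rw [e2, Qx_eq C] at h4
  obtain ⟨d, hd, ho⟩ := exists_sign C.M C.h8 h4 h'.comm
  obtain ⟨e, he, hc, -, eA⟩ := h'.sign ho
  rw [← conj_mem_cjs (g := c), e2, eA]
  exact OctC.s_mem_EE C he hc

theorem OctA.exists_f {C : Cx z Q π R g} {x w : G} {A : Subgroup G} (h : OctA C x w A)
    (hw : w * w = 1) : ∃ f, IsConj z f ∧ f ∈ A ∧ f ∈ Qx z Q x ∧ f ≠ x ∧ w ∈ Qx z Q f := by
  obtain ⟨c, e1, -, ho⟩ := h.nf
  obtain ⟨c', hc', hm⟩ := good_octad C.M C.h8 OO_card ho (by rw [conj_mul, hw, mul_one, mul_inv_cancel])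
  have e2 : c' * c * x * (c' * c)⁻¹ = z := by
    calc c' * c * x * (c' * c)⁻¹ = c' * (c * x * c⁻¹) * c'⁻¹ := by group
      _ = z := by rw [e1, mem_centralizer_singleton_iff.1 hc', mul_inv_cancel_right]
  obtain ⟨f, e3⟩ : ∃ f, c' * c * f * (c' * c)⁻¹ = g * z * g⁻¹ :=
    ⟨(c' * c)⁻¹ * (g * z * g⁻¹) * (c' * c), by group⟩
  have k1 : IsConj z f := (isConj_cj (c' * c)).1 (by rw [e3]; exact s_conj)
  have k2 : f ∈ Qx z Q x := (mem_Qx_cj (c' * c)).1 (by rw [e2, e3, Qx_z C]; exact s_mem C)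
  have k3 : f ≠ x := fun e => s_ne' C (by rw [← e3, e, e2])
  have k4 : w ∈ Qx z Q f := (mem_Qx_cj (c' * c)).1 (by
    rw [e3, Qx_eq C, show c' * c * w * (c' * c)⁻¹ = c' * (c * w * c⁻¹) * c'⁻¹ by group]
    exact hm)
  exact ⟨f, k1, h.mem_ark k1 k2 k3 k4, k2, k3, k4⟩

theorem OctA.frame {C : Cx z Q π R g} {w : G} {A : Subgroup G} (h : OctA C z w A)
    (hs : g * z * g⁻¹ ∈ A) : ∃ (e : Finset GolayPt) (he : IsCw e) (hc : e.card = 8),
      A = EE C.M C.h8 he hc ∧ Ov π w (signC e he) := by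
  obtain ⟨r, hr, r1, r2⟩ := h.ark.exists_r h.sx h.mem s_conj hs (s_ne' C)
  rw [Qx_eq C] at r2
  obtain ⟨d, hd, ho⟩ := exists_sign C.M C.h8 r2 (h.ark.el.comm hr h.mem)
  obtain ⟨e, he, hc, -, eA⟩ := (octA_self h.ark h.sx h.mem hr r1).sign ho
  subst eA
  exact ⟨e, he, hc, rfl, h.ov⟩

theorem la (C : Cx z Q π R g) {x w f y : G} (hx : IsConj z x) (hw : w * x = x * w)
    (hq : w ∉ Qx z Q x) (hno : ¬ ∃ A, OctA C x w A) (hf : IsConj z f) (h1 : f ∈ Qx z Q x)
    (h2 : f ≠ x) (h3 : w ∈ Qx z Q f) (hy : y ∈ Qx z Q x) (hy2 : y * y = 1)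
    (h : y * w * y⁻¹ = w ∨ y * w * y⁻¹ = x * w) : y ∈ Qx z Q f := by
  obtain ⟨c, e1, e2⟩ := pair_nf C hx hf h1 h2
  have h4 := (mem_Qx_cj c).2 h3
  have h5 := (mem_Qx_cj c).2 hy
  rw [e2, Qx_eq C] at h4
  rw [e1, Qx_z C] at h5
  rw [← mem_Qx_cj c, e2, Qx_eq C]
  have k : c * y * c⁻¹ * (c * w * c⁻¹) * (c * y * c⁻¹)⁻¹ = c * (y * w * y⁻¹) * c⁻¹ := by group
  refine OctC.la0 C (w := c * w * c⁻¹) ?_ (fun m => hq ?_) (fun ⟨A, hA⟩ => hno ⟨cjs c⁻¹ A, ?_⟩) h4 h5
    (by rw [conj_mul, hy2, mul_one, mul_inv_cancel]) ?_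
  · rw [← e1, conj_mul, conj_mul, hw]
  · rw [← mem_Qx_cj c, e1, Qx_z C]; exact m
  · have := hA.cj c⁻¹
    rwa [show c⁻¹ * z * c⁻¹⁻¹ = x by rw [← e1]; group,
      show c⁻¹ * (c * w * c⁻¹) * c⁻¹⁻¹ = w by group] at this
  · rw [k]
    rcases h with h | h <;> rw [h]
    · exact Or.inl rfl
    · exact Or.inr (by rw [← e1, conj_mul])

theorem Ark.singU {C : Cx z Q π R g} {A X : Subgroup G} (hA : Ark C A) (hX : X ≤ A)
    (h : ∀ a ∈ X, Sing z a) : SingU z Q X := fun u hu h1 =>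
  have hc := (h u hu).resolve_left h1
  ⟨hc, fun a ha => (hA.mem_Qx_iff hc (hX hu) (hX ha)).2 (iff_of_true (h _ (mul_mem ha hu)) (h a ha))⟩

theorem Ark.cent_of_two {C : Cx z Q π R g} {A : Subgroup G} (hA : Ark C A) {x f f' a : G}
    (hx : IsConj z x) (hf : IsConj z f) (hf' : IsConj z f') (h1 : x ∈ A) (h2 : f ∈ A) (h3 : f' ∈ A)
    (h4 : f ≠ x) (h5 : f' ≠ x) (h6 : f ≠ f') (h7 : f ≠ x * f') (ha : a ∈ Qx z Q x)
    (hb : a ∈ Qx z Q f) (hc : a ∈ Qx z Q f') : ∀ b ∈ A, a * b = b * a := by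
  obtain ⟨r, hr, r1, r2⟩ := hA.exists_r hx h1 hf h2 h4
  obtain ⟨r', hr', r1', r2'⟩ := hA.exists_r hx h1 hf' h3 h5
  rcases (lx_Qx C hf).comm a hb r r2 with e | e
  · exact (octA_self hA hx h1 hr r1).cent ha (Or.inl e)
  rcases (lx_Qx C hf').comm a hc r' r2' with e' | e'
  · exact (octA_self hA hx h1 hr' r1').cent ha (Or.inl e')
  exfalso
  have hm := ((hA.h2 hx h1 r hr r' hr').resolve_left r1).resolve_left r1'
  have k : a * (r * r') * a⁻¹ = f * f' * (r * r') := by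
    rw [← conj_mul, e, e', mul_assoc, ← mul_assoc r, hA.el.comm hr h3]; group
  rcases (lx_Qx C hx).comm a ha _ hm with t | t <;> rw [k] at t
  · exact h6 ((eq_inv_of_mul_eq_one_left (mul_eq_right.1 t)).trans (hA.el.inv h3))
  · exact h7 (by rw [← mul_right_cancel t, mul_assoc, hA.el f' h3, mul_one])

theorem spl_of_cent_EE (C : Cx z Q π R g) {e : Finset GolayPt} (he : IsCw e) (hc : e.card = 8)
    {a : G} {v : leechLattice} (ha : R a v) (h : ∀ b ∈ EE C.M C.h8 he hc, a * b = b * a) :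
    Spl e v := spl_of_cent C.M he hc ha fun b hb => h b (Z0_le_EE C.M C.h8 hb)

end Cfsg.Agent.M2L
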