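import Cfsg.Agent.M2L.Defs

set_option autoImplicit false
set_option linter.unusedSectionVars false
set_option linter.unusedVariables false

namespace Cfsg.Agent.M2L

universe u

open Subgroup H15 H97 H38.MT

namespace RelA

open Cfsg.Agent.H14

def LJ : List ℕ := [0, 3704512, 2890176, 1351424, 16777215, 13072703, 13887039, 15425791]

def LA : List ℕ :=
  [0, 168928, 314056, 416040, 580704, 675712, 792232, 951624, 1070536, 1230376, 1351424, 1445088, 1608104,
  1710664, 1852256, 2019456, 2101096, 2268296, 2409888, 2512448, 2675464, 2769128, 2890176, 3050016, 3168928,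
  3328320, 3444840, 3539848, 3704512, 3806496, 3951624, 4120552, 12656663, 12825591, 12970719, 13072703,
  13237367, 13332375, 13448895, 13608287, 13727199, 13887039, 14008087, 14101751, 14264767, 14367327, 14508919,
  14676119, 14757759, 14924959, 15066551, 15169111, 15332127, 15425791, 15546839, 15706679, 15825591, 15984983,
  16101503, 16196511, 16361175, 16463159, 16608287, 16777215]

def LB : List ℕ :=
  [0, 337856, 628112, 832080, 1161408, 1351424, 1584464, 1903248, 2141072, 2460752, 2702848, 2890176, 3216208,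
  3421328, 3704512, 4038912, 4202192, 4536592, 4819776, 5024896, 5350928, 5538256, 5780352, 6100032, 6337856,
  6656640, 6889680, 7079696, 7409024, 7612992, 7903248, 8241104, 8536111, 8873967, 9164223, 9368191, 9697519,
  9887535, 10120575, 10439359, 10677183, 10996863, 11238959, 11426287, 11752319, 11957439, 12240623, 12575023,
  12738303, 13072703, 13355887, 13561007, 13887039, 14074367, 14316463, 14636143, 14873967, 15192751, 15425791,
  15615807, 15945135, 16149103, 16439359, 16777215]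

noncomputable def cw (m : ℕ) : Bool := force m fun m => Nat.beq (enc m) m

noncomputable def mem (L : List ℕ) (m : ℕ) : Bool := force m fun m => anyL L fun j => Nat.beq j m

theorem mem_iff {L : List ℕ} {m : ℕ} : mem L m = true ↔ m ∈ L := by simp [mem, anyL_iff]

theorem cw_of {m : ℕ} (hm : m < 2 ^ 24) (h : IsCw (bits m)) : cw m = true := by
  simpa [cw] using (bits_mem_iff_enc hm).1 h

theorem c1 : (all2 64 64 fun x => force (enc x) fun m => bimp (cw (m &&& 12656663)) (mem LA m) &&
    bimp (cw (m &&& 8536111)) (mem LB m)) = true := by decide +kernel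

theorem c2 : (allL LA fun a => bimp (cw (a &&& 8536111)) (mem LJ a) && allL LB fun b =>
    bimp (cw ((a ^^^ b) &&& 4415544)) (mem LJ a && mem LJ b || mem LJ (a ^^^ 12656663) && mem LJ (b ^^^ 8536111))) = true := by
  decide +kernel

theorem tA : tb {0, 1} = bits 12656663 := by decide +kernel
theorem tB : tb {0, 2} = bits 8536111 := by decide +kernel
theorem tC : tb {1, 2} = bits 4415544 := by decide +kernel

theorem jp_of {m : ℕ} (h : mem LJ m = true) : JP (bits m) := by
  have k : ∀ m ∈ LJ, ∃ S ∈ ([∅, {3, 4}, {3, 5}, {4, 5}] : List (Finset ℕ)), bits m = tb S ∨ bits m = (tb S)ᶜ := by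
    decide +kernel
  obtain ⟨S, hS, e⟩ := k m (mem_iff.1 h)
  exact ⟨S, by simpa using hS, e⟩

theorem and_lt (m : ℕ) {n : ℕ} (h : n < 2 ^ 24) : m &&& n < 2 ^ 24 := lt_of_le_of_lt Nat.and_le_right h

theorem exA {t : Finset GolayPt} (ht : IsCw t) (h : IsCw (t ∩ tb {0, 1})) : ∃ a ∈ LA, t = bits a := by
  obtain ⟨x, hx, rfl⟩ := mem_cSets_iff.1 ht
  have := all2_iff.1 c1 x hx
  rw [force_eq, Bool.and_eq_true, bimp_iff, bimp_iff] at this
  rw [tA, ← bits_and] at h
  exact ⟨_, mem_iff.1 (this.1 (cw_of (and_lt _ (by norm_num)) h)), rfl⟩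

theorem exB {t : Finset GolayPt} (ht : IsCw t) (h : IsCw (t ∩ tb {0, 2})) : ∃ a ∈ LB, t = bits a := by
  obtain ⟨x, hx, rfl⟩ := mem_cSets_iff.1 ht
  have := all2_iff.1 c1 x hx
  rw [force_eq, Bool.and_eq_true, bimp_iff, bimp_iff] at this
  rw [tB, ← bits_and] at h
  exact ⟨_, mem_iff.1 (this.2 (cw_of (and_lt _ (by norm_num)) h)), rfl⟩

theorem even_card {f : GolayPt → ℤ} {S : Finset GolayPt} {n : ℤ} (hn : n ≠ 0)
    (h : ∀ i, n * 2 ∣ f i - if i ∈ S then n else 0) (hs : n * 2 ∣ ∑ i, f i) : Even S.card := by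
  have h1 := Finset.dvd_sum fun i (_ : i ∈ Finset.univ) => h i
  rw [Finset.sum_sub_distrib, Finset.sum_ite_mem, Finset.univ_inter, Finset.sum_const, nsmul_eq_mul,
    dvd_sub_right hs, mul_comm (S.card : ℤ), mul_dvd_mul_iff_left hn] at h1
  exact even_iff_two_dvd.2 (by exact_mod_cast h1)

end RelA

open RelA

variable {G : Type u} [Group G] {z : G} {Q : Subgroup G}
  {π : centralizer ({z} : Set G) →* Spor.Co1} {R : G → leechLattice → Prop} {g : G} [Finite G]

theorem jp_one {t : Finset GolayPt} (ht : IsCw t) (h1 : IsCw (t ∩ tb {0, 1}))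
    (h2 : IsCw (t ∩ tb {0, 2})) : JP t := by
  obtain ⟨a, ha, rfl⟩ := exA ht h1
  have := H14.allL_iff.1 c2 a ha
  rw [Bool.and_eq_true, H14.bimp_iff] at this
  rw [tB, ← H14.bits_and] at h2
  exact jp_of (this.1 (cw_of (and_lt _ (by norm_num)) h2))

theorem jp_two {t t' : Finset GolayPt} (ht : IsCw t) (ht' : IsCw t') (h1 : IsCw (t ∩ tb {0, 1}))
    (h2 : IsCw (t' ∩ tb {0, 2})) (h3 : IsCw (symmDiff t t' ∩ tb {1, 2})) :
    (JP t ∧ JP t') ∨ (JP (symmDiff t (tb {0, 1})) ∧ JP (symmDiff t' (tb {0, 2}))) := by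
  obtain ⟨a, ha, rfl⟩ := exA ht h1
  obtain ⟨b, hb, rfl⟩ := exB ht' h2
  have := H14.allL_iff.1 c2 a ha
  rw [Bool.and_eq_true] at this
  rw [tC, ← H14.bits_xor, ← H14.bits_and] at h3
  have k := H14.bimp_iff.1 (H14.allL_iff.1 this.2 b hb) (cw_of (and_lt _ (by norm_num)) h3)
  rw [Bool.or_eq_true, Bool.and_eq_true, Bool.and_eq_true] at k
  rw [tA, tB, ← H14.bits_xor, ← H14.bits_xor]
  exact k.imp (fun k => ⟨jp_of k.1, jp_of k.2⟩) fun k => ⟨jp_of k.1, jp_of k.2⟩

theorem tw_add {v w : leechLattice} (hv : ∀ i, (v : Vec) i % 2 = 0) (hw : ∀ i, (w : Vec) i % 2 = 0) :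
    tw (v + w : leechLattice) = symmDiff (tw v) (tw w) := by
  ext i
  have := hv i
  have := hw i
  simp only [mem_tw, Finset.mem_symmDiff, AddSubgroup.coe_add, Pi.add_apply]
  omega

theorem tw_sign {d : Finset GolayPt} (hd : IsCw d) (v : leechLattice)
    (hv : ∀ i, (v : Vec) i % 2 = 0) : tw (signC d hd • v : leechLattice) = tw v := by
  ext i
  have := hv i
  simp only [mem_tw, signC_apply]
  split_ifs <;> omega

/-- the relation given by an involution `y r` -/
theorem sq_rel (C : Cx z Q π R g) {d : Finset GolayPt} {hd : IsCw d} {y r : G} {v : leechLattice}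
    (hr : r ∈ cjs g Q) (ho : Ov π r (signC d hd)) (hy : R y v) (hv : ∀ i, (v : Vec) i % 2 = 0)
    (h : y * r * (y * r) = 1) : IsCw (tw v ∩ d) := by
  have L := lx_cjs C.M.lx g
  have l := C.M.mul hy (ho.lab C.M hy)
  have e : y * (r * y * r⁻¹) * (r * r) = 1 := by rw [← h]; group
  obtain ⟨w, hw⟩ : ∃ w : leechLattice, ∀ i, ((w : Vec) i - if i ∈ d then 0 else (v : Vec) i) % 4 = 0 := by
    rcases L.sqr r hr with k | k <;> rw [k] at e
    · obtain ⟨w, hw⟩ := (C.M.one_iff l).1 (Or.inl (by simpa using e))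
      refine ⟨w, fun i => ?_⟩
      have := add_sign d hd v i
      rw [hw, AddSubgroup.coe_add, Pi.add_apply] at this
      omega
    · rw [mul_eq_one_iff_eq_inv, inv_eq_of_mul_eq_one_right L.sq] at e
      obtain ⟨w, hw⟩ := C.M.congr C.h8 (e ▸ l)
      refine ⟨w, fun i => ?_⟩
      have := add_sign d hd v i
      rw [hw, AddSubgroup.coe_add, AddSubgroup.coe_add, Pi.add_apply, Pi.add_apply, e8_val, Pi.single_apply] at this
      split_ifs at this ⊢ <;> omega
  convert (tw_cw v).symmDiff (tw_cw w) using 1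
  ext i
  have := hw i
  simp only [mem_tw, Finset.mem_symmDiff, Finset.mem_inter]
  split_ifs at this with k <;> simp only [k, and_true, and_false, false_iff] <;> omega

theorem RelA.zs (C : Cx z Q π R g) : z * (g * z * g⁻¹) ≠ 1 := fun e =>
  s_ne' C (by rw [← inv_eq_of_mul_eq_one_right e, inv_eq_of_mul_eq_one_right C.M.lx.sq])

/-- membership in the two groups of the frame -/
theorem mem_frame (C : Cx z Q π R g) {d : Finset GolayPt} {hd : IsCw d} {y r : G}
    {v : leechLattice} (hr : r ∈ cjs g Q) (ho : Ov π r (signC d hd)) (hy : R y v)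
    (hv : ∀ i, (v : Vec) i % 2 = 0) :
    (tw v = ∅ ∨ tw v = Finset.univ → y * r ∈ Qx z Q (g * z * g⁻¹)) ∧
      (tw v = d ∨ tw v = dᶜ → y * r ∈ Qx z Q (z * (g * z * g⁻¹))) := by
  constructor
  · intro h
    rw [Qx_eq C]
    refine mul_mem ?_ hr
    rcases h with h | h
    · refine mem_of_const C.M C.h8 hy (b := 0) fun i => ?_
      have h1 : ¬ (v : Vec) i % 4 = 2 := fun k => Finset.notMem_empty i (h ▸ mem_tw.2 k)
      have := hv i
      omega
    · refine mem_of_const C.M C.h8 hy (b := 1) fun i => ?_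
      have h1 := mem_tw.1 (h ▸ Finset.mem_univ i : i ∈ tw v)
      omega
  · intro h
    obtain ⟨q, hq⟩ := C.M.ex' lOdd
    have m1 : q * r * q⁻¹ ∈ Qx z Q (z * (g * z * g⁻¹)) := by
      rw [← odd_s C.M C.h8 hq, mem_Qx_cj, Qx_eq C]; exact hr
    have l := C.M.mul hy (C.M.inv (C.M.mul hq (ho.lab C.M (C.M.inv hq))))
    have m2 : y * (q * (r * q⁻¹ * r⁻¹))⁻¹ ∈ cjs g Q := by
      rcases h with h | h
      · refine mem_of_const C.M C.h8 l (b := 1) fun i => ?_
        have h1 : i ∈ d ↔ (v : Vec) i % 4 = 2 := h ▸ mem_tw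
        have := hv i
        rw [AddSubgroup.coe_add, Pi.add_apply, add_sign]
        rcases lOdd_val i with k | k <;> rw [k] <;> split_ifs with c <;> simp only [c, true_iff, false_iff] at h1 <;>
          omega
      · refine mem_of_const C.M C.h8 l (b := 0) fun i => ?_
        have h1 : i ∉ d ↔ (v : Vec) i % 4 = 2 := by rw [← Finset.mem_compl, ← h, mem_tw]
        have := hv i
        rw [AddSubgroup.coe_add, Pi.add_apply, add_sign]
        rcases lOdd_val i with k | k <;> rw [k] <;> split_ifs with c <;>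
          simp only [c, not_true, not_false_iff, true_iff, false_iff] at h1 <;> omega
    have m3 := third C (IsConj.refl z) s_conj (by rw [Qx_z C]; exact s_mem C) (zs C)
      (by rw [Qx_z C]; exact C.M.mem l) (by rw [Qx_eq C]; exact m2)
    convert mul_mem m3 m1 using 1
    group

/-- an element of `Q ∩ Q_s` commuting with `y r` -/
theorem comm_rel (C : Cx z Q π R g) {d X : Finset GolayPt} {hd : IsCw d} {y r a : G}
    {v x : leechLattice} (hr : r ∈ cjs g Q) (ho : Ov π r (signC d hd)) (hy : R y v)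
    (hv : ∀ i, (v : Vec) i % 2 = 0) (ha : R a x)
    (hx : ∀ i, (x : Vec) i % 8 = if i ∈ X then 4 else 0) (h : a * (y * r) = y * r * a) :
    Even (X ∩ tw v).card ∧ Even (X ∩ d).card := by
  have L := lx_cjs C.M.lx g
  have h4 : ∀ i, (x : Vec) i % 4 = 0 := fun i => by
    have := hx i
    split_ifs at this <;> omega
  have e : a * y * a⁻¹ * (a * r * a⁻¹) = y * r := by
    rw [conj_mul, h, mul_inv_cancel_right]
  have key : a * y * a⁻¹ = y ∧ a * r * a⁻¹ = r := by
    rcases C.M.lx.comm a (C.M.mem ha) y (C.M.mem hy) with k | k <;>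
      rcases L.comm a (mem_of_four C.M C.h8 ha h4) r hr with k' | k' <;> rw [k, k'] at e
    · exact ⟨k, k'⟩
    · exact absurd (by simpa using e) L.ne
    · exact absurd (by simpa using e) C.M.lx.ne
    · rw [← C.M.lx.cen y (C.M.mem hy), mul_assoc, mul_right_inj, ← mul_assoc, mul_eq_right] at e
      exact absurd e (zs C)
  constructor
  · refine even_card (n := 8) (f := fun i => (x : Vec) i * (v : Vec) i) (by norm_num) (fun i => ?_)
      ((C.M.comm_iff ha hy).1 (mul_inv_eq_iff_eq_mul.1 key.1))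
    have h1 := hx i
    obtain ⟨m, hm⟩ : ∃ m, (v : Vec) i = 2 * m := ⟨(v : Vec) i / 2, by have := hv i; omega⟩
    obtain ⟨k, hk⟩ : ∃ k, (x : Vec) i = 8 * k + if i ∈ X then 4 else 0 := ⟨(x : Vec) i / 8, by omega⟩
    have h2 : (x : Vec) i * (v : Vec) i = 16 * (k * m) + if i ∈ X then 8 * m else 0 := by
      rw [hk, hm]; split_ifs <;> ring
    rw [h2]
    simp only [Finset.mem_inter, mem_tw, hm]
    generalize k * m = n
    by_cases c : i ∈ X <;> simp only [c, true_and, false_and, if_true, if_false]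
    · split_ifs <;> omega
    · omega
  · obtain ⟨w, hw⟩ := spl_of_conj C.M ho ha (Or.inl (by
      rw [mul_inv_eq_iff_eq_mul, ← mul_inv_eq_iff_eq_mul.1 key.2]))
    have h2 := (even_of (v := w) (i := none) (by
      have := h4 none
      rw [hw]; split_ifs <;> omega)).2
    refine even_card (n := 4) (f := (w : Vec)) (by norm_num) (fun i => ?_) (by omega)
    have h1 := hx i
    simp only [hw, Finset.mem_inter]
    by_cases c : i ∈ X <;> by_cases c' : i ∈ d <;>
      simp only [c, c', true_and, false_and, and_false, if_true, if_false] at h1 ⊢ <;> omega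

theorem exists_four (C : Cx z Q π R g) {a : G} (ha : a ∈ Q) (hs : a ∈ Qx z Q (g * z * g⁻¹)) :
    ∃ v, R a v ∧ ∀ i, (v : Vec) i % 4 = 0 := by
  obtain ⟨v, hv⟩ := C.M.ex a ha
  rw [Qx_eq C] at hs
  obtain ⟨b, hb⟩ := const_of_mem C.M C.h8 hv hs
  refine ⟨_, C.M.add_two hv ((-b) • lOdd), fun i => ?_⟩
  have := hb i
  simp only [AddSubgroup.coe_add, Pi.add_apply, AddSubgroup.coe_zsmul, Pi.smul_apply, smul_eq_mul]
  rcases lOdd_val i with h | h <;> rw [h] <;> omega

end Cfsg.Agent.M2L
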