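import Cfsg.Agent.M2L.XI
import Cfsg.Agent.M2L.Rel
import Cfsg.Agent.M2L.OctC

/-! The sextet case: the three frames of the standard sextet. -/

set_option autoImplicit false

namespace Cfsg.Agent.M2L

universe u

open Subgroup H15 H97 H38.MT

variable {G : Type u} [Group G] {z : G} {Q : Subgroup G}
  {π : centralizer ({z} : Set G) →* Spor.Co1} {R : G → leechLattice → Prop} {g : G} [Finite G]

/-- the three frames -/
def B23_K (k : Co0) : Prop := k = 1 ∨ k = xi ∨ k = xi * signC _ cw_c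

theorem B23_pt : ∀ t < 6, ∃ i, tet i = t := by decide +kernel

theorem B23_fx {e : Finset GolayPt} (h : none ∈ e) : Fx e (e8 none) := fun i hi => by
  rw [e8_val, Pi.single_eq_of_ne (by rintro rfl; exact hi h)]

theorem B23_s (C : Cx z Q π R g) : g * z * g⁻¹ ∈ AA C ∧ g * z * g⁻¹ ∈ AB C :=
  ⟨Z0_le_EE C.M C.h8 ⟨_, B23_fx (by decide +kernel), C.h8⟩, Z0_le_EE C.M C.h8 ⟨_, B23_fx (by decide +kernel), C.h8⟩⟩

theorem B23_fin (C : Cx z Q π R g) {k : Co0} (hk : B23_K k) {h a : G} (hh : Ov π h k)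
    (ha : h * a * h⁻¹ ∈ cjs g Q) : ∃ f, IsConj z f ∧ f ∈ AA C ∧ f ∈ AB C ∧ f ≠ z ∧ a ∈ Qx z Q f := by
  have h1 : h⁻¹ * (g * z * g⁻¹) * h ∈ AA C ∧ h⁻¹ * (g * z * g⁻¹) * h ∈ AB C ∧ h⁻¹ * (g * z * g⁻¹) * h ≠ z := by
    rcases hk with rfl | hk
    · rcases C.M.lx.comm h⁻¹ (inv_mem (hh.one C.M)) _ (s_mem C) with e | e <;> rw [inv_inv] at e <;> rw [e]
      · exact ⟨(B23_s C).1, (B23_s C).2, s_ne' C⟩
      · exact ⟨mul_mem (Z0_le_EE C.M C.h8 (z_mem_Z0 C.M)) (B23_s C).1,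
          mul_mem (Z0_le_EE C.M C.h8 (z_mem_Z0 C.M)) (B23_s C).2,
          fun e' => (lx_cjs C.M.lx g).ne (mul_eq_left.1 e')⟩
    · exact frame_xi C hk hh
  refine ⟨_, ?_, h1.1, h1.2.1, h1.2.2, ?_⟩
  · have := (isConj_cj (z := z) h⁻¹).2 (s_conj (g := g))
    rwa [inv_inv] at this
  · rw [← Qx_eq C] at ha
    have := (mem_Qx_cj h⁻¹).2 ha
    rwa [inv_inv, show h⁻¹ * (h * a * h⁻¹) * h = a by group] at this

theorem B23_tet {t : Finset GolayPt} (h : JP t) : ∀ i j, tet i = tet j → j ∈ t → i ∈ t := by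
  obtain ⟨S, -, rfl | rfl⟩ := h <;> intro i j e <;> simp [mem_tb, e]

theorem B23_tet' {t : Finset GolayPt} {S : Finset ℕ} (h : JP (symmDiff t (tb S))) :
    ∀ i j, tet i = tet j → j ∈ t → i ∈ t := fun i j e hj => by
  have h1 := B23_tet h i j e
  have h2 := B23_tet h j i e.symm
  simp only [Finset.mem_symmDiff, mem_tb, e] at h1 h2
  tauto

theorem B23_pat {v : leechLattice} (hv : ∀ i, (v : Vec) i % 2 = 0)
    (h : ∀ i j, tet i = tet j → j ∈ tw v → i ∈ tw v) :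
    ∃ τ : ℕ → ℤ, (∀ t, τ t = 0 ∨ τ t = 1) ∧ ∀ i, ((v : Vec) i - 2 * τ (tet i)) % 4 = 0 := by
  classical
  refine ⟨fun t => if ∃ j ∈ tw v, tet j = t then 1 else 0, fun t => by
    beta_reduce; split_ifs <;> simp, fun i => ?_⟩
  have := hv i
  beta_reduce
  by_cases hi : i ∈ tw v
  · rw [if_pos ⟨i, hi, rfl⟩]; rw [mem_tw] at hi; omega
  · rw [if_neg fun ⟨j, hj, e⟩ => hi (h i j e.symm hj)]; rw [mem_tw] at hi; omega

theorem B23_ar {t0 t1 t2 t3 t4 t5 p0 p1 p2 p3 p4 p5 : ℤ} (h0 : t0 = 0 ∨ t0 = 1) (h1 : t1 = 0 ∨ t1 = 1)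
    (h2 : t2 = 0 ∨ t2 = 1) (h3 : t3 = 0 ∨ t3 = 1) (h4 : t4 = 0 ∨ t4 = 1) (h5 : t5 = 0 ∨ t5 = 1)
    (a : (t0 - t1) % 2 = 0) (b : (p0 - p1) % 2 = 0) (s1 : (t0 + t1 + t2 + t3 + t4 + t5) % 2 = 0)
    (s2 : (p0 + p1 + p2 + p3 + p4 + p5) % 2 = 0)
    (s3 : (t0 * p0 + t1 * p1 + t2 * p2 + t3 * p3 + t4 * p4 + t5 * p5) % 2 = 0) :
    ((t2 - t3) % 2 = 0 ∧ (t2 - t4) % 2 = 0 ∧ (t2 - t5) % 2 = 0) ∨
    ((t2 + p2 - (t3 + p3)) % 2 = 0 ∧ (t2 + p2 - (t4 + p4)) % 2 = 0 ∧ (t2 + p2 - (t5 + p5)) % 2 = 0) ∨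
    ((p2 - p3) % 2 = 0 ∧ (p2 - p4) % 2 = 0 ∧ (p2 - p5) % 2 = 0) := by
  rcases h0 with rfl | rfl <;> rcases h1 with rfl | rfl <;> rcases h2 with rfl | rfl <;>
    rcases h3 with rfl | rfl <;> rcases h4 with rfl | rfl <;> rcases h5 with rfl | rfl <;> omega

theorem B23_lat {v : leechLattice} (hv : ∀ i, (v : Vec) i % 2 = 0)
    (h : ∀ i j, tet i = tet j → j ∈ tw v → i ∈ tw v) (hs : Spl (tb {0, 1}) v) (hn : (32 : ℤ) ∣ sqNorm (v : Vec)) :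
    ∃ k, B23_K k ∧ ∃ σ : ℕ → ℤ, (∀ i, (((k • v : leechLattice) : Vec) i - 2 * σ (tet i)) % 4 = 0) ∧
      (σ 0 - σ 1) % 2 = 0 ∧ ((σ 2 - σ 3) % 2 = 0 ∧ (σ 2 - σ 4) % 2 = 0 ∧ (σ 2 - σ 5) % 2 = 0) ∧
      (Spl (tb {0, 2}) v → (σ 0 - σ 2) % 2 = 0) := by
  obtain ⟨τ, h01, hτ⟩ := B23_pat hv h
  obtain ⟨x1, x2, x3, x4, x5, x6⟩ := xi_pat hτ
  have key : ∀ b < 6, 0 ≠ b → Spl (tb {0, b}) v →
      (τ 0 - τ b) % 2 = 0 ∧ (tS v 0 / 4 - tS v b / 4) % 2 = 0 := fun b hb h0 hs => by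
    obtain ⟨y1, m, y2⟩ := spl_tb (by norm_num) hb h0 hs
    obtain ⟨i, hi⟩ := B23_pt 0 (by norm_num)
    obtain ⟨j, hj⟩ := B23_pt b hb
    have a1 := y2 i (Or.inl hi)
    have a2 := y2 j (Or.inr hj)
    have a3 := hτ i
    have a4 := hτ j
    have a5 := x1 0 (by norm_num)
    have a6 := x1 b hb
    rw [hi] at a3
    rw [hj] at a4
    omega
  obtain ⟨k1, k2⟩ := key 1 (by norm_num) (by norm_num) hs
  have k3 := key 2 (by norm_num) (by norm_num)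
  rcases B23_ar (h01 0) (h01 1) (h01 2) (h01 3) (h01 4) (h01 5) k1 k2 x2 x3 (x6 hn) with e | e | e
  · exact ⟨1, Or.inl rfl, τ, by rwa [one_smul], k1, e, fun hs => (k3 hs).1⟩
  · exact ⟨_, Or.inr (Or.inl rfl), fun t => τ t + tS v t / 4, x4, by beta_reduce; omega, e, fun hs => by
      have := k3 hs; beta_reduce; omega⟩
  · exact ⟨_, Or.inr (Or.inr rfl), fun t => tS v t / 4, x5, k2, e, fun hs => (k3 hs).2⟩

theorem B23_cw {a b : ℕ} (ha : a < 6) (hb : b < 6) (hab : a ≠ b) {v : leechLattice} (h : Spl (tb {a, b}) v) :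
    (∀ i, (v : Vec) i % 2 = 0) ∧ IsCw (tw v ∩ tb {a, b}) := by
  obtain ⟨-, m, hm⟩ := spl_tb ha hb hab h
  obtain ⟨i, hi⟩ := B23_pt a ha
  refine ⟨(even_of (i := i) (by have := hm i (Or.inl hi); omega)).1, ?_⟩
  by_cases h2 : m % 2 = 0
  · rw [show tw v ∩ tb {a, b} = ∅ from Finset.eq_empty_of_forall_notMem fun j hj => by
      rw [Finset.mem_inter, mem_tw, mem_tb, Finset.mem_insert, Finset.mem_singleton] at hj
      have := hm j hj.2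
      omega]
    exact isCw_empty
  · rw [Finset.inter_eq_right.2 fun j hj => by
      rw [mem_tb, Finset.mem_insert, Finset.mem_singleton] at hj
      have := hm j hj
      rw [mem_tw]
      omega]
    exact tb_cw a ha b hb hab

theorem caseB2 (C : Cx z Q π R g) {d : G} (hd : d ∈ Q) (h2 : d * d = 1)
    (ha : ∀ a ∈ AA C, d * a = a * d) (hb : ∀ a ∈ AB C, d * a = a * d) :
    ∃ f, IsConj z f ∧ f ∈ AA C ∧ f ∈ AB C ∧ f ≠ z ∧ d ∈ Qx z Q f := by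
  obtain ⟨v, hv⟩ := C.M.ex d hd
  have sA := spl_of_cent_EE C oA_cw oA_card hv ha
  have sB := spl_of_cent_EE C oB_cw oB_card hv hb
  obtain ⟨ev, cA⟩ := B23_cw (by norm_num) (by norm_num) (by norm_num) sA
  obtain ⟨-, cB⟩ := B23_cw (by norm_num) (by norm_num) (by norm_num) sB
  obtain ⟨k, hk, σ, hσ, e1, ⟨e3, e4, e5⟩, e2⟩ := B23_lat ev (B23_tet (jp_one (tw_cw v) cA cB)) sA
    ((C.M.sq_iff hv).1 h2)
  have e2 := e2 sB
  obtain ⟨h, hh⟩ := ov_lift C.M k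
  refine B23_fin C hk hh (mem_of_const C.M C.h8 (hh.lab C.M hv) (b := σ 0) fun i => ?_)
  have h1 := hσ i
  have h3 := tet_lt i
  generalize tet i = t at h1 h3
  interval_cases t <;> omega

theorem B23_comm {k : Co0} (hk : B23_K k) : k * signC _ oA_cw * k⁻¹ = signC _ oA_cw := by
  rw [mul_inv_eq_iff_eq_mul]
  rcases hk with rfl | rfl | rfl
  · rw [one_mul, mul_one]
  · exact xi_comm_tb oA_cw
  · rw [← mul_assoc, ← xi_comm_tb oA_cw, mul_assoc, mul_assoc, signC_mul, signC_mul]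
    congr 2
    exact symmDiff_comm _ _

theorem B23_cst {e : Finset GolayPt} (he : IsCw e) (hc : e.card = 8) {u : leechLattice} (h : Fx e u) :
    Cst u e := by
  rcases h.cases he hc with h1 | h1
  · exact ⟨0, 0, fun i => by have := h1 i; split_ifs <;> omega⟩
  · refine ⟨1, 0, fun i => ?_⟩
    split_ifs with hi
    · have := h1 i hi; omega
    · rw [h i hi]; rfl

theorem caseB3 (C : Cx z Q π R g) {w1 w2 : G} (h1 : OctA C z w1 (AA C)) (h2 : OctA C z w2 (AB C))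
    (s1 : w1 * w1 = 1) (s2 : w2 * w2 = 1) (hc : w1 * w2 = w2 * w1) :
    ∃ f, IsConj z f ∧ f ∈ AA C ∧ f ∈ AB C ∧ f ≠ z ∧ w1 ∈ Qx z Q f := by
  obtain ⟨r1, m1, o1, n1⟩ := exists_nz_mem C.M C.h8 oA_cw oA_card
  have a1 : r1 ∈ AA C := Or.inr ⟨o1, n1⟩
  have q1 : r1 * r1 = 1 := EE_sq C.M C.h8 a1
  obtain ⟨y1, y2, y3⟩ := h1.dec s1 a1 (by
    rw [Qx_z C]
    exact not_mem_of_sign C.M (by rw [oA_card]; norm_num) (by rw [oA_card]; norm_num) o1)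
  rw [Qx_z C] at y1
  obtain ⟨v1, l1⟩ := C.M.ex _ y1
  have sA := spl_of_cent_EE C oA_cw oA_card l1 y3
  obtain ⟨ev1, cA⟩ := B23_cw (by norm_num) (by norm_num) (by norm_num) sA
  obtain ⟨r2, m2, o2⟩ := exists_r C.M C.h8 _ oB_cw
  obtain ⟨v2, l2⟩ := C.M.ex _ (Ov.quot C.M (OctA.ov h2) o2)
  have ev2 : ∀ i, (v2 : Vec) i % 2 = 0 := (even_of ((comm_s C.M C.h8 l2).1 (by
    rw [mul_assoc, (lx_cjs C.M.lx g).cen _ (inv_mem m2), ← mul_assoc, h2.cent_B s2 _ (B23_s C).2,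
      mul_assoc _ w2]))).1
  have cB := sq_rel C m2 o2 l2 ev2 (by rw [inv_mul_cancel_right, s2])
  have ev3 : ∀ i, ((signC _ oA_cw • v2 : leechLattice) : Vec) i % 2 = 0 := fun i => by
    have := ev2 i
    rw [signC_apply]
    split_ifs <;> omega
  have cC := sq_rel C (mul_mem m1 m2) (Ov.congr (d' := tb {1, 2}) (signC_mul _ _ oA_cw oB_cw ▸ o1.mul o2)
    (by decide +kernel) (tb_cw 1 (by norm_num) 2 (by norm_num) (by norm_num))) (C.M.mul l1 (o1.lab C.M l2))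
    (fun i => by
      have := ev1 i
      have := ev3 i
      rw [AddSubgroup.coe_add, Pi.add_apply]
      omega)
    (by
      have e : w1 * r1 * (r1 * (w2 * r2⁻¹) * r1⁻¹) * (r1 * r2) = w1 * w2 := by
        calc _ = w1 * (r1 * r1) * w2 := by group
          _ = _ := by rw [q1, mul_one]
      rw [e, mul_assoc, ← mul_assoc w2, ← hc, mul_assoc, s2, mul_one, s1])
  rw [tw_add ev1 ev3, tw_sign _ _ ev2] at cC
  have ht : ∀ i j, tet i = tet j → j ∈ tw v1 → i ∈ tw v1 :=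
    (jp_two (tw_cw v1) (tw_cw v2) cA cB cC).elim (fun h => B23_tet h.1) fun h => B23_tet' h.1
  obtain ⟨k, hk, σ, hσ, e1, ⟨e3, e4, e5⟩, -⟩ := B23_lat ev1 ht sA ((C.M.sq_iff l1).1 y2)
  obtain ⟨h, hh⟩ := ov_lift C.M k
  have a2 : h * r1 * h⁻¹ ∈ AA C := conj_mem_EE C.M C.h8 hh (B23_comm hk) a1
  obtain ⟨u, u1, u2⟩ := EE_inf C.M C.h8 (mul_mem a2 (inv_mem a1))
    (Ov.quot C.M (B23_comm hk ▸ hh.conj o1) o1)
  have c1 : Cst (k • v1 : leechLattice) (tb {0, 1}) := ⟨σ 0, σ 2, fun i => by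
    have h1 := hσ i
    have h3 := tet_lt i
    simp only [mem_tb]
    generalize tet i = t at h1 h3
    interval_cases t <;> simp only [Finset.mem_insert, Finset.mem_singleton] <;> norm_num <;> omega⟩
  obtain ⟨c, hc1, hc2⟩ := conj_mem_of_cst C.M C.h8 m1 o1 (C.M.mul (hh.lab C.M l1) u2)
    (c1.add (B23_cst oA_cw oA_card u1))
  refine B23_fin C hk (h := c * h) (by simpa using (ov_one C.M hc1).mul hh) ?_
  convert hc2 using 1
  calc c * h * w1 * (c * h)⁻¹ = c * h * w1 * (r1 * r1) * (c * h)⁻¹ := by rw [q1, mul_one]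
    _ = _ := by group

end Cfsg.Agent.M2L
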