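import Cfsg.Agent.M2L.ArkB
import Cfsg.Agent.M2L.Form
import Cfsg.Agent.H21.Basic

set_option autoImplicit false

namespace Cfsg.Agent.M2L

universe u

open Subgroup H15 H97 H38.MT

variable {G : Type u} [Group G] {z : G} {Q : Subgroup G}
  {π : centralizer ({z} : Set G) →* Spor.Co1} {R : G → leechLattice → Prop} {g : G} [Finite G]

theorem common {C : Cx z Q π R g} {x w1 w2 : G} {A1 A2 : Subgroup G} (h1 : OctA C x w1 A1)
    (h2 : OctA C x w2 A2) (hw : w2 * w2 = 1) (hc : w1 * w2 = w2 * w1) :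
    ∃ f, IsConj z f ∧ f ∈ A1 ∧ f ∈ A2 ∧ f ∈ Qx z Q x ∧ f ≠ x := by
  by_contra hno
  have L := lx_Qx C h1.sx
  have E1 := h1.ark.el
  have E2 := h2.ark.el
  have hn : w2 ∈ normalizer (A1 : Set G) := h1.norm h2.comm hc.symm
  -- singular commutators are trivial modulo `x`
  have key : ∀ a ∈ A1 ⊓ Qx z Q x, Sing z (w2 * a * w2⁻¹ * a) → a ∈ centralizer (A2 : Set G) := fun a ha hs => by
    have m1 := conj_mem_of_norm hn ha.1
    have e : w2 * a * w2⁻¹ * a = a * w2 * a⁻¹ * w2⁻¹ := by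
      rw [E1.comm m1 ha.1, E1.inv ha.1]; group
    have k : a * w2 * a⁻¹ = w2 ∨ a * w2 * a⁻¹ = x * w2 := by
      rcases hs with hs | hs
      · exact Or.inl (mul_inv_eq_one.1 (e ▸ hs))
      · refine Or.inr (mul_inv_eq_iff_eq_mul.1 ?_)
        by_contra hx
        exact hno ⟨_, hs, mul_mem m1 ha.1, e ▸ h2.comm_mem ha.2, mul_mem (L.norm _ h2.comm _ ha.2) ha.2, e ▸ hx⟩
    exact fun b hb => (h2.cent ha.2 k b hb).symm
  have hH : H2 (A1 ⊓ Qx z Q x) (centralizer (A2 : Set G)) := fun a ha b hb =>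
    (h1.ark.comm_sing hn hw ha.1 hb.1).imp (key a ha) (Or.imp (key b hb) (key _ (mul_mem ha hb)))
  have c1 := hH.card
  rw [h1.ark.card_B h1.sx h1.mem] at c1
  have c2 := h2.ark.card_B h2.sx h2.mem
  generalize hX : A1 ⊓ Qx z Q x ⊓ centralizer (A2 : Set G) = X at c1
  have X1 : X ≤ A1 := hX ▸ fun _ h => h.1.1
  have XQ : X ≤ Qx z Q x := hX ▸ fun _ h => h.1.2
  have XC : X ≤ centralizer (A2 : Set G) := hX ▸ fun _ h => h.2
  have ab : X ⊔ (A2 ⊓ Qx z Q x) ≤ centralizer ((X ⊔ (A2 ⊓ Qx z Q x) : Subgroup G) : Set G) :=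
    sup_le (le_centralizer_iff.1 (sup_le (fun a ha b hb => E1.comm (X1 hb) (X1 ha))
        fun a ha b hb => (XC hb a ha.1).symm))
      (le_centralizer_iff.1 (sup_le (fun a ha b hb => XC ha b hb.1) fun a ha b hb => E2.comm hb.1 ha.1))
  have c3 := (ex_of_lx L).card_abelian (sup_le XQ inf_le_right) (mem_sup_right ⟨h2.mem, L.mem⟩)
    fun a ha b hb => ab hb a ha
  rw [card_Qx C h1.sx] at c3
  have c4 := H21.card_mul_card_le X (A2 ⊓ Qx z Q x)
  have c5 : Nat.card (X ⊔ (A2 ⊓ Qx z Q x) : Subgroup G) ≤ 2 ^ 13 := by nlinarith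
  have c6 : 16 ≤ Nat.card (X ⊓ (A2 ⊓ Qx z Q x) : Subgroup G) := by
    rw [c2] at c4
    by_contra k
    have := Nat.mul_le_mul c5 (Nat.le_of_lt_succ (not_le.1 k))
    omega
  obtain ⟨y, hy, h3, h4⟩ := h1.ark.cw4 (inf_le_left.trans X1) c6 h1.sx h1.mem
  exact hno ⟨y, h3, X1 hy.1, hy.2.1, hy.2.2, h4⟩

end Cfsg.Agent.M2L
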