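import Cfsg.Agent.M2L.OctC
import Cfsg.Agent.H56.Sextet

set_option autoImplicit false

namespace Cfsg.Agent.M2L

universe u

open Subgroup H15 H97 H38.MT
open scoped Pointwise

variable {G : Type u} [Group G] {z : G} {Q : Subgroup G}
  {π : centralizer ({z} : Set G) →* Spor.Co1} {R : G → leechLattice → Prop} {g : G} [Finite G]

namespace NF

theorem inter_AB : (tb {0, 1} ∩ tb {0, 2}).card = 4 := by decide +kernel

theorem inter_T : (tO 0 ∩ tO 1).card = 0 := by decide +kernel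

theorem third_T : (symmDiff (tO 0) (tO 1))ᶜ = tO 2 := by decide +kernel

omit [Finite G] in
theorem cj_z {c : G} {k : Co0} (h : Ov π c k) : c * z * c⁻¹ = z := by
  rw [h.comm, mul_inv_cancel_right]

omit [Finite G] in
/-- a permutation lifts to the centraliser of `z` and `s` -/
theorem lift_perm (C : Cx z Q π R g) (σ : M24) :
    ∃ c, Ov π c (permC σ) ∧ c * (g * z * g⁻¹) * c⁻¹ = g * z * g⁻¹ := by
  have h' : R (g * z * g⁻¹) (permC σ • e8 none) := by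
    rw [permC_smul_e8, e8_congr none]
    exact C.M.add_two C.h8 _
  obtain ⟨h1, h2⟩ := C.M.ne_of_short C.h8 (by rw [norm_e8]; norm_num) (by rw [norm_e8])
  obtain ⟨c, e1, e2⟩ := C.M.lift_cent C.h8 h' h1 h2
  exact ⟨c, ⟨c.2, e1⟩, e2⟩

theorem move {C : Cx z Q π R g} {w c : G} {A : Subgroup G} {σ : M24} (h : OctA C z w A)
    (hc : Ov π c (permC σ)) {e e' : Finset GolayPt} {he : IsCw e} (ho : Ov π w (signC e he))
    (he' : IsCw e') (hc' : e'.card = 8) (hσ : σ • e = e') :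
    Ov π (c * w * c⁻¹) (signC e' he') ∧ cjs c A = EE C.M C.h8 he' hc' := by
  have k := hc.conj ho
  rw [permC_conj_signC] at k
  have k' := k.congr hσ he'
  have h2 := h.cj c
  rw [cj_z hc] at h2
  exact ⟨k', h2.uniq (octA_of_ov C he' hc' k')⟩

theorem nf0 {C : Cx z Q π R g} {w1 w2 : G} {A1 A2 A3 : Subgroup G} (h1 : OctA C z w1 A1)
    (h2 : OctA C z w2 A2) (h3 : OctA C z (w1 * w2) A3) (hf1 : g * z * g⁻¹ ∈ A1)
    (hf2 : g * z * g⁻¹ ∈ A2) : ∃ c, c * z * c⁻¹ = z ∧ c * (g * z * g⁻¹) * c⁻¹ = g * z * g⁻¹ ∧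
      ((cjs c A1 = AA C ∧ cjs c A2 = AB C) ∨
        (cjs c A1 = AT C 0 ∧ cjs c A2 = AT C 1 ∧ cjs c A3 = AT C 2)) := by
  obtain ⟨e1, he1, hc1, -, o1⟩ := h1.frame hf1
  obtain ⟨e2, he2, hc2, -, o2⟩ := h2.frame hf2
  have o3 := o1.mul o2
  rw [signC_mul] at o3
  obtain ⟨e3, -, hc3, he3, -⟩ := h3.sign o3
  have hs := H14.card_symmDiff_add e1 e2
  have hcase : (e1 ∩ e2).card = 4 ∨ (e1 ∩ e2).card = 0 := by
    rcases he3 with rfl | rfl
    · omega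
    · rw [Finset.card_compl, show Fintype.card GolayPt = 24 from rfl] at hc3
      omega
  rcases hcase with h | h
  · obtain ⟨σ, s1, s2⟩ := H56.exists_smul_disjoint (mem_octads he1 hc1) (mem_octads he2 hc2)
      (mem_octads oA_cw oA_card) (mem_octads oB_cw oB_card) (h.trans inter_AB.symm)
    obtain ⟨c, hc, hs⟩ := lift_perm C σ
    exact ⟨c, cj_z hc, hs, Or.inl ⟨(move h1 hc o1 _ _ s1).2, (move h2 hc o2 _ _ s2).2⟩⟩
  · obtain ⟨σ, s1, s2⟩ := H56.exists_smul_disjoint (mem_octads he1 hc1) (mem_octads he2 hc2)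
      (mem_octads (tO_cw 0) (tO_card 0)) (mem_octads (tO_cw 1) (tO_card 1)) (h.trans inter_T.symm)
    obtain ⟨c, hc, hs⟩ := lift_perm C σ
    obtain ⟨k1, a1⟩ := move h1 hc o1 (tO_cw 0) (tO_card 0) s1
    obtain ⟨k2, a2⟩ := move h2 hc o2 (tO_cw 1) (tO_card 1) s2
    refine ⟨c, cj_z hc, hs, Or.inr ⟨a1, a2, ?_⟩⟩
    have k3 := k1.mul k2
    rw [signC_mul, show c * w1 * c⁻¹ * (c * w2 * c⁻¹) = c * (w1 * w2) * c⁻¹ by group] at k3
    have h4 := h3.cj c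
    rw [cj_z hc] at h4
    exact h4.uniq (octA_of_ov C _ _ (k3.compl.congr third_T (tO_cw 2)))

end NF

theorem nf_pair {C : Cx z Q π R g} {w1 w2 f : G} {A1 A2 A3 : Subgroup G} (h1 : OctA C z w1 A1)
    (h2 : OctA C z w2 A2) (h3 : OctA C z (w1 * w2) A3) (hf : IsConj z f) (hf1 : f ∈ A1)
    (hf2 : f ∈ A2) (hne : f ≠ z) : ∃ c, c * z * c⁻¹ = z ∧ c * f * c⁻¹ = g * z * g⁻¹ ∧
      ((cjs c A1 = AA C ∧ cjs c A2 = AB C) ∨
        (cjs c A1 = AT C 0 ∧ cjs c A2 = AT C 1 ∧ cjs c A3 = AT C 2)) := by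
  have hA : A1 ≠ A2 := fun e => h3.not_mem (h1.mul_mem (e ▸ h2))
  have hQ : f ∈ Qx z Q z := bb h1.ark h2.ark hA (IsConj.refl z) h1.mem h2.mem ⟨hf1, hf2⟩
  obtain ⟨c, hz, hc⟩ := pair_nf C (IsConj.refl z) hf hQ hne
  have k1 := h1.cj c
  have k2 := h2.cj c
  have k3 := h3.cj c
  rw [hz] at k1 k2 k3
  rw [show c * (w1 * w2) * c⁻¹ = c * w1 * c⁻¹ * (c * w2 * c⁻¹) by group] at k3
  obtain ⟨d, d1, d2, d3⟩ := NF.nf0 k1 k2 k3 (hc ▸ conj_mem_cjs.2 hf1) (hc ▸ conj_mem_cjs.2 hf2)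
  simp only [cjs_cjs] at d3
  refine ⟨d * c, ?_, ?_, d3⟩
  · rw [show d * c * z * (d * c)⁻¹ = d * (c * z * c⁻¹) * d⁻¹ by group, hz, d1]
  · rw [show d * c * f * (d * c)⁻¹ = d * (c * f * c⁻¹) * d⁻¹ by group, hc, d2]

theorem sext_move (C : Cx z Q π R g) {w : G} (h : OctA C z w (AB C)) :
    ∃ b ∈ AA C, b ∈ Q ∧ w * b * w⁻¹ ≠ b ∧ w * b * w⁻¹ ≠ z * b := by
  have ho : Ov π w (signC (tb {0, 2}) oB_cw) := OctA.ov (hc := oB_card) h
  obtain ⟨b, hb⟩ := C.M.ex' (w4 (some 4) none 1 rfl)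
  have hl := ho.lab C.M hb
  have key : ¬ R (w * b * w⁻¹) (w4 (some 4) none 1 rfl) := fun k => by
    obtain ⟨v, hv⟩ := C.M.congr k hl
    exact absurd (sign_w4 oB_cw hv) (by decide +kernel)
  refine ⟨b, Z0_le_EE C.M C.h8 ⟨_, fx_w4 (by decide +kernel) (by decide +kernel), hb⟩, C.M.mem hb,
    fun e => key ?_, fun e => key ?_⟩
  · rw [e]; exact hb
  · rw [e]; exact C.M.zmul hb

end Cfsg.Agent.M2L
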