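import Cfsg.Agent.M2L.OctC

set_option autoImplicit false

namespace Cfsg.Agent.M2L

universe u

open Subgroup H15 H97 H38.MT

variable {G : Type u} [Group G] {z : G} {Q : Subgroup G}
  {π : centralizer ({z} : Set G) →* Spor.Co1} {R : G → leechLattice → Prop} {g : G} [Finite G]

namespace Tr

open Cfsg.Agent.H14 (bits enc pc encL)

/-- four modulo eight on `X`, zero modulo eight elsewhere -/
def Tv (v : leechLattice) (X : Finset GolayPt) : Prop :=
  ∀ i, (v : Vec) i % 8 = if i ∈ X then 4 else 0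

/-- has a label of type `X` -/
def Ty (R : G → leechLattice → Prop) (b : G) (X : Finset GolayPt) : Prop := ∃ v, R b v ∧ Tv v X

theorem Tv.four {v : leechLattice} {X : Finset GolayPt} (h : Tv v X) (i : GolayPt) :
    (v : Vec) i % 4 = 0 := by
  have := h i
  split_ifs at this <;> omega

theorem tv_of_four {v : leechLattice} (h : ∀ i, (v : Vec) i % 4 = 0) :
    Tv v (Finset.univ.filter fun i => (v : Vec) i % 8 = 4) := fun i => by
  have := h i
  simp only [Finset.mem_filter, Finset.mem_univ, true_and]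
  split_ifs <;> omega

theorem Tv.add {v w : leechLattice} {X Y : Finset GolayPt} (h : Tv v X) (h' : Tv w Y) :
    Tv (v + w) (symmDiff X Y) := fun i => by
  have h1 := h i
  have h2 := h' i
  rw [AddSubgroup.coe_add, Pi.add_apply]
  by_cases a : i ∈ X <;> by_cases b : i ∈ Y <;>
    simp only [Finset.mem_symmDiff, a, b, if_true, if_false, not_true, not_false_eq_true, and_true,
      and_false, or_false, or_true] at h1 h2 ⊢ <;> omega

theorem tv_two {c : Finset GolayPt} (hc : IsCw c) : Tv (lTwo hc + lTwo hc) c := fun i => by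
  rw [AddSubgroup.coe_add, Pi.add_apply, lTwo_apply]
  split_ifs <;> rfl

theorem sum_ite_four (X : Finset GolayPt) (c : ℤ) :
    (∑ i, if i ∈ X then c else 0) = c * X.card := by
  rw [Finset.sum_ite_mem, Finset.univ_inter, Finset.sum_const, nsmul_eq_mul, mul_comm]

theorem Tv.even {v : leechLattice} {X : Finset GolayPt} (h : Tv v X) : Even X.card := by
  have h1 := (even_of (v := v) (i := none) (by have := h.four none; omega)).2
  have h2 : (8 : ℤ) ∣ ∑ i, ((v : Vec) i - if i ∈ X then 4 else 0) :=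
    Finset.dvd_sum fun i _ => by have := h i; split_ifs at this ⊢ <;> omega
  rw [Finset.sum_sub_distrib, sum_ite_four] at h2
  rw [Nat.even_iff]
  omega

theorem Tv.norm {v : leechLattice} {X : Finset GolayPt} (h : Tv v X) :
    (64 : ℤ) ∣ sqNorm (v : Vec) ↔ 4 ∣ X.card := by
  have h2 : (64 : ℤ) ∣ ∑ i, ((v : Vec) i ^ 2 - if i ∈ X then 16 else 0) :=
    Finset.dvd_sum fun i _ => by
      have := h i
      split_ifs at this ⊢
      · obtain ⟨k, hk⟩ : ∃ k, (v : Vec) i = 8 * k + 4 := ⟨(v : Vec) i / 8, by omega⟩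
        exact ⟨k * k + k, by rw [hk]; ring⟩
      · obtain ⟨k, hk⟩ : ∃ k, (v : Vec) i = 8 * k := ⟨(v : Vec) i / 8, by omega⟩
        exact ⟨k * k, by rw [hk]; ring⟩
  rw [Finset.sum_sub_distrib, sum_ite_four] at h2
  unfold sqNorm
  omega

theorem Tv.cw {v w : leechLattice} {X Y : Finset GolayPt} (h : Tv v X) (h' : Tv (v + (w + w)) Y) :
    IsCw (symmDiff X Y) := by
  convert tw_cw w using 1
  ext i
  have h1 := h i
  have h2 := h' i
  rw [AddSubgroup.coe_add, AddSubgroup.coe_add, Pi.add_apply, Pi.add_apply] at h2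
  rw [mem_tw, Finset.mem_symmDiff]
  by_cases a : i ∈ X <;> by_cases b : i ∈ Y <;>
    simp only [a, b, if_true, if_false, not_true, not_false_eq_true, and_true,
      and_false, or_false, or_true, true_iff, false_iff] at h1 h2 ⊢ <;> omega

theorem Tv.move {v : leechLattice} {X e : Finset GolayPt} (h : Tv v X) (hX : X ⊆ e) {p : GolayPt}
    (hp : p ∈ e) : ∃ w, Fx e (v + (w + w)) ∧ Tv (v + (w + w)) X := by
  have h0 : ∀ i, i ∉ e → (v : Vec) i % 8 = 0 := fun i hi => by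
    rw [h i, if_neg fun h' => hi (hX h')]
  set y : Vec := fun i => if i ∈ e then 0 else -((v : Vec) i / 2) with hy
  have h1 : ∀ i, y i % 4 = 0 := fun i => by
    simp only [hy]
    split_ifs with hi
    exacts [rfl, by have := h0 i hi; omega]
  have h2 : (4 : ℤ) ∣ ∑ i, y i := Finset.dvd_sum fun i _ => Int.dvd_of_emod_eq_zero (h1 i)
  have h3 : ∀ i, (y - Pi.single p (∑ i, y i) : Vec) i % 4 = 0 := fun i => by
    have := h1 i
    rw [Pi.sub_apply, Pi.single_apply]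
    split_ifs <;> omega
  refine ⟨⟨y - Pi.single p (∑ i, y i), mem_leech_of_four_dvd h3 ?_⟩, fun i hi => ?_, fun i => ?_⟩
  · simp only [Pi.sub_apply, Finset.sum_sub_distrib, Finset.sum_pi_single', Finset.mem_univ, if_true,
      sub_self]
    rfl
  · have := h0 i hi
    simp only [AddSubgroup.coe_add, Pi.add_apply, Pi.sub_apply, Pi.single_apply,
      if_neg (show i ≠ p from fun e' => hi (e' ▸ hp)), hy, if_neg hi]
    omega
  · have := h3 i
    rw [← h i]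
    simp only [AddSubgroup.coe_add, Pi.add_apply]
    omega

theorem exists_tv {X : Finset GolayPt} (h : Even X.card) : ∃ v, Tv v X := by
  refine ⟨⟨fun i => if i ∈ X then 4 else 0, mem_leech_of_four_dvd (fun i => ?_) ?_⟩, fun i => ?_⟩
  · split_ifs <;> rfl
  · rw [sum_ite_four]
    have := Nat.even_iff.1 h
    omega
  · dsimp only
    split_ifs <;> rfl

theorem tv_zero : Tv 0 ∅ := fun _ => rfl

theorem tv_e8 (p : GolayPt) : Tv (e8 p) ∅ := fun i => by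
  rw [e8_val, Pi.single_apply, if_neg (Finset.notMem_empty i)]
  split_ifs <;> rfl

theorem Tv.spl {v : leechLattice} {X e : Finset GolayPt} (h : Tv v X) (h' : Spl e v) :
    Even (e ∩ X).card := by
  obtain ⟨w, hw⟩ := h'
  refine Tv.even (v := w) fun i => ?_
  rw [hw]
  by_cases a : i ∈ e
  · simp only [Finset.mem_inter, a, if_true, true_and]; exact h i
  · simp only [Finset.mem_inter, a, if_false, false_and]; rfl

variable (C : Cx z Q π R g) {a b : G} {X Y : Finset GolayPt}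
include C

omit [Finite G] in
theorem Ty.mul (h : Ty R a X) (h' : Ty R b Y) : Ty R (a * b) (symmDiff X Y) := by
  obtain ⟨v, h1, h2⟩ := h
  obtain ⟨w, h3, h4⟩ := h'
  exact ⟨_, C.M.mul h1 h3, h2.add h4⟩

omit [Finite G] in
theorem Ty.inv (h : Ty R a X) : Ty R a⁻¹ X := h.imp fun _ h => ⟨C.M.inv h.1, h.2⟩

omit [Finite G] in
theorem Ty.congr (h : Ty R a X) (hc : IsCw (symmDiff X Y)) : Ty R a Y := by
  obtain ⟨v, h1, h2⟩ := h
  have := h2.add (tv_two hc)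
  rw [symmDiff_symmDiff_cancel_left] at this
  exact ⟨_, C.M.add_two h1 _, this⟩

omit [Finite G] in
theorem Ty.cw (h : Ty R a X) (h' : Ty R a Y) : IsCw (symmDiff X Y) := by
  obtain ⟨v, h1, h2⟩ := h
  obtain ⟨w, h3, h4⟩ := h'
  obtain ⟨y, rfl⟩ := C.M.congr h1 h3
  exact h2.cw h4

omit [Finite G] in
theorem Ty.mem (h : Ty R a X) : a ∈ Q := h.elim fun _ h => C.M.mem h.1

omit [Finite G] in
theorem Ty.fx {e : Finset GolayPt} (h : Ty R a X) (hX : X ⊆ e) (hc : e.card = 8) :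
    ∃ v, R a v ∧ Fx e v ∧ Tv v X := by
  obtain ⟨v, h1, h2⟩ := h
  obtain ⟨p, hp⟩ := Finset.card_pos.1 (show 0 < e.card by omega)
  obtain ⟨w, h3, h4⟩ := h2.move hX hp
  exact ⟨_, C.M.add_two h1 w, h3, h4⟩

theorem Ty.mem_EE {e : Finset GolayPt} (he : IsCw e) (hc : e.card = 8) (h : Ty R a X)
    (hX : X ⊆ e) : a ∈ EE C.M C.h8 he hc := by
  obtain ⟨v, h1, h2, -⟩ := h.fx C hX hc
  exact Z0_le_EE C.M C.h8 ⟨v, h2, h1⟩

theorem Ty.sing {e : Finset GolayPt} (he : IsCw e) (hc : e.card = 8) (h : Ty R a X)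
    (hX : X ⊆ e) : Sing z a ↔ 4 ∣ X.card := by
  obtain ⟨v, h1, h2, h3⟩ := h.fx C hX hc
  rw [sing_iff C.M C.h8 he hc h1 h2, h3.norm]

omit [Finite G] in
theorem exists_ty (h : Even X.card) : ∃ a, Ty R a X := by
  obtain ⟨v, hv⟩ := exists_tv h
  obtain ⟨a, ha⟩ := C.M.ex' v
  exact ⟨a, v, ha, hv⟩

omit [Finite G] in
theorem ty_one : Ty R 1 ∅ := ⟨0, by simpa using C.M.two 0, tv_zero⟩

omit [Finite G] in
theorem ty_z : Ty R z ∅ := ⟨0, C.M.zed, tv_zero⟩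

omit [Finite G] in
theorem ty_s : Ty R (g * z * g⁻¹) ∅ := ⟨_, C.h8, tv_e8 _⟩

set_option synthInstance.maxSize 4000 in
omit C in
theorem trace_fin : ∀ i j k : Fin 3, i ≠ j → i ≠ k → j ≠ k → ∀ c, IsCw c → Disjoint c (tO k) →
    4 ∣ (c ∩ tO i).card ∧ ∃ c', IsCw c' ∧ Disjoint c' (tO j) ∧ c' ∩ tO i = c ∩ tO i := by
  intro i j k hij hik hjk c hc hd
  obtain ⟨x, hx, rfl⟩ := H14.mem_cSets_iff.1 hc
  set O : Fin 3 → ℕ := ![8536111, 6889680, 1351424] with hO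
  set T : Fin 3 → Fin 3 → ℕ := ![![8405001, 8388615, 8519690],
    ![4194512, 4268048, 2105488], ![1343744, 268544, 35584]] with hT
  have key : ∀ i j k : Fin 3, i ≠ j → i ≠ k → j ≠ k → H14.all2 64 64 (fun x => decide
      (enc x &&& O k = 0 → pc (enc x &&& O i) % 4 = 0 ∧ ∃ y ∈ List.range 16,
        enc (encL [T i 0 ^^^ T k 0, T i 1 ^^^ T k 1, T i 2 ^^^ T k 2, O i] y) =
          encL [T i 0 ^^^ T k 0, T i 1 ^^^ T k 1, T i 2 ^^^ T k 2, O i] y ∧
        encL [T i 0 ^^^ T k 0, T i 1 ^^^ T k 1, T i 2 ^^^ T k 2, O i] y &&& O j = 0 ∧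
        encL [T i 0 ^^^ T k 0, T i 1 ^^^ T k 1, T i 2 ^^^ T k 2, O i] y &&& O i =
          enc x &&& O i)) = true := by
    rw [hO, hT]; decide +kernel
  have e : ∀ m, tO m = bits (O m) := fun _ => rfl
  have h0 : enc x &&& O k = 0 := H14.bits_inj (lt_of_le_of_lt Nat.and_le_left (H14.enc_lt hx))
    (by norm_num) (by rw [H14.bits_and, H14.bits_zero, ← e]; exact Finset.disjoint_iff_inter_eq_empty.1 hd)
  obtain ⟨h1, y, -, h2, h3, h4⟩ :=
    of_decide_eq_true (H14.all2_iff.1 (key i j k hij hik hjk) x hx) h0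
  refine ⟨?_, _, isCw_bits h2, ?_, ?_⟩
  · rw [e, ← H14.bits_and, H14.card_bits]; omega
  · rw [Finset.disjoint_iff_inter_eq_empty, e, ← H14.bits_and, h3, H14.bits_zero]
  · rw [e, ← H14.bits_and, h4, H14.bits_and]

omit C in
theorem card_sd : ∀ i j : Fin 3, i ≠ j → (symmDiff (tO i) (tO j)).card = 16 := by decide +kernel

omit C in
theorem third_idx : ∀ i j : Fin 3, i ≠ j → ∃ k, i ≠ k ∧ j ≠ k ∧ ∀ m, m = i ∨ m = j ∨ m = k := by
  decide

omit [Finite G] in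
theorem not_both {i j : Fin 3} (h : i ≠ j) (h1 : Ov π a (signC _ (tO_cw i)))
    (h2 : Ov π a (signC _ (tO_cw j))) (h3 : a * a = 1) : False := by
  have := h1.mul h2
  rw [signC_mul, h3] at this
  exact not_mem_of_sign C.M (by rw [card_sd i j h]; omega) (by rw [card_sd i j h]; omega) this
    (one_mem _)

theorem inf_facts {i j : Fin 3} (h : i ≠ j) (h1 : a ∈ AT C i) (h2 : a ∈ AT C j) :
    a ∈ Q ∧ Sing z a ∧ ∀ m, a ∈ AT C m := by
  have hQ : a ∈ Q := by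
    rcases h1 with h1 | h1
    · exact Z0_le _ h1
    rcases h2 with h2 | h2
    · exact Z0_le _ h2
    exact (not_both C h h1.1 h2.1 (sq_of_nz C.M C.h8 (tO_card i) h1.1 h1.2)).elim
  obtain ⟨k, hik, hjk, hm⟩ := third_idx i j h
  obtain ⟨v, f1, r1⟩ := EE_inf C.M C.h8 h1 hQ
  obtain ⟨v', f2, r2⟩ := EE_inf C.M C.h8 h2 hQ
  obtain ⟨w, rfl⟩ := C.M.congr r1 r2
  have e : ∀ p, p ∉ tO j → (v : Vec) p + ((w : Vec) p + (w : Vec) p) = 0 := f2
  have e0 : ∀ p ∈ tO k, (w : Vec) p = 0 := fun p hp => by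
    have a1 := f1 p fun h' => hik (tO_disj _ _ p h' hp)
    have a2 := e p fun h' => hjk (tO_disj _ _ p h' hp)
    omega
  have ev := (even_of (v := w) (i := tP k) (by rw [e0 _ (tP_mem' k)]; rfl)).1
  have t1 : Tv v (tw w ∩ tO i) := fun p => by
    by_cases hp : p ∈ tO i
    · have a2 := e p fun h' => h (tO_disj _ _ p hp h')
      have := ev p
      simp only [Finset.mem_inter, hp, and_true, mem_tw]
      split_ifs <;> omega
    · rw [f1 p hp, if_neg fun h' => hp (Finset.mem_inter.1 h').2]; rfl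
  obtain ⟨a1, c, a2, a3, a4⟩ := trace_fin i j k h hik hjk _ (tw_cw w)
    (Finset.disjoint_left.2 fun p hp hp' => by rw [mem_tw, e0 p hp'] at hp; omega)
  have t2 : Ty R a (tw w ∩ tO i) := ⟨v, r1, t1⟩
  refine ⟨hQ, (t2.sing C (tO_cw i) (tO_card i) Finset.inter_subset_right).2 a1, fun m => ?_⟩
  rcases hm m with rfl | rfl | rfl
  · exact h1
  · exact h2
  refine (t2.congr C (Y := c \ tO i) ?_).mem_EE C _ _ fun p hp => ?_
  · convert a2 using 1
    rw [← a4]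
    ext p
    simp only [Finset.mem_symmDiff, Finset.mem_inter, Finset.mem_sdiff]
    tauto
  · obtain ⟨n, hn⟩ := tO_cover p
    rw [Finset.mem_sdiff] at hp
    rcases hm n with rfl | rfl | rfl
    · exact absurd hn hp.2
    · exact absurd hn (Finset.disjoint_left.1 a3 hp.1)
    · exact hn

theorem ark_AT (i : Fin 3) : Ark C (AT C i) := ark_EE C _ _

theorem z_AT (i : Fin 3) : z ∈ AT C i := (ty_z C).mem_EE C _ _ (Finset.empty_subset _)

theorem s_AT (i : Fin 3) : g * z * g⁻¹ ∈ AT C i := (ty_s C).mem_EE C _ _ (Finset.empty_subset _)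

omit C in
theorem spl_tO {i : Fin 3} (j : Fin 3) {v : leechLattice} (h : Fx (tO i) v) : Spl (tO j) v := by
  by_cases e : i = j
  · subst e; exact h.spl
  refine ⟨0, fun p => ?_⟩
  split_ifs with hp
  exacts [(h p fun h' => e (tO_disj _ _ p h' hp)).symm, rfl]

theorem comm_B {i j : Fin 3} (ha : a ∈ AT C i) (hQ : a ∈ Q) (hb : b ∈ AT C j) : a * b = b * a := by
  obtain ⟨v, f, r⟩ := EE_inf C.M C.h8 ha hQ
  rcases hb with hb | hb
  · exact (Z0_comm C.M (tO_cw j) (tO_card j) hb r (spl_tO j f)).symm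
  · have := comm_of_spl C.M hb.1 hb.2 r (spl_tO j f)
    rw [mul_inv_eq_iff_eq_mul] at this
    exact this.symm

theorem dec_out {i : Fin 3} (ha : a ∈ AT C i) (hQ : a ∉ Q) (hb : b ∈ AT C i) (hQ' : b ∉ Q) :
    a * b ∈ Q := by
  have := ((ark_AT C i).h2 (IsConj.refl z) (z_AT C i)) a ha b hb
  rw [Qx_z C] at this
  exact (this.resolve_left hQ).resolve_left hQ'

theorem comm_eq {i j : Fin 3} {r r' : G} (ha : a ∈ AT C i) (hQ : a ∉ Q) (hb : b ∈ AT C j)
    (hQ' : b ∉ Q) (hr : r ∈ AT C i) (h1 : r ∉ Q) (hr' : r' ∈ AT C j) (h2 : r' ∉ Q) :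
    a * b * a⁻¹ * b⁻¹ = r * r' * r⁻¹ * r'⁻¹ := by
  obtain ⟨p, p1, p2, rfl⟩ : ∃ p, p ∈ AT C i ∧ p ∈ Q ∧ a = p * r :=
    ⟨a * r, mul_mem ha hr, dec_out C ha hQ hr h1, by
      rw [mul_assoc, (ark_AT C i).el r hr, mul_one]⟩
  obtain ⟨q, q1, q2, rfl⟩ : ∃ q, q ∈ AT C j ∧ q ∈ Q ∧ b = q * r' :=
    ⟨b * r', mul_mem hb hr', dec_out C hb hQ' hr' h2, by
      rw [mul_assoc, (ark_AT C j).el r' hr', mul_one]⟩
  have c1 : Commute p r := comm_B C p1 p2 hr
  have c2 : Commute p (q * r') := comm_B C p1 p2 hb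
  have c3 : Commute q r := comm_B C q1 q2 hr
  have c4 : Commute q r' := comm_B C q1 q2 hr'
  calc p * r * (q * r') * (p * r)⁻¹ * (q * r')⁻¹
      = p * (r * (q * r') * r⁻¹) * p⁻¹ * (q * r')⁻¹ := by group
    _ = r * (q * r') * r⁻¹ * (q * r')⁻¹ := by
      rw [((c1.mul_right c2).mul_right c1.inv_right).eq, mul_inv_cancel_right]
    _ = r * q * r⁻¹ * (r * r' * r⁻¹ * r'⁻¹) * q⁻¹ := by group
    _ = q * (r * r' * r⁻¹ * r'⁻¹) * q⁻¹ := by rw [← c3.eq, mul_inv_cancel_right]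
    _ = _ := by
      rw [(((c3.mul_right c4).mul_right c3.inv_right).mul_right c4.inv_right).eq,
        mul_inv_cancel_right]

theorem comm_f {i j : Fin 3} (ha : a ∈ AT C i) (hQ : a ∉ Q) (hb : b ∈ AT C j) (hQ' : b ∉ Q)
    {f : G} (hf : IsConj z f) (h1 : ∀ m, f ∈ AT C m) (h2 : f ≠ z) :
    a * b * a⁻¹ * b⁻¹ = 1 ∨ a * b * a⁻¹ * b⁻¹ = f := by
  obtain ⟨r, r1, r2, r3⟩ := (ark_AT C i).exists_r (IsConj.refl z) (z_AT C i) hf (h1 i) h2
  obtain ⟨r', r1', r2', r3'⟩ := (ark_AT C j).exists_r (IsConj.refl z) (z_AT C j) hf (h1 j) h2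
  rw [Qx_z C] at r2 r2'
  rw [comm_eq C ha hQ hb hQ' r1 r2 r1' r2']
  rcases (lx_Qx C hf).comm r r3 r' r3' with e | e <;> rw [e]
  · exact Or.inl (mul_inv_cancel _)
  · exact Or.inr (mul_inv_cancel_right _ _)

theorem zs_conj : IsConj z (z * (g * z * g⁻¹)) :=
  mul_sing C (IsConj.refl z) s_conj (by rw [Qx_z C]; exact s_mem C) fun e =>
    s_ne' C (by rw [← C.M.zz (g * z * g⁻¹), e, mul_one])

omit C in
theorem card_mul_le (X Y : Subgroup G) :
    Nat.card X * Nat.card Y ≤ Nat.card (X ⊓ Y : Subgroup G) * Nat.card (X ⊔ Y : Subgroup G) := by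
  have h1 : ∀ A B : Subgroup G, Nat.card (A ⊓ B : Subgroup G) * B.relIndex A = Nat.card A :=
    fun A B => by
      have h2 := (B.subgroupOf A).card_mul_index
      rwa [← inf_subgroupOf_left, Nat.card_congr (subgroupOfEquivOfLe inf_le_left).toEquiv,
        inf_subgroupOf_left] at h2
  have h2 := h1 (X ⊔ Y) Y
  rw [inf_eq_right.2 le_sup_right] at h2
  have h3 : Y.relIndex X ≤ Y.relIndex (X ⊔ Y) :=
    relIndex_le_of_le_right le_sup_left index_ne_zero_of_finite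
  rw [← h1 X Y, ← h2]
  calc _ = Nat.card (X ⊓ Y : Subgroup G) * (Nat.card Y * Y.relIndex X) := by ring
    _ ≤ _ := by gcongr

end Tr

open Tr

theorem trio_fix (C : Cx z Q π R g) {i j : Fin 3} {w b : G} (h : OctA C z w (AT C j))
    (hb : b ∈ AT C i) (hQ : b ∈ Q) : w * b * w⁻¹ = b ∨ w * b * w⁻¹ = z * b := by
  obtain ⟨v, f, r⟩ := EE_inf C.M C.h8 hb hQ
  obtain ⟨y, hy⟩ := (spl_iff (tO_cw j)).1 (spl_tO j f)
  have := (OctA.ov h).lab C.M r
  rw [hy] at this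
  exact C.M.uniq (C.M.add_two r y) this

theorem AT_comm (C : Cx z Q π R g) (i j : Fin 3) : ∀ a ∈ AT C i, ∀ b ∈ AT C j, a * b = b * a := by
  intro a ha b hb
  by_cases hQ : a ∈ Q
  · exact comm_B C ha hQ hb
  by_cases hQ' : b ∈ Q
  · exact (comm_B C hb hQ' ha).symm
  have h : a * b * a⁻¹ * b⁻¹ = 1 := by
    rcases comm_f C ha hQ hb hQ' s_conj (s_AT C) (s_ne' C) with h1 | h1
    · exact h1
    rcases comm_f C ha hQ hb hQ' (zs_conj C) (fun m => mul_mem (z_AT C m) (s_AT C m))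
      (fun e => (lx_Qx C (s_conj (g := g))).ne (mul_eq_left.1 e)) with h2 | h2
    · exact h2
    exact absurd (h2.symm.trans h1) (z_mul_ne C.M _)
  rw [mul_inv_eq_one, mul_inv_eq_iff_eq_mul] at h
  exact h

theorem AT_ne (C : Cx z Q π R g) {i j : Fin 3} (h : i ≠ j) : AT C i ≠ AT C j := fun e => by
  obtain ⟨r, -, h1, h2⟩ := exists_nz_mem C.M C.h8 (tO_cw i) (tO_card i)
  have h3 : r ∈ AT C i := Or.inr ⟨h1, h2⟩
  exact not_mem_of_sign C.M (by rw [tO_card]; omega) (by rw [tO_card]; omega) h1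
    (inf_facts C h h3 (e ▸ h3)).1

theorem AT_inf (C : Cx z Q π R g) {i j : Fin 3} (h : i ≠ j) : AT C i ⊓ AT C j = U5 C := by
  ext a
  exact ⟨fun ha => ⟨(inf_facts C h ha.1 ha.2).2.2 0, (inf_facts C h ha.1 ha.2).2.2 1⟩,
    fun ha => ⟨(inf_facts C (by decide) ha.1 ha.2).2.2 i, (inf_facts C (by decide) ha.1 ha.2).2.2 j⟩⟩

theorem U5_sing (C : Cx z Q π R g) : SingU z Q (U5 C) :=
  (ark_AT C 0).singU inf_le_left fun _ ha => (inf_facts C (by decide) ha.1 ha.2).2.1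

namespace Tr

variable (C : Cx z Q π R g)

theorem mem_S {a : G} (ha : a ∈ (AT C 0 ⊓ Q) ⊔ (AT C 1 ⊓ Q)) :
    ∃ b ∈ AT C 0 ⊓ Q, ∃ b' ∈ AT C 1 ⊓ Q, a = b * b' := by
  have := coe_mul_of_left_le_normalizer_right (AT C 0 ⊓ Q) (AT C 1 ⊓ Q) fun n hn =>
    mem_norm_of fun x hx => by rw [AT_comm C 0 1 n hn.1 x hx.1, mul_inv_cancel_right]; exact hx
  have h : a ∈ ((AT C 0 ⊓ Q) ⊔ (AT C 1 ⊓ Q) : Subgroup G) := ha
  rw [← SetLike.mem_coe, this] at h
  obtain ⟨b, hb, b', hb', e⟩ := h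
  exact ⟨b, hb, b', hb', e.symm⟩

theorem S_comm : ∀ a ∈ (AT C 0 ⊓ Q) ⊔ (AT C 1 ⊓ Q), ∀ b ∈ (AT C 0 ⊓ Q) ⊔ (AT C 1 ⊓ Q),
    a * b = b * a := by
  intro a ha b hb
  obtain ⟨p, p1, q, q1, rfl⟩ := mem_S C ha
  obtain ⟨p', p1', q', q1', rfl⟩ := mem_S C hb
  have c1 : Commute p p' := AT_comm C 0 0 _ p1.1 _ p1'.1
  have c2 : Commute p q' := AT_comm C 0 1 _ p1.1 _ q1'.1
  have c3 : Commute q p' := AT_comm C 1 0 _ q1.1 _ p1'.1
  have c4 : Commute q q' := AT_comm C 1 1 _ q1.1 _ q1'.1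
  exact (c1.mul_right c2).mul_left (c3.mul_right c4)

theorem S_le : (AT C 0 ⊓ Q) ⊔ (AT C 1 ⊓ Q) ≤ Q := sup_le inf_le_right inf_le_right

theorem z_S : z ∈ (AT C 0 ⊓ Q) ⊔ (AT C 1 ⊓ Q) := mem_sup_left ⟨z_AT C 0, C.M.lx.mem⟩

theorem cards : Nat.card (U5 C) = 32 ∧
    Nat.card ((AT C 0 ⊓ Q) ⊔ (AT C 1 ⊓ Q) : Subgroup G) = 2 ^ 13 := by
  have h1 := (U5_sing C).card_le C
  have h2 := (ex_of_lx C.M.lx).card_abelian (S_le C) (z_S C) (S_comm C)
  have h3 := card_mul_le (AT C 0 ⊓ Q) (AT C 1 ⊓ Q)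
  have h4 : ∀ i, Nat.card (AT C i ⊓ Q : Subgroup G) = 2 ^ 9 := fun i => by
    have := (ark_AT C i).card_B (IsConj.refl z) (z_AT C i)
    rwa [Qx_z C] at this
  have h5 : Nat.card ((AT C 0 ⊓ Q) ⊓ (AT C 1 ⊓ Q) : Subgroup G) ≤ Nat.card (U5 C) :=
    card_le_of_le (inf_le_inf inf_le_left inf_le_left)
  rw [h4, h4] at h3
  rw [C.M.card] at h2
  generalize Nat.card ((AT C 0 ⊓ Q) ⊔ (AT C 1 ⊓ Q) : Subgroup G) = n at *
  generalize Nat.card ((AT C 0 ⊓ Q) ⊓ (AT C 1 ⊓ Q) : Subgroup G) = m at *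
  generalize Nat.card (U5 C) = k at *
  have h6 : n ≤ 2 ^ 13 := by nlinarith
  constructor <;> nlinarith

end Tr

theorem card_U5 (C : Cx z Q π R g) : Nat.card (U5 C) = 32 := (cards C).1

theorem AT_dec (C : Cx z Q π R g) {a : G} (ha : a ∈ Q)
    (h0 : ∀ b ∈ AT C 0, b ∈ Q → a * b = b * a) (h1 : ∀ b ∈ AT C 1, b ∈ Q → a * b = b * a) :
    ∃ b ∈ AT C 0, ∃ b' ∈ AT C 1, a = b * b' := by
  have h2 := (ex_of_lx C.M.lx).card_cent (S_le C) (z_S C)
  rw [(cards C).2, C.M.card] at h2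
  have h3 := eq_of_le_of_card_ge (H := (AT C 0 ⊓ Q) ⊔ (AT C 1 ⊓ Q))
    (K := Q ⊓ centralizer (((AT C 0 ⊓ Q) ⊔ (AT C 1 ⊓ Q) : Subgroup G) : Set G))
    (le_inf (S_le C) fun x hx y hy => S_comm C y hy x hx) (by rw [(cards C).2]; omega)
  have h4 : a ∈ (AT C 0 ⊓ Q) ⊔ (AT C 1 ⊓ Q) := by
    rw [h3]
    refine ⟨ha, fun y hy => ?_⟩
    obtain ⟨p, p1, q, q1, rfl⟩ := mem_S C hy
    have c1 : Commute a p := h0 p p1.1 p1.2
    have c2 : Commute a q := h1 q q1.1 q1.2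
    exact (c1.mul_right c2).symm
  obtain ⟨p, p1, q, q1, e⟩ := mem_S C h4
  exact ⟨p, p1.1, q, q1.1, e⟩

end Cfsg.Agent.M2L
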