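import Cfsg.Agent.M2L.B0
import Cfsg.Agent.M2L.B1
import Cfsg.Agent.M2L.B23
import Cfsg.Agent.M2L.NF
import Cfsg.Agent.M2L.CF
import Cfsg.Agent.M2L.TS

set_option autoImplicit false

namespace Cfsg.Agent.M2L

universe u

open Subgroup H15 H97 H38.MT

variable {G : Type u} [Group G] {z : G} {Q : Subgroup G}
  {π : centralizer ({z} : Set G) →* Spor.Co1} {R : G → leechLattice → Prop} {g : G} [Finite G]

namespace Bm

/-- frames common to two arks -/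
def Fr (z : G) (A1 A2 : Subgroup G) (f : G) : Prop := IsConj z f ∧ f ∈ A1 ∧ f ∈ A2 ∧ f ≠ z

omit [Finite G] in
theorem Fr.back {A1 A2 : Subgroup G} {f c : G} (hc : c * z * c⁻¹ = z) (h : Fr z (cjs c A1) (cjs c A2) f) :
    ∃ f', Fr z A1 A2 f' ∧ f = c * f' * c⁻¹ := by
  have e : f = c * (c⁻¹ * f * c) * c⁻¹ := by group
  exact ⟨c⁻¹ * f * c, ⟨(isConj_cj c).1 (e ▸ h.1), mem_cjs.1 h.2.1, mem_cjs.1 h.2.2.1,
    fun k => h.2.2.2 (by rw [e, k, hc])⟩, e⟩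

omit [Finite G] in
theorem cjs_Q (C : Cx z Q π R g) {c : G} (hc : c * z * c⁻¹ = z) : cjs c Q = Q := by
  rw [← Qx_eq C, hc, Qx_z C]

omit [Finite G] in
theorem cj_mem_Q (C : Cx z Q π R g) {c a : G} (hc : c * z * c⁻¹ = z) (ha : a ∈ Q) : c * a * c⁻¹ ∈ Q := by
  have := (conj_mem_cjs (g := c)).2 ha
  rwa [cjs_Q C hc] at this

theorem oct_cj {C : Cx z Q π R g} {c w : G} {A : Subgroup G} (hc : c * z * c⁻¹ = z) (h : OctA C z w A) :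
    OctA C z (c * w * c⁻¹) (cjs c A) := by
  have := h.cj c
  rwa [hc] at this

theorem nf {C : Cx z Q π R g} {w1 w2 : G} {A1 A2 A3 : Subgroup G} (h1 : OctA C z w1 A1) (h2 : OctA C z w2 A2)
    (h3 : OctA C z (w1 * w2) A3) (h : ∃ b ∈ A1, b ∈ Q ∧ w2 * b * w2⁻¹ ≠ b ∧ w2 * b * w2⁻¹ ≠ z * b)
    {f : G} (hf : Fr z A1 A2 f) : ∃ c, c * z * c⁻¹ = z ∧ c * f * c⁻¹ = g * z * g⁻¹ ∧
      cjs c A1 = AA C ∧ cjs c A2 = AB C := by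
  obtain ⟨c, hc, hs, k | ⟨e1, e2, -⟩⟩ := nf_pair h1 h2 h3 hf.1 hf.2.1 hf.2.2.1 hf.2.2.2
  · exact ⟨c, hc, hs, k⟩
  obtain ⟨b, b1, b2, b3, b4⟩ := h
  have e : c * w2 * c⁻¹ * (c * b * c⁻¹) * (c * w2 * c⁻¹)⁻¹ = c * (w2 * b * w2⁻¹) * c⁻¹ := by group
  rcases trio_fix C (e2 ▸ oct_cj hc h2) (e1 ▸ conj_mem_cjs.2 b1) (cj_mem_Q C hc b2) with k | k
  · rw [e] at k
    exact absurd (by simpa using k) b3
  · rw [e, show z * (c * b * c⁻¹) = c * (z * b) * c⁻¹ by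
      conv_lhs => rw [← hc]
      group] at k
    exact absurd (mul_left_cancel (mul_right_cancel k)) b4

end Bm

open Bm in
theorem caseB {C : Cx z Q π R g} {W : Subgroup G} (hW : El W) {w1 w2 : G} (m1 : w1 ∈ W)
    (m2 : w2 ∈ W) {A1 A2 A3 : Subgroup G} (h1 : OctA C z w1 A1) (h2 : OctA C z w2 A2)
    (h3 : OctA C z (w1 * w2) A3)
    (h : ∃ b ∈ A1, b ∈ Q ∧ w2 * b * w2⁻¹ ≠ b ∧ w2 * b * w2⁻¹ ≠ z * b) :
    ∃ u, IsConj z u ∧ u ∈ A1 ∧ u ∈ A2 ∧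
      Nat.card (W ⊓ Q : Subgroup G) < Nat.card (W ⊓ Qx z Q u : Subgroup G) := by
  by_cases hc : ∀ f f', Fr z A1 A2 f → Fr z A1 A2 f' → ∀ y ∈ W, y ∈ Q → y ∈ Qx z Q f → y ∈ Qx z Q f'
  · obtain ⟨f₀, a1, a2, a3, -, a4⟩ := common h1 h2 (hW _ m2) (hW.comm m1 m2)
    obtain ⟨c, hz, -, e1, e2⟩ := nf h1 h2 h3 h ⟨a1, a2, a3, a4⟩
    have k1 : OctA C z (c * w1 * c⁻¹) (AA C) := e1 ▸ oct_cj hz h1
    have k2 : OctA C z (c * w2 * c⁻¹) (AB C) := e2 ▸ oct_cj hz h2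
    have hW' := hW.cj c
    have n1 := (conj_mem_cjs (g := c)).2 m1
    have n2 := (conj_mem_cjs (g := c)).2 m2
    obtain ⟨f, b1, b2, b3, b4, b5⟩ := caseB3 C k1 k2 (hW' _ n1) (hW' _ n2) (hW'.comm n1 n2)
    obtain ⟨u, hu, rfl⟩ := Fr.back hz ⟨b1, e1 ▸ b2, e2 ▸ b3, b4⟩
    refine ⟨u, hu.1, hu.2.1, hu.2.2.1, card_lt_of (fun d hd => ⟨hd.1, ?_⟩) ⟨m1, (mem_Qx_cj c).1 b5⟩
      fun k => h1.not_mem ((Qx_z C).ge k.2)⟩
    have n := (conj_mem_cjs (g := c)).2 hd.1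
    have q := cj_mem_Q C hz hd.2
    obtain ⟨f, c1, c2, c3, c4, c5⟩ := caseB2 C q (hW' _ n)
      (k1.cent ((Qx_z C).ge q) (Or.inl (by rw [hW'.comm n n1, mul_inv_cancel_right])))
      (k2.cent ((Qx_z C).ge q) (Or.inl (by rw [hW'.comm n n2, mul_inv_cancel_right])))
    obtain ⟨u', hu', rfl⟩ := Fr.back hz ⟨c1, e1 ▸ c2, e2 ▸ c3, c4⟩
    exact hc u' u hu' hu d hd.1 hd.2 ((mem_Qx_cj c).1 c5)
  · push Not at hc
    obtain ⟨f, f', hf, hf', y, y1, y2, y3, y4⟩ := hc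
    obtain ⟨c, hz, hs, e1, e2⟩ := nf h1 h2 h3 h hf
    have k1 : OctA C z (c * w1 * c⁻¹) (AA C) := e1 ▸ oct_cj hz h1
    have k2 : OctA C z (c * w2 * c⁻¹) (AB C) := e2 ▸ oct_cj hz h2
    obtain ⟨v, hv, h4⟩ := exists_four C (cj_mem_Q C hz y2) (hs ▸ (mem_Qx_cj c).2 y3)
    obtain ⟨u, hu, lt⟩ := caseB1 C (hW.cj c) (conj_mem_cjs.2 m1) (conj_mem_cjs.2 m2) k1 k2 (conj_mem_cjs.2 y1) hv h4
      fun hp => y4 ((mem_Qx_cj c).1 (mem_Qf C hv h4 hp ((isConj_cj c).2 hf'.1) (e1 ▸ conj_mem_cjs.2 hf'.2.1)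
        (e2 ▸ conj_mem_cjs.2 hf'.2.2.1)))
    have L := lx_Qx C (IsConj.refl z)
    have key : ∃ u', IsConj z u' ∧ u' ∈ A1 ∧ u' ∈ A2 ∧ u = c * u' * c⁻¹ := by
      rcases hu with rfl | rfl
      · exact ⟨f, hf.1, hf.2.1, hf.2.2.1, hs.symm⟩
      · have fq : f ∈ Qx z Q z := by
          rw [← mem_Qx_cj c, hs, hz, Qx_z C]; exact s_mem C
        refine ⟨z * f, mul_sing C (IsConj.refl z) hf.1 fq fun k => hf.2.2.2 ?_, mul_mem h1.mem hf.2.1,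
          mul_mem h2.mem hf.2.2.1, ?_⟩
        · exact mul_left_cancel (k.trans L.sq.symm)
        · rw [← hs]
          conv_lhs => rw [← hz]
          group
    obtain ⟨u', a1, a2, a3, rfl⟩ := key
    refine ⟨u', a1, a2, a3, ?_⟩
    rw [Qx_cj, ← cjs_inf, card_cjs] at lt
    rwa [← card_cjs c, cjs_inf, cjs_Q C hz]

end Cfsg.Agent.M2L
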