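import Cfsg.Agent.M2L.C1a
import Cfsg.Agent.M2L.TS
import Cfsg.Agent.M2L.NF
import Cfsg.Agent.M2L.CF

set_option autoImplicit false

namespace Cfsg.Agent.M2L

universe u

open Subgroup H15 H97 H38.MT

variable {G : Type u} [Group G] {z : G} {Q : Subgroup G}
  {π : centralizer ({z} : Set G) →* Spor.Co1} {R : G → leechLattice → Prop} {g : G} [Finite G]

/-- the hypotheses of the case -/
private structure C1H (C : Cx z Q π R g) (W : Subgroup G) (w1 w2 : G) (A1 A2 A3 : Subgroup G) :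
    Prop where
  hW : El W
  m1 : w1 ∈ W
  m2 : w2 ∈ W
  h1 : OctA C z w1 A1
  h2 : OctA C z w2 A2
  h3 : OctA C z (w1 * w2) A3
  h : ∀ b ∈ A1, b ∈ Q → w2 * b * w2⁻¹ = b ∨ w2 * b * w2⁻¹ = z * b
  h' : ∃ b ∈ A1, b ∈ Q ∧ w2 * b ≠ b * w2

/-- the conclusion of the case -/
private def C1C (z : G) (Q W A1 A2 : Subgroup G) : Prop :=
  ∃ u, IsConj z u ∧ u ∈ A1 ∧ u ∈ A2 ∧
    Nat.card (W ⊓ Q : Subgroup G) < Nat.card (W ⊓ Qx z Q u : Subgroup G)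

variable {C : Cx z Q π R g} {W : Subgroup G} {w1 w2 : G} {A1 A2 A3 : Subgroup G}

omit [Finite G] in
private theorem c1_cjs_Q (C : Cx z Q π R g) {c : G} (hc : c * z * c⁻¹ = z) : cjs c Q = Q := by
  rw [← Qx_eq C c, hc, Qx_z C]

private theorem C1H.cj (H : C1H C W w1 w2 A1 A2 A3) {c : G} (hc : c * z * c⁻¹ = z) :
    C1H C (cjs c W) (c * w1 * c⁻¹) (c * w2 * c⁻¹) (cjs c A1) (cjs c A2) (cjs c A3) := by
  have hQ := c1_cjs_Q C hc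
  refine ⟨H.hW.cj c, conj_mem_cjs.2 H.m1, conj_mem_cjs.2 H.m2, by simpa only [hc] using H.h1.cj c,
    by simpa only [hc] using H.h2.cj c, ?_, fun b hb hb' => ?_, ?_⟩
  · have := H.h3.cj c
    rwa [hc, show c * (w1 * w2) * c⁻¹ = c * w1 * c⁻¹ * (c * w2 * c⁻¹) by group] at this
  · rw [← hQ] at hb'
    have e : c * w2 * c⁻¹ * b * (c * w2 * c⁻¹)⁻¹ = c * (w2 * (c⁻¹ * b * c) * w2⁻¹) * c⁻¹ := by group
    rcases H.h _ (mem_cjs.1 hb) (mem_cjs.1 hb') with e' | e'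
    · left; rw [e, e']; group
    · right; rw [e, e']
      calc c * (z * (c⁻¹ * b * c)) * c⁻¹ = c * z * c⁻¹ * b := by group
        _ = z * b := by rw [hc]
  · obtain ⟨b, hb, hb', hn⟩ := H.h'
    refine ⟨c * b * c⁻¹, conj_mem_cjs.2 hb, by rw [← hQ]; exact conj_mem_cjs.2 hb', fun e => hn ?_⟩
    calc w2 * b = c⁻¹ * (c * w2 * c⁻¹ * (c * b * c⁻¹)) * c := by group
      _ = b * w2 := by rw [e]; group

omit [Finite G] in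
private theorem C1C.of_cj (C : Cx z Q π R g) {c : G} (hc : c * z * c⁻¹ = z)
    (h : C1C z Q (cjs c W) (cjs c A1) (cjs c A2)) : C1C z Q W A1 A2 := by
  obtain ⟨u, h1, h2, h3, h4⟩ := h
  have e : u = c * (c⁻¹ * u * c) * c⁻¹ := by group
  refine ⟨c⁻¹ * u * c, (isConj_cj c).1 (e ▸ h1), mem_cjs.1 h2, mem_cjs.1 h3, ?_⟩
  rw [e, Qx_cj, ← cjs_inf, card_cjs] at h4
  rwa [← card_cjs c, cjs_inf, c1_cjs_Q C hc]

private theorem C1H.nf (H : C1H C W w1 w2 A1 A2 A3) {f : G} (hf : IsConj z f) (hf1 : f ∈ A1)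
    (hf2 : f ∈ A2) (hne : f ≠ z) : ∃ c, c * z * c⁻¹ = z ∧ c * f * c⁻¹ = g * z * g⁻¹ ∧
      cjs c A1 = AT C 0 ∧ cjs c A2 = AT C 1 ∧ cjs c A3 = AT C 2 := by
  obtain ⟨c, hc, hs, ⟨e1, e2⟩ | e⟩ := nf_pair H.h1 H.h2 H.h3 hf hf1 hf2 hne
  · have H' := H.cj hc
    rw [e1, e2] at H'
    obtain ⟨b, hb, hb', n1, n2⟩ := sext_move C H'.h2
    exact ((H'.h b hb hb').elim n1 n2).elim
  · exact ⟨c, hc, hs, e⟩

private theorem C1H.step1 (H : C1H C W w1 w2 (AT C 0) (AT C 1) (AT C 2)) :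
    ∃ r ∈ AT C 0, r ∉ Q ∧ IsConj z (w2 * r * w2⁻¹ * r⁻¹) ∧ w2 * r * w2⁻¹ * r⁻¹ ∈ AT C 0 ∧
      w2 * r * w2⁻¹ * r⁻¹ ∈ AT C 1 ∧ w2 * r * w2⁻¹ * r⁻¹ ≠ z := by
  obtain ⟨r1, a1, n1, -⟩ := H.h1.ex
  obtain ⟨r2, a2, n2, -⟩ := H.h2.ex
  obtain ⟨q1, -, -⟩ := H.h1.dec (H.hW _ H.m1) a1 n1
  obtain ⟨q2, -, c2⟩ := H.h2.dec (H.hW _ H.m2) a2 n2
  have o1 := octA_self H.h1.ark H.h1.sx H.h1.mem a1 n1
  have c12 := AT_comm C 0 1 r1 a1 r2 a2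
  have e : w2 * r2 * r1 * (w2 * r2)⁻¹ * r1⁻¹ = w2 * r1 * w2⁻¹ * r1⁻¹ := by
    rw [mul_assoc w2, ← c12]; group
  have m0 := o1.comm_mem q2
  rw [e] at m0
  have hn : ¬ (w2 * r1 * w2⁻¹ * r1⁻¹ = 1 ∨ w2 * r1 * w2⁻¹ * r1⁻¹ = z) := fun hh => by
    obtain ⟨b, hb, -, hb'⟩ := H.h'
    have := o1.cent q2 (by
      rw [← e] at hh
      exact hh.imp (fun e' => mul_inv_eq_one.1 e') fun e' => mul_inv_eq_iff_eq_mul.1 e') b hb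
    apply hb'
    rw [mul_assoc, ← AT_comm C 0 1 b hb r2 a2, ← mul_assoc, ← mul_assoc] at this
    exact mul_right_cancel this
  have i1 := H.h1.ark.el.inv a1
  have i2 := H.h2.ark.el.inv a2
  have o3 : OctA C z (r1 * r2) (AT C 2) := by
    have := H.h3.mul_left (q := r1 * (w2 * r2)⁻¹ * r1⁻¹ * (w1 * r1)⁻¹) (mul_mem
      ((lx_Qx C H.h1.sx).norm r1 o1.comm _ (inv_mem q2)) (inv_mem q1))
    rwa [show r1 * (w2 * r2)⁻¹ * r1⁻¹ * (w1 * r1)⁻¹ * (w1 * w2) =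
      r1 * r2⁻¹ * w2⁻¹ * (r1 * r1)⁻¹ * w2 by group, H.h1.ark.el r1 a1, inv_one, mul_one,
      inv_mul_cancel_right, i2] at this
  have m2 := o3.comm_mem q2
  rw [show w2 * r2 * (r1 * r2) * (w2 * r2)⁻¹ * (r1 * r2)⁻¹ =
    w2 * r2 * r1 * (w2 * r2 * r2⁻¹)⁻¹ * r2⁻¹ * r1⁻¹ by group, i2, c2 r2 a2,
    show w2 * r2 * r1 * (r2 * (w2 * r2))⁻¹ * r2 * r1⁻¹ =
    w2 * r2 * r1 * (w2 * r2)⁻¹ * r1⁻¹ by group, e] at m2
  have mU : w2 * r1 * w2⁻¹ * r1⁻¹ ∈ U5 C := by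
    rw [← AT_inf C (i := 0) (j := 2) (by decide)]
    exact ⟨m0, m2⟩
  rw [not_or] at hn
  exact ⟨r1, a1, by rwa [Qx_z C] at n1, (U5_sing C _ mU hn.1).1, m0, mU.2, hn.2⟩

private theorem C1H.step2 (H : C1H C W w1 w2 (AT C 0) (AT C 1) (AT C 2)) {r : G}
    (ar : r ∈ AT C 0) (nr : r ∉ Q) (hr : w2 * r * w2⁻¹ * r⁻¹ = g * z * g⁻¹)
    (s0 : g * z * g⁻¹ ∈ AT C 0) (s1 : g * z * g⁻¹ ∈ AT C 1) : C1C z Q W (AT C 0) (AT C 1) := by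
  have hz := H.h1.sx
  obtain ⟨r1, a1, n1, f1⟩ := H.h1.ark.exists_r hz H.h1.mem s_conj s0 (s_ne' C)
  obtain ⟨r2, a2, n2, f2⟩ := H.h2.ark.exists_r hz H.h2.mem s_conj s1 (s_ne' C)
  obtain ⟨q1, -, c1⟩ := H.h1.dec (H.hW _ H.m1) a1 n1
  obtain ⟨q2, sq2, c2⟩ := H.h2.dec (H.hW _ H.m2) a2 n2
  have o1 : Ov π r1 (signC (tO 0) (tO_cw 0)) :=
    OctA.ov (hc := tO_card 0) (octA_self H.h1.ark hz H.h1.mem a1 n1)
  have o2 : Ov π r2 (signC (tO 1) (tO_cw 1)) :=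
    OctA.ov (hc := tO_card 1) (octA_self H.h2.ark hz H.h2.mem a2 n2)
  have o0 : Ov π r (signC (tO 0) (tO_cw 0)) :=
    OctA.ov (hc := tO_card 0) (octA_self H.h1.ark hz H.h1.mem ar (by rwa [Qx_z C]))
  rw [Qx_z C] at q1 q2
  rw [Qx_eq C] at f2
  obtain ⟨v1, l1⟩ := C.M.ex _ q1
  obtain ⟨v2, l2⟩ := C.M.ex _ q2
  have p1 : Spl (tO 0) v1 := spl_of_cent_EE C (tO_cw 0) (tO_card 0) l1 c1
  have p2 : Spl (tO 1) v2 := spl_of_cent_EE C (tO_cw 1) (tO_card 1) l2 c2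
  have k2 := C.M.mul l2 (o0.lab C.M (C.M.neg (C.M.inv l2)))
  rw [show w2 * r2 * (r * (w2 * r2)⁻¹ * r⁻¹) = w2 * (r2 * r) * r2⁻¹ * w2⁻¹ * r⁻¹ by group,
    ← AT_comm C 0 1 r ar r2 a2, show w2 * (r * r2) * r2⁻¹ * w2⁻¹ * r⁻¹ = w2 * r * w2⁻¹ * r⁻¹ by group,
    hr] at k2
  obtain ⟨x, hx⟩ := C.M.congr C.h8 k2
  have k3 := C.M.mul l1 (o1.lab C.M l2)
  have k4 := C.M.mul l2 (o2.lab C.M l1)
  have c12 := AT_comm C 0 1 r1 a1 r2 a2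
  rw [show w1 * r1 * (r1 * (w2 * r2) * r1⁻¹) = w1 * (r1 * r1) * w2 * r2 * r1⁻¹ by group,
    H.h1.ark.el r1 a1, mul_one, H.h1.ark.el.inv a1] at k3
  rw [show w2 * r2 * (r2 * (w1 * r1) * r2⁻¹) = w2 * (r2 * r2) * w1 * r1 * r2⁻¹ by group,
    H.h2.ark.el r2 a2, mul_one, H.h2.ark.el.inv a2, H.hW.comm H.m2 H.m1, mul_assoc _ r1, c12,
    ← mul_assoc] at k4
  obtain ⟨x', hx'⟩ := C.M.congr k3 k4
  have hy : v1 + signC (tO 1) (tO_cw 1) • (-v1) = e8 none + (x - x' + (x - x')) := by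
    rw [co0_smul_neg] at hx ⊢
    rw [show e8 none + (x - x' + (x - x')) = e8 none + (x + x) - (x' + x') by abel, ← hx,
      show signC (tO 1) (tO_cw 1) • v1 = v1 + signC (tO 0) (tO_cw 0) • v2 + (x' + x') - v2 by
        rw [← hx']; abel]
    abel
  have d01 : Disjoint (tO 0) (tO 1) := Finset.disjoint_left.2 fun a ha hb =>
    absurd (tO_disj 0 1 a ha hb) (by decide)
  obtain ⟨t2, t2'⟩ := cst_of_sub (tO_cw 0) (tO_card 0) (tO_cw 1) (tO_card 1) d01 p2 hx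
  obtain ⟨-, t1'⟩ := cst_of_sub (tO_cw 1) (tO_card 1) (tO_cw 0) (tO_card 0) d01.symm p1 hy
  obtain ⟨c, hc, hc'⟩ := conj_mem_of_cst C.M C.h8 f2 o2 l2 (t2 ((C.M.sq_iff l2).1 sq2))
  rw [mul_assoc w2, H.h2.ark.el r2 a2, mul_one, ← Qx_eq C] at hc'
  have hw : w2 ∈ Qx z Q (c⁻¹ * (g * z * g⁻¹) * c⁻¹⁻¹) := by
    have := (mem_Qx_cj c⁻¹).2 hc'
    rwa [show c⁻¹ * (c * w2 * c⁻¹) * c⁻¹⁻¹ = w2 by group] at this
  have hd : ∀ d ∈ W ⊓ Q, d ∈ Qx z Q (g * z * g⁻¹) ∧ d ∈ Qx z Q (z * (g * z * g⁻¹)) := by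
    rintro d ⟨dW, dQ⟩
    have dQ' : d ∈ Qx z Q z := by rw [Qx_z C]; exact dQ
    obtain ⟨v, l⟩ := C.M.ex _ dQ
    have e1 := H.hW.comm dW H.m1
    have e2 := H.hW.comm dW H.m2
    have b1 := H.h1.cent dQ' (Or.inl (mul_inv_eq_iff_eq_mul.2 e1))
    have b2 := H.h2.cent dQ' (Or.inl (mul_inv_eq_iff_eq_mul.2 e2))
    have u1 : Spl (tO 0) v := spl_of_cent_EE C (tO_cw 0) (tO_card 0) l b1
    have u2 : Spl (tO 1) v := spl_of_cent_EE C (tO_cw 1) (tO_card 1) l b2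
    have j1 := t1' v u2 u1 ((C.M.comm_iff l1 l).1 (by
      rw [mul_assoc, ← b1 r1 a1, ← mul_assoc, ← e1, mul_assoc]))
    have j2 := t2' v u1 u2 ((C.M.comm_iff l2 l).1 (by
      rw [mul_assoc, ← b2 r2 a2, ← mul_assoc, ← e2, mul_assoc]))
    obtain ⟨b, hb⟩ := const_of_cst (tO_card 0) (tO_card 1) d01 j1 j2
    have ds : d ∈ Qx z Q (g * z * g⁻¹) := by
      rw [Qx_eq C]; exact mem_of_const C.M C.h8 l hb
    refine ⟨ds, third C hz s_conj (by rw [Qx_z C]; exact s_mem C) (fun e => s_ne' C ?_) dQ' ds⟩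
    exact (C.M.lx.inv_eq.symm.trans (inv_eq_of_mul_eq_one_right e)).symm
  have nw : w2 ∉ W ⊓ Q := fun hh => H.h2.not_mem (by rw [Qx_z C]; exact hh.2)
  refine ⟨_, (isConj_cj c⁻¹).2 s_conj, ?_, ?_, card_lt_of (fun d hd' => ⟨hd'.1, ?_⟩) ⟨H.m2, hw⟩ nw⟩
  all_goals rcases C.M.lx.comm _ (inv_mem hc) _ (s_mem C) with e | e <;> rw [e]
  · exact s0
  · exact mul_mem H.h1.mem s0
  · exact s1
  · exact mul_mem H.h2.mem s1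
  · exact (hd d hd').1
  · exact (hd d hd').2

theorem caseC1 {C : Cx z Q π R g} {W : Subgroup G} (hW : El W) {w1 w2 : G} (m1 : w1 ∈ W)
    (m2 : w2 ∈ W) {A1 A2 A3 : Subgroup G} (h1 : OctA C z w1 A1) (h2 : OctA C z w2 A2)
    (h3 : OctA C z (w1 * w2) A3)
    (h : ∀ b ∈ A1, b ∈ Q → w2 * b * w2⁻¹ = b ∨ w2 * b * w2⁻¹ = z * b)
    (h' : ∃ b ∈ A1, b ∈ Q ∧ w2 * b ≠ b * w2) :
    ∃ u, IsConj z u ∧ u ∈ A1 ∧ u ∈ A2 ∧
      Nat.card (W ⊓ Q : Subgroup G) < Nat.card (W ⊓ Qx z Q u : Subgroup G) := by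
  have H : C1H C W w1 w2 A1 A2 A3 := ⟨hW, m1, m2, h1, h2, h3, h, h'⟩
  obtain ⟨f, hf, f1, f2, -, hne⟩ := common h1 h2 (hW _ m2) (hW.comm m1 m2)
  obtain ⟨c, hc, -, e1, e2, e3⟩ := H.nf hf f1 f2 hne
  refine C1C.of_cj C hc ?_
  have H1 := H.cj hc
  rw [e1, e2, e3] at H1
  rw [e1, e2]
  obtain ⟨r, ar, nr, i0, i1, i2, i3⟩ := H1.step1
  obtain ⟨c', hc', hs, e1', e2', e3'⟩ := H1.nf i0 i1 i2 i3
  refine C1C.of_cj C hc' ?_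
  have H2 := H1.cj hc'
  rw [e1', e2', e3'] at H2
  rw [e1', e2']
  refine H2.step2 (r := c' * r * c'⁻¹) (by rw [← e1']; exact conj_mem_cjs.2 ar)
    (fun hh => nr (by rw [← c1_cjs_Q C hc'] at hh; exact conj_mem_cjs.1 hh)) (by rw [← hs]; group)
    (by rw [← e1', ← hs]; exact conj_mem_cjs.2 i1) (by rw [← e2', ← hs]; exact conj_mem_cjs.2 i2)

end Cfsg.Agent.M2L
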