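import Cfsg.Agent.M2L.Defs

set_option autoImplicit false

namespace Cfsg.Agent.M2L

universe u

open Subgroup H15 H97 H38.MT

variable {G : Type u} [Group G] {z : G} {Q : Subgroup G}
  {π : centralizer ({z} : Set G) →* Spor.Co1} {R : G → leechLattice → Prop} {g : G} [Finite G]

namespace C1a

variable {e e1 e2 : Finset GolayPt}

theorem oct (he : IsCw e) (hc : e.card = 8) {v w : leechLattice} (t : ℤ)
    (h : ∀ i, (w : Vec) i = (if i ∈ e then (v : Vec) i else 0) + if i = none then 4 * t else 0) :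
    ∃ a : ℤ, (a = 0 ∨ a = 1) ∧ (∀ i ∈ e, ((v : Vec) i - 2 * a) % 4 = 0) ∧ (∑ i ∈ e, (v : Vec) i + 4 * t) % 8 = 0 := by
  obtain ⟨a, ha⟩ := const_in (v := v) (w := v - w) he (by omega) (by omega) fun i => by
    rw [AddSubgroup.coe_sub, Pi.sub_apply, h i]
    split_ifs <;> omega
  obtain ⟨j, hj⟩ : eᶜ.Nonempty := Finset.card_pos.1 (by rw [card_compl']; omega)
  have h1 := (even_of (v := w) (i := j) (by
    rw [h j, if_neg (Finset.mem_compl.1 hj)]
    split_ifs <;> omega)).2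
  simp only [h, Finset.sum_add_distrib, Finset.sum_ite_mem, Finset.univ_inter, Finset.sum_ite_eq', Finset.mem_univ,
    if_true] at h1
  exact ⟨a % 2, by omega, fun i hi => by have := ha i hi; omega, h1⟩

theorem oct3 (he1 : IsCw e1) (hc1 : e1.card = 8) (he2 : IsCw e2) (hc2 : e2.card = 8) (hd : Disjoint e1 e2)
    {v w1 w2 : leechLattice} (t : ℤ)
    (h1 : ∀ i, (w1 : Vec) i = (if i ∈ e1 then (v : Vec) i else 0) + if i = none then 4 * t else 0)
    (h2 : ∀ i, (w2 : Vec) i = if i ∈ e2 then (v : Vec) i else 0) :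
    ∃ a : ℤ, (a = 0 ∨ a = 1) ∧ (∀ i ∈ (e1 ∪ e2)ᶜ, ((v : Vec) i - 2 * a) % 4 = 0) ∧
      (∑ i ∈ (e1 ∪ e2)ᶜ, (v : Vec) i + 4 * -t) % 8 = 0 := by
  refine oct (w := v - w1 - w2) ?_ (by rw [card_compl', Finset.card_union_of_disjoint hd, hc1, hc2]) _ fun i => ?_
  · rw [← Finset.sup_eq_union, ← hd.symmDiff_eq_sup]
    exact (he1.symmDiff he2).compl
  · rw [AddSubgroup.coe_sub, AddSubgroup.coe_sub, Pi.sub_apply, Pi.sub_apply, h1, h2]
    have : i ∈ e1 → i ∉ e2 := fun k => Finset.disjoint_left.1 hd k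
    simp only [Finset.mem_compl, Finset.mem_union, not_or]
    split_ifs <;> first | omega | tauto

theorem split3 (hd : Disjoint e1 e2) (f : GolayPt → ℤ) :
    ∑ i, f i = ∑ i ∈ e1, f i + ∑ i ∈ e2, f i + ∑ i ∈ (e1 ∪ e2)ᶜ, f i := by
  rw [← Finset.sum_union hd, Finset.sum_add_sum_compl]

theorem nrm (hc : e.card = 8) {v : Vec} {a : ℤ} (ha : a = 0 ∨ a = 1) (h : ∀ i ∈ e, (v i - 2 * a) % 4 = 0) :
    (32 : ℤ) ∣ ∑ i ∈ e, v i ^ 2 - 4 * (1 - a) * ∑ i ∈ e, v i := by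
  rcases ha with rfl | rfl
  · rw [sub_zero, mul_one, Finset.mul_sum, ← Finset.sum_sub_distrib]
    exact Finset.dvd_sum fun i hi => sq_four (by have := h i hi; omega)
  · have := Finset.dvd_sum fun i hi => sq_two (x := v i) (by have := h i hi; omega)
    rw [Finset.sum_sub_distrib, Finset.sum_const, hc] at this
    simp only [nsmul_eq_mul, Nat.cast_ofNat] at this
    omega

theorem dt (hc : e.card = 8) {v w : Vec} {a b : ℤ} (h : ∀ i ∈ e, (v i - 2 * a) % 4 = 0)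
    (h' : ∀ i ∈ e, (w i - 2 * b) % 4 = 0) :
    (16 : ℤ) ∣ ∑ i ∈ e, v i * w i - (2 * a * ∑ i ∈ e, w i + 2 * b * ∑ i ∈ e, v i) := by
  have : (16 : ℤ) ∣ ∑ i ∈ e, (v i * w i - (2 * a * w i + 2 * b * v i) + 4 * (a * b)) := Finset.dvd_sum fun i hi => by
    rw [show v i * w i - (2 * a * w i + 2 * b * v i) + 4 * (a * b) = (v i - 2 * a) * (w i - 2 * b) by ring]
    exact mul_dvd_mul (Int.dvd_of_emod_eq_zero (h i hi)) (Int.dvd_of_emod_eq_zero (h' i hi))
  rw [Finset.sum_add_distrib, Finset.sum_sub_distrib, Finset.sum_add_distrib, Finset.sum_const, hc, ← Finset.mul_sum,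
    ← Finset.mul_sum] at this
  exact (dvd_add_left ⟨2 * (a * b), by simp only [nsmul_eq_mul, Nat.cast_ofNat]; ring⟩).1 this

theorem cst {v : Vec} {a b : ℤ} (h1 : ∀ i ∈ e1, (v i - 2 * a) % 4 = 0) (h2 : ∀ i ∈ e2, (v i - 2 * b) % 4 = 0)
    (h3 : ∀ i ∈ (e1 ∪ e2)ᶜ, (v i - 2 * a) % 4 = 0) : Cst v e2 := ⟨b, a, fun i => by
  split_ifs with k
  · exact h2 i k
  · by_cases k1 : i ∈ e1
    exacts [h1 i k1, h3 i (by simp [k, k1])]⟩

end C1a

open C1a

theorem cst_of_sub {e1 e2 : Finset GolayPt} (he1 : IsCw e1) (hc1 : e1.card = 8) (he2 : IsCw e2)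
    (hc2 : e2.card = 8) (hd : Disjoint e1 e2) {v w : leechLattice} (hv : Spl e2 v)
    (h : v + signC e1 he1 • (-v) = e8 none + (w + w)) :
    ((32 : ℤ) ∣ sqNorm (v : Vec) → Cst v e2) ∧ ∀ v' : leechLattice, Spl e1 v' → Spl e2 v' →
      (16 : ℤ) ∣ dotInt (v : Vec) (v' : Vec) → Cst v' e2 := by
  have c3 : (e1 ∪ e2)ᶜ.card = 8 := by rw [card_compl', Finset.card_union_of_disjoint hd, hc1, hc2]
  have hw : ∀ i, (w : Vec) i = (if i ∈ e1 then (v : Vec) i else 0) + if i = none then 4 * -1 else 0 := fun i => by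
    have := congrArg (fun x : leechLattice => (x : Vec) i) h
    simp only [AddSubgroup.coe_add, Pi.add_apply, signC_apply, AddSubgroup.coe_neg, Pi.neg_apply, e8_val,
      Pi.single_apply] at this
    split_ifs at this ⊢ <;> omega
  obtain ⟨w2, hw2⟩ := hv
  obtain ⟨a1, p1, q1, s1⟩ := oct he1 hc1 _ hw
  obtain ⟨a2, p2, q2, s2⟩ := oct he2 hc2 (w := w2) (v := v) 0 fun i => by simp [hw2]
  obtain ⟨a3, p3, q3, s3⟩ := oct3 he1 hc1 he2 hc2 hd _ hw hw2
  refine ⟨fun hn => ?_, fun v' ⟨u1, hu1⟩ ⟨u2, hu2⟩ hn => ?_⟩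
  · have n1 := nrm hc1 p1 q1
    have n2 := nrm hc2 p2 q2
    have n3 := nrm c3 p3 q3
    rw [sqNorm, split3 hd] at hn
    obtain rfl : a1 = a3 := by
      rcases p1 with rfl | rfl <;> rcases p2 with rfl | rfl <;> rcases p3 with rfl | rfl <;> omega
    exact cst q1 q2 q3
  · have hu : ∀ i, (u1 : Vec) i = (if i ∈ e1 then (v' : Vec) i else 0) + if i = none then 4 * 0 else 0 :=
      fun i => by simp [hu1]
    obtain ⟨b1, p1', r1, t1⟩ := oct he1 hc1 _ hu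
    obtain ⟨b2, p2', r2, t2⟩ := oct he2 hc2 (w := u2) (v := v') 0 fun i => by simp [hu2]
    obtain ⟨b3, p3', r3, t3⟩ := oct3 he1 hc1 he2 hc2 hd _ hu hu2
    have n1 := dt hc1 q1 r1
    have n2 := dt hc2 q2 r2
    have n3 := dt c3 q3 r3
    rw [dotInt, split3 hd] at hn
    obtain rfl : b1 = b3 := by
      rcases p1 with rfl | rfl <;> rcases p2 with rfl | rfl <;> rcases p3 with rfl | rfl <;>
        rcases p1' with rfl | rfl <;> rcases p2' with rfl | rfl <;> rcases p3' with rfl | rfl <;> omega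
    exact cst r1 r2 r3

theorem const_of_cst {e1 e2 : Finset GolayPt} (hc1 : e1.card = 8) (hc2 : e2.card = 8)
    (hd : Disjoint e1 e2) {v : Vec} (h1 : Cst v e1) (h2 : Cst v e2) :
    ∃ b : ℤ, ∀ i, (v i - 2 * b) % 4 = 0 := by
  obtain ⟨a, b, h1⟩ := h1
  obtain ⟨a', b', h2⟩ := h2
  obtain ⟨j, hj⟩ : (e1 ∪ e2)ᶜ.Nonempty :=
    Finset.card_pos.1 (by rw [card_compl', Finset.card_union_of_disjoint hd]; omega)
  rw [Finset.mem_compl, Finset.notMem_union] at hj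
  have k1 := h1 j
  have k2 := h2 j
  rw [if_neg hj.1] at k1
  rw [if_neg hj.2] at k2
  refine ⟨b, fun i => ?_⟩
  by_cases hi : i ∈ e1
  · have := h2 i
    rw [if_neg (Finset.disjoint_left.1 hd hi)] at this
    omega
  · have := h1 i
    rwa [if_neg hi] at this

end Cfsg.Agent.M2L
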