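import Cfsg.Agent.M2L.Defs

set_option autoImplicit false

namespace Cfsg.Agent.M2L

universe u

open Subgroup H15 H97 H38.MT

variable {G : Type u} [Group G]

/-- the extension of `A` by an involution centralising it -/
def c2Ext (A : Subgroup G) (y : G) (hy : y * y = 1) (hc : ∀ a ∈ A, y * a = a * y) :
    Subgroup G where
  carrier := {a | a ∈ A ∨ a * y ∈ A}
  one_mem' := Or.inl A.one_mem
  mul_mem' := by
    intro a b ha hb
    rcases ha with ha | ha <;> rcases hb with hb | hb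
    · exact Or.inl (mul_mem ha hb)
    · exact Or.inr (by rw [mul_assoc]; exact mul_mem ha hb)
    · refine Or.inr ?_
      rw [mul_assoc, ← hc b hb, ← mul_assoc]; exact mul_mem ha hb
    · refine Or.inl ?_
      have := mul_mem ha hb
      rwa [mul_assoc, hc _ hb, mul_assoc b, hy, mul_one] at this
  inv_mem' := by
    intro a ha
    rcases ha with ha | ha
    · exact Or.inl (inv_mem ha)
    · refine Or.inr ?_
      have hi : y⁻¹ = y := inv_eq_of_mul_eq_one_right hy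
      have h1 := inv_mem ha
      have h2 := hc _ h1
      rw [mul_inv_rev, hi] at h1 h2
      have : a⁻¹ * y = y * a⁻¹ := by
        calc a⁻¹ * y = y * (y * a⁻¹ * y) := by
              rw [← mul_assoc, ← mul_assoc, hy, one_mul]
          _ = y * a⁻¹ := by rw [← h2, ← mul_assoc y y, hy, one_mul, ]
      rw [this]; exact h1

theorem mem_c2Ext {A : Subgroup G} {y : G} {hy : y * y = 1} {hc : ∀ a ∈ A, y * a = a * y} {a : G} :
    a ∈ c2Ext A y hy hc ↔ a ∈ A ∨ a * y ∈ A := Iff.rfl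

/-- the product of two commuting subgroups -/
def c2Prod (A B : Subgroup G) (hc : ∀ a ∈ A, ∀ b ∈ B, a * b = b * a) : Subgroup G where
  carrier := {w | ∃ a ∈ A, ∃ b ∈ B, w = a * b}
  one_mem' := ⟨1, A.one_mem, 1, B.one_mem, by simp⟩
  mul_mem' := by
    rintro _ _ ⟨a, ha, b, hb, rfl⟩ ⟨a', ha', b', hb', rfl⟩
    refine ⟨a * a', mul_mem ha ha', b * b', mul_mem hb hb', ?_⟩
    calc a * b * (a' * b') = a * (b * a') * b' := by group
      _ = _ := by rw [← hc a' ha' b hb]; group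
  inv_mem' := by
    rintro _ ⟨a, ha, b, hb, rfl⟩
    exact ⟨a⁻¹, inv_mem ha, b⁻¹, inv_mem hb, by rw [mul_inv_rev, hc _ (inv_mem ha) _ (inv_mem hb)]⟩

theorem mem_c2Prod {A B : Subgroup G} {hc : ∀ a ∈ A, ∀ b ∈ B, a * b = b * a} {w : G} :
    w ∈ c2Prod A B hc ↔ ∃ a ∈ A, ∃ b ∈ B, w = a * b := Iff.rfl

theorem c2_h2_mono {X Y Γ : Subgroup G} (h : H2 X Γ) (hY : Y ≤ X) : H2 Y Γ :=
  fun a ha b hb => h a (hY ha) b (hY hb)

theorem c2_h2_prod {A B Γ : Subgroup G} {hc : ∀ a ∈ A, ∀ b ∈ B, a * b = b * a} (h : H2 A Γ)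
    (hB : B ≤ Γ) : H2 (c2Prod A B hc) Γ := by
  rintro _ ⟨a, ha, b, hb, rfl⟩ _ ⟨a', ha', b', hb', rfl⟩
  rcases h a ha a' ha' with e | e | e
  · exact Or.inl (mul_mem e (hB hb))
  · exact Or.inr (Or.inl (mul_mem e (hB hb')))
  · refine Or.inr (Or.inr ?_)
    have : a * b * (a' * b') = a * a' * (b * b') := by
      calc a * b * (a' * b') = a * (b * a') * b' := by group
        _ = _ := by rw [← hc a' ha' b hb]; group
    rw [this]; exact mul_mem e (mul_mem (hB hb) (hB hb'))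

/-- index at most four -/
theorem c2_card4 [Finite G] {W X Q : Subgroup G} (hW : El W) (hX : X ≤ W) {w1 w2 : G}
    (m1 : w1 ∈ W) (m2 : w2 ∈ W)
    (h : ∀ w ∈ W, w ∈ Q ∨ w * w1 ∈ Q ∨ w * w2 ∈ Q ∨ w * (w1 * w2) ∈ Q) :
    Nat.card X ≤ 4 * Nat.card (X ⊓ Q : Subgroup G) := by
  have key : ∀ a ∈ W, ∀ b ∈ W, ∀ s ∈ W, ∀ t ∈ W, a * s ∈ Q → b * t ∈ Q → a * b * (s * t) ∈ Q := by
    intro a ha b hb s hs t ht e1 e2
    have : a * b * (s * t) = a * s * (b * t) := by
      calc a * b * (s * t) = a * (b * s) * t := by group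
        _ = _ := by rw [hW.comm hb hs]; group
    rw [this]; exact mul_mem e1 e2
  let T := c2Ext (W ⊓ Q) w1 (hW _ m1) fun a ha => hW.comm m1 ha.1
  have hT : ∀ a ∈ W, a ∈ T ↔ a ∈ Q ∨ a * w1 ∈ Q := fun a ha => by
    simp only [T, mem_c2Ext, mem_inf, ha, mul_mem ha m1, true_and]
  have m3 := mul_mem m1 m2
  have e1 : w2 * (w1 * w2) = w1 := by
    rw [hW.comm m1 m2, ← mul_assoc, hW _ m2, one_mul]
  have e2 : w1 * w2 * w2 = w1 := by rw [mul_assoc, hW _ m2, mul_one]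
  have hA : H2 X T := by
    intro a ha b hb
    have ha' := hX ha
    have hb' := hX hb
    rw [hT a ha', hT b hb', hT _ (mul_mem ha' hb')]
    rcases h a ha' with f | f | f | f
    · tauto
    · tauto
    all_goals rcases h b hb' with f' | f' | f' | f'
    · tauto
    · tauto
    · have := key a ha' b hb' _ m2 _ m2 f f'
      rw [hW _ m2, mul_one] at this; tauto
    · have := key a ha' b hb' _ m2 _ m3 f f'
      rw [e1] at this; tauto
    · tauto
    · tauto
    · have := key a ha' b hb' _ m3 _ m2 f f'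
      rw [e2] at this; tauto
    · have := key a ha' b hb' _ m3 _ m3 f f'
      rw [hW _ m3, mul_one] at this; tauto
  have hB : H2 (X ⊓ T) Q := by
    intro a ha b hb
    have ha' := hX ha.1
    have hb' := hX hb.1
    rcases (hT a ha').1 ha.2 with f | f
    · tauto
    rcases (hT b hb').1 hb.2 with f' | f'
    · tauto
    have := key a ha' b hb' _ m1 _ m1 f f'
    rw [hW _ m1, mul_one] at this; tauto
  have h1 := hA.card
  have h2 := hB.card
  have h3 : Nat.card (X ⊓ T ⊓ Q : Subgroup G) ≤ Nat.card (X ⊓ Q : Subgroup G) :=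
    card_le_of_le (inf_le_inf_right _ inf_le_left)
  omega

/-- a proper subgroup has index at least two -/
theorem c2_two_le [Finite G] {X Y : Subgroup G} (h : X ≤ Y) {a : G} (ha : a ∈ Y) (ha' : a ∉ X) :
    2 * Nat.card X ≤ Nat.card Y := by
  have h1 := card_lt_of h ha ha'
  obtain ⟨k, hk⟩ := card_dvd_of_le h
  have hp : 0 < Nat.card X := Nat.card_pos
  rw [hk] at h1 ⊢
  have : 2 ≤ k := by
    by_contra hh
    have : k = 0 ∨ k = 1 := by omega
    rcases this with rfl | rfl <;> omega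
  nlinarith

theorem c2_rep {X Γ : Subgroup G} (h : H2 X Γ) : ∃ d ∈ X, ∀ a ∈ X, a ∈ Γ ∨ a * d ∈ Γ := by
  by_cases hX : X ≤ Γ
  · exact ⟨1, one_mem _, fun a ha => Or.inl (hX ha)⟩
  obtain ⟨d, hd, hd'⟩ := SetLike.not_le_iff_exists.1 hX
  exact ⟨d, hd, fun a ha => by have := h a ha d hd; tauto⟩

theorem c2_three [Finite G] {U X Y Z : Subgroup G} (hU : Nat.card U = 32) (h1 : H2 U X)
    (h2 : H2 U Y) (h3 : H2 U Z) : ∃ u ∈ U, u ≠ 1 ∧ u ∈ X ∧ u ∈ Y ∧ u ∈ Z := by
  have a1 := h1.card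
  have a2 := (c2_h2_mono h2 (inf_le_left : U ⊓ X ≤ U)).card
  have a3 := (c2_h2_mono h3 (inf_le_left.trans inf_le_left : U ⊓ X ⊓ Y ≤ U)).card
  have : U ⊓ X ⊓ Y ⊓ Z ≠ ⊥ := fun e => by
    rw [e, card_bot] at a3; omega
  obtain ⟨u, hu, h⟩ := (bot_or_exists_ne_one _).resolve_left this
  exact ⟨u, hu.1.1.1, h, hu.1.1.2, hu.1.2, hu.2⟩

end Cfsg.Agent.M2L
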