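import Cfsg.Agent.M2L.ArkA

set_option autoImplicit false

namespace Cfsg.Agent.M2L

universe u

open Subgroup H15 H97 H38.MT

variable {G : Type u} [Group G] {z : G} {Q : Subgroup G}
  {π : centralizer ({z} : Set G) →* Spor.Co1} {R : G → leechLattice → Prop} {g : G} [Finite G]

theorem LJ.sign {k : Co0} (hk : k ∈ monoN)
    (h : ∀ m, ∀ i ∈ tO m, ∀ j ∈ tO m, ∃ w, k • w4 i j 1 rfl = w4 i j 1 rfl + (w + w)) :
    ∃ d hd, k = signC d hd ∧ ∀ m, ∀ i ∈ tO m, i ∈ d ↔ tP m ∈ d := by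
  obtain ⟨a, ha, e⟩ := monoP_spec ⟨k, hk⟩
  obtain ⟨d, hd, rfl⟩ := mem_signG.1 ha
  generalize monoP ⟨k, hk⟩ = σ at e
  obtain rfl : k = _ := e
  have A : ∀ m, ∀ i ∈ tO m, ∀ j ∈ tO m, i ≠ j → σ.1 i = i ∨ σ.1 i = j := fun m i hi j hj hij => by
    obtain ⟨w, hw⟩ := h m i hi j hj
    have h4 : Is4 (w4 i j 1 rfl) {i, j} := fun l => by
      rw [w4_apply]
      by_cases h1 : l = i <;> by_cases h2 : l = j <;> simp_all
    have := eq_of_cw (cw_of_fix h4 hw) (by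
      rw [Finset.card_smul_finset, Finset.card_pair hij]; omega)
    have h5 := Finset.smul_mem_smul_finset (a := σ.1) (Finset.mem_insert_self i {j})
    rw [this] at h5
    simpa using h5
  obtain rfl : σ = 1 := Subtype.ext (Equiv.ext fun i => by
    have : ∀ m, ∀ i ∈ tO m, ∃ j ∈ tO m, ∃ l ∈ tO m, i ≠ j ∧ i ≠ l ∧ j ≠ l := by decide +kernel
    obtain ⟨m, hi⟩ := tO_cover i
    obtain ⟨j, hj, l, hl, h1, h2, h3⟩ := this m i hi
    exact (A m i hi j hj h1).elim id fun h4 =>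
      (A m i hi l hl h2).resolve_right fun h5 => h3 (h4.symm.trans h5))
  rw [permC_one, mul_one] at h ⊢
  exact ⟨d, hd, rfl, fun m i hi => (h m i hi _ (tP_mem' m)).elim fun w hw => sign_w4 hd hw⟩

theorem LJ.word {d : Finset GolayPt} (h : ∀ m, ∀ i ∈ tO m, i ∈ d ↔ tP m ∈ d) (h0 : ¬ (tP 0 ∈ d ∧ tP 1 ∈ d))
    (h1 : ¬ (tP 0 ∈ d ∧ tP 2 ∈ d)) (h2 : ¬ (tP 1 ∈ d ∧ tP 2 ∈ d)) : d = ∅ ∨ ∃ m, d = tO m := by
  by_cases e : ∃ m, tP m ∈ d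
  · obtain ⟨m, hm⟩ := e
    refine .inr ⟨m, Finset.ext fun i => ⟨fun hi => ?_, fun hi => (h m i hi).2 hm⟩⟩
    obtain ⟨n, hn⟩ := tO_cover i
    have hn' := (h n i hn).1 hi
    obtain rfl : n = m := by
      fin_cases n <;> fin_cases m <;> simp_all
    exact hn
  · refine .inl (Finset.eq_empty_of_forall_notMem fun i hi => ?_)
    obtain ⟨n, hn⟩ := tO_cover i
    exact e ⟨n, (h n i hn).1 hi⟩

theorem lj (C : Cx z Q π R g) {w : G} (hw : w * z = z * w)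
    (h : ∀ i, ∀ b ∈ AT C i, b ∈ Q → w * b * w⁻¹ = b ∨ w * b * w⁻¹ = z * b) :
    w ∈ Q ∨ ∃ i, OctA C z w (AT C i) := by
  obtain ⟨k, hk⟩ := ov_ex π (mem_centralizer_singleton_iff.2 hw)
  have fx : ∀ m, ∀ v, Fx (tO m) v → ∃ u, k • v = v + (u + u) := fun m v hv => by
    obtain ⟨b, hb⟩ := C.M.ex' v
    have l := hk.lab C.M hb
    rcases h m b (Z0_le_EE C.M C.h8 ⟨v, hv, hb⟩) (C.M.mem hb) with e | e <;> rw [e] at l
    · exact C.M.congr hb l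
    · exact C.M.congr (C.M.zmul hb) l
  obtain ⟨d, hd, rfl, hs⟩ := LJ.sign ((mem_monoN_iff_congr none).2 (fx 0 _ fun i hi => by
    rw [e8_val]
    exact Pi.single_eq_of_ne (by rintro rfl; exact hi (tP_mem' 0)) _)) fun m i hi j hj => fx m _ (fx_w4 hi hj)
  have fin : ∀ d hd, Ov π w (signC d hd) → (d = ∅ ∨ ∃ m, d = tO m) → w ∈ Q ∨ ∃ i, OctA C z w (AT C i) := by
    rintro d hd o (rfl | ⟨m, rfl⟩)
    · exact .inl (Ov.one C.M (signC_empty ▸ o))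
    · exact .inr ⟨m, octA_of_ov C _ _ o⟩
  by_cases c : ¬ (tP 0 ∈ d ∧ tP 1 ∈ d) ∧ ¬ (tP 0 ∈ d ∧ tP 2 ∈ d) ∧ ¬ (tP 1 ∈ d ∧ tP 2 ∈ d)
  · exact fin d hd hk (LJ.word hs c.1 c.2.1 c.2.2)
  · refine fin _ _ hk.compl (LJ.word (fun m i hi => ?_) ?_ ?_ ?_) <;> simp only [Finset.mem_compl]
    · exact not_congr (hs m i hi)
    all_goals tauto

end Cfsg.Agent.M2L
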