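import Cfsg.Agent.M2L.TS
import Cfsg.Agent.M2L.LJ
import Cfsg.Agent.M2L.NF
import Cfsg.Agent.M2L.CF
import Cfsg.Agent.M2L.C2a

set_option autoImplicit false

namespace Cfsg.Agent.M2L

universe u

open Subgroup H15 H97 H38.MT

variable {G : Type u} [Group G] {z : G} {Q : Subgroup G}
  {π : centralizer ({z} : Set G) →* Spor.Co1} {R : G → leechLattice → Prop} {g : G} [Finite G]

theorem c2_ark (C : Cx z Q π R g) (i : Fin 3) : Ark C (AT C i) := ark_EE C _ _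

/-- elements of `Q ⊓ Q_w` lie in `A` or in `A (w r)` -/
theorem c2_gamma {C : Cx z Q π R g} {w r a : G} {A : Subgroup G} (h : OctA C z w A)
    (hs : IsConj z w) (hr : r ∈ A) (hy : w * r ∈ Q) (ha : a ∈ Q) (ha' : a ∈ Qx z Q w) :
    a ∈ A ∨ a * (w * r) ∈ A := by
  have L := C.M.lx
  have L' := lx_Qx C hs
  have hz : IsConj z z := IsConj.refl z
  have hzw : z ∉ Qx z Q w := fun e => h.not_mem (perp_symm C hs hz e)
  have k1 : ∀ p ∈ Q, p * w * p⁻¹ = w → p * a * p⁻¹ = a := by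
    intro p hp e
    rcases L.comm p hp a ha with f | f
    · exact f
    · have := L'.norm p (mul_inv_eq_iff_eq_mul.1 e) a ha'
      rw [f] at this
      exact absurd ((Subgroup.mul_mem_cancel_right _ ha').1 this) hzw
  have k2 : ∀ p ∈ Q, (∀ b ∈ A, p * b = b * p) → p * w * p⁻¹ = w ∨ p * w * p⁻¹ = z * w :=
    fun p hp hc => h.conj_of_cent (by rw [Qx_z C]; exact hp) hc
  have pz : ∀ p ∈ Q, p * z * p⁻¹ = z := fun p hp => by rw [L.cen p hp]; group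
  by_cases hc : ∀ p ∈ Q, (∀ b ∈ A, p * b = b * p) → p * a = a * p
  · left
    refine h.ark.mem_of_cent hz h.mem (by rw [Qx_z C]; exact ha) ?_
    rw [Qx_z C]; exact hc
  right
  push Not at hc
  obtain ⟨q, hq, hq1, hq2⟩ := hc
  have q1 : q * a * q⁻¹ = z * a :=
    (L.comm q hq a ha).resolve_left fun e => hq2 (mul_inv_eq_iff_eq_mul.1 e)
  have q2 : q * w * q⁻¹ = z * w := (k2 q hq hq1).resolve_left fun e =>
    hq2 (mul_inv_eq_iff_eq_mul.1 (k1 q hq e))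
  refine h.ark.mem_of_cent hz h.mem (by rw [Qx_z C]; exact mul_mem ha hy) ?_
  rw [Qx_z C]
  intro p hp hpA
  have pr : p * r * p⁻¹ = r := by rw [hpA r hr]; group
  rw [← mul_inv_eq_iff_eq_mul,
    show p * (a * (w * r)) * p⁻¹ = p * a * p⁻¹ * (p * w * p⁻¹ * (p * r * p⁻¹)) by group, pr]
  rcases k2 p hp hpA with e | e
  · rw [k1 p hp e, e]
  · have e1 : p * q * w * (p * q)⁻¹ = w := by
      calc p * q * w * (p * q)⁻¹ = p * (q * w * q⁻¹) * p⁻¹ := by group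
        _ = p * z * p⁻¹ * (p * w * p⁻¹) := by rw [q2]; group
        _ = w := by rw [pz p hp, e, ← mul_assoc, L.sq, one_mul]
    have e2 := k1 _ (mul_mem hp hq) e1
    have e3 : z * (p * a * p⁻¹) = a := by
      calc z * (p * a * p⁻¹) = p * z * p⁻¹ * (p * a * p⁻¹) := by rw [pz p hp]
        _ = p * (q * a * q⁻¹) * p⁻¹ := by rw [q1]; group
        _ = p * q * a * (p * q)⁻¹ := by group
        _ = a := e2
    have e4 : p * a * p⁻¹ = z * a := by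
      calc p * a * p⁻¹ = z * (z * (p * a * p⁻¹)) := by rw [← mul_assoc z z, L.sq, one_mul]
        _ = _ := by rw [e3]
    rw [e4, e]
    calc z * a * (z * w * r) = z * (a * z) * (w * r) := by group
      _ = z * z * (a * (w * r)) := by rw [L.cen a ha]; group
      _ = _ := by rw [L.sq, one_mul]

/-- the elements of `U5` perpendicular to `a` -/
def c2U (C : Cx z Q π R g) (a : G) : Subgroup G where
  carrier := {u | u ∈ U5 C ∧ (u = 1 ∨ a ∈ Qx z Q u)}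
  one_mem' := ⟨one_mem _, Or.inl rfl⟩
  mul_mem' := by
    rintro u v ⟨hu, h1⟩ ⟨hv, h2⟩
    refine ⟨mul_mem hu hv, ?_⟩
    by_cases e1 : u = 1
    · rw [e1, one_mul]; exact h2
    by_cases e2 : v = 1
    · rw [e2, mul_one]; exact h1
    by_cases e3 : u * v = 1
    · exact Or.inl e3
    exact Or.inr (third C (U5_sing C u hu e1).1 (U5_sing C v hv e2).1 ((U5_sing C u hu e1).2 hv) e3
      (h1.resolve_left e1) (h2.resolve_left e2))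
  inv_mem' := by
    rintro u ⟨hu, h1⟩
    rw [((U5_sing C).el C).inv hu]; exact ⟨hu, h1⟩

theorem c2U_h2 (C : Cx z Q π R g) {a : G} (ha : a ∈ AT C 1) : H2 (U5 C) (c2U C a) := by
  intro u hu v hv
  by_cases h1 : u = 1 ∨ a ∈ Qx z Q u
  · exact Or.inl ⟨hu, h1⟩
  by_cases h2 : v = 1 ∨ a ∈ Qx z Q v
  · exact Or.inr (Or.inl ⟨hv, h2⟩)
  refine Or.inr (Or.inr ⟨mul_mem hu hv, ?_⟩)
  push Not at h1 h2
  by_cases e3 : u * v = 1
  · exact Or.inl e3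
  exact Or.inr ((c2_ark C 1).lin (U5_sing C u hu h1.1).1 (U5_sing C v hv h2.1).1
    (U5_sing C _ (mul_mem hu hv) e3).1 hu.2 hv.2 ha h1.2 h2.2)

theorem c2_nf {C : Cx z Q π R g} {W : Subgroup G} (hW : El W) (hz : z ∈ W) {w1 w2 : G}
    (m1 : w1 ∈ W) (m2 : w2 ∈ W) (h1 : OctA C z w1 (AT C 0))
    (h2 : OctA C z w2 (AT C 1)) (h3 : OctA C z (w1 * w2) (AT C 2))
    (c : ∀ i, ∀ w ∈ W, ∀ b ∈ AT C i, b ∈ Q → w * b = b * w) (hs : IsConj z w1)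
    (hm : Nat.card (W ⊓ Q : Subgroup G) ≤ Nat.card (W ⊓ Qx z Q w1 : Subgroup G)) :
    ∃ u, IsConj z u ∧ u ∈ AT C 0 ∧ u ∈ AT C 1 ∧
      Nat.card (W ⊓ Q : Subgroup G) < Nat.card (W ⊓ Qx z Q u : Subgroup G) := by
  have hQ := Qx_z C
  have sA : ∀ w ∈ W, w ∈ Q ∨ w * w1 ∈ Q ∨ w * w2 ∈ Q ∨ w * (w1 * w2) ∈ Q := by
    intro w hw
    rcases lj C (hW.comm hw hz) (fun i b hb hbQ => Or.inl (by rw [c i w hw b hb hbQ]; group))
      with h | ⟨i, h⟩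
    · exact Or.inl h
    · fin_cases i
      · exact Or.inr (Or.inl (hQ ▸ h.mul_mem h1))
      · exact Or.inr (Or.inr (Or.inl (hQ ▸ h.mul_mem h2)))
      · exact Or.inr (Or.inr (Or.inr (hQ ▸ h.mul_mem h3)))
  obtain ⟨r1, hr1, hr1', -⟩ := h1.ex
  obtain ⟨r2, hr2, hr2', -⟩ := h2.ex
  obtain ⟨y1Q, y1s, y1c⟩ := h1.dec (hW _ m1) hr1 hr1'
  obtain ⟨y2Q, -, y2c⟩ := h2.dec (hW _ m2) hr2 hr2'
  rw [hQ] at y1Q y2Q
  let Γ := c2Ext (AT C 0) (w1 * r1) y1s y1c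
  have hzw : z ∉ Qx z Q w1 := fun e => h1.not_mem (perp_symm C hs (IsConj.refl z) e)
  have hΓ : H2 (W ⊓ Q) Γ := by
    have a1 := c2_card4 (X := W ⊓ Qx z Q w1) hW inf_le_left m1 m2 sA
    have a2 := c2_two_le (X := W ⊓ Qx z Q w1 ⊓ Q) (Y := W ⊓ Q ⊓ Γ) (a := z)
      (fun a ha => ⟨⟨ha.1.1, ha.2⟩, c2_gamma h1 hs hr1 y1Q ha.2 ha.1.2⟩)
      ⟨⟨hz, C.M.lx.mem⟩, Or.inl h1.mem⟩ fun e => hzw e.1.2
    exact h2_of_card (by omega)
  obtain ⟨d, hd, hd'⟩ := c2_rep hΓ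
  obtain ⟨a1, ha1, a2, ha2, ea⟩ := AT_dec C y1Q (fun b hb _ => y1c b hb) fun b hb hb' => by
    rw [mul_assoc, AT_comm C 0 1 r1 hr1 b hb, ← mul_assoc, c 1 w1 m1 b hb hb', mul_assoc]
  obtain ⟨b1, hb1, b2, hb2, eb⟩ := AT_dec C hd.2 (c 0 d hd.1) (c 1 d hd.1)
  obtain ⟨c1, hc1, c2, hc2, ec⟩ := AT_dec C y2Q (fun b hb hb' => by
    rw [mul_assoc, AT_comm C 1 0 r2 hr2 b hb, ← mul_assoc, c 0 w2 m2 b hb hb', mul_assoc])
    fun b hb _ => y2c b hb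
  have hc2' : c2 * r2⁻¹ ∈ AT C 1 := mul_mem hc2 (inv_mem hr2)
  obtain ⟨u, hu, hu1, k1, k2, k3⟩ := c2_three (card_U5 C) (c2U_h2 C ha2) (c2U_h2 C hb2)
    (c2U_h2 C hc2')
  have us := (U5_sing C u hu hu1).1
  refine ⟨u, us, hu.1, hu.2, ?_⟩
  let S := c2Prod (AT C 0) (AT C 1 ⊓ Qx z Q u) fun a ha b hb => AT_comm C 0 1 a ha b hb.1
  have s0 : AT C 0 ≤ S := fun a ha => ⟨a, ha, 1, one_mem _, (mul_one a).symm⟩
  have s1 : w1 * r1 ∈ S := ⟨a1, ha1, a2, ⟨ha2, k1.2.resolve_left hu1⟩, ea⟩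
  have s2 : d ∈ S := ⟨b1, hb1, b2, ⟨hb2, k2.2.resolve_left hu1⟩, eb⟩
  have s3 : w2 ∈ S := ⟨c1, hc1, _, ⟨hc2', k3.2.resolve_left hu1⟩, by
    rw [← mul_assoc, ← ec, mul_inv_cancel_right]⟩
  have s4 : w1 ∈ S := (S.mul_mem_cancel_right (s0 hr1)).1 s1
  have s5 : Γ ≤ S := fun a ha => by
    rcases ha with ha | ha
    · exact s0 ha
    · exact (S.mul_mem_cancel_right s1).1 (s0 ha)
  have s6 : W ⊓ Q ≤ S := fun a ha => by
    rcases hd' a ha with h | h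
    · exact s5 h
    · exact (S.mul_mem_cancel_right s2).1 (s5 h)
  have s7 : W ≤ S := fun w hw => by
    rcases sA w hw with h | h | h | h
    · exact s6 ⟨hw, h⟩
    · exact (S.mul_mem_cancel_right s4).1 (s6 ⟨mul_mem hw m1, h⟩)
    · exact (S.mul_mem_cancel_right s3).1 (s6 ⟨mul_mem hw m2, h⟩)
    · exact (S.mul_mem_cancel_right (mul_mem s4 s3)).1 (s6 ⟨mul_mem hw (mul_mem m1 m2), h⟩)
  exact gain le_rfl inf_le_left m1 m2 (hQ ▸ h1.not_mem) (hQ ▸ h2.not_mem) (hQ ▸ h3.not_mem)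
    (c2_h2_mono (c2_h2_prod ((c2_ark C 0).h2 us hu.1) inf_le_right) s7)

theorem caseC2 {C : Cx z Q π R g} {W : Subgroup G} (hW : El W) (hz : z ∈ W) {w1 w2 : G}
    (m1 : w1 ∈ W) (m2 : w2 ∈ W) {A1 A2 A3 : Subgroup G} (h1 : OctA C z w1 A1)
    (h2 : OctA C z w2 A2) (h3 : OctA C z (w1 * w2) A3)
    (c1 : ∀ w ∈ W, ∀ b ∈ A1, b ∈ Q → w * b = b * w) (c2 : ∀ w ∈ W, ∀ b ∈ A2, b ∈ Q → w * b = b * w)
    (c3 : ∀ w ∈ W, ∀ b ∈ A3, b ∈ Q → w * b = b * w) (hs : IsConj z w1)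
    (hm : Nat.card (W ⊓ Q : Subgroup G) ≤ Nat.card (W ⊓ Qx z Q w1 : Subgroup G)) :
    ∃ u, IsConj z u ∧ u ∈ A1 ∧ u ∈ A2 ∧
      Nat.card (W ⊓ Q : Subgroup G) < Nat.card (W ⊓ Qx z Q u : Subgroup G) := by
  obtain ⟨f, hf, hf1, hf2, -, hne⟩ := common h1 h2 (hW _ m2) (hW.comm m1 m2)
  obtain ⟨c, hc, -, hcase⟩ := nf_pair h1 h2 h3 hf hf1 hf2 hne
  have hQ : cjs c Q = Q := by rw [← Qx_eq C, hc, Qx_z C]
  have tr : ∀ A : Subgroup G, (∀ w ∈ W, ∀ b ∈ A, b ∈ Q → w * b = b * w) →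
      ∀ w ∈ cjs c W, ∀ b ∈ cjs c A, b ∈ Q → w * b = b * w := by
    intro A h w hw b hb hb'
    rw [← hQ] at hb'
    have := h _ (mem_cjs.1 hw) _ (mem_cjs.1 hb) (mem_cjs.1 hb')
    calc w * b = c * (c⁻¹ * w * c * (c⁻¹ * b * c)) * c⁻¹ := by group
      _ = _ := by rw [this]; group
  have k1 := h1.cj c
  have k2 := h2.cj c
  have k3 := h3.cj c
  rw [hc] at k1 k2 k3
  rcases hcase with ⟨e1, e2⟩ | ⟨e1, e2, e3⟩
  · rw [e2] at k2
    obtain ⟨b, hb, hb', h, -⟩ := sext_move C k2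
    refine absurd ?_ h
    rw [tr A1 c1 _ (conj_mem_cjs.2 m2) b (e1 ▸ hb) hb']; group
  rw [e1] at k1
  rw [e2] at k2
  rw [e3, show c * (w1 * w2) * c⁻¹ = c * w1 * c⁻¹ * (c * w2 * c⁻¹) by group] at k3
  have cW : Nat.card (cjs c W ⊓ Q : Subgroup G) = Nat.card (W ⊓ Q : Subgroup G) := by
    rw [← card_cjs c (W ⊓ Q), cjs_inf, hQ]
  have cX : ∀ x, Nat.card (cjs c W ⊓ Qx z Q (c * x * c⁻¹) : Subgroup G) =
      Nat.card (W ⊓ Qx z Q x : Subgroup G) := fun x => by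
    rw [← card_cjs c (W ⊓ _), cjs_inf, Qx_cj]
  obtain ⟨u, hu, hu1, hu2, h⟩ := c2_nf (hW.cj c) (hc ▸ conj_mem_cjs.2 hz) (conj_mem_cjs.2 m1)
    (conj_mem_cjs.2 m2) k1 k2 k3 (fun i => by
      fin_cases i
      · exact e1 ▸ tr A1 c1
      · exact e2 ▸ tr A2 c2
      · exact e3 ▸ tr A3 c3) ((isConj_cj c).2 hs) (by rw [cW, cX]; exact hm)
  refine ⟨c⁻¹ * u * c, by simpa using (isConj_cj (z := z) (x := u) c⁻¹).2 hu,
    mem_cjs.1 (e1 ▸ hu1), mem_cjs.1 (e2 ▸ hu2), ?_⟩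
  rw [← cW, ← cX, show c * (c⁻¹ * u * c) * c⁻¹ = u by group]; exact h

end Cfsg.Agent.M2L
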