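import Cfsg.Agent.M2L.OctC

set_option autoImplicit false

namespace Cfsg.Agent.M2L

universe u

open Subgroup H15 H97 H38.MT

theorem D_t1 {a b c : Prop} : a ∨ b ∨ c → (a → (c ↔ b)) → (b → (c ↔ a)) → (c ↔ (a ↔ b)) := by tauto

theorem D_t2 {a b : Prop} : ((a ↔ b) ↔ b) → a := by tauto

theorem D_t3 {a b c d : Prop} : (((a ↔ b) ↔ (c ↔ d)) ↔ d) → a → c → b := by tauto

variable {G : Type u} [Group G] {z : G} {Q : Subgroup G}
  {π : centralizer ({z} : Set G) →* Spor.Co1} {R : G → leechLattice → Prop} {g : G} [Finite G]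

theorem caseD {C : Cx z Q π R g} {W A : Subgroup G} {Ω : Set G} {x : G} (hW : El W)
    (h1 : ∀ a ∈ Ω, a ∈ W ∧ IsConj z a ∧ H2 W (Qx z Q a))
    (hN : ∀ n ∈ normalizer (W : Set G), ∀ a ∈ Ω, n * a * n⁻¹ ∈ Ω) (hz : z ∈ Ω) (hx : x ∈ Ω)
    (h : OctA C z x A) : (∀ a ∈ Ω, a ∈ A) ∨ ∃ f, IsConj z f ∧ ∀ a ∈ Ω, a ∈ Qx z Q f := by
  have sz : IsConj z z := IsConj.refl z
  have L := lx_Qx C sz
  have zW := (h1 z hz).1
  have xW := (h1 x hx).1
  have sx := (h1 x hx).2.1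
  have mq : ∀ y ∈ Ω, ∀ a ∈ W, ∀ b ∈ W, a * b ∈ Qx z Q y ↔ (a ∈ Qx z Q y ↔ b ∈ Qx z Q y) := fun y hy a ha b hb =>
    D_t1 ((h1 y hy).2.2 a ha b hb) (Qx z Q y).mul_mem_cancel_left (Qx z Q y).mul_mem_cancel_right
  have sy : ∀ a ∈ Ω, ∀ b ∈ Ω, a ∈ Qx z Q b ↔ b ∈ Qx z Q a := fun a ha b hb =>
    ⟨perp_symm C (h1 b hb).2.1 (h1 a ha).2.1, perp_symm C (h1 a ha).2.1 (h1 b hb).2.1⟩
  have xz := h.not_mem
  have zx : z ∉ Qx z Q x := fun e => xz ((sy z hz x hx).1 e)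
  have zz : ∀ a ∈ W, ∀ b, z * a * (z * b) = a * b := fun a ha b => by
    rw [hW.comm zW ha, mul_assoc, ← mul_assoc z, L.sq, one_mul]
  have mv : ∀ p ∈ Qx z Q z, (∀ a ∈ A, p * a = a * p) → ∀ w ∈ W, p * w * p⁻¹ = w ∨ p * w * p⁻¹ = z * w := by
    intro p hp hc w hw
    by_cases hq : w ∈ Qx z Q z
    · exact L.comm p hp w hq
    have e : p * w * p⁻¹ = p * (w * x) * p⁻¹ * (p * x * p⁻¹) := by
      rw [conj_mul, mul_assoc w, hW x xW, mul_one]
    have e' : w * x * x = w := by rw [mul_assoc, hW x xW, mul_one]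
    rw [e]
    rcases L.comm p hp _ ((mq z hz w hw x xW).2 (iff_of_false hq xz)) with e1 | e1 <;>
      rcases h.conj_of_cent hp hc with e2 | e2 <;> rw [e1, e2]
    · exact .inl e'
    · exact .inr (by rw [← mul_assoc, ← hW.comm zW (mul_mem hw xW), mul_assoc, e'])
    · exact .inr (by rw [mul_assoc, e'])
    · exact .inl (by rw [zz _ (mul_mem hw xW), e'])
  have key : ∀ y ∈ Ω, ∀ p ∈ Qx z Q z, (∀ a ∈ A, p * a = a * p) →
      (y ∈ Qx z Q z → p * y * p⁻¹ = y) ∧ (y ∉ Qx z Q z → p * (y * x) * p⁻¹ = y * x) := by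
    intro y hy p hp hc
    have yW := (h1 y hy).1
    have hx' := hN p (mem_norm_of fun w hw => by
      rcases mv p hp hc w hw with e | e <;> rw [e]
      exacts [hw, mul_mem zW hw]) x hx
    have e := mem_Qx_cj (z := z) (Q := Q) p (x := x) (a := y)
    have s1 := sy y hy x hx
    have s2 := sy y hy z hz
    rw [← conj_mul]
    rcases mv p hp hc x xW with e1 | e1 <;> rcases mv p hp hc y yW with e2 | e2 <;> rw [e1, e2] at e ⊢
    · exact ⟨fun _ => rfl, fun _ => rfl⟩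
    · rw [mq x hx z zW y yW] at e
      exact absurd (D_t2 e) zx
    · rw [e1] at hx'
      rw [sy y hy _ hx', mq y hy z zW x xW, s1, ← s2] at e
      exact ⟨fun _ => rfl, absurd (D_t2 e)⟩
    · rw [e1] at hx'
      rw [mq _ hx' z zW y yW, sy y hy _ hx', sy z hz _ hx', mq y hy z zW x xW, mq z hz z zW x xW, s1, ← s2] at e
      exact ⟨fun hq => absurd (D_t3 e L.mem hq) xz, fun _ => zz y yW x⟩
  have hb : ∀ y ∈ Ω, y ∈ A ∨ y * x ∈ A := fun y hy => by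
    by_cases hq : y ∈ Qx z Q z
    · exact .inl (h.ark.mem_of_cent sz h.mem hq fun p hp hc => mul_inv_eq_iff_eq_mul.1 ((key y hy p hp hc).1 hq))
    · exact .inr (h.ark.mem_of_cent sz h.mem ((mq z hz y (h1 y hy).1 x xW).2 (iff_of_false hq xz))
        fun p hp hc => mul_inv_eq_iff_eq_mul.1 ((key y hy p hp hc).2 hq))
  by_cases hA : x ∈ A
  · exact .inl fun y hy => (hb y hy).elim id (A.mul_mem_cancel_right hA).1
  obtain ⟨f, sf, fA, fz, -, xf⟩ := h.exists_f (hW x xW)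
  have ff := (lx_Qx C sf).mem
  have c1 : ∀ c ∈ A, c ∈ Qx z Q x → Sing z c → c ∈ Qx z Q f := fun c cA cx sc => by_contra fun cf => by
    have sc := sc.resolve_left fun e => cf (e ▸ one_mem _)
    exact hA (h.ark.inf_le sf sc fA cA cf ⟨xf, perp_symm C sx sc cx⟩)
  have c2 : ∀ c ∈ A, c ∈ Qx z Q x → c ∈ Qx z Q f := fun c cA cx => by_contra fun cf =>
    cf ((h.ark.mem_Qx_iff sf fA cA).2 (iff_of_false (fun s => cf (((Qx z Q f).mul_mem_cancel_right ff).1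
      (c1 _ (mul_mem cA fA) (mul_mem cx (perp_symm C sf sx xf)) s))) fun s => cf (c1 c cA cx s)))
  have c3 : ∀ c ∈ A, c ∈ W → c ∈ Qx z Q f := fun c cA cW => by
    by_cases cx : c ∈ Qx z Q x
    · exact c2 c cA cx
    · exact ((Qx z Q f).mul_mem_cancel_left (perp_symm C sz sf fz)).1
        (c2 _ (mul_mem h.mem cA) ((mq x hx z zW c cW).2 (iff_of_false zx cx)))
  exact .inr ⟨f, sf, fun y hy => (hb y hy).elim (fun e => c3 y e (h1 y hy).1) fun e =>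
    ((Qx z Q f).mul_mem_cancel_right xf).1 (c3 _ e (mul_mem (h1 y hy).1 xW))⟩

end Cfsg.Agent.M2L
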