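import Cfsg.Agent.M2L.OctC

set_option autoImplicit false

namespace Cfsg.Agent.M2L

universe u

open Subgroup H15 H97 H38.MT

variable {G : Type u} [Group G] {z : G} {Q : Subgroup G}
  {π : centralizer ({z} : Set G) →* Spor.Co1} {R : G → leechLattice → Prop} {g : G} [Finite G]

theorem good_perp (C : Cx z Q π R g) {N : Subgroup G} {Ω : Set G} (hne : Ω.Nonempty)
    (h1 : ∀ a ∈ Ω, IsConj z a) (hN : ∀ n ∈ N, ∀ a ∈ Ω, n * a * n⁻¹ ∈ Ω)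
    (h2 : ∀ a ∈ Ω, ∀ b ∈ Ω, b ∈ Qx z Q a) : Good C N := by
  obtain ⟨x, hx⟩ := hne
  refine .inl ⟨closure Ω, (gen_sing C h1 h2).1, fun e => (lx_Qx C (h1 x hx)).ne
    (mem_bot.1 (e ▸ subset_closure hx)), fun n hn => mem_norm_of fun a ha => ?_⟩
  exact (closure_le ((closure Ω).comap (MulAut.conj n).toMonoidHom)).2
    (fun b hb => subset_closure (hN n hn b hb)) ha

theorem good_ark (C : Cx z Q π R g) {N A : Subgroup G} {Ω : Set G} (hne : Ω.Nonempty)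
    (h1 : ∀ a ∈ Ω, IsConj z a) (hN : ∀ n ∈ N, ∀ a ∈ Ω, n * a * n⁻¹ ∈ Ω) (hA : Ark C A)
    (h2 : ∀ a ∈ Ω, a ∈ A) : Good C N := by
  by_cases h : ∀ a ∈ Ω, ∀ b ∈ Ω, b ∈ Qx z Q a
  · exact good_perp C hne h1 hN h
  push Not at h
  obtain ⟨a, ha, b, hb, h⟩ := h
  refine .inr ⟨A, hA, fun n hn => mem_norm_iff.2 ?_⟩
  have k : ∀ c ∈ Ω, c ∈ cjs n A := fun c hc => mem_cjs.2 (by
    simpa using h2 _ (hN _ (inv_mem hn) c hc))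
  exact ark_uniq (hA.cj n) hA (h1 a ha) (k a ha) (k b hb) (h2 a ha) (h2 b hb) h

theorem good_Q (C : Cx z Q π R g) {N : Subgroup G} {Ω : Set G} (hne : Ω.Nonempty)
    (h1 : ∀ a ∈ Ω, IsConj z a) (hN : ∀ n ∈ N, ∀ a ∈ Ω, n * a * n⁻¹ ∈ Ω)
    (hc : ∀ a ∈ Ω, ∀ b ∈ Ω, a * b = b * a) {u : G} (hu : IsConj z u)
    (h2 : ∀ a ∈ Ω, a ∈ Qx z Q u) : Good C N := by
  by_cases h : ∀ a ∈ Ω, ∀ b ∈ Ω, b ∈ Qx z Q a
  · exact good_perp C hne h1 hN h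
  push Not at h
  obtain ⟨x, hx, x', hx', h⟩ := h
  have cx := h1 x hx
  have cx' := h1 x' hx'
  let Ω' : Set G := {v | IsConj z v ∧ ∀ a ∈ Ω, a ∈ Qx z Q v}
  have n' : Ω'.Nonempty := ⟨u, hu, h2⟩
  have i' : ∀ n ∈ N, ∀ v ∈ Ω', n * v * n⁻¹ ∈ Ω' := fun n hn v hv =>
    ⟨(isConj_cj n).2 hv.1, fun a ha => by
      simpa [mul_assoc] using (mem_Qx_cj n).2 (hv.2 _ (hN _ (inv_mem hn) a ha))⟩
  by_cases h' : ∀ a ∈ Ω', ∀ b ∈ Ω', b ∈ Qx z Q a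
  · exact good_perp C n' (fun a ha => ha.1) i' h'
  push Not at h'
  obtain ⟨v, hv, v', hv', h'⟩ := h'
  have p : ∀ w ∈ Ω', ∀ a ∈ Ω, w ∈ Qx z Q a := fun w hw a ha =>
    perp_symm C hw.1 (h1 a ha) (hw.2 a ha)
  have e1 : x ≠ v := fun e => h (e ▸ hv.2 x' hx')
  have e2 : x' ≠ v := fun e => h (perp_symm C cx' cx (e ▸ hv.2 x hx))
  by_cases hA : ∃ A, OctA C v v' A
  · obtain ⟨A, hA⟩ := hA
    exact good_ark C n' (fun a ha => ha.1) i' hA.ark fun w hw => hA.ark.inf_le cx cx'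
      (hA.mem_ark cx (hv.2 x hx) e1 (p _ hv' x hx)) (hA.mem_ark cx' (hv.2 x' hx') e2 (p _ hv' x' hx'))
      h ⟨p w hw x hx, p w hw x' hx'⟩
  refine absurd (la C hv.1 ?_ h' hA cx (hv.2 x hx) e1 (p _ hv' x hx) (hv.2 x' hx') (lx_Qx C cx').sq
    (.inl (mul_inv_eq_iff_eq_mul.2 ((lx_Qx C hv'.1).cen _ (hv'.2 x' hx'))))) h
  rcases (lx_Qx C cx).comm _ (p _ hv' x hx) _ (p _ hv x hx) with e | e
  · exact mul_inv_eq_iff_eq_mul.1 e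
  rcases (lx_Qx C cx').comm _ (p _ hv' x' hx') _ (p _ hv x' hx') with e' | e'
  · exact mul_inv_eq_iff_eq_mul.1 e'
  exact absurd (mul_right_cancel (e.symm.trans e') ▸ (lx_Qx C cx).mem) h

end Cfsg.Agent.M2L
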