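import Cfsg.Agent.M2L.OctC

set_option autoImplicit false

namespace Cfsg.Agent.M2L

universe u

open Subgroup H15 H97 H38.MT

variable {G : Type u} [Group G] {z : G} {Q : Subgroup G}
  {π : centralizer ({z} : Set G) →* Spor.Co1} {R : G → leechLattice → Prop} {g : G} [Finite G]

namespace NoB

open Cfsg.Agent.H14 (idx bits enc)

omit [Finite G] in
theorem sq_eq {u : G} {k k' : Co0} (h : Ov π u k) (h' : Ov π u k') : k' * k' = k * k := by
  rcases h.eq h' with e | e
  · rw [e]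
  · calc k' * k' = negC * (k * negC) * k := by rw [e]; group
      _ = negC * negC * (k * k) := by rw [negC_comm]; group
      _ = _ := by rw [negC_sq, one_mul]

theorem conj_neg {k : Co0} (hk : k * k = negC) (j : Co0) : j * k * j⁻¹ * (j * k * j⁻¹) = negC := by
  rw [conj_mul, hk, negC_comm, mul_inv_cancel_right]

theorem fact (C : Cx z Q π R g) {u f : G} {k : Co0} (ho : Ov π u k) (hk : k * k = negC) (hf : IsConj z f)
    (hQ : f ∈ Q) (hne : f ≠ z) (hu : u ∈ Qx z Q f) : False := by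
  obtain ⟨c, hc, e⟩ := exists_frame C hf hQ hne
  obtain ⟨j, hj⟩ := ov_ex π hc
  have h1 := hj.conj ho
  have h2 : c * u * c⁻¹ ∈ cjs g Q := by rw [← Qx_eq C, ← e]; exact (mem_Qx_cj c).2 hu
  obtain ⟨d, hd, h3⟩ := exists_sign C.M C.h8 h2 h1.comm
  have := sq_eq h1 h3
  rw [signC_sq, conj_neg hk] at this
  exact negC_ne_one this.symm

theorem ex_f (C : Cx z Q π R g) {c w : G} {k : Co0} (ho : Ov π (c⁻¹ * w * c) k) (hk : k * k = 1)
    (hw : w * w = 1) (hq : w ∉ Qx z Q (c * z * c⁻¹)) :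
    ∃ f, IsConj z f ∧ f ∈ Qx z Q (c * z * c⁻¹) ∧ f ≠ c * z * c⁻¹ ∧ w ∈ Qx z Q f := by
  obtain ⟨d, hd, h⟩ := good_one C.M C.h8 ho hk (by
    calc _ = c⁻¹ * (w * w) * c := by group
      _ = _ := by rw [hw]; group)
  have hd' := mem_centralizer_singleton_iff.1 (inv_mem hd)
  rcases h with h | h
  · refine (hq ?_).elim
    rw [Qx_eq C, mem_cjs]
    simpa [mul_assoc] using C.M.lx.norm _ hd' _ h
  · refine ⟨c * d⁻¹ * g * z * (c * d⁻¹ * g)⁻¹, isConj_iff.2 ⟨_, rfl⟩, ?_, fun e => s_ne' C ?_, ?_⟩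
    · rw [Qx_eq C, mem_cjs]
      simpa [mul_assoc] using C.M.lx.norm _ hd' _ (s_mem C)
    · calc g * z * g⁻¹ = d * c⁻¹ * (c * d⁻¹ * g * z * (c * d⁻¹ * g)⁻¹) * c * d⁻¹ := by group
        _ = d * z * d⁻¹ := by rw [e]; group
        _ = z := by rw [mem_centralizer_singleton_iff.1 hd]; group
    · rw [Qx_eq C, mem_cjs]
      simpa [mul_assoc] using mem_cjs.1 h

theorem sing_of (C : Cx z Q π R g) {k : Co0} (hk : k * k = negC) {a : G} {v : leechLattice}
    (h : R a (v + k • v)) : Sing z a := by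
  rcases C.M.short (C.M.mem h) with (e | e) | ⟨y, hy, hn⟩
  · exact Or.inl e
  · exact Or.inr (e ▸ IsConj.refl _)
  obtain ⟨w, hw⟩ := C.M.congr h hy
  have e : y = (v + w + -(k • w)) + k • (v + w + -(k • w)) := by
    rw [co0_smul_add, co0_smul_add, co0_smul_neg, ← mul_smul, hk, negC_smul, hw]; abel
  generalize v + w + -(k • w) = v' at e
  have e2 : sqNorm (y : Vec) = 2 * sqNorm (v' : Vec) := by
    rw [e, AddSubgroup.coe_add, sqNorm_add, dot_zero hk, co0_norm]; ring
  have h0 : (v' : Vec) ≠ 0 := fun e0 => by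
    rw [e0, show sqNorm (0 : Vec) = 0 by simp [sqNorm]] at e2
    omega
  have := min_norm v'.2 h0
  exact Or.inr (C.M.isConj_of_four (s_mem C) (s_ne' C) hy (by omega))

def nP : Fin 6 → GolayPt := ![some 0, some 1, some 3, some 4, some 6, some 8]

def nC : Fin 6 → ℕ := ![430605, 5279, 280334, 421910, 262637, 290352]

theorem nC_cw (j : Fin 6) : IsCw (bits (nC j)) := isCw_bits (by revert j; decide +kernel)

def nT (j : Fin 6) : Vec := (if j = 0 then vOdd else 0) + vTwo (bits (nC j))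

theorem nT_mem (j : Fin 6) : nT j ∈ leechLattice :=
  add_mem (by split_ifs; exacts [vOdd_mem, zero_mem _]) (vTwo_mem (nC_cw j))

theorem key (hr : IsCw (bits 0x59b155)) (i j : Fin 6) :
    (dotInt (((⟨_, vFour_mem (nP i)⟩ : leechLattice) + (signC _ hr * permC H26.CoInv.πB) •
      (⟨_, vFour_mem (nP i)⟩ : leechLattice) : leechLattice) : Vec) (nT j) - if j = i then 8 else 0) % 16 = 0 := by
  simp only [dotInt, AddSubgroup.coe_add, Pi.add_apply, mul_smul, signC_apply, permC_apply, piB_symm, nT, vTwo,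
    H14.mem_bits]
  revert i j
  decide +kernel

theorem oct (C : Cx z Q π R g) {hr : IsCw (bits 0x59b155)} {u x : G} {A : Subgroup G}
    (ho : Ov π u (signC _ hr * permC H26.CoInv.πB))
    (hk : signC _ hr * permC H26.CoInv.πB * (signC _ hr * permC H26.CoInv.πB) = negC) (h : OctA C x u A)
    (hx : ∀ a v, R a v → (∀ i, (v : Vec) i % 4 = 0) → a ∈ Qx z Q x) : False := by
  have ky := key hr
  generalize signC _ hr * permC H26.CoInv.πB = k at ho hk ky
  let D : Subgroup G :=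
    { carrier := {d | d ∈ A ∧ ∃ v, R d (v + k • v)}
      one_mem' := ⟨one_mem _, 0, by rw [co0_smul_zero]; exact C.M.two 0⟩
      mul_mem' := fun ⟨h1, v, h2⟩ ⟨k1, v', k2⟩ => ⟨mul_mem h1 k1, v + v', by
        rw [co0_smul_add, add_add_add_comm]; exact C.M.mul h2 k2⟩
      inv_mem' := fun ⟨h1, v, h2⟩ => ⟨inv_mem h1, v, C.M.inv h2⟩ }
  have c32 : Nat.card D ≤ 32 :=
    (h.ark.singU (X := D) (fun _ hd => hd.1) fun _ ⟨_, _, hv⟩ => sing_of C hk hv).card_le C
  have ex : ∀ I : Finset (Fin 6), ∃ d : D, ∃ y : leechLattice, R d y ∧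
      ∀ j, (dotInt (y : Vec) (nT j) - if j ∈ I then 8 else 0) % 16 = 0 := fun I => by
    induction I using Finset.induction_on with
    | empty => exact ⟨1, _, C.M.two 0, fun j => by simp [dotInt]⟩
    | insert i I hi ih =>
      obtain ⟨d, y, h1, h2⟩ := ih
      obtain ⟨a, ha⟩ := C.M.ex' ⟨_, vFour_mem (nP i)⟩
      have h3 := C.M.mul ha (ho.lab C.M (C.M.inv ha))
      have h4 : a * (u * a⁻¹ * u⁻¹) ∈ A := by
        simpa only [mul_assoc] using h.comm_mem (hx a _ ha fun l => by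
          simp only [vFour, Pi.add_apply, Pi.single_apply]; split_ifs <;> rfl)
      refine ⟨⟨_, h4, _, h3⟩ * d, _, C.M.mul h3 h1, fun j => ?_⟩
      have h5 := ky i j
      have h6 := h2 j
      rw [AddSubgroup.coe_add, dot_add_left]
      by_cases e : j = i
      · subst e
        rw [if_pos rfl] at h5
        rw [if_neg hi] at h6
        rw [if_pos (Finset.mem_insert_self _ _)]
        omega
      · rw [if_neg e] at h5
        simp only [Finset.mem_insert, e, false_or]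
        omega
  choose f y hy hd using ex
  have inj : Function.Injective f := fun I J e => Finset.ext fun j => by
    obtain ⟨T, hT⟩ := C.M.ex' ⟨_, nT_mem j⟩
    have h1 := C.M.comm_iff (hy I) hT
    rw [e, C.M.comm_iff (hy J) hT] at h1
    have h2 := hd I j
    have h3 := hd J j
    simp only [Int.dvd_iff_emod_eq_zero] at h1
    split_ifs at h2 h3 with c1 c2 c2
    · exact iff_of_true c1 c2
    · omega
    · omega
    · exact iff_of_false c1 c2
  have := Nat.card_le_card_of_injective f inj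
  rw [Nat.card_eq_fintype_card, Fintype.card_finset, Fintype.card_fin] at this
  omega

end NoB

open NoB

theorem sq_one (C : Cx z Q π R g) {u : G} {k : Co0} (ho : Ov π u k) (h2 : u * u = 1) :
    k * k = 1 := by
  refine (ho.sq C.M h2).resolve_right fun hk => ?_
  obtain ⟨hr, hj⟩ := H26.CoInv.isConj_std hk
  obtain ⟨j, hj⟩ := isConj_iff.1 hj
  obtain ⟨h, hh⟩ := ov_lift C.M j
  have ho1 := hh.conj ho
  have hk1 := conj_neg hk j
  rw [hj] at ho1 hk1
  have h3 : h * u * h⁻¹ * (h * u * h⁻¹) = 1 := by rw [conj_mul, h2]; group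
  generalize h * u * h⁻¹ = u at ho1 h3
  have uQ : u ∉ Q := fun e => by
    have := sq_eq ho1 (ov_one C.M e)
    rw [hk1, mul_one] at this
    exact negC_ne_one this.symm
  have B : ∀ f : G, f * z * f⁻¹ ∈ Q → f * z * f⁻¹ ≠ z → u * (f * z * f⁻¹) = f * z * f⁻¹ * u →
      (∀ a v, R a v → (∀ i, (v : Vec) i % 4 = 0) → a ∈ Qx z Q (f * z * f⁻¹)) →
      ∀ a ∈ cjs f Q, a * (u * a * u⁻¹) = u * a * u⁻¹ * a := by
    intro f hQ hne hc hx
    have sx : IsConj z (f * z * f⁻¹) := isConj_iff.2 ⟨f, rfl⟩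
    have h4 : f⁻¹ * u * f * (f⁻¹ * u * f) = 1 := by
      calc _ = f⁻¹ * (u * u) * f := by group
        _ = _ := by rw [h3]; group
    obtain ⟨k, ho⟩ := ov_ex π (u := f⁻¹ * u * f) (mem_centralizer_singleton_iff.2 (by
      calc f⁻¹ * u * f * z = f⁻¹ * (u * (f * z * f⁻¹)) * f := by group
        _ = _ := by rw [hc]; group))
    rcases ho.sq C.M h4 with hk | hk
    · exfalso
      have hq : u ∉ Qx z Q (f * z * f⁻¹) := fact C ho1 hk1 sx hQ hne
      by_cases hA : ∃ A, OctA C (f * z * f⁻¹) u A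
      · obtain ⟨A, hA⟩ := hA
        exact oct C ho1 hk1 hA hx
      obtain ⟨f1, k1, k2, k3, k4⟩ := ex_f C ho hk h3 hq
      have hz := la C sx hc hq hA k1 k2 k3 k4 (perp_symm C (IsConj.refl z) sx (by rwa [Qx_z C])) C.M.lx.sq
        (Or.inl (by rw [← ho1.comm, mul_inv_cancel_right]))
      have := perp_symm C k1 (IsConj.refl z) hz
      rw [Qx_z C] at this
      exact fact C ho1 hk1 k1 this (fun e => uQ (by rwa [e, Qx_z C] at k4)) k4
    · intro a ha
      have := comm_of_neg C.M ho hk (mem_cjs.1 ha)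
      calc _ = f * (f⁻¹ * a * f * (f⁻¹ * u * f * (f⁻¹ * a * f) * (f⁻¹ * u * f)⁻¹)) * f⁻¹ := by group
        _ = _ := by rw [this]; group
  obtain ⟨q, hq⟩ := C.M.ex' lOdd
  have hs := std_comm C.M C.h8 ho1 h3
  have e : q * g * z * (q * g)⁻¹ = z * (g * z * g⁻¹) := by
    rw [show q * g * z * (q * g)⁻¹ = q * (g * z * g⁻¹) * q⁻¹ by group, odd_s C.M C.h8 hq]
  have four : ∀ a v, R a v → (∀ i, (v : Vec) i % 4 = 0) → a ∈ Qx z Q (g * z * g⁻¹) := fun a v ha h4 => by
    rw [Qx_eq C]; exact mem_of_four C.M C.h8 ha h4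
  refine std_false C.M C.h8 ho1 hq (B g (s_mem C) (s_ne' C) hs four) (B (q * g) ?_ ?_ ?_ fun a v ha h4 => ?_) <;>
    rw [e]
  · exact mul_mem C.M.lx.mem (s_mem C)
  · exact fun h => (lx_Qx C s_conj).ne (mul_left_cancel (h.trans (mul_one z).symm))
  · rw [← mul_assoc, ho1.comm, mul_assoc, hs, mul_assoc z]
  · exact third C (IsConj.refl z) s_conj (by rw [Qx_z C]; exact s_mem C)
      (fun h => s_ne' C (mul_left_cancel (h.trans C.M.lx.sq.symm))) (by rw [Qx_z C]; exact C.M.mem ha) (four a v ha h4)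

theorem exists_f (C : Cx z Q π R g) {x w : G} (hx : IsConj z x) (hw : w * w = 1)
    (hc : w * x = x * w) (hq : w ∉ Qx z Q x) :
    ∃ f, IsConj z f ∧ f ∈ Qx z Q x ∧ f ≠ x ∧ w ∈ Qx z Q f := by
  obtain ⟨c, rfl⟩ := isConj_iff.1 hx
  obtain ⟨k, ho⟩ := ov_ex π (u := c⁻¹ * w * c) (mem_centralizer_singleton_iff.2 (by
    calc c⁻¹ * w * c * z = c⁻¹ * (w * (c * z * c⁻¹)) * c := by group
      _ = _ := by rw [hc]; group))
  exact ex_f C ho (sq_one C ho (by
    calc _ = c⁻¹ * (w * w) * c := by group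
      _ = _ := by rw [hw]; group)) hw hq

end Cfsg.Agent.M2L
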