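import Cfsg.Agent.M2L.Bm
import Cfsg.Agent.M2L.C1
import Cfsg.Agent.M2L.C2
import Cfsg.Agent.M2L.D
import Cfsg.Agent.M2L.K1
import Cfsg.Agent.M2L.NoB

set_option autoImplicit false

namespace Cfsg.Agent.M2L

universe u

open Subgroup H15 H97 H38.MT

/-- the conjugates `x` of `z` in `W` with `W ⊓ Q_x` as large as possible -/
def Om {G : Type u} [Group G] (z : G) (Q W : Subgroup G) : Set G :=
  {x | x ∈ W ∧ IsConj z x ∧ ∀ y ∈ W, IsConj z y →
    Nat.card (W ⊓ Qx z Q y : Subgroup G) ≤ Nat.card (W ⊓ Qx z Q x : Subgroup G)}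

theorem om_cj {G : Type u} [Group G] {z : G} {Q W : Subgroup G} {x : G} (h : x ∈ Om z Q W)
    (c : G) : c * x * c⁻¹ ∈ Om z Q (cjs c W) := by
  refine ⟨conj_mem_cjs.2 h.1, (isConj_cj c).2 h.2.1, fun y hy hy' => ?_⟩
  have e : y = c * (c⁻¹ * y * c) * c⁻¹ := by group
  rw [e] at hy' ⊢
  rw [Qx_cj, Qx_cj, ← cjs_inf, ← cjs_inf, card_cjs, card_cjs]
  exact h.2.2 _ (mem_cjs.1 hy) ((isConj_cj c).1 hy')

theorem om_norm {G : Type u} [Group G] {z : G} {Q W : Subgroup G} :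
    ∀ n ∈ normalizer (W : Set G), ∀ a ∈ Om z Q W, n * a * n⁻¹ ∈ Om z Q W := fun n hn a ha => by
  have := om_cj ha n
  rwa [mem_norm_iff.1 hn] at this

variable {G : Type u} [Group G] {z : G} {Q : Subgroup G}
  {π : centralizer ({z} : Set G) →* Spor.Co1} {R : G → leechLattice → Prop} {g : G} [Finite G]

theorem case1z (C : Cx z Q π R g) {Y W : Subgroup G} (hY : IsPGroup 2 Y) (hW : El W)
    (hc : ∀ y ∈ Y, ∀ w ∈ W, y * w = w * y)
    (hm : ∀ a, a * a = 1 → (∀ y ∈ Y, y * a = a * y) → a ∈ W) (hz : z ∈ Om z Q W) {x : G}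
    (hx : x ∈ Om z Q W) (hxQ : x ∉ Q) : Good C (normalizer (W : Set G)) := by
  have hzz := IsConj.refl z
  have eQ := Qx_z C
  have nobig : ∀ u, IsConj z u → (∀ y ∈ Y, y * u * y⁻¹ ∈ Qx z Q u) →
      Nat.card (W ⊓ Qx z Q u : Subgroup G) ≤ Nat.card (W ⊓ Q : Subgroup G) := fun u hu h => by
    obtain ⟨u', h1, h2, h3⟩ := t5 C hY hu h
    have := hz.2.2 u' (hm u' (lx_Qx C h1).sq h2) h1
    rw [eQ] at this
    exact (card_le_of_le (le_inf inf_le_left fun a ha =>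
      h3 a (fun y hy => hc y hy a ha.1) ha.2)).trans this
  have oct : ∀ w ∈ W, w ∉ Q → ∃ A, OctA C z w A := fun w hw hq => by
    by_contra hno
    have hwz := hW.comm hw hz.1
    obtain ⟨f, h1, h2, h3, h4⟩ := exists_f C hzz (hW w hw) hwz (by rwa [eQ])
    have L := fun y => la C (y := y) hzz hwz (by rwa [eQ]) hno h1 h2 h3 h4
    refine absurd (nobig f h1 fun y hy => L _ ?_ ?_ (Or.inl ?_)) (not_le.2 (card_lt_of
      (fun a ha => ⟨ha.1, L a (by rw [eQ]; exact ha.2) (hW a ha.1) (Or.inl ?_)⟩) ⟨hw, h4⟩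
      fun h => hq h.2))
    · exact (lx_Qx C hzz).norm y (hc y hy z hz.1) f h2
    · rw [conj_mul, (lx_Qx C h1).sq]; group
    · have := (mem_Qx_cj y).2 h4
      rw [hc y hy w hw, mul_inv_cancel_right] at this
      rw [← (lx_Qx C ((isConj_cj y).2 h1)).cen w this, mul_inv_cancel_right]
    · rw [hW.comm ha.1 hw, mul_inv_cancel_right]
  have pair : ∀ w ∈ W, ∀ w' ∈ W, ∀ A A', OctA C z w A → OctA C z w' A' → w * w' ∉ Q →
      ¬ ∃ u, IsConj z u ∧ u ∈ A ∧ u ∈ A' ∧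
        Nat.card (W ⊓ Q : Subgroup G) < Nat.card (W ⊓ Qx z Q u : Subgroup G) := by
    rintro w hw w' hw' A A' h h' hq ⟨u, h1, h2, h3, h4⟩
    have hne : A ≠ A' := fun e => hq (by subst e; rw [← eQ]; exact h.mul_mem h')
    exact absurd (nobig u h1 fun y hy => bb h.ark h'.ark hne h1 h2 h3
      ⟨conj_mem_of_norm (h.norm (hc y hy z hz.1) (hc y hy w hw)) h2,
        conj_mem_of_norm (h'.norm (hc y hy z hz.1) (hc y hy w' hw')) h3⟩) (not_le.2 h4)
  obtain ⟨A1, h1⟩ := oct x hx.1 hxQ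
  have hle : ∀ a ∈ Om z Q W,
      Nat.card (W ⊓ Q : Subgroup G) ≤ Nat.card (W ⊓ Qx z Q a : Subgroup G) := fun a ha => by
    have := ha.2.2 z hz.1 hzz
    rwa [eQ] at this
  by_cases hH : H2 W Q
  · rcases caseD hW (fun a ha => ⟨ha.1, ha.2.1, h2_of_card (by
        have := hH.card
        have := hle a ha
        omega)⟩) om_norm hz hx h1 with h | ⟨f, hf, h⟩
    · exact good_ark C ⟨z, hz⟩ (fun a ha => ha.2.1) om_norm h1.ark h
    · exact good_Q C ⟨z, hz⟩ (fun a ha => ha.2.1) om_norm (fun a ha b hb => hW.comm ha.1 hb.1) hf h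
  exfalso
  obtain ⟨w2, m2, q2, q3⟩ : ∃ w ∈ W, w ∉ Q ∧ x * w ∉ Q := by
    by_contra hno
    push Not at hno
    refine hH fun a ha b hb => ?_
    by_contra h
    push Not at h
    have := mul_mem (hno a ha h.1) (hno b hb h.2.1)
    rw [hW.comm hx.1 ha, mul_assoc, ← mul_assoc x, hW x hx.1, one_mul] at this
    exact h.2.2 this
  have cent : ∀ w ∈ W, ∀ A, OctA C z w A → ∀ w' ∈ W, ∀ b ∈ A, b ∈ Q → w' * b = b * w' := by
    intro w hw A h w' hw' b hb hbQ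
    have k1 : ∀ d ∈ W, d ∈ Q → d * b = b * d := fun d hd hq =>
      h.cent (by rwa [eQ]) (Or.inl (by rw [hW.comm hd hw, mul_inv_cancel_right])) b hb
    by_cases q1 : w' ∈ Q
    · exact k1 w' hw' q1
    by_cases q2 : w * w' ∈ Q
    · have e1 := k1 _ (mul_mem hw hw') q2
      have e2 := h.cent_B (hW w hw) b hb
      calc w' * b = w⁻¹ * (w * w' * b) := by group
        _ = w⁻¹ * (b * w) * w' := by rw [e1]; group
        _ = b * w' := by rw [← e2]; group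
    obtain ⟨A', h'⟩ := oct w' hw' q1
    obtain ⟨A'', h''⟩ := oct _ (mul_mem hw hw') q2
    by_contra hne
    refine pair w hw w' hw' A A' h h' q2 ?_
    by_cases hs : ∃ b ∈ A, b ∈ Q ∧ w' * b * w'⁻¹ ≠ b ∧ w' * b * w'⁻¹ ≠ z * b
    · exact caseB hW hw hw' h h' h'' hs
    · refine caseC1 hW hw hw' h h' h'' (fun a ha ha' => ?_) ⟨b, hb, hbQ, hne⟩
      by_contra h0
      push Not at h0
      exact hs ⟨a, ha, ha', h0⟩
  obtain ⟨A2, h2⟩ := oct w2 m2 q2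
  obtain ⟨A3, h3⟩ := oct _ (mul_mem hx.1 m2) q3
  exact pair x hx.1 w2 m2 A1 A2 h1 h2 q3 (caseC2 hW hz.1 hx.1 m2 h1 h2 h3 (cent x hx.1 A1 h1)
    (cent w2 m2 A2 h2) (cent _ (mul_mem hx.1 m2) A3 h3) hx.2.1 (hle x hx))

theorem case1 (C : Cx z Q π R g) {Y W : Subgroup G} (hY : IsPGroup 2 Y) (hW : El W)
    (hc : ∀ y ∈ Y, ∀ w ∈ W, y * w = w * y)
    (hm : ∀ a, a * a = 1 → (∀ y ∈ Y, y * a = a * y) → a ∈ W) (hx : ∃ x ∈ W, IsConj z x) :
    Good C (normalizer (W : Set G)) := by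
  obtain ⟨x0, h0, hmax⟩ := Set.exists_max_image {x | x ∈ W ∧ IsConj z x}
    (fun x => Nat.card (W ⊓ Qx z Q x : Subgroup G)) (Set.toFinite _) hx
  have hne : (Om z Q W).Nonempty := ⟨x0, h0.1, h0.2, fun y h1 h2 => hmax y ⟨h1, h2⟩⟩
  by_cases hp : ∀ a ∈ Om z Q W, ∀ b ∈ Om z Q W, b ∈ Qx z Q a
  · exact good_perp C hne (fun a ha => ha.2.1) om_norm hp
  push Not at hp
  obtain ⟨a, ha, b, hb, hab⟩ := hp
  obtain ⟨c, e⟩ := isConj_iff.1 ha.2.1.symm
  have := case1z C (Y := cjs c Y) (W := cjs c W) (hY.map _) (hW.cj c) (fun y hy w hw => by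
      rw [← cj_comm c⁻¹, inv_inv]
      exact hc _ (mem_cjs.1 hy) _ (mem_cjs.1 hw))
    (fun a h1 h2 => mem_cjs.2 (hm _ (by
      calc c⁻¹ * a * c * (c⁻¹ * a * c) = c⁻¹ * (a * a) * c := by group
        _ = 1 := by rw [h1]; group) fun y hy => by
      rw [← cj_comm c, show c * (c⁻¹ * a * c) * c⁻¹ = a by group]
      exact h2 _ (conj_mem_cjs.2 hy)))
    (by have := om_cj ha c; rwa [e] at this) (om_cj hb c)
    fun h => hab ((mem_Q_of_nf C e).1 h)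
  have := this.cj c⁻¹
  rwa [normalizer_cjs, cjs_inv_cjs] at this

end Cfsg.Agent.M2L
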