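import Cfsg.Agent.H38.FiveB
import Cfsg.Prelude.Def_CaseTheorems

set_option autoImplicit false

namespace Cfsg.Agent.M2L

universe u

open Subgroup H15 H97 H38.MT

variable {G : Type u} [Group G]

/-- the conjugate of `Q` attached to a conjugate `x` of `z` -/
def Qx (z : G) (Q : Subgroup G) (x : G) : Subgroup G := ⨅ (c : G) (_ : c * z * c⁻¹ = x), cjs c Q

/-- all elements square to one -/
def El (W : Subgroup G) : Prop := ∀ a ∈ W, a * a = 1

/-- `X ⊓ Γ` has index at most two in `X` -/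
def H2 (X Γ : Subgroup G) : Prop := ∀ a ∈ X, ∀ b ∈ X, a ∈ Γ ∨ b ∈ Γ ∨ a * b ∈ Γ

/-- singular subgroups -/
def SingU (z : G) (Q U : Subgroup G) : Prop := ∀ u ∈ U, u ≠ 1 → IsConj z u ∧ U ≤ Qx z Q u

/-- elementary abelian without conjugates of `z` -/
def Pure (z : G) (W : Subgroup G) : Prop := ∀ a ∈ W, a * a = 1 ∧ ¬ IsConj z a

/-- the setting -/
structure Cx (z : G) (Q : Subgroup G) (π : centralizer ({z} : Set G) →* Spor.Co1)
    (R : G → leechLattice → Prop) (g : G) : Prop where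
  M : MD z Q π R
  h8 : R (g * z * g⁻¹) (e8 none)
  hg : g * (g * z * g⁻¹) * g⁻¹ = z

theorem El.inv {W : Subgroup G} (h : El W) {a : G} (ha : a ∈ W) : a⁻¹ = a :=
  inv_eq_of_mul_eq_one_right (h a ha)

theorem El.comm {W : Subgroup G} (h : El W) {a b : G} (ha : a ∈ W) (hb : b ∈ W) :
    a * b = b * a := by
  have := h.inv (mul_mem ha hb)
  rw [mul_inv_rev, h.inv ha, h.inv hb] at this
  exact this.symm

theorem El.mono {W X : Subgroup G} (h : El W) (hX : X ≤ W) : El X := fun a ha => h a (hX ha)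

theorem El.cj {W : Subgroup G} (h : El W) (c : G) : El (cjs c W) := fun a ha => by
  have := h _ (mem_cjs.1 ha)
  calc a * a = c * (c⁻¹ * a * c * (c⁻¹ * a * c)) * c⁻¹ := by group
    _ = 1 := by rw [this]; group

theorem El.isPGroup {W : Subgroup G} (h : El W) : IsPGroup 2 W := fun a =>
  ⟨1, Subtype.ext (by simpa [sq] using h a a.2)⟩

theorem Pure.el {z : G} {W : Subgroup G} (h : Pure z W) : El W := fun a ha => (h a ha).1

theorem cjs_cjs (a b : G) (X : Subgroup G) : cjs a (cjs b X) = cjs (a * b) X := by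
  ext y; simp only [mem_cjs, mul_inv_rev, mul_assoc]

theorem cjs_one (X : Subgroup G) : cjs 1 X = X := by
  ext y; simp [mem_cjs]

theorem cjs_inv_cjs (a : G) (X : Subgroup G) : cjs a⁻¹ (cjs a X) = X := by
  rw [cjs_cjs, inv_mul_cancel, cjs_one]

theorem cjs_cjs_inv (a : G) (X : Subgroup G) : cjs a (cjs a⁻¹ X) = X := by
  rw [cjs_cjs, mul_inv_cancel, cjs_one]

theorem cjs_inf (a : G) (X Y : Subgroup G) : cjs a (X ⊓ Y) = cjs a X ⊓ cjs a Y := by
  ext y; simp only [mem_cjs, mem_inf]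

theorem cjs_mono (a : G) {X Y : Subgroup G} (h : X ≤ Y) : cjs a X ≤ cjs a Y := fun _ hy =>
  mem_cjs.2 (h (mem_cjs.1 hy))

theorem cjs_le_iff (a : G) {X Y : Subgroup G} : cjs a X ≤ cjs a Y ↔ X ≤ Y :=
  ⟨fun h => by simpa only [cjs_inv_cjs] using cjs_mono a⁻¹ h, cjs_mono a⟩

theorem mem_norm_iff {n : G} {X : Subgroup G} : n ∈ normalizer (X : Set G) ↔ cjs n X = X := by
  rw [mem_normalizer_iff'']
  refine ⟨fun h => ?_, fun h y => ?_⟩
  · ext y; rw [mem_cjs]; exact (h y).symm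
  · have : y ∈ cjs n X ↔ y ∈ X := by rw [h]
    rw [mem_cjs] at this; exact this.symm

theorem normalizer_cjs (c : G) (X : Subgroup G) :
    normalizer ((cjs c X : Subgroup G) : Set G) = cjs c (normalizer (X : Set G)) := by
  ext n
  rw [mem_cjs, mem_norm_iff, mem_norm_iff, cjs_cjs]
  refine ⟨fun h => ?_, fun h => ?_⟩
  · rw [mul_assoc, ← cjs_cjs, h, cjs_inv_cjs]
  · rw [show n * c = c * (c⁻¹ * n * c) by group, ← cjs_cjs, h]

theorem mem_norm_of [Finite G] {n : G} {X : Subgroup G} (h : ∀ a ∈ X, n * a * n⁻¹ ∈ X) :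
    n ∈ normalizer (X : Set G) := mem_normalizer_fintype h

theorem conj_mem_of_norm {n a : G} {X : Subgroup G} (h : n ∈ normalizer (X : Set G)) (ha : a ∈ X) :
    n * a * n⁻¹ ∈ X := (mem_normalizer_iff.1 h a).1 ha

theorem isConj_cj {z x : G} (c : G) : IsConj z (c * x * c⁻¹) ↔ IsConj z x :=
  ⟨fun h => h.trans (isConj_iff.2 ⟨c⁻¹, by group⟩), fun h => h.trans (isConj_iff.2 ⟨c, rfl⟩)⟩

theorem H2.cj {X Γ : Subgroup G} (h : H2 X Γ) (c : G) : H2 (cjs c X) (cjs c Γ) := fun a ha b hb => by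
  have := h _ (mem_cjs.1 ha) _ (mem_cjs.1 hb)
  simp only [mem_cjs]
  rwa [show c⁻¹ * a * c * (c⁻¹ * b * c) = c⁻¹ * (a * b) * c by group] at this

theorem H2.card [Finite G] {X Γ : Subgroup G} (h : H2 X Γ) :
    Nat.card X ≤ 2 * Nat.card (X ⊓ Γ : Subgroup G) := by
  by_cases hX : X ≤ Γ
  · rw [inf_eq_left.2 hX]; omega
  obtain ⟨a, ha, ha'⟩ := SetLike.not_le_iff_exists.1 hX
  have : (Γ.subgroupOf X).index = 2 := index_eq_two_iff.2 ⟨⟨a, ha⟩, fun b => by
    simp only [mem_subgroupOf, coe_mul]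
    by_cases hb : (b : G) ∈ Γ
    · exact Or.inr ⟨hb, fun h' => ha' ((Γ.mul_mem_cancel_left hb).1 h')⟩
    · exact Or.inl ⟨((h _ b.2 a ha).resolve_left hb).resolve_left ha', hb⟩⟩
  have h2 := (Γ.subgroupOf X).card_mul_index
  rw [this, ← inf_subgroupOf_left, Nat.card_congr (subgroupOfEquivOfLe inf_le_left).toEquiv] at h2
  omega

theorem h2_of_card [Finite G] {X Γ : Subgroup G}
    (h : Nat.card X ≤ 2 * Nat.card (X ⊓ Γ : Subgroup G)) : H2 X Γ := by
  intro a ha b hb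
  have h2 := (Γ.subgroupOf X).card_mul_index
  have h0 : (Γ.subgroupOf X).index ≠ 0 := index_ne_zero_of_finite
  have hp : 0 < Nat.card (X ⊓ Γ : Subgroup G) := Nat.card_pos
  rw [← inf_subgroupOf_left, Nat.card_congr (subgroupOfEquivOfLe inf_le_left).toEquiv,
    inf_subgroupOf_left] at h2
  have h3 : (Γ.subgroupOf X).index = 1 ∨ (Γ.subgroupOf X).index = 2 := by
    have : (Γ.subgroupOf X).index ≤ 2 := by nlinarith
    omega
  rcases h3 with h3 | h3
  · left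
    have : (⟨a, ha⟩ : X) ∈ Γ.subgroupOf X := by rw [index_eq_one.1 h3]; trivial
    exact this
  · have := mul_mem_iff_of_index_two h3 (a := ⟨a, ha⟩) (b := ⟨b, hb⟩)
    simp only [mem_subgroupOf, coe_mul] at this
    tauto

theorem card_lt_of [Finite G] {X Y : Subgroup G} (h : X ≤ Y) {a : G} (ha : a ∈ Y) (ha' : a ∉ X) :
    Nat.card X < Nat.card Y := by
  refine lt_of_le_of_ne (card_le_of_le h) fun e => ha' ?_
  rw [eq_of_le_of_card_ge h e.ge]; exact ha

theorem gain [Finite G] {W X Q Γ : Subgroup G} (hX : X ≤ W) (hQ : W ⊓ Q ≤ X) {a b : G} (ha : a ∈ X)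
    (hb : b ∈ X) (ha' : a ∉ Q) (hb' : b ∉ Q) (hab : a * b ∉ Q) (h : H2 X Γ) :
    Nat.card (W ⊓ Q : Subgroup G) < Nat.card (W ⊓ Γ : Subgroup G) := by
  by_contra hlt
  have h1 := h.card
  have h2 : Nat.card (X ⊓ Γ : Subgroup G) ≤ Nat.card (W ⊓ Γ : Subgroup G) :=
    card_le_of_le (inf_le_inf_right _ hX)
  have h3 : Nat.card (W ⊓ Q : Subgroup G) ≤ Nat.card (X ⊓ Q : Subgroup G) :=
    card_le_of_le (le_inf hQ inf_le_right)
  rcases h2_of_card (X := X) (Γ := Q) (by omega) a ha b hb with h | h | h <;> contradiction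

/-- a union of tetrads of the standard sextet -/
def tb (S : Finset ℕ) : Finset GolayPt := Finset.univ.filter fun i => tet i ∈ S

theorem mem_tb {S : Finset ℕ} {i : GolayPt} : i ∈ tb S ↔ tet i ∈ S := by simp [tb]

theorem tb_cw : ∀ a < 6, ∀ b < 6, a ≠ b → IsCw (tb {a, b}) := by
  simp only [isCw_iff_enc]; decide +kernel

theorem tb_card : ∀ a < 6, ∀ b < 6, a ≠ b → (tb {a, b}).card = 8 := by decide +kernel

theorem oA_cw : IsCw (tb {0, 1}) := tb_cw _ (by norm_num) _ (by norm_num) (by norm_num)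

theorem oB_cw : IsCw (tb {0, 2}) := tb_cw _ (by norm_num) _ (by norm_num) (by norm_num)

theorem oA_card : (tb {0, 1}).card = 8 := tb_card _ (by norm_num) _ (by norm_num) (by norm_num)

theorem oB_card : (tb {0, 2}).card = 8 := tb_card _ (by norm_num) _ (by norm_num) (by norm_num)

/-- all tetrad sums agree modulo 8 -/
def Par (v : Vec) : Prop := ∀ t < 6, ∀ t' < 6, (tS v t - tS v t') % 8 = 0

/-- up to complement, empty or a union of two of the last three tetrads -/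
def JP (t : Finset GolayPt) : Prop :=
  ∃ S : Finset ℕ, (S = ∅ ∨ S = {3, 4} ∨ S = {3, 5} ∨ S = {4, 5}) ∧ (t = tb S ∨ t = (tb S)ᶜ)

section
variable {z : G} {Q : Subgroup G}

theorem mem_Qx_cj (c : G) {x a : G} : c * a * c⁻¹ ∈ Qx z Q (c * x * c⁻¹) ↔ a ∈ Qx z Q x := by
  simp only [Qx, mem_iInf, mem_cjs]
  refine ⟨fun h d hd => ?_, fun h d hd => ?_⟩
  · have := h (c * d) (by rw [← hd]; group)
    rwa [show (c * d)⁻¹ * (c * a * c⁻¹) * (c * d) = d⁻¹ * a * d by group] at this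
  · have := h (c⁻¹ * d) (by
      calc c⁻¹ * d * z * (c⁻¹ * d)⁻¹ = c⁻¹ * (d * z * d⁻¹) * c := by group
        _ = x := by rw [hd]; group)
    rwa [show (c⁻¹ * d)⁻¹ * a * (c⁻¹ * d) = d⁻¹ * (c * a * c⁻¹) * d by group] at this

theorem Qx_cj (c x : G) : Qx z Q (c * x * c⁻¹) = cjs c (Qx z Q x) := by
  ext a
  rw [mem_cjs, ← mem_Qx_cj (z := z) (Q := Q) c (x := x) (a := c⁻¹ * a * c),
    show c * (c⁻¹ * a * c) * c⁻¹ = a by group]

theorem SingU.cj {U : Subgroup G} (h : SingU z Q U) (c : G) : SingU z Q (cjs c U) := by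
  intro u hu h1
  obtain ⟨h2, h3⟩ := h _ (mem_cjs.1 hu) fun e => h1 (by
    calc u = c * (c⁻¹ * u * c) * c⁻¹ := by group
      _ = 1 := by rw [e]; group)
  have e : u = c * (c⁻¹ * u * c) * c⁻¹ := by group
  exact ⟨by rw [e]; exact (isConj_cj c).2 h2, by rw [e, Qx_cj]; exact cjs_mono c h3⟩

theorem SingU.mono {U X : Subgroup G} (h : SingU z Q U) (hX : X ≤ U) : SingU z Q X :=
  fun u hu h1 => ⟨(h u (hX hu) h1).1, hX.trans (h u (hX hu) h1).2⟩

theorem Pure.cj {W : Subgroup G} (h : Pure z W) (c : G) : Pure z (cjs c W) := fun a ha =>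
  ⟨h.el.cj c a ha, fun h' => (h _ (mem_cjs.1 ha)).2 (by
    simpa using (isConj_cj (z := z) (x := a) c⁻¹).2 h')⟩

end

variable {z : G} {Q : Subgroup G} {π : centralizer ({z} : Set G) →* Spor.Co1}
  {R : G → leechLattice → Prop} {g : G} [Finite G] (C : Cx z Q π R g)

/-- conjugates of the group `2^10` -/
def Ark (A : Subgroup G) : Prop := ∃ c, A = cjs c (E10 C.M C.h8)

/-- `w` lies in a coset of `Q_x` that meets the ark `A` outside `Q_x` -/
structure OctA (x w : G) (A : Subgroup G) : Prop where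
  ark : Ark C A
  sx : IsConj z x
  mem : x ∈ A
  ex : ∃ a ∈ A, a ∉ Qx z Q x ∧ w * a⁻¹ ∈ Qx z Q x

/-- normalises a nontrivial singular subgroup or an ark -/
def Good (N : Subgroup G) : Prop :=
  (∃ U : Subgroup G, SingU z Q U ∧ U ≠ ⊥ ∧ N ≤ normalizer (U : Set G)) ∨
    ∃ A : Subgroup G, Ark C A ∧ N ≤ normalizer (A : Set G)

/-- the ark of the `i`-th octad of the standard trio -/
def AT (i : Fin 3) : Subgroup G := EE C.M C.h8 (tO_cw i) (tO_card i)

/-- the ark of the tetrads `0, 1` -/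
def AA : Subgroup G := EE C.M C.h8 oA_cw oA_card

/-- the ark of the tetrads `0, 2` -/
def AB : Subgroup G := EE C.M C.h8 oB_cw oB_card

/-- the standard singular group of order 32 -/
def U5 : Subgroup G := AT C 0 ⊓ AT C 1

variable {C}

theorem Ark.cj {A : Subgroup G} (h : Ark C A) (c : G) : Ark C (cjs c A) := by
  obtain ⟨d, rfl⟩ := h
  exact ⟨c * d, cjs_cjs _ _ _⟩

theorem OctA.cj {x w : G} {A : Subgroup G} (h : OctA C x w A) (c : G) :
    OctA C (c * x * c⁻¹) (c * w * c⁻¹) (cjs c A) := by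
  obtain ⟨a, h1, h2, h3⟩ := h.ex
  refine ⟨h.ark.cj c, (isConj_cj c).2 h.sx, conj_mem_cjs.2 h.mem, c * a * c⁻¹, conj_mem_cjs.2 h1,
    fun h' => h2 ((mem_Qx_cj c).1 h'), ?_⟩
  rw [show c * w * c⁻¹ * (c * a * c⁻¹)⁻¹ = c * (w * a⁻¹) * c⁻¹ by group]
  exact (mem_Qx_cj c).2 h3

theorem OctA.not_mem {x w : G} {A : Subgroup G} (h : OctA C x w A) : w ∉ Qx z Q x := fun hw => by
  obtain ⟨a, -, h2, h3⟩ := h.ex
  exact h2 (by simpa using mul_mem (inv_mem h3) hw)

theorem octA_self {x a : G} {A : Subgroup G} (hA : Ark C A) (hx : IsConj z x) (hxA : x ∈ A)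
    (ha : a ∈ A) (h : a ∉ Qx z Q x) : OctA C x a A :=
  ⟨hA, hx, hxA, a, ha, h, by simpa using one_mem _⟩

theorem OctA.mul_left {x w q : G} {A : Subgroup G} (h : OctA C x w A) (hq : q ∈ Qx z Q x) :
    OctA C x (q * w) A := by
  obtain ⟨a, h1, h2, h3⟩ := h.ex
  exact ⟨h.ark, h.sx, h.mem, a, h1, h2, by rw [mul_assoc]; exact mul_mem hq h3⟩

theorem Good.cj {N : Subgroup G} (h : Good C N) (c : G) : Good C (cjs c N) := by
  rcases h with ⟨U, h1, h2, h3⟩ | ⟨A, h1, h2⟩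
  · refine Or.inl ⟨cjs c U, h1.cj c, fun e => h2 ?_, ?_⟩
    · rw [← cjs_inv_cjs c U, e]; exact map_bot _
    · rw [normalizer_cjs]; exact cjs_mono c h3
  · exact Or.inr ⟨cjs c A, h1.cj c, by rw [normalizer_cjs]; exact cjs_mono c h2⟩

variable (C)
include C

omit [Finite G] in
theorem Qx_z : Qx z Q z = Q := by
  ext a
  simp only [Qx, mem_iInf, mem_cjs]
  refine ⟨fun h => by simpa using h 1 (by simp), fun h c hc => ?_⟩
  simpa using C.M.lx.norm c⁻¹ (by
    calc c⁻¹ * z = c⁻¹ * (c * z * c⁻¹) := by rw [hc]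
      _ = _ := by group) a h

omit [Finite G] in
theorem Qx_eq (c : G) : Qx z Q (c * z * c⁻¹) = cjs c Q := by rw [Qx_cj, Qx_z C]

omit [Finite G] in
theorem lx_Qx {x : G} (hx : IsConj z x) : LX (Qx z Q x) x := by
  obtain ⟨c, rfl⟩ := isConj_iff.1 hx
  rw [Qx_eq C]; exact lx_cjs C.M.lx c

omit [Finite G] in
theorem card_Qx {x : G} (hx : IsConj z x) : Nat.card (Qx z Q x) = 2 ^ 25 := by
  obtain ⟨c, rfl⟩ := isConj_iff.1 hx
  rw [Qx_eq C, card_cjs, C.M.card]

omit [Finite G] in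
theorem s_mem : g * z * g⁻¹ ∈ Q := C.M.mem C.h8

omit [Finite G] in
theorem s_ne' : g * z * g⁻¹ ≠ z := s_ne C.M C.h8

omit [Finite G] C in
theorem s_conj : IsConj z (g * z * g⁻¹) := isConj_iff.2 ⟨g, rfl⟩

theorem perp_symm {x y : G} (hx : IsConj z x) (hy : IsConj z y) (h : y ∈ Qx z Q x) :
    x ∈ Qx z Q y := by
  by_cases e : y = x
  · rw [e]; exact (lx_Qx C hx).mem
  obtain ⟨c, rfl⟩ := isConj_iff.1 hx
  obtain ⟨d, rfl⟩ := isConj_iff.1 hy
  rw [Qx_eq C, mem_cjs] at h ⊢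
  have := C.M.mem_cjs_of_mem (g := c⁻¹ * d) (by simpa [mul_assoc] using h) fun e' => e (by
    calc d * z * d⁻¹ = c * (c⁻¹ * d * z * (c⁻¹ * d)⁻¹) * c⁻¹ := by group
      _ = _ := by rw [e'])
  rw [mem_cjs] at this
  simpa [mul_assoc] using this

theorem exists_frame {f : G} (hf : IsConj z f) (hQ : f ∈ Q) (hne : f ≠ z) :
    ∃ c ∈ centralizer ({z} : Set G), c * f * c⁻¹ = g * z * g⁻¹ := by
  obtain ⟨d, rfl⟩ := isConj_iff.1 hf
  obtain ⟨v, hv, hn⟩ := C.M.type_four hQ hne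
  exact C.M.trans hv C.h8 (Or.inr ⟨hn, norm_e8 _⟩)

/-- normal form of an orthogonal pair -/
theorem pair_nf {x f : G} (hx : IsConj z x) (hf : IsConj z f) (hQ : f ∈ Qx z Q x) (hne : f ≠ x) :
    ∃ c, c * x * c⁻¹ = z ∧ c * f * c⁻¹ = g * z * g⁻¹ := by
  obtain ⟨d, hd⟩ := isConj_iff.1 hx.symm
  have h1 : d * f * d⁻¹ ∈ Q := by
    have := (mem_Qx_cj d).2 hQ
    rwa [hd, Qx_z C] at this
  obtain ⟨c, hc, hc'⟩ := exists_frame C ((isConj_cj d).2 hf) h1 fun e => hne (by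
    calc f = d⁻¹ * (d * f * d⁻¹) * d := by group
      _ = x := by rw [e, ← hd]; group)
  refine ⟨c * d, ?_, by rw [← hc']; group⟩
  calc c * d * x * (c * d)⁻¹ = c * (d * x * d⁻¹) * c⁻¹ := by group
    _ = z := by rw [hd, mem_centralizer_singleton_iff.1 hc]; group

theorem mul_sing {x y : G} (hx : IsConj z x) (hy : IsConj z y) (h : y ∈ Qx z Q x)
    (h1 : x * y ≠ 1) : IsConj z (x * y) := by
  have L := lx_Qx C hx
  obtain ⟨b, -, hb⟩ := L.exists_conj h (lx_Qx C hy).ne fun e => h1 (by rw [e, L.sq])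
  rw [← hb]; exact (isConj_cj b).2 hy

theorem third {x y a : G} (hx : IsConj z x) (hy : IsConj z y) (h : y ∈ Qx z Q x)
    (h1 : x * y ≠ 1) (ha : a ∈ Qx z Q x) (ha' : a ∈ Qx z Q y) : a ∈ Qx z Q (x * y) := by
  have L := lx_Qx C hx
  have L' := lx_Qx C hy
  have hne : y ≠ x := fun e => h1 (by rw [e, L.sq])
  obtain ⟨b, hb, hb'⟩ := L.exists_conj h L'.ne hne
  rw [← hb']
  rcases L.comm b hb a ha with e | e
  · rw [← e]; exact (mem_Qx_cj b).2 ha'
  · have h2 : x * a ∈ Qx z Q y := mul_mem (perp_symm C hx hy h) ha'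
    have := (mem_Qx_cj b).2 h2
    rwa [show b * (x * a) * b⁻¹ = b * x * b⁻¹ * (b * a * b⁻¹) by group, L.cen b hb, e,
      mul_inv_cancel_right, ← mul_assoc, L.sq, one_mul] at this

omit [Finite G] in
theorem SingU.el {U : Subgroup G} (h : SingU z Q U) : El U := fun a ha => by
  by_cases e : a = 1
  · rw [e, mul_one]
  · exact (lx_Qx C (h a ha e).1).sq

end Cfsg.Agent.M2L
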