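import Cfsg.Agent.M2L.Defs

set_option autoImplicit false

namespace Cfsg.Agent.M2L

universe u

open Subgroup H15 H97 H38.MT

variable {G : Type u} [Group G] {z : G} {Q : Subgroup G}
  {π : centralizer ({z} : Set G) →* Spor.Co1} {R : G → leechLattice → Prop} {g : G} [Finite G]

theorem seven (P : Fin 7 → Subgroup G → Prop) (h1 : ∀ i X, P i X → IsPGroup 2 X ∧ X ≠ ⊥)
    (h2 : ∀ i X X', P i X → P i X' → ∃ c, X' = cjs c X)
    (h3 : ∀ N : Subgroup G, IsMaximalTwoLocal N → ∃ i X, P i X ∧ N ≤ normalizer (X : Set G))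
    (h4 : 7 ≤ {N : Subgroup G | IsTwoLocal N}.ncard) :
    ∃ S : Finset (Subgroup G), S.card = 7 ∧ (∀ H ∈ S, IsTwoLocal H) ∧ ∀ H : Subgroup G,
      IsMaximalTwoLocal H → ∃ H₀ ∈ S, ∃ c : G, H = H₀.map (MulAut.conj c).toMonoidHom := by
  classical
  have k : ∀ i, ∃ X, (∃ Y, P i Y) → P i X := fun i => by
    by_cases h : ∃ Y, P i Y
    · exact h.imp fun _ e _ => e
    · exact ⟨⊥, fun e => absurd e h⟩
  choose X hX using k
  have hf := Set.toFinite {N : Subgroup G | IsTwoLocal N}
  rw [Set.ncard_eq_toFinset_card _ hf] at h4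
  obtain ⟨S, s1, s2, s3⟩ := Finset.exists_subsuperset_card_eq
    (s := (Finset.univ.filter fun i => ∃ Y, P i Y).image fun i => normalizer (X i : Set G)) (t := hf.toFinset) (n := 7)
    (fun N hN => by
      obtain ⟨i, hi, rfl⟩ := Finset.mem_image.1 hN
      have := h1 i _ (hX i (Finset.mem_filter.1 hi).2)
      exact hf.mem_toFinset.2 ⟨_, this.1, this.2, rfl⟩)
    (Finset.card_image_le.trans ((Finset.card_filter_le _ _).trans (by simp))) h4
  refine ⟨S, s3, fun H hH => hf.mem_toFinset.1 (s2 hH), fun H hH => ?_⟩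
  obtain ⟨i, Y, hY, hle⟩ := h3 H hH
  obtain ⟨c, rfl⟩ := h2 i _ _ (hX i ⟨Y, hY⟩) hY
  refine ⟨_, s1 (Finset.mem_image_of_mem _ (Finset.mem_filter.2 ⟨Finset.mem_univ i, _, hY⟩)), c, ?_⟩
  rw [← hH.2 _ ⟨_, (h1 i _ hY).1, (h1 i _ hY).2, rfl⟩ hle]
  exact normalizer_cjs c _

theorem seven_le (C : Cx z Q π R g) : 7 ≤ {N : Subgroup G | IsTwoLocal N}.ncard := by
  obtain ⟨s1, n, Φ, T⟩ := exists_TS C.M C.h8 C.hg
  have z0 : Φ 0 = 1 := by simpa using T.add 0 0
  have hc : ∀ k : I10, IsConj z (Φ (Pi.single k 1)) := fun k =>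
    ((T.sing _).2 (by revert k; decide)).resolve_left fun e => by
      simpa using congrFun (T.inj (e.trans z0.symm)) k
  have el : ∀ x, IsConj z x → El (zpowers x) := fun x hx a ha => by
    rcases (mem_zpowers_two (lx_Qx C hx).sq).1 ha with rfl | rfl
    exacts [mul_one _, (lx_Qx C hx).sq]
  have hinj : Function.Injective fun k : I10 => normalizer (zpowers (Φ (Pi.single k 1)) : Set G) := fun k l e => by
    have L := lx_Qx C (hc k)
    have L' := lx_Qx C (hc l)
    have e' : normalizer (zpowers (Φ (Pi.single k 1)) : Set G) = normalizer (zpowers (Φ (Pi.single l 1)) : Set G) := e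
    have := (L.large (Φ (Pi.single l 1)) fun a ha => by
      have h1 : a ∈ normalizer (zpowers (Φ (Pi.single k 1)) : Set G) := mem_norm_of fun b hb => by
        rcases (mem_zpowers_two L.sq).1 hb with rfl | rfl
        · simp
        · rw [L.cen a ha, mul_inv_cancel_right]; exact hb
      rcases (mem_zpowers_two L'.sq).1 (conj_mem_of_norm (e' ▸ h1) (mem_zpowers _)) with h | h
      · exact absurd (by simpa [mul_inv_eq_one] using h) L'.ne
      · exact (mul_inv_eq_iff_eq_mul.1 h).symm).resolve_left L'.ne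
    by_contra hkl
    simpa [Pi.single_eq_of_ne hkl] using congrFun (T.inj this) k
  have := Set.ncard_le_ncard_of_injOn (s := (Set.univ : Set I10)) (t := {N : Subgroup G | IsTwoLocal N}) _
    (fun k _ => ⟨_, (el _ (hc k)).isPGroup, by simpa using (lx_Qx C (hc k)).ne, rfl⟩) hinj.injOn
  rw [Set.ncard_univ] at this
  exact le_trans (by simp) this

end Cfsg.Agent.M2L
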