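import Cfsg.Agent.M2L.O4
import Cfsg.Agent.M2L.CF

set_option autoImplicit false

namespace Cfsg.Agent.M2L

universe u

open Subgroup H15 H97 H38.MT

variable {G : Type u} [Group G] {z : G} {Q : Subgroup G}
  {π : centralizer ({z} : Set G) →* Spor.Co1} {R : G → leechLattice → Prop} {g : G} [Finite G]

theorem pure_le (C : Cx z Q π R g) {W : Subgroup G} (h : Pure z W) :
    ∃ x, IsConj z x ∧ W ≤ Qx z Q x := by
  obtain ⟨x, ⟨hx, hc⟩, hmax⟩ := Set.exists_max_image {x | IsConj z x ∧ ∀ a ∈ W, a * x = x * a}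
    (fun x => Nat.card (W ⊓ Qx z Q x : Subgroup G)) (Set.toFinite _) (exists_cent C h.el.isPGroup)
  by_cases hW : W ≤ Qx z Q x
  · exact ⟨x, hx, hW⟩
  have ark : ∀ w ∈ W, w ∉ Qx z Q x → ∃ A, Ark C A ∧ x ∈ A ∧ w ∈ A := fun w hw hq =>
    ark_of_not_sing C hx (h w hw).1 (hc w hw) hq (h w hw).2
  have sub : ∀ {w A}, w ∈ W → w ∉ Qx z Q x → Ark C A → x ∈ A → w ∈ A → ∀ d ∈ W, d ∈ Qx z Q x → d ∈ A := by
    intro w A hw hq hA hxA hwA d hd hdq
    have hq' : d * w ∉ Qx z Q x := fun k => hq ((Subgroup.mul_mem_cancel_left _ hdq).1 k)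
    obtain ⟨A', hA', h1, h2⟩ := ark _ (mul_mem hd hw) hq'
    rw [(octA_self hA' hx h1 h2 hq').uniq ((octA_self hA hx hxA hwA hq).mul_left hdq)] at h2
    exact (Subgroup.mul_mem_cancel_right _ hwA).1 h2
  by_cases h2 : H2 W (Qx z Q x)
  · obtain ⟨w, hw, hq⟩ := SetLike.not_le_iff_exists.1 hW
    obtain ⟨A, hA, h1, hwA⟩ := ark w hw hq
    have le : W ≤ A := fun a ha => by
      rcases h2 a ha w hw with k | k | k
      · exact sub hw hq hA h1 hwA a ha k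
      · exact absurd k hq
      · exact (Subgroup.mul_mem_cancel_right _ hwA).1 (sub hw hq hA h1 hwA _ (mul_mem ha hw) k)
    have : Fact (Nat.Prime 2) := ⟨Nat.prime_two⟩
    obtain ⟨n, hn⟩ := h.el.isPGroup.exists_card_eq
    obtain ⟨u, -, hu⟩ := hA.perp_small le (by
      by_contra k
      obtain ⟨y, hy, e⟩ := hA.cw3 le (by
        rw [hn] at k ⊢
        refine Nat.pow_le_pow_right (n := 2) (i := 3) (by norm_num) ?_
        by_contra l
        exact k (Nat.pow_le_pow_right (n := 2) (j := 2) (by norm_num) (by omega)))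
      exact (h y hy).2 e)
    exact ⟨u, hu⟩
  exfalso
  simp only [H2, not_forall, not_or] at h2
  obtain ⟨w1, hw1, w2, hw2, q1, q2, q3⟩ := h2
  obtain ⟨A1, hA1, x1, m1⟩ := ark w1 hw1 q1
  obtain ⟨A2, hA2, x2, m2⟩ := ark w2 hw2 q2
  have o1 := octA_self hA1 hx x1 m1 q1
  have o2 := octA_self hA2 hx x2 m2 q2
  have ne : A1 ≠ A2 := fun e => q3 (o1.mul_mem (e ▸ o2))
  obtain ⟨f, hf, f1, f2, fq, fx⟩ := common o1 o2 (h w2 hw2).1 (h.el.comm hw1 hw2)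
  obtain ⟨u, hu, u1, u2, uq⟩ : ∃ u, IsConj z u ∧ u ∈ A1 ∧ u ∈ A2 ∧ w1 ∈ Qx z Q u := by
    by_cases k : w1 ∈ Qx z Q f
    · exact ⟨f, hf, f1, f2, k⟩
    have s := mul_sing C hx hf fq fun e => fx (mul_left_cancel (e.trans (lx_Qx C hx).sq.symm))
    exact ⟨x * f, s, mul_mem x1 f1, mul_mem x2 f2, hA1.lin hx hf s x1 f1 m1 q1 k⟩
  have le := bb hA1 hA2 ne hu u1 u2
  obtain ⟨v, hv, vc, vq⟩ := t5 C h.el.isPGroup hu fun y hy =>
    le ⟨conj_mem_of_norm (o1.norm (hc y hy) (h.el.comm hy hw1)) u1,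
      conj_mem_of_norm (o2.norm (hc y hy) (h.el.comm hy hw2)) u2⟩
  refine absurd (hmax v ⟨hv, vc⟩) (not_le.2 (card_lt_of (a := w1) (fun d hd => ⟨hd.1, ?_⟩)
    ⟨hw1, vq _ (fun y hy => h.el.comm hy hw1) uq⟩ fun k => q1 k.2))
  exact vq _ (fun y hy => h.el.comm hy hd.1)
    (le ⟨sub hw1 q1 hA1 x1 m1 d hd.1 hd.2, sub hw2 q2 hA2 x2 m2 d hd.1 hd.2⟩)

end Cfsg.Agent.M2L
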