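import Cfsg.Agent.M2L.Defs
import Cfsg.Agent.H15.Pairs

set_option autoImplicit false

namespace Cfsg.Agent.M2L

universe u

open Subgroup H15 H97 H38.MT

variable {G : Type u} [Group G] {z : G} {Q : Subgroup G}
  {π : centralizer ({z} : Set G) →* Spor.Co1} {R : G → leechLattice → Prop} {g : G} [Finite G]

namespace PB

omit [Finite G] in
theorem ne_z {W : Subgroup G} (h : Pure z W) {a : G} (ha : a ∈ W) : a ≠ z := fun e =>
  (h a ha).2 (e ▸ IsConj.refl _)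

theorem lab (C : Cx z Q π R g) {W : Subgroup G} (h : Pure z W) (hQ : W ≤ Q) {a : G} (ha : a ∈ W)
    (h1 : a ≠ 1) : ∃ v, R a v ∧ sqNorm (v : Vec) = 32 :=
  C.M.type_two (s_mem C) (s_ne' C) (hQ ha) h1 (h a ha).1 (h a ha).2

omit [Finite G] in
theorem one_of_zero (C : Cx z Q π R g) {W : Subgroup G} (h : Pure z W) {a : G} (ha : a ∈ W)
    {v : leechLattice} (hv : R a v) (h0 : sqNorm (v : Vec) = 0) : a = 1 := by
  have e : v = 0 + 0 := by rw [add_zero]; exact Subtype.ext (sqNorm_eq_zero h0)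
  exact ((C.M.one_iff hv).2 ⟨0, e⟩).resolve_right (ne_z h ha)

theorem not_four (C : Cx z Q π R g) {W : Subgroup G} (h : Pure z W) {a : G} (ha : a ∈ W)
    {v : leechLattice} (hv : R a v) : sqNorm (v : Vec) ≠ 64 := fun h0 =>
  (h a ha).2 (C.M.isConj_of_four (s_mem C) (s_ne' C) hv h0)

theorem pair (C : Cx z Q π R g) {W : Subgroup G} (h : Pure z W) {a b : G} (ha : a ∈ W) (hb : b ∈ W)
    (hab : a ≠ b) {v w : leechLattice} (hv : R a v) (hw : R b w) (nv : sqNorm (v : Vec) = 32)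
    (nw : sqNorm (w : Vec) = 32) :
    dotInt (v : Vec) (w : Vec) = 16 ∨ dotInt (v : Vec) (w : Vec) = -16 := by
  have hd := (C.M.comm_iff hv hw).1 (h.el.comm ha hb)
  have hne : a * b ≠ 1 := fun e => hab (by
    rw [← h.el.inv hb]; exact eq_inv_of_mul_eq_one_left e)
  have e1 : sqNorm ((v + w : leechLattice) : Vec) = 64 + 2 * dotInt (v : Vec) (w : Vec) := by
    rw [AddSubgroup.coe_add, sqNorm_add, nv, nw]; ring
  have e2 : sqNorm ((v + -w : leechLattice) : Vec) = 64 - 2 * dotInt (v : Vec) (w : Vec) := by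
    rw [AddSubgroup.coe_add, AddSubgroup.coe_neg, sqNorm_add, sqNorm_neg, dot_neg_right, nv, nw]
    ring
  have r1 := C.M.mul hv hw
  have r2 := C.M.mul hv (C.M.neg hw)
  have p1 := sqNorm_nonneg ((v + w : leechLattice) : Vec)
  have p2 := sqNorm_nonneg ((v + -w : leechLattice) : Vec)
  have q1 : sqNorm ((v + w : leechLattice) : Vec) ≠ 0 := fun e =>
    hne (one_of_zero C h (mul_mem ha hb) r1 e)
  have q2 : sqNorm ((v + -w : leechLattice) : Vec) ≠ 0 := fun e =>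
    hne (one_of_zero C h (mul_mem ha hb) r2 e)
  have q3 := not_four C h (mul_mem ha hb) r1
  omega

theorem lab' (C : Cx z Q π R g) {W : Subgroup G} (h : Pure z W) (hQ : W ≤ Q) {a b : G} (ha : a ∈ W)
    (hb : b ∈ W) (h1 : b ≠ 1) (hab : a ≠ b) {v : leechLattice} (hv : R a v)
    (nv : sqNorm (v : Vec) = 32) :
    ∃ w, R b w ∧ sqNorm (w : Vec) = 32 ∧ dotInt (v : Vec) (w : Vec) = -16 := by
  obtain ⟨w, hw, nw⟩ := lab C h hQ hb h1
  rcases pair C h ha hb hab hv hw nv nw with e | e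
  · exact ⟨-w, C.M.neg hw, by rw [AddSubgroup.coe_neg, sqNorm_neg, nw], by
      rw [AddSubgroup.coe_neg, dot_neg_right, e]⟩
  · exact ⟨w, hw, nw, e⟩

theorem triple (C : Cx z Q π R g) {W : Subgroup G} (h : Pure z W) (hQ : W ≤ Q) {a b c : G}
    (ha : a ∈ W) (hb : b ∈ W) (hc : c ∈ W) (a1 : a ≠ 1) (b1 : b ≠ 1) (c1 : c ≠ 1) (hab : a ≠ b)
    (hac : a ≠ c) (hbc : b ≠ c) : c = a * b := by
  obtain ⟨v, hv, nv⟩ := lab C h hQ ha a1
  obtain ⟨w, hw, nw, vw⟩ := lab' C h hQ ha hb b1 hab hv nv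
  obtain ⟨t, ht, nt, vt⟩ := lab' C h hQ ha hc c1 hac hv nv
  have r := C.M.mul (C.M.mul hv hw) ht
  have m := mul_mem (mul_mem ha hb) hc
  have e1 : sqNorm ((v + w + t : leechLattice) : Vec) = 32 + 2 * dotInt (w : Vec) (t : Vec) := by
    rw [AddSubgroup.coe_add, AddSubgroup.coe_add, sqNorm_add, sqNorm_add, dot_add_left, nv, nw, nt,
      vw, vt]
    ring
  rcases pair C h hb hc hbc hw ht nw nt with e | e
  · exact absurd (by rw [e1, e]; norm_num) (not_four C h m r)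
  · have := one_of_zero C h m r (by rw [e1, e]; norm_num)
    rw [← h.el.inv hc]
    exact (eq_inv_of_mul_eq_one_left this).symm

theorem shape (C : Cx z Q π R g) {W : Subgroup G} (h : Pure z W) (hQ : W ≤ Q) :
    (W = ⊥ ∧ Nat.card W = 1) ∨
      (∃ a ∈ W, a ≠ 1 ∧ (∀ x, x ∈ W ↔ x = 1 ∨ x = a) ∧ Nat.card W = 2) ∨
      ∃ a ∈ W, ∃ b ∈ W, a ≠ 1 ∧ b ≠ 1 ∧ a ≠ b ∧
        (∀ x, x ∈ W ↔ x = 1 ∨ x = a ∨ x = b ∨ x = a * b) ∧ Nat.card W = 4 := by
  by_cases h0 : W = ⊥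
  · exact Or.inl ⟨h0, by rw [h0, card_bot]⟩
  right
  obtain ⟨⟨a, ha⟩, a1⟩ := ne_bot_iff_exists_ne_one.1 h0
  have a1 : a ≠ 1 := fun e => a1 (Subtype.ext e)
  by_cases h2 : ∀ x ∈ W, x = 1 ∨ x = a
  · left
    have hx : ∀ x, x ∈ W ↔ x = 1 ∨ x = a := fun x =>
      ⟨h2 x, by rintro (rfl | rfl); exacts [one_mem _, ha]⟩
    refine ⟨a, ha, a1, hx, ?_⟩
    have : (W : Set G) = {1, a} := by ext x; simpa using hx x
    rw [← SetLike.coe_sort_coe, Nat.card_coe_set_eq, this, Set.ncard_pair a1.symm]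
  right
  push Not at h2
  obtain ⟨b, hb, b1, ba⟩ := h2
  have hx : ∀ x, x ∈ W ↔ x = 1 ∨ x = a ∨ x = b ∨ x = a * b := fun x => by
    refine ⟨fun hx => ?_, by
      rintro (rfl | rfl | rfl | rfl); exacts [one_mem _, ha, hb, mul_mem ha hb]⟩
    by_contra hn
    push Not at hn
    exact hn.2.2.2 (triple C h hQ ha hb hx a1 b1 hn.1 ba.symm hn.2.1.symm hn.2.2.1.symm)
  refine ⟨a, ha, b, hb, a1, b1, ba.symm, hx, ?_⟩
  have : (W : Set G) = {1, a, b, a * b} := by ext x; simpa using hx x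
  have n1 : a * b ≠ 1 := fun e => ba (by
    rw [← h.el.inv hb]; exact (eq_inv_of_mul_eq_one_left e).symm)
  have n2 : a ≠ a * b := fun e => b1 (by simpa using e)
  have n3 : b ≠ a * b := fun e => a1 (by simpa using e)
  rw [← SetLike.coe_sort_coe, Nat.card_coe_set_eq, this,
    Set.ncard_insert_of_notMem (by simp [a1.symm, b1.symm, n1.symm]),
    Set.ncard_insert_of_notMem (by simp [ba.symm, b1]), Set.ncard_pair n3]

omit [Finite G] in
theorem cj_iff (c x y : G) : c⁻¹ * x * c = y ↔ x = c * y * c⁻¹ :=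
  ⟨fun e => by rw [← e]; group, fun e => by rw [e]; group⟩

end PB

open PB

theorem pure_card (C : Cx z Q π R g) {W : Subgroup G} (h : Pure z W) (hQ : W ≤ Q) (h1 : W ≠ ⊥) :
    Nat.card W = 2 ∨ Nat.card W = 4 := by
  rcases shape C h hQ with ⟨e, -⟩ | ⟨a, -, -, -, e⟩ | ⟨a, -, b, -, -, -, -, -, e⟩
  · exact absurd e h1
  · exact Or.inl e
  · exact Or.inr e

theorem pure_conj (C : Cx z Q π R g) {W W' : Subgroup G} (h : Pure z W) (h' : Pure z W')
    (hQ : W ≤ Q) (hQ' : W' ≤ Q) (e : Nat.card W = Nat.card W') : ∃ c, W' = cjs c W := by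
  rcases shape C h hQ with ⟨e0, e1⟩ | ⟨a, ha, a1, hx, e1⟩ | ⟨a, ha, b, hb, a1, b1, ab, hx, e1⟩ <;>
    rcases shape C h' hQ' with ⟨e0', e1'⟩ | ⟨a', ha', a1', hx', e1'⟩ |
      ⟨a', ha', b', hb', a1', b1', ab', hx', e1'⟩ <;> try omega
  · exact ⟨1, by rw [cjs_one, e0, e0']⟩
  · obtain ⟨v, hv, nv⟩ := lab C h hQ ha a1
    obtain ⟨v', hv', nv'⟩ := lab C h' hQ' ha' a1'
    obtain ⟨c, -, hc⟩ := C.M.trans hv hv' (Or.inl ⟨nv, nv'⟩)
    refine ⟨c, ?_⟩
    ext x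
    rw [mem_cjs, hx, hx', cj_iff, cj_iff, hc, mul_one, mul_inv_cancel]
  · obtain ⟨v, hv, nv⟩ := lab C h hQ ha a1
    obtain ⟨w, hw, nw, vw⟩ := lab' C h hQ ha hb b1 ab hv nv
    obtain ⟨v', hv', nv'⟩ := lab C h' hQ' ha' a1'
    obtain ⟨w', hw', nw', vw'⟩ := lab' C h' hQ' ha' hb' b1' ab' hv' nv'
    obtain ⟨k, k1, k2⟩ := trans_pair_m16 v w v' w' nv nv' nw nw' vw vw'
    obtain ⟨c, hk, hc⟩ := C.M.lift_cent (k := k) hv (by rw [k1]; exact hv') a1' (ne_z h' ha')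
    have r := C.M.conj c k hk hw
    rw [k2] at r
    have key : ∃ d : G, d * a * d⁻¹ = a' ∧ d * b * d⁻¹ = b' := by
      rcases C.M.uniq hw' r with e2 | e2
      · exact ⟨c, hc, e2⟩
      · obtain ⟨d, -, d1, d2⟩ := lx_sep C.M.lx (hQ' ha') (hQ' hb') b1' (ne_z h' hb') ab'.symm
          fun e3 => ne_z h' (mul_mem hb' (inv_mem ha')) (by rw [e3, mul_inv_cancel_right])
        refine ⟨d⁻¹ * c, ?_, ?_⟩
        · calc d⁻¹ * c * a * (d⁻¹ * c)⁻¹ = d⁻¹ * (c * a * (c : G)⁻¹ * d) := by group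
            _ = a' := by rw [hc, ← d1]; group
        · calc d⁻¹ * c * b * (d⁻¹ * c)⁻¹ = d⁻¹ * (c * b * (c : G)⁻¹) * d := by group
            _ = b' := by rw [e2, ← d2]; group
    obtain ⟨d, d1, d2⟩ := key
    refine ⟨d, ?_⟩
    ext x
    rw [mem_cjs, hx, hx', cj_iff, cj_iff, cj_iff, cj_iff, mul_one, mul_inv_cancel,
      show d * (a * b) * d⁻¹ = d * a * d⁻¹ * (d * b * d⁻¹) by group, d1, d2]

end Cfsg.Agent.M2L
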