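import Cfsg.Agent.M2L.TS
import Cfsg.Agent.M2L.Rel

set_option autoImplicit false

namespace Cfsg.Agent.M2L

universe u

open Subgroup H15 H97 H38.MT
open Cfsg.Agent.H14 (bits enc pc)

variable {G : Type u} [Group G] {z : G} {Q : Subgroup G}
  {π : centralizer ({z} : Set G) →* Spor.Co1} {R : G → leechLattice → Prop} {g : G} [Finite G]

namespace U4

/-- the label is four times the indicator of `X` modulo 8 -/
def F4 (R : G → leechLattice → Prop) (a : G) (X : Finset GolayPt) : Prop :=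
  ∃ v, R a v ∧ ∀ i, (v : Vec) i % 8 = if i ∈ X then 4 else 0

theorem mem_four {x : Vec} (h1 : ∀ i, x i % 4 = 0) (h2 : (∑ i, x i) % 8 = 0) : x ∈ leechLattice :=
  mem_leech_of_even (fun i => by have := h1 i; omega) h2 (by
    convert isCw_empty using 1
    ext i
    have := h1 i
    simp only [Finset.mem_filter, Finset.mem_univ, true_and, Finset.notMem_empty, iff_false]
    omega)

/-- four times the indicator of an even set -/
def l4 (X : Finset GolayPt) (h : X.card % 2 = 0) : leechLattice :=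
  ⟨fun i => if i ∈ X then 4 else 0, mem_four (fun i => by split_ifs <;> rfl) (by
    rw [Finset.sum_ite_mem, Finset.univ_inter, Finset.sum_const, nsmul_eq_mul]; omega)⟩

theorem es (X : Finset GolayPt) : symmDiff ∅ X = X := bot_symmDiff X

section
omit [Finite G]

omit [Group G] in
theorem f4_l4 {a : G} {X : Finset GolayPt} {h : X.card % 2 = 0} (ha : R a (l4 X h)) : F4 R a X :=
  ⟨_, ha, fun i => by
    change (if i ∈ X then (4 : ℤ) else 0) % 8 = _
    split_ifs <;> rfl⟩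

theorem F4.mul (M : MD z Q π R) {a b : G} {X Y : Finset GolayPt} (ha : F4 R a X) (hb : F4 R b Y) :
    F4 R (a * b) (symmDiff X Y) := by
  obtain ⟨v, h1, h2⟩ := ha
  obtain ⟨w, h3, h4⟩ := hb
  refine ⟨_, M.mul h1 h3, fun i => ?_⟩
  have a1 := h2 i
  have a2 := h4 i
  rw [AddSubgroup.coe_add, Pi.add_apply]
  by_cases e1 : i ∈ X <;> by_cases e2 : i ∈ Y <;>
    simp only [Finset.mem_symmDiff, e1, e2, if_true, if_false, not_true, not_false_eq_true, and_true,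
      and_false, or_false, or_true] at a1 a2 ⊢ <;> omega

theorem F4.inv (M : MD z Q π R) {a : G} {X : Finset GolayPt} (ha : F4 R a X) : F4 R a⁻¹ X := by
  obtain ⟨v, h1, h2⟩ := ha
  exact ⟨v, M.inv h1, h2⟩

theorem F4.cw (M : MD z Q π R) {a : G} {X Y : Finset GolayPt} (ha : F4 R a X)
    (h : IsCw (symmDiff X Y)) : F4 R a Y := by
  obtain ⟨v, h1, h2⟩ := ha
  refine ⟨_, M.add_two h1 (lTwo h), fun i => ?_⟩
  have a1 := h2 i
  rw [AddSubgroup.coe_add, Pi.add_apply, AddSubgroup.coe_add, Pi.add_apply, lTwo_apply]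
  by_cases e1 : i ∈ X <;> by_cases e2 : i ∈ Y <;>
    simp only [Finset.mem_symmDiff, e1, e2, if_true, if_false, not_true, not_false_eq_true, and_true,
      and_false, or_false, or_true] at a1 ⊢ <;> omega

theorem F4.uniq (M : MD z Q π R) {a : G} {X Y : Finset GolayPt} (ha : F4 R a X) (hb : F4 R a Y) :
    IsCw (symmDiff X Y) := by
  obtain ⟨v, h1, h2⟩ := ha
  obtain ⟨v', h3, h4⟩ := hb
  obtain ⟨w, hw⟩ := M.congr h1 h3
  convert tw_cw w using 1
  ext i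
  have a1 := h2 i
  have a2 := h4 i
  rw [hw, AddSubgroup.coe_add, Pi.add_apply, AddSubgroup.coe_add, Pi.add_apply] at a2
  rw [mem_tw]
  by_cases e1 : i ∈ X <;> by_cases e2 : i ∈ Y <;>
    simp only [Finset.mem_symmDiff, e1, e2, if_true, if_false, not_true, not_false_eq_true, and_true,
      and_false, or_false, or_true, true_iff, false_iff] at a1 a2 ⊢ <;> omega

theorem F4.mul_iff (M : MD z Q π R) {a c : G} {X Y : Finset GolayPt} (hc : F4 R c Y) :
    F4 R (a * c) X ↔ F4 R a (symmDiff X Y) :=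
  ⟨fun h => by simpa using h.mul M (hc.inv M), fun h => by
    simpa [symmDiff_assoc] using h.mul M hc⟩

theorem f4_one (M : MD z Q π R) : F4 R 1 ∅ := ⟨0 + 0, M.two 0, fun i => by simp⟩

theorem f4_z (M : MD z Q π R) : F4 R z ∅ := ⟨0, M.zed, fun i => by simp⟩

theorem f4_s (C : Cx z Q π R g) : F4 R (g * z * g⁻¹) ∅ := ⟨_, C.h8, fun i => by
  rw [e8_val, Pi.single_apply]; split_ifs with h1 h2 <;> simp_all⟩

/-- the elements with label divisible by 8 -/
def N0 (M : MD z Q π R) : Subgroup G where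
  carrier := {a | F4 R a ∅}
  one_mem' := f4_one M
  mul_mem' := fun ha hb => by simpa using F4.mul M ha hb
  inv_mem' := fun ha => F4.inv M ha

theorem half {v : leechLattice} (h1 : ∀ i, (v : Vec) i % 8 = 0) (h2 : (∑ i, (v : Vec) i) % 16 = 0) :
    ∃ w, v = w + w := by
  have h3 : ∑ i, (v : Vec) i = 2 * ∑ i, (v : Vec) i / 2 := by
    rw [Finset.mul_sum]
    exact Finset.sum_congr rfl fun i _ => by have := h1 i; omega
  refine ⟨⟨fun i => (v : Vec) i / 2, mem_four (fun i => by have := h1 i; omega) (by omega)⟩,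
    Subtype.ext (funext fun i => ?_)⟩
  have := h1 i
  change (v : Vec) i = (v : Vec) i / 2 + (v : Vec) i / 2
  omega

theorem n0_cases (C : Cx z Q π R g) {a : G} (h : F4 R a ∅) :
    (a = 1 ∨ a = z) ∨ (a * (g * z * g⁻¹) = 1 ∨ a * (g * z * g⁻¹) = z) := by
  obtain ⟨v, h1, h2⟩ := h
  simp only [Finset.notMem_empty, if_false] at h2
  have h3 := (even_of (v := v) (i := none) (by have := h2 none; omega)).2
  by_cases h4 : (∑ i, (v : Vec) i) % 16 = 0
  · exact Or.inl ((C.M.one_iff h1).2 (half h2 h4))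
  · refine Or.inr ((C.M.one_iff (C.M.mul h1 C.h8)).2 (half (fun i => ?_) ?_))
    · have := h2 i
      rw [AddSubgroup.coe_add, Pi.add_apply, e8_val, Pi.single_apply]
      split_ifs <;> omega
    · simp only [AddSubgroup.coe_add, Pi.add_apply, e8_val, Finset.sum_add_distrib,
        Finset.sum_pi_single', Finset.mem_univ, if_true]
      omega

theorem spl_even {v : leechLattice} {X e : Finset GolayPt}
    (h2 : ∀ i, (v : Vec) i % 8 = if i ∈ X then 4 else 0) (h : Spl e v) : (e ∩ X).card % 2 = 0 := by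
  obtain ⟨w, hw⟩ := h
  have h3 := (even_of (v := w) (i := none) (by
    have := h2 none
    rw [hw]; split_ifs at this ⊢ <;> omega)).2
  have h4 : (8 : ℤ) ∣ ∑ i, ((w : Vec) i - if i ∈ e ∩ X then 4 else 0) :=
    Finset.dvd_sum fun i _ => by
      have := h2 i
      rw [hw]
      by_cases e1 : i ∈ e <;> by_cases e2 : i ∈ X <;>
        simp only [Finset.mem_inter, e1, e2, if_true, if_false, and_true, and_false] at this ⊢ <;> omega
  rw [Finset.sum_sub_distrib, Finset.sum_ite_mem, Finset.univ_inter, Finset.sum_const,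
    nsmul_eq_mul] at h4
  omega

end

theorem F4.key (C : Cx z Q π R g) {a : G} {X e : Finset GolayPt} (ha : F4 R a X) (he : IsCw e)
    (hc : e.card = 8) (hX : X ⊆ e) : a ∈ EE C.M C.h8 he hc ∧ (Sing z a ↔ X.card % 4 = 0) := by
  obtain ⟨v, h1, h2⟩ := ha
  obtain ⟨p, hp⟩ := Finset.card_pos.1 (show 0 < e.card by omega)
  let y : Vec := fun i => if i ∈ e then 0 else (v : Vec) i / 8
  let w : leechLattice := ⟨fun i => (if i = p then 4 * ∑ j, y j else 0) - 4 * y i,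
    mem_four (fun i => by split_ifs <;> omega) (by
      rw [Finset.sum_sub_distrib, Finset.sum_ite_eq', if_pos (Finset.mem_univ _), ← Finset.mul_sum,
        sub_self]; rfl)⟩
  have hw : ∀ i, ((v + (w + w) : leechLattice) : Vec) i = (v : Vec) i +
      2 * ((if i = p then 4 * ∑ j, y j else 0) - 4 * y i) := fun i => by
    rw [two_mul]; rfl
  have h3 := C.M.add_two h1 w
  have h4 : Fx e (v + (w + w)) := fun i hi => by
    have a1 := h2 i
    rw [if_neg fun h => hi (hX h)] at a1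
    rw [hw, if_neg (by rintro rfl; exact hi hp)]
    simp only [y, if_neg hi]
    omega
  have h5 : ∀ i, ((v + (w + w) : leechLattice) : Vec) i % 8 = if i ∈ X then 4 else 0 := fun i => by
    rw [hw, ← h2]; split_ifs <;> omega
  refine ⟨Z0_le_EE C.M C.h8 ⟨_, h4, h3⟩, ?_⟩
  rw [sing_iff C.M C.h8 he hc h3 h4]
  generalize ((v + (w + w) : leechLattice) : Vec) = x at h5
  have h6 : (64 : ℤ) ∣ ∑ i, (x i ^ 2 - if i ∈ X then 16 else 0) := Finset.dvd_sum fun i _ => by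
    have := h5 i
    split_ifs at this ⊢
    · obtain ⟨k, hk⟩ : ∃ k, x i = 8 * k + 4 := ⟨x i / 8, by omega⟩
      exact ⟨k ^ 2 + k, by rw [hk]; ring⟩
    · obtain ⟨k, hk⟩ : ∃ k, x i = 8 * k := ⟨x i / 8, by omega⟩
      exact ⟨k ^ 2, by rw [hk]; ring⟩
  rw [Finset.sum_sub_distrib, Finset.sum_ite_mem, Finset.univ_inter, Finset.sum_const,
    nsmul_eq_mul] at h6
  rw [sqNorm]
  omega

/-- the three duads -/
def DD (i : Fin 3) : Finset GolayPt := bits (![8388609, 4194320, 262400] i)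

/-- sums of two tetrads -/
def TT (i : Fin 3) (p : Fin 4) : Finset GolayPt :=
  ![∅, tT i 0, tT i 1, symmDiff (tT i 0) (tT i 1)] p

/-- masks of `TT 0` -/
def tm : List ℕ := [0, 8405001, 8388615, 8405001 ^^^ 8388615]

/-- masks of the sums of duads -/
def dm : List ℕ := [0, 8388609, 4194320, 262400, 8388609 ^^^ 4194320, 8388609 ^^^ 262400,
  4194320 ^^^ 262400, 8388609 ^^^ 4194320 ^^^ 262400]

/-- nine octads -/
def oc : List ℕ := [11100169, 12656663, 8536111, 11010247, 12599513, 9748745, 9471495, 8657159,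
  8412681]

theorem oc_spec : ∀ r ∈ oc, IsCw (bits r) ∧ (bits r).card = 8 ∧
    (tT 0 0 ⊆ bits r ∨ tT 0 1 ⊆ bits r) := by decide +kernel

theorem comb {X : Finset GolayPt} (h : ∀ r ∈ oc, (bits r ∩ X).card % 2 = 0) :
    ∃ t ∈ tm, ∃ d ∈ dm, IsCw (symmDiff (symmDiff X (bits d)) (bits t)) := by
  obtain ⟨m, hm, rfl⟩ := H14.exists_bits X
  have hx : m % 4096 < 4096 := Nat.mod_lt _ (by norm_num)
  have hc : IsCw (bits (enc (m % 4096))) := H14.bits_enc_mem _
  have h1 : (m ^^^ enc (m % 4096)) % 4096 = 0 := by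
    rw [show 4096 = 2 ^ 12 from rfl, Nat.xor_mod_two_pow, show 2 ^ 12 = 4096 from rfl,
      H14.enc_mod hx, Nat.xor_self]
  have h2 : m ^^^ enc (m % 4096) < 2 ^ 24 := Nat.xor_lt_two_pow hm (H14.enc_lt hx)
  have h3 : ∀ y < 64 * 64, (∀ r ∈ oc, pc (r &&& 4096 * y) % 2 = 0) →
      ∃ t ∈ tm, ∃ d ∈ dm, enc (4096 * y ^^^ d ^^^ t) = 4096 * y ^^^ d ^^^ t := by
    have : H14.all2 64 64 (fun y => decide ((∀ r ∈ oc, pc (r &&& 4096 * y) % 2 = 0) →
      ∃ t ∈ tm, ∃ d ∈ dm, enc (4096 * y ^^^ d ^^^ t) = 4096 * y ^^^ d ^^^ t)) =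
      true := by decide +kernel
    exact fun y hy => of_decide_eq_true (H14.all2_iff.1 this y hy)
  have h0 : 4096 * ((m ^^^ enc (m % 4096)) / 4096) = m ^^^ enc (m % 4096) := by omega
  obtain ⟨t, ht, d, hd, h4⟩ := h3 ((m ^^^ enc (m % 4096)) / 4096) (by omega) fun r hr => by
    have hr' : IsCw (bits r) := (oc_spec r hr).1
    rw [h0, Nat.and_xor_distrib_left, ← H14.card_bits, H14.bits_xor, H14.bits_and, H14.bits_and]
    have h5 := H14.card_symmDiff_add (bits r ∩ bits m) (bits r ∩ bits (enc (m % 4096)))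
    have h6 := h r hr
    have h7 := Nat.even_iff.1 (hr'.inter_even hc)
    omega
  refine ⟨t, ht, d, hd, ?_⟩
  have h5 := (isCw_bits h4).symmDiff hc
  rw [h0, ← H14.bits_xor] at h5
  rw [← H14.bits_xor, ← H14.bits_xor]
  convert h5 using 2
  apply Nat.eq_of_testBit_eq
  intro i
  simp only [Nat.testBit_xor]
  cases m.testBit i <;> cases d.testBit i <;> cases t.testBit i <;>
    cases (enc (m % 4096)).testBit i <;> rfl

theorem step (C : Cx z Q π R g) {V : Subgroup G} (hV : V ≤ U5 C) {c : G} (hc : c ∈ U5 C)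
    (h : c ∉ V) : ∃ W : Subgroup G, W ≤ U5 C ∧ Nat.card W = 2 * Nat.card V ∧
      ∀ a, a ∈ W ↔ a ∈ V ∨ a * c ∈ V := by
  obtain ⟨W, -, h2, h3⟩ := ((U5_sing C).mono hV).sup C
    (U5_sing C c hc fun e => h (e ▸ one_mem V)).1 (fun u hu h1 => (U5_sing C u (hV hu) h1).2 hc) h
  exact ⟨W, fun a ha => ((h3 a).1 ha).elim (fun h => hV h) fun h =>
    ((U5 C).mul_mem_cancel_right hc).1 (hV h), h2, h3⟩

theorem mem_U5 (C : Cx z Q π R g) {a : G} {j : Fin 3} (h : F4 R a (tT 0 j)) : a ∈ U5 C :=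
  ⟨(h.key C (tO_cw 0) (tO_card 0) (tT_sub 0 j)).1,
    ((h.cw C.M (tT_cw 0 1 j)).key C (tO_cw 1) (tO_card 1) (tT_sub 1 j)).1⟩

theorem U5_le (C : Cx z Q π R g) (i : Fin 3) : U5 C ≤ AT C i := by
  rw [← AT_inf C (i := i) (j := i + 1) (by revert i; decide)]; exact inf_le_left

theorem exists_U (C : Cx z Q π R g) : ∃ U : Subgroup G, U ≤ U5 C ∧ Nat.card U = 16 ∧
    ∀ a, a ∈ U ↔ ∃ p, F4 R a (TT 0 p) := by
  obtain ⟨s0, hs0⟩ := C.M.ex' (l4 (tT 0 0) (by rw [tT_card]))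
  obtain ⟨s1, hs1⟩ := C.M.ex' (l4 (tT 0 1) (by rw [tT_card]))
  have f0 := f4_l4 hs0
  have f1 := f4_l4 hs1
  have hzz := C.M.lx.sq
  obtain ⟨V1, a1, a2, a3⟩ := step C (V := ⊥) bot_le (c := z) ⟨z_mem_EE C _ _, z_mem_EE C _ _⟩
    fun h => C.M.lx.ne (mem_bot.1 h)
  have a4 : ∀ a, a ∈ V1 ↔ a = 1 ∨ a = z := fun a => by
    rw [a3, mem_bot, mem_bot, mul_eq_one_iff_eq_inv, inv_eq_of_mul_eq_one_right hzz]
  obtain ⟨V2, b1, b2, b3⟩ := step C a1 (c := g * z * g⁻¹) ⟨OctC.s_mem_EE C _ _, OctC.s_mem_EE C _ _⟩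
    fun h => ((a4 _).1 h).elim (lx_Qx C s_conj).ne (s_ne' C)
  have b4 : ∀ a, a ∈ V2 ↔ F4 R a ∅ := fun a => by
    rw [b3, a4, a4]
    refine ⟨?_, n0_cases C⟩
    rintro ((rfl | rfl) | h | h)
    · exact f4_one C.M
    · exact f4_z C.M
    · rw [← es ∅, ← F4.mul_iff C.M (f4_s C), h]; exact f4_one C.M
    · rw [← es ∅, ← F4.mul_iff C.M (f4_s C), h]; exact f4_z C.M
  obtain ⟨V3, c1, c2, c3⟩ := step C b1 (mem_U5 C f0) fun h =>
    absurd (f0.uniq C.M ((b4 _).1 h)) (by decide +kernel)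
  have c4 : ∀ a, a ∈ V3 ↔ F4 R a ∅ ∨ F4 R a (tT 0 0) := fun a => by
    rw [c3, b4, b4, F4.mul_iff C.M f0, es]
  obtain ⟨V4, d1, d2, d3⟩ := step C c1 (mem_U5 C f1) fun h => ((c4 _).1 h).elim
    (fun h => absurd (f1.uniq C.M h) (by decide +kernel))
    (fun h => absurd (f1.uniq C.M h) (by decide +kernel))
  refine ⟨V4, d1, by rw [d2, c2, b2, a2, card_bot], fun a => ?_⟩
  rw [d3, c4, c4, F4.mul_iff C.M f1, F4.mul_iff C.M f1]
  simp [Fin.exists_fin_succ, TT, or_assoc, es]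

end U4

open U4 in
theorem exists_U4 (C : Cx z Q π R g) : ∃ (U : Subgroup G) (d : Fin 3 → G), U ≤ U5 C ∧
    Nat.card U = 16 ∧ (∀ i, d i ∈ AT C i) ∧ (∀ i, ∀ u ∈ U, u ≠ 1 → d i ∈ Qx z Q u) ∧
    (∀ i, ¬ Sing z (d i)) ∧ (∀ i j, i ≠ j → IsConj z (d i * d j)) ∧ d 0 * d 1 * d 2 ∈ U5 C ∧
    ∀ a, (∀ u ∈ U, u ≠ 1 → a ∈ Qx z Q u) → a ∈ U ∨ (∃ i, a * d i ∈ U) ∨
      (∃ i j, i ≠ j ∧ a * (d i * d j) ∈ U) ∨ a * (d 0 * d 1 * d 2) ∈ U := by
  obtain ⟨U, h1, h2, h3⟩ := exists_U C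
  have e1 : ∀ i, (DD i).card % 2 = 0 := by decide +kernel
  have e2 : ∀ i, DD i ⊆ tO i ∧ ¬ (DD i).card % 4 = 0 := by decide +kernel
  have e3 : ∀ i p, IsCw (symmDiff (symmDiff (DD i) (TT 0 p)) (symmDiff (DD i) (TT i p))) ∧
      symmDiff (DD i) (TT i p) ⊆ tO i ∧ ¬ (symmDiff (DD i) (TT i p)).card % 4 = 0 := by
    decide +kernel
  have e4 : ∀ i j, i ≠ j → ∑ k, ((if k ∈ DD i then (4 : ℤ) else 0) +
      (if k ∈ DD j then 4 else 0)) ^ 2 = 64 := by decide +kernel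
  choose d hd using fun i => C.M.ex' (l4 (DD i) (e1 i))
  have fd := fun i => f4_l4 (hd i)
  have k1 := fun i => (fd i).key C (tO_cw i) (tO_card i) (e2 i).1
  have k2 : ∀ i, ¬ Sing z (d i) := fun i h => (e2 i).2 ((k1 i).2.1 h)
  have f3 := ((fd 0).mul C.M (fd 1)).mul C.M (fd 2)
  refine ⟨U, d, h1, h2, fun i => (k1 i).1, fun i u hu hu1 => ?_, k2, fun i j hij => ?_,
    mem_U5 C (j := 2) (f3.cw C.M (by decide +kernel)), fun a ha => ?_⟩
  · obtain ⟨p, hp⟩ := (h3 u).1 hu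
    refine ((ark_EE C (tO_cw i) (tO_card i)).mem_Qx_iff (U5_sing C u (h1 hu) hu1).1
      (U5_le C i (h1 hu)) (k1 i).1).2 (iff_of_false (fun h => (e3 i p).2.2 ?_) (k2 i))
    exact ((((fd i).mul C.M hp).cw C.M (e3 i p).1).key C (tO_cw i) (tO_card i) (e3 i p).2.1).2.1 h
  · exact C.M.isConj_of_four (s_mem C) (s_ne' C) (C.M.mul (hd i) (hd j)) (e4 i j hij)
  have hz : z ∈ U := (h3 _).2 ⟨0, f4_z C.M⟩
  have hs : g * z * g⁻¹ ∈ U := (h3 _).2 ⟨0, f4_s C⟩
  have a1 := ha z hz C.M.lx.ne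
  have a2 := ha _ hs (lx_Qx C s_conj).ne
  obtain ⟨v, hv, hv4⟩ := exists_four C (Qx_z C ▸ a1) a2
  have hX : ∀ i, (v : Vec) i % 8 =
      if i ∈ Finset.univ.filter (fun i => (v : Vec) i % 8 = 4) then 4 else 0 := fun i => by
    have := hv4 i
    simp only [Finset.mem_filter, Finset.mem_univ, true_and]
    split_ifs <;> omega
  generalize Finset.univ.filter (fun i => (v : Vec) i % 8 = 4) = X at hX
  have fa : F4 R a X := ⟨v, hv, hX⟩
  have A : ∀ (e : Finset GolayPt) (he : IsCw e) (hc : e.card = 8) (j : Fin 3) (p : Fin 4),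
      TT 0 p = tT 0 j → tT 0 j ⊆ e → (e ∩ X).card % 2 = 0 := fun e he hc j p hp hj => by
    obtain ⟨σ, hσ⟩ := C.M.ex' (l4 (tT 0 j) (by rw [tT_card]))
    have fσ := f4_l4 hσ
    have hσU : σ ∈ U := (h3 _).2 ⟨p, hp ▸ fσ⟩
    have hn : σ ∉ N0 C.M := fun h => absurd (fσ.uniq C.M h) (by
      clear hσ fσ hp hj; revert j; decide +kernel)
    have hz0 : z ∈ N0 C.M := f4_z C.M
    have hs0 : g * z * g⁻¹ ∈ N0 C.M := f4_s C
    have hσ1 : σ ≠ 1 := fun e => hn (e ▸ one_mem _)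
    exact spl_even hX (spl_of_cent_EE C he hc hv ((ark_EE C he hc).cent_of_two (IsConj.refl z) s_conj
      (U5_sing C σ (h1 hσU) hσ1).1 (z_mem_EE C he hc) (OctC.s_mem_EE C he hc) (fσ.key C he hc hj).1
      (s_ne' C) (fun e => hn (e ▸ hz0)) (fun e => hn (e ▸ hs0))
      (fun e => hn (((N0 C.M).mul_mem_cancel_left hz0).1 (e ▸ hs0))) a1 a2 (ha σ hσU hσ1)))
  obtain ⟨t, ht, m, hm, hc⟩ := comb (X := X) fun r hr => by
    obtain ⟨b1, b2, b3 | b3⟩ := oc_spec r hr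
    · exact A _ b1 b2 0 1 rfl b3
    · exact A _ b1 b2 1 2 rfl b3
  have e5 : ∀ t ∈ tm, ∃ p, bits t = TT 0 p := by decide +kernel
  obtain ⟨p, hp⟩ := e5 t ht
  have B : ∀ b, F4 R b (bits m) → a * b ∈ U := fun b hb =>
    (h3 _).2 ⟨p, hp ▸ (fa.mul C.M hb).cw C.M hc⟩
  simp only [dm, List.mem_cons, List.not_mem_nil, or_false] at hm
  rcases hm with rfl | rfl | rfl | rfl | rfl | rfl | rfl | rfl
  · exact Or.inl (by simpa using B 1 ((f4_one C.M).cw C.M (by decide +kernel)))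
  · exact Or.inr (Or.inl ⟨0, B _ (fd 0)⟩)
  · exact Or.inr (Or.inl ⟨1, B _ (fd 1)⟩)
  · exact Or.inr (Or.inl ⟨2, B _ (fd 2)⟩)
  · exact Or.inr (Or.inr (Or.inl ⟨0, 1, by decide,
      B _ (((fd 0).mul C.M (fd 1)).cw C.M (by decide +kernel))⟩))
  · exact Or.inr (Or.inr (Or.inl ⟨0, 2, by decide,
      B _ (((fd 0).mul C.M (fd 2)).cw C.M (by decide +kernel))⟩))
  · exact Or.inr (Or.inr (Or.inl ⟨1, 2, by decide,
      B _ (((fd 1).mul C.M (fd 2)).cw C.M (by decide +kernel))⟩))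
  · exact Or.inr (Or.inr (Or.inr (B _ (f3.cw C.M (by decide +kernel)))))

end Cfsg.Agent.M2L
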