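import Cfsg.Agent.M2L.S4
import Cfsg.Agent.M2L.U4

set_option autoImplicit false

namespace Cfsg.Agent.M2L

universe u

open Subgroup H15 H97 H38.MT

variable {G : Type u} [Group G] {z : G} {Q : Subgroup G}
  {π : centralizer ({z} : Set G) →* Spor.Co1} {R : G → leechLattice → Prop} {g : G} [Finite G]

/-- orthogonal to all nontrivial elements of `H` -/
def SC_P (z : G) (Q H : Subgroup G) (a : G) : Prop := ∀ u ∈ H, u ≠ 1 → a ∈ Qx z Q u

theorem SC_P.cj {H : Subgroup G} {a n : G} (h : SC_P z Q H a) (hn : n ∈ normalizer (H : Set G)) :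
    SC_P z Q H (n * a * n⁻¹) := fun u hu u1 => by
  have := (mem_Qx_cj n).2 (h _ (conj_mem_of_norm (inv_mem hn) hu) fun e => u1 (by
    calc u = n * (n⁻¹ * u * n⁻¹⁻¹) * n⁻¹ := by group
      _ = 1 := by rw [e]; group))
  rwa [show n * (n⁻¹ * u * n⁻¹⁻¹) * n⁻¹ = u by group] at this

theorem SC_sing (C : Cx z Q π R g) {H : Subgroup G} (hH : SingU z Q H) {a h : G} (ha : IsConj z a)
    (hp : SC_P z Q H a) (hh : h ∈ H) : Sing z (h * a) := by
  refine or_iff_not_imp_left.2 fun e => ?_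
  by_cases m : a ∈ H
  · exact (hH _ (mul_mem hh m) e).1
  · obtain ⟨V, h1, -, h2⟩ := hH.sup C ha hp m
    exact (h1 _ ((h2 _).2 (.inr (by rwa [mul_assoc, (lx_Qx C ha).sq, mul_one]))) e).1

theorem SC_two {H U : Subgroup G} (h : H ≤ U) (h1 : Nat.card H = 16) (h2 : Nat.card U = 32) :
    H2 U H ∧ ∃ c ∈ U, c ∉ H :=
  ⟨h2_of_card (by rw [inf_eq_right.2 h, h1, h2]), SetLike.not_le_iff_exists.1 fun e => by
    have := card_le_of_le e
    omega⟩

theorem SC_le (C : Cx z Q π R g) (i : Fin 3) : U5 C ≤ AT C i := by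
  obtain ⟨j, hj⟩ := exists_ne i
  exact (AT_inf C hj).ge.trans inf_le_right

theorem SC_U4 (C : Cx z Q π R g) : ∃ H : Subgroup G, H ≤ U5 C ∧ Nat.card H = 16 ∧
    (∀ a, IsConj z a → SC_P z Q H a → ∃ k, a ∈ AT C k) ∧
    (∀ c ∈ U5 C, c ∉ H → ∀ a, IsConj z a → SC_P z Q H a → a ∉ U5 C → a ∉ Qx z Q c) ∧
    normalizer (H : Set G) ≤ normalizer (U5 C : Set G) := by
  obtain ⟨H, d, hle, hc, dA, dQ, dS, dd, d3, cl⟩ := exists_U4 C
  have sV := U5_sing C
  have sH := sV.mono hle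
  have ak : ∀ i, Ark C (AT C i) := fun i => ark_EE C _ _
  have iv : ∀ i, (d i)⁻¹ = d i := fun i => (ak i).el.inv (dA i)
  have cm : ∀ i j, Commute (d i) (d j) := fun i j => AT_comm C i j _ (dA i) _ (dA j)
  obtain ⟨two, -⟩ := SC_two hle hc (card_U5 C)
  have s1 : ∀ {i j k}, d i * d j * d k ∈ U5 C → d j * d i * d k ∈ U5 C := fun {i j k} h => by
    rwa [(cm j i).eq]
  have s2 : ∀ {i j k}, d i * d j * d k ∈ U5 C → d i * d k * d j ∈ U5 C := fun {i j k} h => by
    rwa [(cm k j).right_comm]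
  have tr : ∀ i j, i ≠ j → ∃ k, i ≠ k ∧ j ≠ k ∧ d i * d j * d k ∈ U5 C := fun i j h => by
    fin_cases i <;> fin_cases j <;> first
      | exact absurd rfl h
      | exact ⟨2, by decide, by decide, d3⟩
      | exact ⟨2, by decide, by decide, s1 d3⟩
      | exact ⟨1, by decide, by decide, s2 d3⟩
      | exact ⟨1, by decide, by decide, s1 (s2 d3)⟩
      | exact ⟨0, by decide, by decide, s2 (s1 d3)⟩
      | exact ⟨0, by decide, by decide, s1 (s2 (s1 d3))⟩
  have g1 : ∀ i j, i ≠ j → d i * d j ∉ U5 C := fun i j h m => by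
    obtain ⟨k, -, -, e⟩ := tr i j h
    exact dS k (or_iff_not_imp_left.2 fun e1 => (sV _ ((mul_mem_cancel_left m).1 e) e1).1)
  have pp : ∀ i j, SC_P z Q H (d i * d j) := fun i j u hu u1 => mul_mem (dQ i u hu u1) (dQ j u hu u1)
  have f4 : ∀ a, IsConj z a → SC_P z Q H a → a ∉ U5 C → ∃ i j, i ≠ j ∧ a * (d i * d j) ∈ H :=
    fun a ha hp m => by
      rcases cl a hp with h | ⟨i, h⟩ | h | h
      · exact absurd (hle h) m
      · have := SC_sing C sH ha hp (inv_mem h)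
        rw [mul_inv_rev, inv_mul_cancel_right, iv] at this
        exact absurd this (dS i)
      · exact h
      · exact absurd ((mul_mem_cancel_right d3).1 (hle h)) m
  have f5 : ∀ a, IsConj z a → SC_P z Q H a → ∃ k, a ∈ AT C k := fun a ha hp => by
    by_cases m : a ∈ U5 C
    · exact ⟨0, SC_le C 0 m⟩
    obtain ⟨i, j, ij, h⟩ := f4 a ha hp m
    obtain ⟨k, -, -, e⟩ := tr i j ij
    exact ⟨k, (mul_mem_cancel_right ((mul_mem_cancel_right (dA k)).1 (SC_le C k e))).1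
      (SC_le C k (hle h))⟩
  have k1 : ∀ c ∈ U5 C, c ∉ H → ∀ a, IsConj z a → SC_P z Q H a → a ∉ U5 C → a ∉ Qx z Q c :=
    fun c hc cH a ha hp m q => by
      have c1 : IsConj z c := (sV c hc fun e => cH (e ▸ one_mem _)).1
      obtain ⟨V, h1, h2, -⟩ := sV.sup C ha (fun u hu u1 => by
        by_cases uH : u ∈ H
        · exact hp u uH u1
        have h := ((two u hu c hc).resolve_left uH).resolve_left cH
        have e : u = u * c * c := by rw [mul_assoc, sV.el C c hc, mul_one]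
        by_cases e1 : u * c = 1
        · rwa [e, e1, one_mul]
        · rw [e]
          exact third C (sH _ h e1).1 c1 ((sV _ (hle h) e1).2 hc) (e ▸ u1) (hp _ h e1) q) m
      have := h1.card_le C
      rw [card_U5] at h2
      omega
  refine ⟨H, hle, hc, f5, k1, fun n hn => mem_norm_of fun a ha => ?_⟩
  by_cases aH : a ∈ H
  · exact hle (conj_mem_of_norm hn aH)
  by_contra m
  have a1 := (sV a ha fun e => aH (e ▸ one_mem _)).1
  have pa : SC_P z Q H a := fun u hu u1 => (sV u (hle hu) u1).2 ha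
  obtain ⟨i, j, ij, h⟩ := f4 _ ((isConj_cj n).2 a1) (pa.cj hn) m
  obtain ⟨k, ik, jk, -⟩ := tr i j ij
  have e : a * (n⁻¹ * (d i * d k) * n⁻¹⁻¹) =
      n⁻¹ * (n * a * n⁻¹ * (d i * d j) * (d j * d k)) * n⁻¹⁻¹ := by
    conv_rhs => rw [← mul_assoc (n * a * n⁻¹ * (d i * d j))]; enter [1, 2, 1, 2]; rw [← iv j]
    group
  have b1 := (isConj_cj n⁻¹).2 (dd i k ik)
  have b2 := (pp i k).cj (inv_mem hn)
  have b3 : n⁻¹ * (d i * d k) * n⁻¹⁻¹ ∉ U5 C := fun m' => by
    rcases (two a ha _ m').resolve_left aH with h' | h'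
    · exact g1 i k ik (hle ((mem_normalizer_iff.1 (inv_mem hn) _).2 h'))
    · rw [e] at h'
      exact g1 j k jk (hle ((mul_mem_cancel_left h).1 ((mem_normalizer_iff.1 (inv_mem hn) _).2 h')))
  obtain ⟨l, hl⟩ := f5 _ b1 b2
  refine k1 a ha aH _ b1 b2 b3 (((ak l).mem_Qx_iff a1 (SC_le C l ha) hl).2 (iff_of_true ?_ (.inr b1)))
  rw [← (ak l).el.comm (SC_le C l ha) hl, e]
  exact (SC_sing C sH (dd j k jk) (pp j k) h).conj _

theorem sing_class (C : Cx z Q π R g) {U : Subgroup G} (hU : SingU z Q U) (h : U ≠ ⊥) :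
    Nat.card U = 2 ∨ Nat.card U = 4 ∨ Nat.card U = 8 ∨
      (∃ c, normalizer (U : Set G) ≤ normalizer ((cjs c (U5 C) : Subgroup G) : Set G)) ∨
      ∃ A : Subgroup G, Ark C A ∧ normalizer (U : Set G) ≤ normalizer (A : Set G) := by
  obtain ⟨H, hle, hc, f5, k1, nH⟩ := SC_U4 C
  have sV := U5_sing C
  have sH := sV.mono hle
  have main : ∀ U : Subgroup G, SingU z Q U → Nat.card U = 32 → H ≤ U →
      U = U5 C ∨ ∃ A : Subgroup G, Ark C A ∧ normalizer (U : Set G) ≤ normalizer (A : Set G) := by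
    intro U hU cU HU
    obtain ⟨two, c, hc1, hc2⟩ := SC_two HU hc cU
    obtain ⟨-, a0, ha1, ha2⟩ := SC_two hle hc (card_U5 C)
    have cj : ∀ x ∈ U, x ∉ H → IsConj z x := fun x hx m => (hU x hx fun e => m (e ▸ one_mem _)).1
    have pU : ∀ x ∈ U, SC_P z Q H x := fun x hx u hu u1 => (hU u (HU hu) u1).2 hx
    have gen : ∀ X : Subgroup G, H ≤ X → ∀ x ∈ U, x ∉ H → x ∈ X → U ≤ X := fun X hX x hx m xX y hy =>
      (two y hy x hx).elim (@hX _) fun h => (mul_mem_cancel_right xX).1 (hX (h.resolve_left m))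
    refine or_iff_not_imp_left.2 fun ne => ?_
    have nV : ∀ x ∈ U, x ∉ H → x ∉ U5 C := fun x hx m xV =>
      ne (eq_of_le_of_card_ge (gen _ hle x hx m xV) (by rw [cU, card_U5]))
    obtain ⟨k, hk⟩ := f5 c (cj c hc1 hc2) (pU c hc1)
    have ak : Ark C (AT C k) := ark_EE C _ _
    have UA := gen _ (hle.trans (SC_le C k)) c hc1 hc2 hk
    have sA : ∀ n ∈ normalizer (U : Set G), n ∈ normalizer (H : Set G) →
        n ∈ normalizer (AT C k : Set G) := fun n h1 h2 => by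
      have m1 := conj_mem_of_norm (nH h2) ha1
      have m2 := conj_mem_of_norm h1 hc1
      have m3 := fun h => ha2 ((mem_normalizer_iff.1 h2 _).2 h)
      have m4 := fun h => hc2 ((mem_normalizer_iff.1 h2 _).2 h)
      exact mem_norm_iff.2 (ark_uniq (ak.cj n) ak (sV _ m1 fun e => m3 (e ▸ one_mem _)).1
        (conj_mem_cjs.2 (SC_le C k ha1)) (conj_mem_cjs.2 hk) (SC_le C k m1) (UA m2)
        (k1 _ m1 m3 _ (cj _ m2 m4) (pU _ m2) (nV _ m2 m4)))
    refine ⟨_, ak, fun n hn => ?_⟩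
    by_cases e : cjs n H = H
    · exact sA n hn (mem_norm_iff.2 e)
    have HU' : cjs n H ≤ U := (cjs_mono n HU).trans (mem_norm_iff.1 hn).le
    obtain ⟨a, a1, a2⟩ := SetLike.not_le_iff_exists.1 fun h : H ≤ cjs n H =>
      e (eq_of_le_of_card_ge h (card_cjs n H).le).symm
    obtain ⟨b, b1, b2⟩ := SetLike.not_le_iff_exists.1 fun h : cjs n H ≤ H =>
      e (eq_of_le_of_card_ge h (card_cjs n H).ge)
    have uU := mul_mem (HU a1) (HU' b1)
    have u1 : a * b ∉ H := fun h => b2 ((mul_mem_cancel_left a1).1 h)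
    have us := hU _ uU fun e => u1 (e ▸ one_mem _)
    have L := lx_Qx C us.1
    obtain ⟨M, -, -, hM⟩ := (sH.mono (inf_le_left : H ⊓ cjs n H ≤ H)).sup C us.1
      (fun u hu => pU _ uU u hu.1) fun h => u1 h.1
    obtain ⟨l, l1, l2, l3⟩ := L.sep M (fun x hx => us.2 (((hM x).1 hx).elim (fun h => HU h.1)
      fun h => (mul_mem_cancel_right uU).1 (HU h.1))) ((hM _).2 (.inr (L.sq ▸ one_mem _))) b
      (us.2 (HU' b1)) fun h => ((hM b).1 h).elim (fun h => b2 h.1) fun h =>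
        a2 ((mul_mem_cancel_right b1).1 ((mul_mem_cancel_left b1).1 h.2))
    rw [mul_assoc a, hU.el C b (HU' b1), mul_one] at l3
    have lU : l ∈ normalizer (U : Set G) := mem_norm_of fun x hx => by
      rcases L.comm l l1 x (us.2 hx) with h | h <;> rw [h]
      exacts [hx, mul_mem uU hx]
    have fx : ∀ x ∈ H, x ∈ cjs n H → l * x * l⁻¹ = x := fun x h1 h2 => by
      rw [l2 x ((hM x).2 (.inl ⟨h1, h2⟩)), mul_inv_cancel_right]
    refine (mul_mem_cancel_left (ak.Qx_le us.1 (UA uU) l1)).1 (sA _ (mul_mem lU hn)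
      (mem_norm_of fun y hy => ?_))
    have x1 : n * y * n⁻¹ ∈ cjs n H := conj_mem_cjs.2 hy
    rw [show l * n * y * (l * n)⁻¹ = l * (n * y * n⁻¹) * l⁻¹ by group]
    generalize n * y * n⁻¹ = x at x1
    rcases two x (HU' x1) b (HU' b1) with h | h
    · rwa [fx x h x1]
    · have h := h.resolve_left b2
      have := fx _ h (mul_mem x1 b1)
      rw [show l * (x * b) * l⁻¹ = l * x * l⁻¹ * (l * b * l⁻¹) by group, l3] at this
      exact (mul_mem_cancel_right a1).1 (this ▸ h)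
  have : Fact (Nat.Prime 2) := ⟨Nat.prime_two⟩
  obtain ⟨j, hj⟩ := IsPGroup.iff_card.1 (hU.el C).isPGroup
  have h32 := hU.card_le C
  have j5 : j ≤ 5 := (Nat.pow_le_pow_iff_right (by norm_num : 1 < 2)).1 (hj ▸ h32)
  interval_cases j
  · exact absurd (card_eq_one.1 hj) h
  · exact .inl hj
  · exact .inr (.inl hj)
  · exact .inr (.inr (.inl hj))
  · obtain ⟨c, rfl⟩ := sing_conj16 C sH hU hc hj
    exact .inr (.inr (.inr (.inl ⟨c, by
      rw [normalizer_cjs, normalizer_cjs]; exact cjs_mono c nH⟩)))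
  · obtain ⟨K, hK⟩ := Sylow.exists_subgroup_card_pow_prime (G := U) 2 (n := 4) (by rw [hj]; norm_num)
    obtain ⟨c, e⟩ := sing_conj16 C sH (hU.mono (map_subtype_le K)) hc
      ((card_map_of_injective U.subtype_injective).trans hK)
    rcases main _ (hU.cj c⁻¹) ((card_cjs _ _).trans hj) (by
      rw [← cjs_inv_cjs c H, ← e]; exact cjs_mono _ (map_subtype_le K)) with h | ⟨A, h1, h2⟩
    · exact .inr (.inr (.inr (.inl ⟨c, by rw [← h, cjs_cjs_inv]⟩)))
    · refine .inr (.inr (.inr (.inr ⟨_, h1.cj c, ?_⟩)))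
      rw [← cjs_cjs_inv c U, normalizer_cjs, normalizer_cjs c A]
      exact cjs_mono c h2

end Cfsg.Agent.M2L
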