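import Cfsg.Agent.M2L.Defs
import Cfsg.Agent.S0028
import Cfsg.Agent.H44.Cores

set_option autoImplicit false

namespace Cfsg.Agent.M2L

universe u

open Subgroup H15 H97 H38.MT

variable {G : Type u} [Group G] {z : G} {Q : Subgroup G}
  {π : centralizer ({z} : Set G) →* Spor.Co1} {R : G → leechLattice → Prop} {g : G} [Finite G]

namespace Step0

/-- the central elements of order at most two -/
def Om (Y : Subgroup G) : Subgroup G where
  carrier := {a | a ∈ Y ∧ a * a = 1 ∧ ∀ y ∈ Y, y * a = a * y}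
  one_mem' := ⟨one_mem _, mul_one _, fun y _ => by simp⟩
  mul_mem' := fun {a b} ha hb => ⟨mul_mem ha.1 hb.1, by
    calc a * b * (a * b) = a * (b * a) * b := by group
      _ = a * a * (b * b) := by rw [ha.2.2 b hb.1]; group
      _ = 1 := by rw [ha.2.1, hb.2.1, mul_one], fun y hy => by
    rw [← mul_assoc, ha.2.2 y hy, mul_assoc, hb.2.2 y hy, mul_assoc]⟩
  inv_mem' := fun {a} ha => by
    have : a⁻¹ = a := inv_eq_of_mul_eq_one_right ha.2.1
    rw [this]; exact ha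

theorem Om_ne {Y : Subgroup G} (hY : IsPGroup 2 Y) (h : Y ≠ ⊥) : Om Y ≠ ⊥ := by
  have : Fact (Nat.Prime 2) := ⟨Nat.prime_two⟩
  have : Nontrivial Y := (nontrivial_iff_ne_bot Y).2 h
  have : Nontrivial (center Y) := hY.center_nontrivial
  obtain ⟨n, hn, e⟩ := (hY.to_subgroup (center Y)).nontrivial_iff_card.1 this
  obtain ⟨a, ha⟩ := exists_prime_orderOf_dvd_card' (G := center Y) 2 (e ▸ dvd_pow_self 2 hn.ne')
  have h1 : a * a = 1 := by rw [← sq, ← ha, pow_orderOf_eq_one]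
  have h2 : ((a : Y) : G) ∈ Om Y := ⟨(a : Y).2, congrArg (fun t : center Y => ((t : Y) : G)) h1, fun y hy =>
    congrArg Subtype.val (mem_center_iff.1 a.2 ⟨y, hy⟩)⟩
  intro e'
  rw [e', mem_bot] at h2
  have : a = 1 := Subtype.ext (Subtype.ext h2)
  rw [this, orderOf_one] at ha
  omega

theorem norm_Om (Y : Subgroup G) : normalizer (Y : Set G) ≤ normalizer ((Om Y : Subgroup G) : Set G) :=
  fun n hn => mem_norm_of fun a ha => ⟨conj_mem_of_norm hn ha.1, by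
    calc n * a * n⁻¹ * (n * a * n⁻¹) = n * (a * a) * n⁻¹ := by group
      _ = 1 := by rw [ha.2.1]; group, fun y hy => by
    have := ha.2.2 _ (conj_mem_of_norm (inv_mem hn) hy)
    calc y * (n * a * n⁻¹) = n * (n⁻¹ * y * n⁻¹⁻¹ * a) * n⁻¹ := by group
      _ = _ := by rw [this]; group⟩

theorem norm_cent (Y : Subgroup G) :
    normalizer (Y : Set G) ≤ normalizer ((centralizer (Y : Set G) : Subgroup G) : Set G) :=
  fun n hn => mem_norm_of fun a ha y hy => by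
    have := ha _ (conj_mem_of_norm (inv_mem hn) hy)
    calc y * (n * a * n⁻¹) = n * (n⁻¹ * y * n⁻¹⁻¹ * a) * n⁻¹ := by group
      _ = _ := by rw [this]; group

/-- the `A × B` lemma at a large extraspecial subgroup -/
theorem cent_pg {Y U : Subgroup G} {x : G} (hY : IsPGroup 2 Y) (hU : IsPGroup 2 U) (L : LX U x) (hx : x ∈ Y)
    (hc : ∀ y ∈ Y, y * x = x * y) (h : U ⊓ centralizer (Y : Set G) ≤ Y) :
    IsPGroup 2 (centralizer (Y : Set G)) := fun k => by
  have : Fact (Nat.Prime 2) := ⟨Nat.prime_two⟩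
  obtain ⟨a, m, hm, e⟩ := Nat.exists_eq_two_pow_mul_odd (orderOf_pos k).ne'
  refine ⟨a, Subtype.ext ?_⟩
  obtain ⟨c, hc'⟩ : ∃ c : G, c = ((k ^ 2 ^ a : centralizer (Y : Set G)) : G) := ⟨_, rfl⟩
  have m1 : c ∈ centralizer (Y : Set G) := hc' ▸ (k ^ 2 ^ a).2
  have m2 : c ^ m = 1 := by
    rw [hc', ← coe_pow, ← pow_mul, ← e, pow_orderOf_eq_one, coe_one]
  have le : zpowers c ≤ centralizer (Y : Set G) := zpowers_le.2 m1
  have pq : Y ≤ centralizer ((zpowers c : Subgroup G) : Set G) := le_centralizer_iff.1 le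
  have := Cfsg.Agent.S0028.result 2 Y (zpowers c) U hY (by
      rw [Nat.card_zpowers]
      exact Nat.Coprime.coprime_dvd_left (orderOf_dvd_of_pow_eq_one m2) (Nat.coprime_two_right.2 hm)) hU pq
    (fun y hy => mem_norm_of (L.norm y (hc y hy))) (fun y hy => mem_norm_of (L.norm y (le hy x hx).symm)) (h.trans pq)
  rw [← hc', coe_one]
  refine (L.large c fun b hb => (this (mem_zpowers c) b hb).symm).elim id fun e' => ?_
  obtain ⟨j, rfl⟩ := hm
  rw [e', pow_succ, pow_mul, sq, L.sq, one_pow, one_mul] at m2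
  exact absurd m2 L.ne

end Step0

theorem step0 (C : Cx z Q π R g) {N : Subgroup G} (hN : IsMaximalTwoLocal N) :
    ∃ Y W : Subgroup G, IsPGroup 2 Y ∧ El W ∧ W ≠ ⊥ ∧ N = normalizer (W : Set G) ∧
      (∀ y ∈ Y, ∀ w ∈ W, y * w = w * y) ∧ ((∃ x ∈ W, IsConj z x) →
        ∀ a, a * a = 1 → (∀ y ∈ Y, y * a = a * y) → a ∈ W) := by
  obtain ⟨⟨T, hT, hT0, eN⟩, mx⟩ := hN
  obtain ⟨Y, eY⟩ : ∃ Y : Subgroup G, Y = (pCore 2 N).map N.subtype := ⟨_, rfl⟩
  have hY : IsPGroup 2 Y := eY ▸ H44.pCoreOf_isPGroup N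
  have TY : T ≤ Y := eY ▸ H44.le_pCoreOf (eN ▸ le_normalizer) eN.le hT
  have Y0 : Y ≠ ⊥ := fun e => hT0 (le_bot_iff.1 (e ▸ TY))
  have nY : normalizer (Y : Set G) = N := mx _ ⟨Y, hY, Y0, rfl⟩ (eY ▸ H44.le_normalizer_pCoreOf N)
  have eW : El (Step0.Om Y) := fun a ha => ha.2.1
  have W0 := Step0.Om_ne hY Y0
  refine ⟨Y, Step0.Om Y, hY, eW, W0, (mx _ ⟨_, eW.isPGroup, W0, rfl⟩ (nY ▸ Step0.norm_Om Y)).symm,
    fun y hy w hw => hw.2.2 y hy, fun ⟨x, hx, cx⟩ a h1 h2 => ⟨?_, h1, h2⟩⟩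
  have L := lx_Qx C cx
  have hU : IsPGroup 2 (Qx z Q x) := .of_card (card_Qx C cx)
  have KN : centralizer (Y : Set G) ≤ N := nY ▸ centralizer_le_normalizer _
  have NK : N ≤ normalizer ((centralizer (Y : Set G) : Subgroup G) : Set G) := nY ▸ Step0.norm_cent Y
  have h3 : Qx z Q x ⊓ centralizer (Y : Set G) ≤ Y := by
    refine (H44.le_pCoreOf (p := 2) inf_le_right (fun k hk => mem_norm_of fun b hb =>
      ⟨L.norm k (hk x hx.1).symm b hb.1,
        Subgroup.mul_mem _ (Subgroup.mul_mem _ hk hb.2) (Subgroup.inv_mem _ hk)⟩) hU.to_inf_left).trans ?_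
    exact (H44.pCoreOf_le_pCoreOf_of_le_normalizer KN NK).trans eY.ge
  exact (H44.le_pCoreOf KN NK (Step0.cent_pg hY hU L hx.1 hx.2.2 h3)).trans eY.ge h2

end Cfsg.Agent.M2L
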