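import Cfsg.Agent.M2L.Case1
import Cfsg.Agent.M2L.SC
import Cfsg.Agent.M2L.PureA
import Cfsg.Agent.M2L.PureB
import Cfsg.Agent.M2L.Step0
import Cfsg.Agent.M2L.Fin

set_option autoImplicit false

namespace Cfsg.Agent.M2L

universe u

open Subgroup H15 H97 H38.MT

variable {G : Type u} [Group G] {z : G} {Q : Subgroup G}
  {π : centralizer ({z} : Set G) →* Spor.Co1} {R : G → leechLattice → Prop} {g : G} [Finite G]

theorem pure_nf (C : Cx z Q π R g) {W : Subgroup G} (h : Pure z W) : ∃ c, cjs c W ≤ Q := by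
  obtain ⟨x, hx, h1⟩ := pure_le C h
  obtain ⟨c, e⟩ := isConj_iff.1 hx.symm
  exact ⟨c, by have := cjs_mono c h1; rwa [← Qx_cj, e, Qx_z C] at this⟩

theorem pure_conj' (C : Cx z Q π R g) {W W' : Subgroup G} (h : Pure z W) (h' : Pure z W')
    (e : Nat.card W = Nat.card W') : ∃ c, W' = cjs c W := by
  obtain ⟨c, h1⟩ := pure_nf C h
  obtain ⟨c', h2⟩ := pure_nf C h'
  obtain ⟨d, h3⟩ := pure_conj C (h.cj c) (h'.cj c') h1 h2 (by rw [card_cjs, card_cjs, e])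
  exact ⟨c'⁻¹ * (d * c), by rw [← cjs_cjs, ← cjs_cjs, ← h3, cjs_inv_cjs]⟩

/-- the seven types -/
def Ty (C : Cx z Q π R g) (i : Fin 7) (X : Subgroup G) : Prop :=
  ![Pure z X ∧ Nat.card X = 2, Pure z X ∧ Nat.card X = 4, SingU z Q X ∧ Nat.card X = 2,
    SingU z Q X ∧ Nat.card X = 4, SingU z Q X ∧ Nat.card X = 8, ∃ c, X = cjs c (U5 C), Ark C X] i

omit [Finite G] in
theorem ne_bot_of_card {X : Subgroup G} {n : ℕ} (h : Nat.card X = n) (h1 : n ≠ 1) : X ≠ ⊥ :=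
  fun e => h1 (by rw [← h, e, card_bot])

theorem main (C : Cx z Q π R g) :
    ∃ S : Finset (Subgroup G), S.card = 7 ∧ (∀ H ∈ S, IsTwoLocal H) ∧ ∀ H : Subgroup G,
      IsMaximalTwoLocal H → ∃ H₀ ∈ S, ∃ c : G, H = H₀.map (MulAut.conj c).toMonoidHom := by
  refine seven (Ty C) (fun i X h => ?_) (fun i X X' h h' => ?_) (fun N hN => ?_) (seven_le C)
  · fin_cases i
    · exact ⟨h.1.el.isPGroup, ne_bot_of_card h.2 (by norm_num)⟩
    · exact ⟨h.1.el.isPGroup, ne_bot_of_card h.2 (by norm_num)⟩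
    · exact ⟨(h.1.el C).isPGroup, ne_bot_of_card h.2 (by norm_num)⟩
    · exact ⟨(h.1.el C).isPGroup, ne_bot_of_card h.2 (by norm_num)⟩
    · exact ⟨(h.1.el C).isPGroup, ne_bot_of_card h.2 (by norm_num)⟩
    · obtain ⟨c, rfl⟩ := h
      exact ⟨(((U5_sing C).el C).cj c).isPGroup,
        ne_bot_of_card ((card_cjs _ _).trans (card_U5 C)) (by norm_num)⟩
    · exact ⟨(Ark.el (C := C) h).isPGroup, ne_bot_of_card (Ark.card (C := C) h) (by norm_num)⟩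
  · fin_cases i
    · exact pure_conj' C h.1 h'.1 (h.2.trans h'.2.symm)
    · exact pure_conj' C h.1 h'.1 (h.2.trans h'.2.symm)
    · exact sing_conj8 C h.1 h'.1 (h.2.trans h'.2.symm) (by rw [h.2]; norm_num)
    · exact sing_conj8 C h.1 h'.1 (h.2.trans h'.2.symm) (by rw [h.2]; norm_num)
    · exact sing_conj8 C h.1 h'.1 (h.2.trans h'.2.symm) (by rw [h.2])
    · obtain ⟨c, rfl⟩ := h
      obtain ⟨c', rfl⟩ := h'
      exact ⟨c' * c⁻¹, by rw [cjs_cjs, inv_mul_cancel_right]⟩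
    · obtain ⟨c, rfl⟩ := h
      obtain ⟨c', rfl⟩ := h'
      exact ⟨c' * c⁻¹, by rw [cjs_cjs, inv_mul_cancel_right]⟩
  obtain ⟨Y, W, hY, hW, h1, rfl, hc, hm⟩ := step0 C hN
  by_cases hx : ∃ x ∈ W, IsConj z x
  · rcases case1 C hY hW hc (hm hx) hx with ⟨U, hU, h2, h3⟩ | ⟨A, hA, h2⟩
    · rcases sing_class C hU h2 with h | h | h | ⟨c, h⟩ | ⟨A, hA, h⟩
      exacts [⟨2, U, ⟨hU, h⟩, h3⟩, ⟨3, U, ⟨hU, h⟩, h3⟩, ⟨4, U, ⟨hU, h⟩, h3⟩,
        ⟨5, _, ⟨c, rfl⟩, h3.trans h⟩, ⟨6, A, hA, h3.trans h⟩]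
    · exact ⟨6, A, hA, h2⟩
  · have hp : Pure z W := fun a ha => ⟨hW a ha, fun h => hx ⟨a, ha, h⟩⟩
    obtain ⟨c, h2⟩ := pure_nf C hp
    rcases pure_card C (hp.cj c) h2 (fun e => h1 (by
      rw [← cjs_inv_cjs c W, e]; exact map_bot _)) with h | h <;> rw [card_cjs] at h
    exacts [⟨0, W, ⟨hp, h⟩, le_rfl⟩, ⟨1, W, ⟨hp, h⟩, le_rfl⟩]

end Cfsg.Agent.M2L
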