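import Cfsg.Agent.M2L.NoB

set_option autoImplicit false

namespace Cfsg.Agent.M2L

universe u

open Subgroup H15 H97 H38.MT

variable {G : Type u} [Group G] {z : G} {Q : Subgroup G}
  {π : centralizer ({z} : Set G) →* Spor.Co1} {R : G → leechLattice → Prop} {g : G} [Finite G]

theorem o4_shape {v : leechLattice} (hn : sqNorm (v : Vec) = 32) (h2 : ∀ i, (v : Vec) i % 2 = 0) :
    (∀ i, (v : Vec) i % 4 = 0) ∨ (tw v).card = 8 ∧ Fx (tw v) v := by
  have h1 := Finset.sum_add_sum_compl (tw v) fun i => (v : Vec) i ^ 2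
  have h3 := Finset.card_nsmul_le_sum (tw v) (fun i => (v : Vec) i ^ 2) 4 fun i hi => by
    have := mem_tw.1 hi
    rcases (by omega : 2 ≤ (v : Vec) i ∨ (v : Vec) i ≤ -2) with h | h <;> nlinarith
  have h4 : 0 ≤ ∑ i ∈ (tw v)ᶜ, (v : Vec) i ^ 2 := Finset.sum_nonneg fun i _ => sq_nonneg _
  rw [show ∑ i, (v : Vec) i ^ 2 = 32 from hn] at h1
  rw [nsmul_eq_mul] at h3
  rcases (tw_cw v).card_cases with h | h | h | h | h
  · refine Or.inl fun i => ?_
    have h5 : i ∉ tw v := by rw [Finset.card_eq_zero.1 h]; simp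
    have := h2 i
    rw [mem_tw] at h5
    omega
  · refine Or.inr ⟨h, fun i hi => ?_⟩
    have := Finset.single_le_sum (f := fun i => (v : Vec) i ^ 2) (fun i _ => sq_nonneg _) (Finset.mem_compl.2 hi)
    rw [h] at h3
    exact pow_eq_zero_iff two_ne_zero |>.1 (le_antisymm (by push_cast at h3; linarith) (sq_nonneg _))
  all_goals rw [h] at h3; push_cast at h3; linarith

theorem o4_std (C : Cx z Q π R g) {w : G} (hw : w * w = 1) (hc : w * z = z * w) (hq : w ∉ Q)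
    (hs : ¬ IsConj z w) (h : w ∈ cjs g Q) : ∃ A, Ark C A ∧ z ∈ A ∧ w ∈ A := by
  obtain ⟨v, hv, hn⟩ := C.M.type_two (s_mem C) (s_ne' C) (mem_cjs.1 h)
    (fun e => hq (by
      rw [show w = g * (g⁻¹ * w * g) * g⁻¹ by group, e, mul_one, mul_inv_cancel]; exact one_mem _))
    (by
      calc _ = g⁻¹ * (w * w) * g := by group
        _ = 1 := by rw [hw]; group)
    (fun e => hs (by simpa [mul_assoc] using (isConj_cj g).2 e))
  have e1 : g * z * g⁻¹ = g⁻¹ * z * g := by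
    conv_rhs => rw [← C.hg]
    group
  have h2 := (even_of ((comm_s C.M C.h8 hv).1 (by
    rw [e1]
    calc _ = g⁻¹ * (w * z) * g := by group
      _ = _ := by rw [hc]; group))).1
  rcases o4_shape hn h2 with h3 | ⟨h3, h4⟩
  · exact absurd ((inv_conj_mem C.M C.hg).1 (mem_of_four C.M C.h8 hv h3)) hq
  refine ⟨_, (ark_EE C (tw_cw v) h3).cj g, ?_, mem_cjs.2 (Z0_le_EE C.M C.h8 ⟨v, h4, hv⟩)⟩
  obtain ⟨i, hi⟩ := Finset.card_pos.1 (show 0 < (tw v).card by omega)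
  rw [mem_cjs, ← e1]
  refine Z0_le_EE C.M C.h8 ⟨e8 i, fun j hj => ?_, e8_congr none i ▸ C.M.add_two C.h8 _⟩
  exact Pi.single_eq_of_ne (fun e : j = i => hj (e ▸ hi)) _

theorem ark_of_not_sing (C : Cx z Q π R g) {x w : G} (hx : IsConj z x) (hw : w * w = 1)
    (hc : w * x = x * w) (hq : w ∉ Qx z Q x) (hs : ¬ IsConj z w) :
    ∃ A, Ark C A ∧ x ∈ A ∧ w ∈ A := by
  obtain ⟨f, hf, h1, h2, h3⟩ := exists_f C hx hw hc hq
  obtain ⟨c, h4, h5⟩ := pair_nf C hx hf h1 h2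
  obtain ⟨A, hA, h6, h7⟩ := o4_std C (w := c * w * c⁻¹)
    (by
      calc _ = c * (w * w) * c⁻¹ := by group
        _ = 1 := by rw [hw]; group)
    (by
      rw [← h4]
      calc _ = c * (w * x) * c⁻¹ := by group
        _ = _ := by rw [hc]; group)
    (fun h => hq ((mem_Qx_cj c).1 (by rw [h4, Qx_z C]; exact h))) (fun h => hs ((isConj_cj c).1 h))
    (by rw [← Qx_eq C, ← h5]; exact (mem_Qx_cj c).2 h3)
  exact ⟨_, hA.cj c⁻¹, mem_cjs.2 (by rw [inv_inv, h4]; exact h6), mem_cjs.2 (by rw [inv_inv]; exact h7)⟩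

end Cfsg.Agent.M2L
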