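import Cfsg.Agent.M2L.Rel
import Cfsg.Agent.M2L.Gen
import Cfsg.Agent.H56.M24Fix

set_option autoImplicit false

namespace Cfsg.Agent.M2L

universe u

open Subgroup H15 H97 H38.MT
open scoped Pointwise

variable {G : Type u} [Group G] {z : G} {Q : Subgroup G}
  {π : centralizer ({z} : Set G) →* Spor.Co1} {R : G → leechLattice → Prop} {g : G} [Finite G]

namespace S3

/-- a vector with all coordinates divisible by four is `4 T` or `4 T + 8 e` modulo `2 Λ` -/
theorem four_nf (y : leechLattice) (h4 : ∀ i, (y : Vec) i % 4 = 0) : ∃ v : leechLattice,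
    Is4 v (Finset.univ.filter fun i => (y : Vec) i % 8 = 4) ∧
      ∃ w, y = v + (w + w) ∨ y = v + e8 none + (w + w) := by
  have hs : (∑ i, (y : Vec) i) % 8 = 0 := by
    rcases parity_cases y.2 with h | h
    · exact h.2
    · have := h.1 none
      have := h4 none
      omega
  let t : Vec := fun i => (y : Vec) i / 8
  let v : Vec := fun i => (y : Vec) i % 8
  have e : ∑ i, (y : Vec) i = ∑ i, v i + 8 * ∑ i, t i := by
    rw [Finset.mul_sum, ← Finset.sum_add_distrib]
    exact Finset.sum_congr rfl fun i _ => by simp only [t, v]; omega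
  refine ⟨⟨v, mem_leech_of_four_dvd (fun i => by have := h4 i; simp only [v]; omega) (by omega)⟩,
    fun i => ?_, ?_⟩
  · have := h4 i
    simp only [v, Finset.mem_filter, Finset.mem_univ, true_and]
    split_ifs <;> omega
  · by_cases hp : (∑ i, t i) % 2 = 0
    · refine ⟨⟨fun i => 4 * t i, mem_leech_of_four_dvd (fun i => by omega)
        (by rw [← Finset.mul_sum]; omega)⟩, Or.inl (Subtype.ext (funext fun i => ?_))⟩
      simp only [AddSubgroup.coe_add, Pi.add_apply, t, v]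
      omega
    · refine ⟨⟨fun i => 4 * t i - (Pi.single none 4 : Vec) i, mem_leech_of_four_dvd (fun i => by
          rw [Pi.single_apply]; split_ifs <;> omega) (by
          rw [Finset.sum_sub_distrib, ← Finset.mul_sum, Finset.sum_pi_single', if_pos (Finset.mem_univ _)]
          omega)⟩, Or.inr (Subtype.ext (funext fun i => ?_))⟩
      simp only [AddSubgroup.coe_add, Pi.add_apply, t, v, e8_val, Pi.single_apply]
      split_ifs <;> omega

theorem exists_abs {x : Vec} {k : ℤ} (h : cnt x k ≠ 0) : ∃ i, |x i| = k := by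
  obtain ⟨i, hi⟩ := Finset.card_ne_zero.1 h
  exact ⟨i, (Finset.mem_filter.1 hi).2⟩

/-- vectors of norm 64 with constant even coordinates modulo four -/
theorem shape_const {y : leechLattice} (hn : sqNorm (y : Vec) = 64) {b : ℤ}
    (hb : ∀ i, ((y : Vec) i - 2 * b) % 4 = 0) :
    (∀ i, (y : Vec) i % 4 = 0) ∧ (cnt y 4 = 0 ∨ cnt y 4 = 4) := by
  have k0 : cnt y 0 ≠ 0 → ∀ i, (y : Vec) i % 4 = 0 := fun h i => by
    obtain ⟨j, hj⟩ := exists_abs h
    have := hb i
    have := hb j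
    rw [abs_eq_zero] at hj
    omega
  have k2 : cnt y 0 ≠ 0 → cnt y 2 = 0 := fun h => by
    by_contra h'
    obtain ⟨j, hj⟩ := exists_abs h'
    have := k0 h j
    rw [abs_eq (by norm_num)] at hj
    omega
  have k1 : cnt y 1 = 0 := by
    by_contra h'
    obtain ⟨j, hj⟩ := exists_abs h'
    have := hb j
    rw [abs_eq (by norm_num)] at hj
    omega
  have := shape64 y.2 hn
  unfold HasShape at this
  exact ⟨k0 (by omega), by omega⟩

omit [Finite G] in
theorem exists_out {U : Subgroup G} (F : Finset G) (h : F.card < Nat.card U) : ∃ a ∈ U, a ∉ F := by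
  by_contra k
  push Not at k
  have := Set.ncard_le_ncard (s := (U : Set G)) (t := (F : Set G)) k F.finite_toSet
  rw [Set.ncard_coe_finset, ← Nat.card_coe_set_eq] at this
  exact absurd h (not_lt.2 this)

theorem eq_of_half {U U' : Subgroup G} (h : Nat.card U = Nat.card U') (F : Finset G)
    (hF : ∀ x ∈ F, x ∈ U ∧ x ∈ U') (hc : Nat.card U < 2 * F.card) : U' = U := by
  have h1 := Set.ncard_le_ncard (s := (F : Set G)) (t := ((U ⊓ U' : Subgroup G) : Set G)) hF
  rw [Set.ncard_coe_finset, ← Nat.card_coe_set_eq] at h1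
  change F.card ≤ Nat.card (U ⊓ U' : Subgroup G) at h1
  obtain ⟨k, hk⟩ := card_dvd_of_le (inf_le_left : U ⊓ U' ≤ U)
  have h0 : 0 < Nat.card U := Nat.card_pos
  have k1 : k = 1 := by
    rcases k with _ | _ | k
    · omega
    · rfl
    · nlinarith
  rw [k1, mul_one] at hk
  exact (eq_of_le_of_card_ge inf_le_right (by omega)).symm.trans (eq_of_le_of_card_ge inf_le_left hk.le)

open Classical in
omit [Finite G] in
theorem card_four (C : Cx z Q π R g) :
    ({1, z, g * z * g⁻¹, z * (g * z * g⁻¹)} : Finset G).card = 4 := by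
  have h1 := C.M.lx.ne
  have h2 : g * z * g⁻¹ ≠ 1 := (lx_Qx C s_conj).ne
  have h3 := s_ne' C
  generalize g * z * g⁻¹ = s at h2 h3
  have h4 : z * s ≠ 1 := fun e => h3 (by rw [← C.M.zz s, e, mul_one])
  rw [Finset.card_insert_of_notMem (by simp [h1.symm, h2.symm, h4.symm]),
    Finset.card_insert_of_notMem (by simp [h2, h3.symm]), Finset.card_pair (by simp [h1])]

omit [Finite G] in
theorem of_lab (C : Cx z Q π R g) {U : Subgroup G} (hz : z ∈ U) {a b : G} {v : leechLattice}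
    (ha : a ∈ U) (h : R a v) (h' : R b v) : b ∈ U := by
  rcases C.M.uniq h h' with rfl | rfl
  exacts [ha, mul_mem hz ha]

omit [Finite G] in
theorem perm_e8 (σ : M24) : permC σ • e8 none = e8 (σ.1 none) := Subtype.ext (funext fun i => by
  simp only [permC_apply, e8_val, Pi.single_apply, Equiv.symm_apply_eq])

omit [Finite G] in
theorem perm_is4 {v v' : leechLattice} {T : Finset GolayPt} {σ : M24} (h : Is4 v T)
    (h' : Is4 v' (σ • T)) : permC σ • v = v' := Subtype.ext (funext fun i => by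
  rw [permC_apply, h, h']
  exact if_congr (mem_perm_smul σ.1 T i).symm rfl rfl)

omit [Finite G] in
/-- elements over permutations fix the frame -/
theorem frame_perm (C : Cx z Q π R g) {U : Subgroup G} (hz : z ∈ U) (hs : g * z * g⁻¹ ∈ U) {σ : M24} {c : G}
    (hc : Ov π c (permC σ)) : z ∈ cjs c U ∧ g * z * g⁻¹ ∈ cjs c U := by
  have h1 : z ∈ cjs c U := by
    have := (conj_mem_cjs (g := c)).2 hz
    rwa [hc.comm, mul_inv_cancel_right] at this
  refine ⟨h1, of_lab C h1 (conj_mem_cjs.2 hs) (hc.lab C.M C.h8) ?_⟩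
  rw [perm_e8, e8_congr none]
  exact C.M.add_two C.h8 _

end S3

theorem tetrad_of (C : Cx z Q π R g) {a : G} (ha : a ∈ Q) (hs : a ∈ Qx z Q (g * z * g⁻¹))
    (h : IsConj z a) (h1 : a ≠ z) (h2 : a ≠ g * z * g⁻¹) (h3 : a ≠ z * (g * z * g⁻¹)) :
    ∃ (T : Finset GolayPt) (v : leechLattice), T.card = 4 ∧ Is4 v T ∧
      (R a v ∨ R (a * (g * z * g⁻¹)) v) := by
  have h0 : a ≠ 1 := (lx_Qx C h).ne
  obtain ⟨c, rfl⟩ := isConj_iff.1 h
  obtain ⟨y, hy, hn⟩ := C.M.type_four ha h1
  rw [Qx_eq C] at hs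
  obtain ⟨b, hb⟩ := const_of_mem C.M C.h8 hy hs
  obtain ⟨h4, hc⟩ := S3.shape_const hn hb
  obtain ⟨v, hv, w, hw⟩ := S3.four_nf y h4
  have k : R (c * z * c⁻¹) v ∨ R (c * z * c⁻¹) (v + e8 none) := by
    have := C.M.add_two hy (-w)
    rcases hw with hw | hw <;> rw [hw, add_assoc _ (w + w), show w + w + (-w + -w) = 0 by abel,
      add_zero] at this
    exacts [Or.inl this, Or.inr this]
  have e : (Finset.univ.filter fun i => (y : Vec) i % 8 = 4).card = cnt y 4 := by
    refine congrArg Finset.card (Finset.filter_congr fun i _ => ?_)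
    have := abs_le_of_sqNorm_lt (x := y) (b := 8) (by norm_num) (by omega) i
    rw [abs_le] at this
    rw [abs_eq (by norm_num)]
    omega
  rcases hc with hc | hc
  · rw [Finset.card_eq_zero.1 (e.trans hc)] at hv
    obtain rfl : v = 0 := Subtype.ext (funext fun i => by simpa using hv i)
    rcases k with k | k
    · exact absurd ((C.M.one_iff k).2 ⟨0, by simp⟩) (not_or.2 ⟨h0, h1⟩)
    · rw [zero_add] at k
      exact absurd (C.M.uniq C.h8 k) (not_or.2 ⟨h2, h3⟩)
  · refine ⟨_, v, e.trans hc, hv, k.imp id fun k => ?_⟩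
    have := C.M.add_two (C.M.mul k C.h8) (-e8 none)
    rwa [show v + e8 none + e8 none + (-e8 none + -e8 none) = v by abel] at this

theorem sing_frame (C : Cx z Q π R g) {U : Subgroup G} (hU : SingU z Q U) (h : 4 ≤ Nat.card U) :
    ∃ c, z ∈ cjs c U ∧ g * z * g⁻¹ ∈ cjs c U := by
  classical
  obtain ⟨x, hx, hx1⟩ := S3.exists_out (U := U) {1} (by rw [Finset.card_singleton]; omega)
  obtain ⟨f, hf, hf1⟩ := S3.exists_out (U := U) {1, x} (by have := Finset.card_le_two (a := 1) (b := x); omega)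
  simp only [Finset.mem_insert, Finset.mem_singleton, not_or] at hx1 hf1
  obtain ⟨c, h1, h2⟩ := pair_nf C (hU x hx hx1).1 (hU f hf hf1.1).1 ((hU x hx hx1).2 hf) hf1.2
  exact ⟨c, h1 ▸ conj_mem_cjs.2 hx, h2 ▸ conj_mem_cjs.2 hf⟩

namespace S3

open Classical in
/-- an element of a singular subgroup outside the frame group -/
theorem tetrad_mem (C : Cx z Q π R g) {U : Subgroup G} (hU : SingU z Q U) (hz : z ∈ U)
    (hs : g * z * g⁻¹ ∈ U) {a : G} (ha : a ∈ U)
    (h : a ∉ ({1, z, g * z * g⁻¹, z * (g * z * g⁻¹)} : Finset G)) :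
    ∃ (T : Finset GolayPt) (v : leechLattice), T.card = 4 ∧ Is4 v T ∧
      (R a v ∨ R (a * (g * z * g⁻¹)) v) := by
  simp only [Finset.mem_insert, Finset.mem_singleton, not_or] at h
  exact tetrad_of C (Qx_z C ▸ (hU z hz C.M.lx.ne).2 ha) ((hU _ hs (lx_Qx C s_conj).ne).2 ha)
    (hU a ha h.1).1 h.2.1 h.2.2.1 h.2.2.2

theorem conj_frame (C : Cx z Q π R g) {U U' : Subgroup G} (hU : SingU z Q U) (hU' : SingU z Q U')
    (h : Nat.card U = Nat.card U') (h8 : Nat.card U ≤ 8) (hz : z ∈ U) (hs : g * z * g⁻¹ ∈ U)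
    (hz' : z ∈ U') (hs' : g * z * g⁻¹ ∈ U') : ∃ c, U' = cjs c U := by
  classical
  have c4 := card_four C
  have key : ∀ {V : Subgroup G}, z ∈ V → g * z * g⁻¹ ∈ V →
      ∀ x ∈ ({1, z, g * z * g⁻¹, z * (g * z * g⁻¹)} : Finset G), x ∈ V := fun k1 k2 x hx => by
    simp only [Finset.mem_insert, Finset.mem_singleton] at hx
    rcases hx with rfl | rfl | rfl | rfl
    exacts [one_mem _, k1, k2, mul_mem k1 k2]
  rcases h8.lt_or_eq with h8 | h8
  · exact ⟨1, by
      rw [cjs_one]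
      exact eq_of_half h _ (fun x hx => ⟨key hz hs x hx, key hz' hs' x hx⟩) (by rw [c4]; omega)⟩
  obtain ⟨a, ha, ha1⟩ := exists_out (U := U) _ (c4.trans_lt (by omega))
  obtain ⟨a', ha', ha1'⟩ := exists_out (U := U') _ (c4.trans_lt (by omega))
  obtain ⟨T, v, hT, hv, k⟩ := tetrad_mem C hU hz hs ha ha1
  obtain ⟨T', v', hT', hv', k'⟩ := tetrad_mem C hU' hz' hs' ha' ha1'
  obtain ⟨σ, rfl⟩ := H56.exists_smul_finset_eq (hT.trans hT'.symm) (by omega)
  obtain ⟨c, hc⟩ := ov_lift C.M (permC σ)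
  obtain ⟨k1, k2⟩ := frame_perm C hz hs hc
  obtain ⟨b, hb, kb⟩ : ∃ b ∈ U, R b v := k.elim (fun k => ⟨_, ha, k⟩) fun k => ⟨_, mul_mem ha hs, k⟩
  have kb' := hc.lab C.M kb
  rw [perm_is4 hv hv'] at kb'
  have k3 : a' ∈ cjs c U := k'.elim (of_lab C k1 (conj_mem_cjs.2 hb) kb') fun k' =>
    (mul_mem_cancel_right k2).1 (of_lab C k1 (conj_mem_cjs.2 hb) kb' k')
  refine ⟨c, eq_of_half ((card_cjs c U).trans h) (insert a' _) (fun x hx => ?_)
    (by rw [card_cjs, Finset.card_insert_of_notMem ha1', c4]; omega)⟩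
  rcases Finset.mem_insert.1 hx with rfl | hx
  exacts [⟨k3, ha'⟩, ⟨key k1 k2 x hx, key hz' hs' x hx⟩]

end S3

theorem sing_conj8 (C : Cx z Q π R g) {U U' : Subgroup G} (hU : SingU z Q U) (hU' : SingU z Q U')
    (h : Nat.card U = Nat.card U') (h8 : Nat.card U ≤ 8) : ∃ c, U' = cjs c U := by
  classical
  by_cases h4 : 4 ≤ Nat.card U
  · obtain ⟨c, h1, h2⟩ := sing_frame C hU h4
    obtain ⟨c', h1', h2'⟩ := sing_frame C hU' (h ▸ h4)
    obtain ⟨d, hd⟩ := S3.conj_frame C (hU.cj c) (hU'.cj c') (by rw [card_cjs, card_cjs, h])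
      (by rwa [card_cjs]) h1 h2 h1' h2'
    exact ⟨c'⁻¹ * (d * c), by rw [← cjs_cjs, ← cjs_cjs, ← hd, cjs_inv_cjs]⟩
  by_cases h2 : 2 ≤ Nat.card U
  · obtain ⟨x, hx, hx1⟩ := S3.exists_out (U := U) {1} (by rw [Finset.card_singleton]; omega)
    obtain ⟨x', hx', hx1'⟩ := S3.exists_out (U := U') {1} (by rw [Finset.card_singleton]; omega)
    rw [Finset.mem_singleton] at hx1 hx1'
    obtain ⟨c, rfl⟩ := isConj_iff.1 ((hU x hx hx1).1.symm.trans (hU' x' hx' hx1').1)
    refine ⟨c, S3.eq_of_half ((card_cjs c U).trans h) {1, c * x * c⁻¹} (fun y hy => ?_)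
      (by rw [card_cjs, Finset.card_pair (Ne.symm hx1')]; omega)⟩
    rcases Finset.mem_insert.1 hy with rfl | hy
    · exact ⟨one_mem _, one_mem _⟩
    · rw [Finset.mem_singleton.1 hy]
      exact ⟨conj_mem_cjs.2 hx, hx'⟩
  · exact ⟨1, by
      rw [cjs_one]
      exact S3.eq_of_half h {1} (fun y hy => by rw [Finset.mem_singleton.1 hy]; exact ⟨one_mem _, one_mem _⟩)
        (by rw [Finset.card_singleton]; omega)⟩

end Cfsg.Agent.M2L
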