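import Cfsg.Agent.M2L.S3
import Cfsg.Agent.M2L.OctC

set_option autoImplicit false

namespace Cfsg.Agent.M2L

universe u

open Subgroup H15 H97 H38.MT
open scoped Pointwise

variable {G : Type u} [Group G] {z : G} {Q : Subgroup G}
  {π : centralizer ({z} : Set G) →* Spor.Co1} {R : G → leechLattice → Prop} {g : G} [Finite G]

namespace S4

theorem enum {A B : Finset GolayPt} (hA : A.card = 4) (hB : B.card = 4) (h : (A ∩ B).card = 2) :
    ∃ x : Fin 6 → GolayPt, Function.Injective x ∧ A = {x 0, x 1, x 2, x 3} ∧ B = {x 0, x 1, x 4, x 5} := by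
  have c1 := Finset.card_sdiff_add_card_inter A B
  have c2 := Finset.card_sdiff_add_card_inter B A
  rw [Finset.inter_comm] at c2
  obtain ⟨p, q, pq, e0⟩ := Finset.card_eq_two.1 h
  obtain ⟨r, s, rs, e1⟩ := Finset.card_eq_two.1 (show (A \ B).card = 2 by omega)
  obtain ⟨u, v, uv, e2⟩ := Finset.card_eq_two.1 (show (B \ A).card = 2 by omega)
  simp only [Finset.ext_iff, Finset.mem_inter, Finset.mem_sdiff, Finset.mem_insert, Finset.mem_singleton]
    at e0 e1 e2
  have n1 : ∀ a b, a = p ∨ a = q → b = r ∨ b = s → a ≠ b := fun a b ha hb e =>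
    ((e1 b).2 hb).2 (e ▸ ((e0 a).2 ha).2)
  have n2 : ∀ a b, a = p ∨ a = q → b = u ∨ b = v → a ≠ b := fun a b ha hb e =>
    ((e2 b).2 hb).2 (e ▸ ((e0 a).2 ha).1)
  have n3 : ∀ a b, a = r ∨ a = s → b = u ∨ b = v → a ≠ b := fun a b ha hb e =>
    ((e2 b).2 hb).2 (e ▸ ((e1 a).2 ha).1)
  refine ⟨![p, q, r, s, u, v], List.nodup_ofFn.1 ?_, Finset.ext fun y => ?_, Finset.ext fun y => ?_⟩
  · simp [pq, rs, uv, n1, n2, n3]
  · change _ ↔ y ∈ ({p, q, r, s} : Finset GolayPt)
    simp only [Finset.mem_insert, Finset.mem_singleton, ← or_assoc (a := y = p), ← e0 y, ← e1 y]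
    tauto
  · change _ ↔ y ∈ ({p, q, u, v} : Finset GolayPt)
    simp only [Finset.mem_insert, Finset.mem_singleton, ← or_assoc (a := y = p), ← e0 y, ← e2 y]
    tauto

/-- the position of two tetrads -/
def Pos (T T' : Finset GolayPt) : Prop :=
  ∃ T₁, (T₁ = T ∨ ∃ e, IsCw e ∧ e.card = 8 ∧ T ⊆ e ∧ T₁ = e \ T) ∧ (T' = T₁ ∨
    ∃ (x : Fin 6 → GolayPt) (e : Finset GolayPt), Function.Injective x ∧ IsCw e ∧ e.card = 8 ∧ (∀ i, x i ∈ e) ∧
      T₁ = {x 0, x 1, x 2, x 3} ∧ T' = {x 0, x 1, x 4, x 5})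

theorem Pos.smul {T T' : Finset GolayPt} (h : Pos T T') (σ : M24) : Pos (σ • T) (σ • T') := by
  obtain ⟨T₁, h1, h2⟩ := h
  refine ⟨σ • T₁, h1.imp (congrArg _) ?_, h2.imp (congrArg _) ?_⟩
  · rintro ⟨e, a, b, c, rfl⟩
    exact ⟨σ • e, isCw_smul σ.2 a, (Finset.card_smul_finset _ _).trans b,
      Finset.smul_finset_subset_smul_finset c, Finset.smul_finset_sdiff⟩
  · rintro ⟨x, e, i, a, b, c, rfl, rfl⟩
    exact ⟨fun j => σ • x j, σ • e, (MulAction.injective σ).comp i, isCw_smul σ.2 a,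
      (Finset.card_smul_finset _ _).trans b, fun j => Finset.smul_mem_smul_finset (c j),
      by simp only [Finset.smul_finset_insert, Finset.smul_finset_singleton],
      by simp only [Finset.smul_finset_insert, Finset.smul_finset_singleton]⟩

theorem tb_card1 : ∀ i < 6, (tb {i}).card = 4 := by decide +kernel

theorem pos0 {T' : Finset GolayPt} (hT' : T'.card = 4)
    (h : ∀ j < 6, 0 ≠ j → Even (T' ∩ tb {0, j}).card) : Pos (tb {0}) T' := by
  let n : ℕ → ℕ := fun i => (T'.filter fun x => tet x = i).card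
  have hs : T'.card = ∑ i ∈ Finset.range 6, n i :=
    Finset.card_eq_sum_card_fiberwise fun x _ => Finset.mem_coe.2 (Finset.mem_range.2 (tet_lt x))
  have hp : ∀ i j, i ≠ j → (T' ∩ tb {i, j}).card = n i + n j := fun i j ij => by
    rw [← Finset.card_union_of_disjoint (Finset.disjoint_filter.2 fun x _ a b => ij (a.symm.trans b))]
    refine congrArg _ (Finset.ext fun x => ?_)
    simp only [Finset.mem_inter, mem_tb, Finset.mem_insert, Finset.mem_singleton, Finset.mem_union,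
      Finset.mem_filter, and_or_left]
  have ev : ∀ j < 6, n j % 2 = 0 := by
    have k := fun j a b => Nat.even_iff.1 (hp 0 j b ▸ h j a b)
    have k1 := k 1 (by norm_num) (by norm_num)
    have k2 := k 2 (by norm_num) (by norm_num)
    have k3 := k 3 (by norm_num) (by norm_num)
    have k4 := k 4 (by norm_num) (by norm_num)
    have k5 := k 5 (by norm_num) (by norm_num)
    simp only [Finset.sum_range_succ, Finset.sum_range_zero] at hs
    intro j hj
    interval_cases j <;> omega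
  have pos : ∀ x ∈ T', 2 ≤ n (tet x) := fun x hx => by
    have : 0 < n (tet x) := Finset.card_pos.2 ⟨x, Finset.mem_filter.2 ⟨hx, rfl⟩⟩
    have := ev _ (tet_lt x)
    omega
  obtain ⟨x, hx⟩ : T'.Nonempty := Finset.card_pos.1 (by omega)
  refine ⟨tb {tet x}, ?_, ?_⟩
  · by_cases e : 0 = tet x
    · exact .inl (e ▸ rfl)
    · refine .inr ⟨tb {0, tet x}, tb_cw _ (by norm_num) _ (tet_lt x) e, tb_card _ (by norm_num) _ (tet_lt x) e,
        fun y hy => ?_, Finset.ext fun y => ?_⟩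
      · simp only [mem_tb, Finset.mem_insert, Finset.mem_singleton] at hy ⊢
        exact .inl hy
      · simp only [mem_tb, Finset.mem_insert, Finset.mem_singleton, Finset.mem_sdiff]
        omega
  by_cases e : T' ⊆ tb {tet x}
  · exact .inl (Finset.eq_of_subset_of_card_le e (by rw [tb_card1 _ (tet_lt x), hT']))
  obtain ⟨y, hy, hy'⟩ := Finset.not_subset.1 e
  have ne : tet x ≠ tet y := fun e => hy' (mem_tb.2 (Finset.mem_singleton.2 e.symm))
  have c1 := hp _ _ ne
  have c2 := Finset.card_le_card (Finset.inter_subset_left : T' ∩ tb {tet x, tet y} ⊆ T')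
  have c3 := pos x hx
  have c4 := pos y hy
  have sub : T' ⊆ tb {tet x, tet y} := Finset.inter_eq_left.1
    (Finset.eq_of_subset_of_card_le Finset.inter_subset_left (by omega))
  obtain ⟨w, i, e1, e2⟩ := enum (tb_card1 _ (tet_lt x)) hT' (by
    refine Eq.trans (congrArg _ (Finset.ext fun p => ?_)) (show n (tet x) = 2 by omega)
    simp only [Finset.mem_inter, mem_tb, Finset.mem_singleton, Finset.mem_filter, and_comm])
  refine .inr ⟨w, _, i, tb_cw _ (tet_lt x) _ (tet_lt y) ne, tb_card _ (tet_lt x) _ (tet_lt y) ne,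
    fun j => ?_, e1, e2⟩
  have sub' : tb {tet x} ⊆ tb {tet x, tet y} := fun p hp => by
    simp only [mem_tb, Finset.mem_insert, Finset.mem_singleton] at hp ⊢
    exact .inl hp
  rw [e1] at sub'
  rw [e2] at sub
  fin_cases j
  exacts [sub' (by simp), sub' (by simp), sub' (by simp), sub' (by simp), sub (by simp), sub (by simp)]

theorem pos {T T' : Finset GolayPt} (hT : T.card = 4) (hT' : T'.card = 4)
    (h : ∀ e, IsCw e → e.card = 8 → T ⊆ e → Even (T' ∩ e).card) : Pos T T' := by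
  obtain ⟨σ, rfl⟩ := H56.exists_smul_finset_eq ((tb_card1 0 (by norm_num)).trans hT.symm) (by omega)
  obtain ⟨T'', rfl⟩ := MulAction.surjective σ T'
  refine (pos0 ((Finset.card_smul_finset _ _).symm.trans hT') fun j hj ne => ?_).smul σ
  have := h (σ • tb {0, j}) (isCw_smul σ.2 (tb_cw _ (by norm_num) _ hj ne))
    ((Finset.card_smul_finset _ _).trans (tb_card _ (by norm_num) _ hj ne))
    (Finset.smul_finset_subset_smul_finset fun p hp => by
      simp only [mem_tb, Finset.mem_insert, Finset.mem_singleton] at hp ⊢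
      exact .inl hp)
  rwa [← Finset.smul_finset_inter, Finset.card_smul_finset] at this

omit [Finite G] in
theorem relab (C : Cx z Q π R g) {b : G} {v : leechLattice} {T e : Finset GolayPt} (hb : R b v) (hv : Is4 v T)
    (he : IsCw e) (h : T ⊆ e) : ∃ v₁, Is4 v₁ (e \ T) ∧ R b v₁ := by
  refine ⟨_, fun i => ?_, C.M.add_two (C.M.neg hb) (lTwo he)⟩
  have := @h i
  simp only [AddSubgroup.coe_add, AddSubgroup.coe_neg, Pi.add_apply, Pi.neg_apply, hv i, lTwo_apply,
    Finset.mem_sdiff]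
  by_cases h1 : i ∈ T <;> by_cases h2 : i ∈ e <;> simp_all

theorem even_of_spl {v : leechLattice} {T e : Finset GolayPt} (hv : Is4 v T) (h : Spl e v) :
    Even (T ∩ e).card := by
  obtain ⟨w, hw⟩ := h
  have k : ∀ i, (w : Vec) i = if i ∈ T ∩ e then 4 else 0 := fun i => by
    rw [hw, hv]
    by_cases h1 : i ∈ T <;> by_cases h2 : i ∈ e <;> simp [h1, h2]
  rcases parity_cases w.2 with h | h
  · have h2 := h.2
    rw [Finset.sum_congr rfl fun i _ => k i, Finset.sum_ite_mem, Finset.univ_inter, Finset.sum_const,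
      nsmul_eq_mul] at h2
    exact Nat.even_iff.2 (by omega)
  · have := h.1 none
    rw [k] at this
    split_ifs at this <;> omega

theorem par (C : Cx z Q π R g) {U : Subgroup G} (hU : SingU z Q U) (hz : z ∈ U) (hs : g * z * g⁻¹ ∈ U)
    {b b' : G} (hb : b ∈ U) (hb' : b' ∈ U) (b1 : b ≠ 1) (b2 : b ≠ z) (b3 : b ≠ g * z * g⁻¹)
    (b4 : g * z * g⁻¹ ≠ z * b) {v v' : leechLattice} {T T' : Finset GolayPt} (k : R b v) (k' : R b' v')
    (hv : Is4 v T) (hv' : Is4 v' T') (e : Finset GolayPt) (he : IsCw e) (hc : e.card = 8) (h : T ⊆ e) :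
    Even (T' ∩ e).card :=
  even_of_spl hv' (spl_of_cent_EE C he hc k' ((ark_EE C he hc).cent_of_two (.refl z) s_conj (hU b hb b1).1
    (z_mem_EE C he hc) (OctC.s_mem_EE C he hc)
    (Z0_le_EE C.M C.h8 ⟨v, fun i hi => by rw [hv, if_neg fun m => hi (h m)], k⟩) (s_ne' C) b2 b3.symm b4
    ((hU z hz C.M.lx.ne).2 hb') ((hU _ hs (lx_Qx C s_conj).ne).2 hb') ((hU b hb b1).2 hb')))

open Classical in
omit [Finite G] in
theorem four_mul {U : Subgroup G} (h : El U) {s : G} (hz : z ∈ U) (hs : s ∈ U) {x y : G}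
    (hx : x ∈ ({1, z, s, z * s} : Finset G)) (hy : y ∈ ({1, z, s, z * s} : Finset G)) :
    x * y ∈ ({1, z, s, z * s} : Finset G) := by
  have h1 := h z hz
  have h2 := h s hs
  have h3 := h.comm hs hz
  have h4 : ∀ x, z * (z * x) = x := fun x => by rw [← mul_assoc, h1, one_mul]
  have h5 : ∀ x, s * (z * x) = z * (s * x) := fun x => by rw [← mul_assoc, h3, mul_assoc]
  simp only [Finset.mem_insert, Finset.mem_singleton] at hx hy ⊢
  rcases hx with hx | hx | hx | hx <;> rcases hy with hy | hy | hy | hy <;>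
    simp [hx, hy, mul_assoc, h1, h2, h3, h4, h5]

/-- normal form of a singular subgroup of order 16 in a frame -/
theorem nf (C : Cx z Q π R g) {U : Subgroup G} (hU : SingU z Q U) (h : Nat.card U = 16) (hz : z ∈ U)
    (hs : g * z * g⁻¹ ∈ U) : ∃ (x : Fin 6 → GolayPt) (e : Finset GolayPt) (v v' : leechLattice) (b b' : G),
      Function.Injective x ∧ IsCw e ∧ e.card = 8 ∧ (∀ i, x i ∈ e) ∧ Is4 v {x 0, x 1, x 2, x 3} ∧
      Is4 v' {x 0, x 1, x 4, x 5} ∧ R b v ∧ R b' v' ∧ b ∈ U ∧ b' ∈ U ∧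
      ∀ X : Subgroup G, Nat.card X = 16 → z ∈ X → g * z * g⁻¹ ∈ X → b ∈ X → b' ∈ X → X = U := by
  classical
  have c4 := S3.card_four C
  have el := SingU.el C hU
  have fm := @four_mul G _ z U el _ hz hs
  have tm := @S3.tetrad_mem G _ z Q π R g _ C U hU hz hs
  have pr := @par G _ z Q π R g _ C U hU hz hs
  generalize g * z * g⁻¹ = s at *
  obtain ⟨F, hF⟩ : ∃ F, F = ({1, z, s, z * s} : Finset G) := ⟨_, rfl⟩
  have m : 1 ∈ F ∧ z ∈ F ∧ s ∈ F ∧ z * s ∈ F := by simp [hF]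
  have key : ∀ {V : Subgroup G}, z ∈ V → s ∈ V → ∀ x ∈ F, x ∈ V := fun k1 k2 x hx => by
    simp only [hF, Finset.mem_insert, Finset.mem_singleton] at hx
    rcases hx with rfl | rfl | rfl | rfl
    exacts [one_mem _, k1, k2, mul_mem k1 k2]
  rw [← hF] at c4 fm tm
  have out : ∀ {a : G}, a ∈ U → a ∉ F → ∃ b ∈ U, ∃ T v, T.card = 4 ∧ Is4 v T ∧ R b v ∧ (a = b ∨ a = b * s) :=
    fun {a} ha h1 => by
      obtain ⟨T, v, hT, hv, k | k⟩ := tm ha h1
      · exact ⟨a, ha, T, v, hT, hv, k, .inl rfl⟩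
      · exact ⟨_, mul_mem ha hs, T, v, hT, hv, k, .inr (by rw [mul_assoc, el s hs, mul_one])⟩
  obtain ⟨a, ha, ha1⟩ := S3.exists_out (U := U) F (by omega)
  obtain ⟨b, hb, T, v, hT, hv, k, ab⟩ := out ha ha1
  have bF : b ∉ F := fun m' => ha1 (by
    rcases ab with rfl | rfl
    exacts [m', fm m' m.2.2.1])
  have c8 : (F ∪ F.image (b * ·)).card = 8 := by
    rw [Finset.card_union_of_disjoint (Finset.disjoint_left.2 fun x hx hx' => ?_),
      Finset.card_image_of_injective _ (mul_right_injective b), c4]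
    obtain ⟨y, hy, rfl⟩ := Finset.mem_image.1 hx'
    have := fm hx hy
    rw [mul_assoc, el y (key hz hs y hy), mul_one] at this
    exact bF this
  obtain ⟨a', ha', ha1'⟩ := S3.exists_out (U := U) _ (c8.trans_lt (by omega))
  obtain ⟨b', hb', T', v', hT', hv', k', ab'⟩ := out ha' fun m' => ha1' (Finset.mem_union_left _ m')
  obtain ⟨T₁, h1, h2⟩ := pos hT hT' (pr hb hb' (fun e => bF (e ▸ m.1)) (fun e => bF (e ▸ m.2.1))
    (fun e => bF (e ▸ m.2.2.1)) (fun e => bF (by rw [← C.M.zz b, ← e]; exact m.2.2.2)) k k' hv hv')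
  obtain ⟨v₁, hv₁, k₁⟩ : ∃ v₁, Is4 v₁ T₁ ∧ R b v₁ := by
    rcases h1 with rfl | ⟨e, he, -, sub, rfl⟩
    exacts [⟨v, hv, k⟩, relab C k hv he sub]
  rcases h2 with rfl | ⟨x, e, i, he, hc, hx, rfl, rfl⟩
  · obtain rfl : v' = v₁ := Subtype.ext (funext fun i => (hv' i).trans (hv₁ i).symm)
    refine absurd (Finset.mem_union_right _ (Finset.mem_image.2 ?_)) ha1'
    have zb := el.comm hb hz
    rcases C.M.uniq k₁ k' with rfl | rfl <;> rcases ab' with rfl | rfl
    exacts [⟨1, m.1, mul_one _⟩, ⟨s, m.2.2.1, rfl⟩, ⟨z, m.2.1, zb⟩, ⟨_, m.2.2.2, by rw [← mul_assoc, zb]⟩]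
  refine ⟨x, e, v₁, v', b, b', i, he, hc, hx, hv₁, hv', k₁, k', hb, hb', fun X cX x1 x2 x3 x4 => ?_⟩
  refine S3.eq_of_half (h.trans cX.symm) (insert a' (F ∪ F.image (b * ·))) (fun y hy => ?_)
    (by rw [Finset.card_insert_of_notMem ha1', c8, h]; norm_num)
  rcases Finset.mem_insert.1 hy with rfl | hy
  · refine ⟨ha', ?_⟩
    rcases ab' with rfl | rfl
    exacts [x4, mul_mem x4 x2]
  rcases Finset.mem_union.1 hy with hy | hy
  · exact ⟨key hz hs y hy, key x1 x2 y hy⟩
  · obtain ⟨y', hy', rfl⟩ := Finset.mem_image.1 hy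
    exact ⟨mul_mem hb (key hz hs y' hy'), mul_mem x3 (key x1 x2 y' hy')⟩

end S4

theorem sing_conj16 (C : Cx z Q π R g) {U U' : Subgroup G} (hU : SingU z Q U)
    (hU' : SingU z Q U') (h : Nat.card U = 16) (h' : Nat.card U' = 16) : ∃ c, U' = cjs c U := by
  obtain ⟨c, h1, h2⟩ := sing_frame C hU (by omega)
  obtain ⟨c', h1', h2'⟩ := sing_frame C hU' (by omega)
  obtain ⟨x, e, v, w, a, b, i, he, hc, hx, hv, hw, ka, kb, ha, hb, -⟩ :=
    S4.nf C (hU.cj c) ((card_cjs c U).trans h) h1 h2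
  obtain ⟨x', e', v', w', a', b', i', he', hc', hx', hv', hw', ka', kb', -, -, gen⟩ :=
    S4.nf C (hU'.cj c') ((card_cjs c' U').trans h') h1' h2'
  obtain ⟨p, hp, ep, -⟩ := six_special x i (mem_octads he hc) hx
  obtain ⟨p', hp', ep', -⟩ := six_special x' i' (mem_octads he' hc') hx'
  let σ : M24 := ⟨p'⁻¹ * p, mul_mem (inv_mem hp') hp⟩
  have hσ : ∀ j, σ • x j = x' j := fun j => by
    change p'⁻¹ (p (x j)) = x' j
    rw [ep, ← ep']
    exact p'.symm_apply_apply _
  obtain ⟨d, hd⟩ := ov_lift C.M (permC σ)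
  obtain ⟨k1, k2⟩ := S3.frame_perm C h1 h2 hd
  have la := hd.lab C.M ka
  have lb := hd.lab C.M kb
  rw [S3.perm_is4 hv (by simpa only [Finset.smul_finset_insert, Finset.smul_finset_singleton, hσ] using hv')] at la
  rw [S3.perm_is4 hw (by simpa only [Finset.smul_finset_insert, Finset.smul_finset_singleton, hσ] using hw')] at lb
  have := gen _ (by rw [card_cjs, card_cjs, h]) k1 k2 (S3.of_lab C k1 (conj_mem_cjs.2 ha) la ka')
    (S3.of_lab C k1 (conj_mem_cjs.2 hb) lb kb')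
  exact ⟨c'⁻¹ * (d * c), by rw [← cjs_cjs, ← cjs_cjs, this, cjs_inv_cjs]⟩

end Cfsg.Agent.M2L
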