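import Cfsg.Agent.M2L.Defs

set_option autoImplicit false

namespace Cfsg.Agent.M2L

universe u

open Subgroup H15 H97 H38.MT

variable {G : Type u} [Group G] {z : G} {Q : Subgroup G}
  {π : centralizer ({z} : Set G) →* Spor.Co1} {R : G → leechLattice → Prop} {g : G} [Finite G]

theorem XI_four {v : leechLattice} {τ : ℕ → ℤ} (h : ∀ i, ((v : Vec) i - 2 * τ (tet i)) % 4 = 0) :
    ∀ t < 6, tS v t % 4 = 0 := fun t ht =>
  tS_mod ht (m := τ t) fun j hj => by rw [← hj]; exact h j

theorem XI_xi {v : leechLattice} {τ : ℕ → ℤ} (h : ∀ i, ((v : Vec) i - 2 * τ (tet i)) % 4 = 0)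
    (i : GolayPt) :
    (((xi • v : leechLattice) : Vec) i - 2 * (τ (tet i) + tS v (tet i) / 4)) % 4 = 0 := by
  have e := xi_tS v i
  have h1 := XI_four h _ (tet_lt i)
  have h2 := h i
  split_ifs at e <;> omega

theorem XI_sign {v : leechLattice} {τ : ℕ → ℤ} (h : ∀ i, ((v : Vec) i - 2 * τ (tet i)) % 4 = 0)
    (i : GolayPt) :
    (((signC _ cw_c • v : leechLattice) : Vec) i - 2 * τ (tet i)) % 4 = 0 := by
  rw [signC_apply]
  have := h i
  split_ifs <;> omega

theorem XI_sum {v : leechLattice} {τ : ℕ → ℤ} (h : ∀ i, ((v : Vec) i - 2 * τ (tet i)) % 4 = 0) :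
    (tS v 0 + tS v 1 + tS v 2 + tS v 3 + tS v 4 + tS v 5) % 8 = 0 := by
  rw [← sum_tS]
  exact (even_of (v := v) (i := none) (by have := h none; omega)).2

theorem XI_norm {v : leechLattice} {τ : ℕ → ℤ} (h : ∀ i, ((v : Vec) i - 2 * τ (tet i)) % 4 = 0)
    {t : ℕ} (ht : t < 6) :
    (tS (fun i => if (v : Vec) i % 4 = 2 then 4 else 4 * (v : Vec) i) t -
      16 * (τ t + tS v t / 4 + τ t * (tS v t / 4))) % 32 = 0 := by
  have h4 := XI_four h t ht
  have h' : ∀ j, tet j = t → ((v : Vec) j - 2 * τ t) % 4 = 0 := fun j hj => by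
    rw [← hj]; exact h j
  rcases Int.even_or_odd' (τ t) with ⟨a, ha | ha⟩
  · rw [tS_congr (w := fun j => 4 * (v : Vec) j) fun j hj => if_neg (by have := h' j hj; omega),
      tS_mul, ha, mul_assoc]
    omega
  · rw [tS_congr (w := fun _ => 4) fun j hj => if_pos (by have := h' j hj; omega), tS_const _ ht,
      ha, add_mul, mul_assoc]
    omega

theorem xi_pat {v : leechLattice} {τ : ℕ → ℤ} (h : ∀ i, ((v : Vec) i - 2 * τ (tet i)) % 4 = 0) :
    (∀ t < 6, tS v t % 4 = 0) ∧ (τ 0 + τ 1 + τ 2 + τ 3 + τ 4 + τ 5) % 2 = 0 ∧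
    (tS v 0 / 4 + tS v 1 / 4 + tS v 2 / 4 + tS v 3 / 4 + tS v 4 / 4 + tS v 5 / 4) % 2 = 0 ∧
    (∀ i, (((xi • v : leechLattice) : Vec) i - 2 * (τ (tet i) + tS v (tet i) / 4)) % 4 = 0) ∧
    (∀ i, ((((xi * signC _ cw_c) • v : leechLattice) : Vec) i - 2 * (tS v (tet i) / 4)) % 4 = 0) ∧
    ((32 : ℤ) ∣ sqNorm (v : Vec) → (τ 0 * (tS v 0 / 4) + τ 1 * (tS v 1 / 4) + τ 2 * (tS v 2 / 4) +
      τ 3 * (tS v 3 / 4) + τ 4 * (tS v 4 / 4) + τ 5 * (tS v 5 / 4)) % 2 = 0) := by
  have h4 := XI_four h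
  have hs : ∀ t < 6, (tS (signC _ cw_c • v : leechLattice) t - tS v t - 4 * τ t) % 8 = 0 :=
    fun t ht => tS_sign ht fun j hj => by rw [← hj]; exact h j
  have s1 := XI_sum h
  have s2 := XI_sum (XI_sign h)
  have a : (τ 0 + τ 1 + τ 2 + τ 3 + τ 4 + τ 5) % 2 = 0 := by
    have := hs 0 (by omega); have := hs 1 (by omega); have := hs 2 (by omega)
    have := hs 3 (by omega); have := hs 4 (by omega); have := hs 5 (by omega)
    omega
  have b : (tS v 0 / 4 + tS v 1 / 4 + tS v 2 / 4 + tS v 3 / 4 + tS v 4 / 4 + tS v 5 / 4) % 2 = 0 := by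
    have := h4 0 (by omega); have := h4 1 (by omega); have := h4 2 (by omega)
    have := h4 3 (by omega); have := h4 4 (by omega); have := h4 5 (by omega)
    omega
  refine ⟨h4, a, b, XI_xi h, fun i => ?_, fun hn => ?_⟩
  · rw [mul_smul]
    have e := XI_xi (XI_sign h) i
    have := hs _ (tet_lt i)
    have := h4 _ (tet_lt i)
    omega
  · have n1 := dvd_norm_sub v (fun i => if (v : Vec) i % 4 = 2 then 4 else 4 * (v : Vec) i) fun i => by
      have := h i
      split_ifs with h'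
      · exact sq_two h'
      · exact sq_four (by omega)
    rw [sum_tS] at n1
    have := XI_norm h (t := 0) (by omega); have := XI_norm h (t := 1) (by omega)
    have := XI_norm h (t := 2) (by omega); have := XI_norm h (t := 3) (by omega)
    have := XI_norm h (t := 4) (by omega); have := XI_norm h (t := 5) (by omega)
    omega

theorem xi_comm_tb {S : Finset ℕ} (h : IsCw (tb S)) : xi * signC _ h = signC _ h * xi :=
  co0_ext fun v => Subtype.ext <| funext fun i => by
    apply mul_left_cancel₀ (two_ne_zero (α := ℤ))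
    rw [mul_smul, mul_smul, xi_tS, signC_apply, signC_apply]
    by_cases hi : i ∈ tb S
    · rw [if_pos hi, if_pos hi, mul_neg, mul_neg, xi_tS,
        tS_congr (w := fun j => -1 * (v : Vec) j), tS_mul]
      · ring
      · intro j hj
        rw [signC_apply, if_pos (by rw [mem_tb, hj, ← mem_tb]; exact hi), neg_one_mul]
    · rw [if_neg hi, if_neg hi, xi_tS, tS_congr (w := v)]
      intro j hj
      rw [signC_apply, if_neg (by rw [mem_tb, hj, ← mem_tb]; exact hi)]

theorem spl_tb {a b : ℕ} (ha : a < 6) (hb : b < 6) (hab : a ≠ b) {v : leechLattice}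
    (h : Spl (tb {a, b}) v) : (tS v a + tS v b) % 8 = 0 ∧
      ∃ m : ℤ, ∀ i, tet i = a ∨ tet i = b → ((v : Vec) i - 2 * m) % 4 = 0 := by
  obtain ⟨w, hw⟩ := h
  have hc := tb_card a ha b hb hab
  have hF : Fx (tb {a, b}) w := fun i hi => by rw [hw, if_neg hi]
  have hm : ∀ i, i ∈ tb {a, b} ↔ tet i = a ∨ tet i = b := fun i => by simp [mem_tb]
  refine ⟨?_, ?_⟩
  · have := (hF.even hc).2
    rwa [show ∑ j, (w : Vec) j = tS v a + tS v b by
      rw [tS, tS, ← Finset.sum_add_distrib]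
      refine Finset.sum_congr rfl fun j _ => ?_
      rw [hw]
      simp only [hm]
      split_ifs <;> omega] at this
  · rcases hF.cases (tb_cw a ha b hb hab) hc with h1 | h1
    · refine ⟨0, fun i hi => ?_⟩
      have := h1 i
      rw [hw, if_pos ((hm i).2 hi)] at this
      omega
    · refine ⟨1, fun i hi => ?_⟩
      have := h1 i ((hm i).2 hi)
      rw [hw, if_pos ((hm i).2 hi)] at this
      omega

theorem XI_supp {v : leechLattice} (h : xi • v = e8 none) (i : GolayPt) (hi : tet i ≠ 0) :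
    (v : Vec) i = 0 := by
  have h1 : ∀ j, tet j = tet i → 2 * (v : Vec) j = tS v (tet i) := fun j hj => by
    have e := xi_tS v j
    have hj' : j ≠ none := fun e' => hi (by rw [← hj, e']; decide +kernel)
    rw [h, e8_val, Pi.single_apply, if_neg hj', hj] at e
    split_ifs at e <;> omega
  have h2 := tS_congr (v := fun j => 2 * (v : Vec) j) (w := fun _ => tS v (tet i)) h1
  rw [tS_mul, tS_const _ (tet_lt i)] at h2
  have := h1 i rfl
  omega

/-- the two further frames -/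
theorem frame_xi (C : Cx z Q π R g) {k : Co0} (hk : k = xi ∨ k = xi * signC _ cw_c) {h : G}
    (hh : Ov π h k) : h⁻¹ * (g * z * g⁻¹) * h ∈ AA C ∧ h⁻¹ * (g * z * g⁻¹) * h ∈ AB C ∧
      h⁻¹ * (g * z * g⁻¹) * h ≠ z := by
  have hl := hh.inv.lab C.M C.h8
  rw [inv_inv] at hl
  have hs : ∀ i, tet i ≠ 0 → ((k⁻¹ • e8 none : leechLattice) : Vec) i = 0 := fun i hi => by
    have e : k • (k⁻¹ • e8 none : leechLattice) = e8 none := smul_inv_smul _ _
    generalize (k⁻¹ • e8 none : leechLattice) = u at e ⊢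
    rcases hk with rfl | rfl
    · exact XI_supp e i hi
    · rw [mul_smul] at e
      have := XI_supp e i hi
      rw [signC_apply] at this
      split_ifs at this <;> omega
  refine ⟨Or.inl ⟨_, fun i hi => hs i fun e => hi ?_, hl⟩,
    Or.inl ⟨_, fun i hi => hs i fun e => hi ?_, hl⟩, fun e => s_ne' C ?_⟩
  · simp [mem_tb, e]
  · simp [mem_tb, e]
  · calc g * z * g⁻¹ = h * (h⁻¹ * (g * z * g⁻¹) * h) * h⁻¹ := by group
      _ = z := by rw [e, hh.comm, mul_inv_cancel_right]

end Cfsg.Agent.M2L
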